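/-
The geometry of a semilinear involution of a Hermitian space: the fixed vectors carry a symmetric or
an alternating form; Eichler transformations commuting with the involution; the block argument.
-/
import Mathlib
import Cfsg.Agent.Lib.AutCl.HermSemi

set_option autoImplicit false
set_option linter.unusedSimpArgs false
set_option linter.unusedSectionVars false
set_option linter.style.haveILetI false
set_option linter.unusedVariables false

namespace Cfsg.Agent.Lib.AutCl.InvGeo

open Module Cfsg.Agent.Lib.Classical.HermBasic Cfsg.Agent.Lib.Classical.HermElem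
open Cfsg.Agent.Lib.AutCl.HermSemi

universe u v

variable {F : Type u} [Field F] {V : Type v} [AddCommGroup V] [Module F V]
variable {σ : F →+* F} {h : V → V → F}

/-- A semilinear involution, scaling the form by `ε = ± 1`. -/
structure Desc (σ : F →+* F) (h : V → V → F) (L : V ≃+ V) (ε : F) : Prop where
  smul : ∀ (a : F) (v : V), L (a • v) = σ a • L v
  form : ∀ u v, h (L u) (L v) = ε * σ (h u v)
  invol : ∀ v, L (L v) = v
  eps : ε = 1 ∨ ε = -1

namespace Desc

variable {L : V ≃+ V} {ε : F} (D : Desc σ h L ε)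

include D

theorem eps_sq : ε * ε = 1 := by
  rcases D.eps with rfl | rfl <;> ring

theorem eps_fix : σ ε = ε := by
  rcases D.eps with rfl | rfl <;> simp

theorem eps_ne : ε ≠ 0 := by
  rintro rfl
  have := D.eps_sq
  simp at this

theorem pair {x y : V} (hx : L x = x) (hy : L y = y) : σ (h x y) = ε * h x y := by
  have h1 := D.form x y
  rw [hx, hy] at h1
  have h2 := D.eps_sq
  linear_combination (-ε) * h1 + (-σ (h x y)) * h2

theorem swap (S : HForm σ h) {x y : V} (hx : L x = x) (hy : L y = y) : h y x = ε * h x y := by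
  rw [S.conj x y, D.pair hx hy]

theorem form_left {x : V} (hx : L x = x) (v : V) : h x (L v) = ε * σ (h x v) := by
  have h1 := D.form x v
  rwa [hx] at h1

theorem form_right {x : V} (hx : L x = x) (v : V) : h (L v) x = ε * σ (h v x) := by
  have h1 := D.form v x
  rwa [hx] at h1

theorem self_zero (S : HForm σ h) (h2 : (2 : F) ≠ 0) (hε : ε = -1) {x : V} (hx : L x = x) : h x x = 0 := by
  have h1 := D.pair hx hx
  rw [S.self_fix, hε] at h1
  have h3 : 2 * h x x = 0 := by linear_combination h1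
  exact (mul_eq_zero.1 h3).resolve_left h2

theorem fix_add (v : V) : L (v + L v) = v + L v := by
  rw [map_add, D.invol, add_comm]

theorem fix_sub {d : F} (hd : d + σ d = 0) (v : V) : L (d • (v - L v)) = d • (v - L v) := by
  have h1 : σ d = -d := by linear_combination hd
  rw [D.smul, map_sub, D.invol, h1]
  module

theorem fix_smul {x : V} (hx : L x = x) {t : F} (ht : σ t = t) : L (t • x) = t • x := by
  rw [D.smul, hx, ht]

theorem map_zero' : L 0 = 0 := map_zero L

end Desc

/-! ### Submodules stable under the involution -/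

/-- A non-degenerate stable subspace. -/
structure StableND (h : V → V → F) (L : V ≃+ V) (W : Submodule F V) : Prop where
  stable : ∀ v ∈ W, L v ∈ W
  nd : ∀ v ∈ W, (∀ w ∈ W, h v w = 0) → v = 0

theorem stableND_top (S : HForm σ h) (L : V ≃+ V) : StableND h L ⊤ :=
  ⟨fun _ _ => trivial, fun v _ hv => S.nd v fun y => hv y trivial⟩

section fixed

variable {L : V ≃+ V} {ε : F} (S : HForm σ h) (hσ : Invol σ) (D : Desc σ h L ε) (h2 : (2 : F) ≠ 0)

include S hσ D h2

/-- A fixed vector not orthogonal to a given non-zero vector. -/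
theorem exists_fixed_pair {W : Submodule F V} (hW : StableND h L W) {x : V} (hx : x ∈ W) (hx0 : x ≠ 0) :
    ∃ z ∈ W, L z = z ∧ h x z ≠ 0 := by
  obtain ⟨y, hy, hxy⟩ : ∃ y ∈ W, h x y ≠ 0 := by
    by_contra hcon
    push Not at hcon
    exact hx0 (hW.nd x hx hcon)
  obtain ⟨d, hd0, hd⟩ := hσ.exists_pure
  have hLy := hW.stable y hy
  by_cases h1 : h x (y + L y) = 0
  · refine ⟨d • (y - L y), W.smul_mem _ (W.sub_mem hy hLy), D.fix_sub hd y, ?_⟩
    rw [S.smul_right, S.sub_right]
    rw [S.add_right] at h1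
    have hsd : σ d ≠ 0 := by simpa using hd0
    refine mul_ne_zero hsd ?_
    intro h3
    have h4 : 2 * h x y = 0 := by linear_combination h1 + h3
    exact hxy ((mul_eq_zero.1 h4).resolve_left h2)
  · exact ⟨y + L y, W.add_mem hy hLy, D.fix_add y, h1⟩

/-- A non-zero stable subspace contains a non-zero fixed vector. -/
theorem exists_fixed_ne {W : Submodule F V} (hW : StableND h L W) {x : V} (hx : x ∈ W) (hx0 : x ≠ 0) :
    ∃ z ∈ W, L z = z ∧ z ≠ 0 := by
  obtain ⟨d, hd0, hd⟩ := hσ.exists_pure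
  have hLx := hW.stable x hx
  by_cases h1 : x + L x = 0
  · refine ⟨d • (x - L x), W.smul_mem _ (W.sub_mem hx hLx), D.fix_sub hd x, smul_ne_zero hd0 ?_⟩
    intro h3
    have h4 : (2 : F) • x = 0 := by
      have : (2 : F) • x = (x + L x) + (x - L x) := by module
      rw [this, h1, h3, add_zero]
    exact hx0 ((smul_eq_zero.1 h4).resolve_left h2)
  · exact ⟨x + L x, W.add_mem hx hLx, D.fix_add x, h1⟩

/-- In the symmetric case, a non-zero stable subspace contains a fixed non-isotropic vector. -/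
theorem exists_fixed_noniso {W : Submodule F V} (hW : StableND h L W) (hε : ε = 1) {x : V} (hx : x ∈ W)
    (hx0 : x ≠ 0) : ∃ u ∈ W, L u = u ∧ h u u ≠ 0 := by
  obtain ⟨w, hw, hLw, hw0⟩ := exists_fixed_ne S hσ D h2 hW hx hx0
  obtain ⟨z, hz, hLz, hwz⟩ := exists_fixed_pair S hσ D h2 hW hw hw0
  by_cases h3 : h w w = 0
  · by_cases h4 : h z z = 0
    · refine ⟨w + z, W.add_mem hw hz, by rw [map_add, hLw, hLz], ?_⟩
      have h5 := D.swap S hLw hLz
      rw [hε, one_mul] at h5
      simp only [S.add_left, S.add_right, h3, h4, h5]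
      intro h6
      have h7 : 2 * h w z = 0 := by linear_combination h6
      exact hwz ((mul_eq_zero.1 h7).resolve_left h2)
    · exact ⟨z, hz, hLz, h4⟩
  · exact ⟨w, hw, hLw, h3⟩

end fixed

/-! ### Duality -/

section dual

variable [Finite F] [FiniteDimensional F V] (S : HForm σ h)

include S

/-- Every linear functional is represented by the form. -/
theorem exists_riesz (f : V →ₗ[F] F) : ∃ v, ∀ x, h x v = f x := by
  classical
  haveI : Finite V := Module.finite_of_finite F
  haveI : Finite (Module.Dual F V) := Finite.of_equiv V (Module.finBasis F V).toDualEquiv.toEquiv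
  let Φ : V → Module.Dual F V := fun v => S.hL v
  have hinj : Function.Injective Φ := by
    intro a b hab
    have h1 : ∀ x, h x (a - b) = 0 := by
      intro x
      have h2 := congrArg (fun f : Module.Dual F V => f x) hab
      simp only [Φ, HForm.hL_apply] at h2
      rw [S.sub_right, h2, sub_self]
    have := S.sep_right (a - b) h1
    exact sub_eq_zero.1 this
  have hcard : Nat.card (Module.Dual F V) ≤ Nat.card V :=
    (Nat.card_congr ((Module.finBasis F V).toDualEquiv.toEquiv)).ge
  have hbij := Function.Injective.bijective_of_nat_card_le hinj hcard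
  obtain ⟨v, hv⟩ := hbij.2 f
  exact ⟨v, fun x => by rw [← hv]; rfl⟩

variable {L : V ≃+ V} {ε : F} (hσ : Invol σ) (D : Desc σ h L ε) (h2 : (2 : F) ≠ 0)

include hσ D h2

/-- **Duality for fixed vectors.** -/
theorem exists_dual {T : Submodule F V} {s : V} (hs : L s = s) (hsT : s ∉ T) {c : F} (hc : σ c = ε * c) :
    ∃ w, L w = w ∧ h s w = c ∧ ∀ t ∈ T, L t = t → h t w = 0 := by
  obtain ⟨f, hf, hfT⟩ := Submodule.exists_le_ker_of_notMem hsT
  obtain ⟨v, hv⟩ := exists_riesz S ((c / f s) • f)
  have hsv : h s v = c := by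
    rw [hv, LinearMap.smul_apply, smul_eq_mul]
    have hfs : f s ≠ 0 := hf
    field_simp
  have htv : ∀ t ∈ T, h t v = 0 := by
    intro t ht
    rw [hv, LinearMap.smul_apply, hfT ht, smul_zero]
  have h2' : σ (1 / 2 : F) = 1 / 2 := by rw [map_div₀, map_one, map_ofNat]
  refine ⟨(1 / 2 : F) • (v + L v), ?_, ?_, ?_⟩
  · exact D.fix_smul (D.fix_add v) h2'
  · rw [S.smul_right, S.add_right, D.form_left hs, hsv, hc, h2']
    have h3 := D.eps_sq
    field_simp
    linear_combination c * h3
  · intro t ht hLt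
    rw [S.smul_right, S.add_right, D.form_left hLt, htv t ht]
    simp

end dual

/-! ### Eichler transformations commuting with the involution -/

section eich

variable {L : V ≃+ V} {ε : F} (S : HForm σ h) (D : Desc σ h L ε)

include S D

theorem eich_comm {e w : V} {a : F} {g : V ≃ₗ[F] V} (H : EichAt σ h e w a g) (hLe : L e = e)
    (hLw : L w = ε • w) (ha : σ a = ε * a) (v : V) : L (g v) = g (L v) := by
  have hε := D.eps_sq
  have hεf := D.eps_fix
  have h1 : h (L v) e = ε * σ (h v e) := D.form_right hLe v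
  have h2 : h (L v) w = σ (h v w) := by
    have h3 := D.form v w
    rw [hLw, S.smul_right, hεf] at h3
    exact mul_left_cancel₀ D.eps_ne h3
  rw [H.apply, H.apply, h1, h2, map_add, map_sub, map_add, D.smul, D.smul, D.smul, hLe, hLw, map_mul, ha]
  rw [smul_smul]
  have e1 : σ (h v e) * ε = ε * σ (h v e) := by ring
  have e2 : ε * a * σ (h v e) = a * (ε * σ (h v e)) := by ring
  rw [e1, e2]

end eich

section eich2

variable [FiniteDimensional F V] {L : V ≃+ V} {ε : F} (S : HForm σ h) (D : Desc σ h L ε)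

include S D

/-- The Eichler transformation moving `y` to `y'`. -/
theorem exists_eich_trans {x y y' : V} (hx : L x = x) (hy : L y = y) (hy' : L y' = y') (hxx : h x x = 0)
    (hyy : h y y = 0) (hyy' : h y' y' = 0) {κ : F} (hκ : κ ≠ 0) (hyx : h y x = κ) (hyx' : h y' x = κ) :
    ∃ g : V ≃ₗ[F] V, g ∈ suGroup h ∧ (∀ v, L (g v) = g (L v)) ∧ g x = x ∧ g y = y' := by
  have hε := D.eps_sq
  have hεf := D.eps_fix
  have hε0 := D.eps_ne
  have hσκ : σ κ = ε * κ := by rw [← hyx]; exact D.pair hy hx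
  set α : F := κ⁻¹ with hαd
  have hσα : σ α = ε * α := by
    rw [hαd, map_inv₀, hσκ]
    field_simp
    linear_combination -hε
  set d : V := y' - y with hdd
  have hLd : L d = d := by rw [hdd, map_sub, hy, hy']
  set w : V := α • d with hwd
  have hLw : L w = ε • w := by
    rw [hwd, D.smul, hLd, hσα, smul_smul]
  have hyy'σ : σ (h y y') = ε * h y y' := D.pair hy hy'
  set a : F := ε * α * α * h y y' with had
  have hwe : h w x = 0 := by
    rw [hwd, S.smul_left, hdd, S.sub_left, hyx, hyx', sub_self, mul_zero]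
  have hdd' : h d d = -(1 + ε) * h y y' := by
    rw [hdd]
    simp only [S.sub_left, S.sub_right, hyy, hyy']
    rw [D.swap S hy hy']
    ring
  have hσa : σ a = ε * a := by
    rw [had, map_mul, map_mul, map_mul, hεf, hσα, hyy'σ]
    linear_combination (ε * ε * (α * α * h y y')) * hε
  have ha : a + σ a + h w w = 0 := by
    rw [hσa, hwd, S.smul_left, S.smul_right, hσα, hdd', had]
    ring
  obtain ⟨g, hg⟩ := exists_eichAt S hxx hwe ha
  refine ⟨g, hg.mem_suGroup S, eich_comm S D hg hx hLw hσa, hg.apply_center S, ?_⟩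
  rw [hg.apply, hyx]
  have h1 : h y w = σ α * h y y' := by
    rw [hwd, S.smul_right, hdd, S.sub_right, hyy, sub_zero]
  rw [h1, hσα, had, hwd, smul_smul]
  have h3 : κ * α = 1 := by rw [hαd]; field_simp
  have h4 : (ε * α * α * h y y' * κ) = ε * α * h y y' := by
    rw [show ε * α * α * h y y' * κ = ε * α * h y y' * (κ * α) by ring, h3, mul_one]
  rw [h4, h3, one_smul, hdd]
  abel

end eich2

section line

variable {L : V ≃+ V} {ε : F} (S : HForm σ h) (hσ : Invol σ) (D : Desc σ h L ε) (h2 : (2 : F) ≠ 0)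

include D

omit D in
theorem exists_eig_aux (hσ : Invol σ) (D : Desc σ h L ε) : ∃ α : F, α ≠ 0 ∧ σ α = ε * α := by
  rcases D.eps with rfl | rfl
  · exact ⟨1, one_ne_zero, by simp⟩
  · obtain ⟨d, hd0, hd⟩ := hσ.exists_pure
    exact ⟨d, hd0, by linear_combination hd⟩

include S h2

/-- An Eichler transformation with fixed centre and fixed direction. -/
theorem exists_eich_fixed [FiniteDimensional F V] {e w₀ : V} (hLe : L e = e) (hee : h e e = 0)
    (hLw : L w₀ = w₀) (hwe : h w₀ e = 0) {α : F} (hσα : σ α = ε * α) :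
    ∃ (g : V ≃ₗ[F] V) (a : F), g ∈ suGroup h ∧ (∀ v, L (g v) = g (L v)) ∧ g e = e ∧
      ∀ v, g v = v + h v e • (α • w₀) - h v (α • w₀) • e + (a * h v e) • e := by
  set w : V := α • w₀ with hwd
  have hLw' : L w = ε • w := by
    rw [hwd, D.smul, hLw, hσα, smul_smul]
  set a : F := -(1 / 2) * h w w with had
  have h2' : σ (1 / 2 : F) = 1 / 2 := by rw [map_div₀, map_one, map_ofNat]
  have hσa₀ : σ a = a := by
    rw [had, map_mul, map_neg, h2', S.self_fix]
  have hσa : σ a = ε * a := by
    rcases D.eps with hε | hε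
    · rw [hσa₀, hε, one_mul]
    · have h3 : h w w = 0 := by
        rw [hwd, S.smul_left, S.smul_right, D.self_zero S h2 hε hLw]
        ring
      rw [had, h3]
      simp
  have hwe' : h w e = 0 := by
    rw [hwd, S.smul_left, hwe, mul_zero]
  have ha : a + σ a + h w w = 0 := by
    rw [hσa₀, had]
    field_simp
    ring
  obtain ⟨g, hg⟩ := exists_eichAt S hee hwe' ha
  exact ⟨g, a, hg.mem_suGroup S, eich_comm S D hg hLe hLw' hσa, hg.apply_center S, hg.apply⟩

variable [Finite F] [FiniteDimensional F V]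

include hσ

/-- Making a vector with a prescribed pairing isotropic. -/
theorem exists_iso_adjust {x u₀ : V} (hx : L x = x) (hxx : h x x = 0) (hu : L u₀ = u₀) {c : F}
    (hc0 : c ≠ 0) (hc : h x u₀ = c) :
    ∃ u, L u = u ∧ h u u = 0 ∧ h x u = c ∧ ∀ t, h t x = 0 → h t u = h t u₀ := by
  have hσc : σ c = ε * c := by rw [← hc]; exact D.pair hx hu
  rcases D.eps with hε | hε
  · rw [hε, one_mul] at hσc
    have hfix : σ (h u₀ u₀) = h u₀ u₀ := S.self_fix u₀
    have h2' : σ (2 : F) = 2 := map_ofNat σ 2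
    set s : F := - h u₀ u₀ / (2 * c) with hsd
    have hσs : σ s = s := by
      rw [hsd, map_div₀, map_neg, map_mul, hfix, h2', hσc]
    refine ⟨u₀ + s • x, ?_, ?_, ?_, ?_⟩
    · rw [map_add, D.smul, hx, hu, hσs]
    · have hu₀x : h u₀ x = c := by
        rw [D.swap S hx hu, hc, hε, one_mul]
      simp only [S.add_left, S.add_right, S.smul_left, S.smul_right, hc, hu₀x, hxx, hσs]
      rw [hsd]
      field_simp
      ring
    · rw [S.add_right, S.smul_right, hxx, hc]
      ring
    · intro t ht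
      rw [S.add_right, S.smul_right, ht]
      ring
  · exact ⟨u₀, hu, D.self_zero S h2 hε hu, hc, fun _ _ => rfl⟩

/-- Moving a point away from an orthogonal point, fixing a third one. -/
theorem exists_eich_move {x₁ x₂ x₃ : V} (h₁ : L x₁ = x₁) (h₂ : L x₂ = x₂) (h₃ : L x₃ = x₃)
    (h₁₁ : h x₁ x₁ = 0) (h₂₂ : h x₂ x₂ = 0) (h₃₃ : h x₃ x₃ = 0)
    (h₁₂ : h x₂ x₁ = 0) (h₁₃ : h x₃ x₁ = 0) (h₂₃ : h x₃ x₂ = 0)
    (hn₂ : x₂ ∉ Submodule.span F {x₁}) (hn₃ : x₃ ∉ Submodule.span F {x₁, x₂}) :
    ∃ g : V ≃ₗ[F] V, g ∈ suGroup h ∧ (∀ v, L (g v) = g (L v)) ∧ g x₁ = x₁ ∧ h (g x₂) x₃ ≠ 0 := by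
  obtain ⟨α, hα0, hσα⟩ := exists_eig_aux hσ D
  have hn₂' : x₂ ∉ Submodule.span F {x₁, x₃} := by
    intro hm
    obtain ⟨a, b, hab⟩ := Submodule.mem_span_pair.1 hm
    by_cases hb : b = 0
    · apply hn₂
      rw [Submodule.mem_span_singleton]
      exact ⟨a, by rw [← hab, hb, zero_smul, add_zero]⟩
    · apply hn₃
      rw [Submodule.mem_span_pair]
      refine ⟨-(a / b), 1 / b, ?_⟩
      rw [← hab]
      have : x₃ = (1 / b) • (b • x₃) := by
        rw [smul_smul]
        field_simp
        simp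
      rw [smul_add, smul_smul, smul_smul]
      have e1 : -(a / b) • x₁ + ((1 / b * a) • x₁ + (1 / b * b) • x₃) = x₃ := by
        have e2 : 1 / b * b = 1 := by field_simp
        have e3 : -(a / b) + 1 / b * a = 0 := by field_simp; ring
        rw [e2, ← add_assoc, ← add_smul, e3, zero_smul, zero_add, one_smul]
      exact e1
  obtain ⟨u₀, hLu₀, hu₀, hu₀T⟩ := exists_dual S hσ D h2 h₂ hn₂' hσα
  have hu₁ : h x₁ u₀ = 0 := hu₀T x₁ (Submodule.subset_span (by simp)) h₁
  have hu₃ : h x₃ u₀ = 0 := hu₀T x₃ (Submodule.subset_span (by simp)) h₃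
  obtain ⟨u, hLu, huu, hx₂u, hut⟩ := exists_iso_adjust S hσ D h2 h₂ h₂₂ hLu₀ hα0 hu₀
  have hx₁u : h x₁ u = 0 := by
    rw [hut _ (S.zero_symm h₁₂), hu₁]
  have hx₃u : h x₃ u = 0 := by
    rw [hut _ h₂₃, hu₃]
  have hn₄ : x₃ ∉ Submodule.span F {x₁, x₂, u} := by
    intro hm
    obtain ⟨a, hmm⟩ := Submodule.mem_span_insert.1 hm
    obtain ⟨y, hy, hxy⟩ := hmm
    obtain ⟨b, d, hbd⟩ := Submodule.mem_span_pair.1 hy
    have h5 : h x₃ x₂ = d * h u x₂ := by
      rw [hxy, ← hbd]
      simp only [S.add_left, S.smul_left, S.zero_symm h₁₂, h₂₂]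
      ring
    have h6 : h u x₂ ≠ 0 := by
      intro h7
      exact hα0 (by rw [← hx₂u]; exact S.zero_symm h7)
    have hd : d = 0 := by
      rw [h₂₃] at h5
      exact (mul_eq_zero.1 h5.symm).resolve_right h6
    apply hn₃
    rw [Submodule.mem_span_pair]
    refine ⟨a, b, ?_⟩
    rw [hxy, ← hbd, hd, zero_smul, add_zero]
  obtain ⟨w₀, hLw₀, hw₀, hw₀T⟩ := exists_dual S hσ D h2 h₃ hn₄ hσα
  have hw₁ : h x₁ w₀ = 0 := hw₀T x₁ (Submodule.subset_span (by simp)) h₁
  have hw₂ : h x₂ w₀ = 0 := hw₀T x₂ (Submodule.subset_span (by simp)) h₂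
  have hwu : h u w₀ = 0 := hw₀T u (Submodule.subset_span (by simp)) hLu
  obtain ⟨g, a, hg, hgc, hgu, hgv⟩ := exists_eich_fixed S D h2 hLu huu hLw₀ (S.zero_symm hwu) hσα
  refine ⟨g, hg, hgc, ?_, ?_⟩
  · rw [hgv, hx₁u, S.smul_right, hw₁]
    simp
  · rw [hgv, hx₂u, S.smul_right, hw₂]
    simp only [S.add_left, S.sub_left, S.smul_left, mul_zero, zero_smul, sub_zero]
    have h7 : h w₀ x₃ = σ α := by
      rw [S.conj x₃ w₀, hw₀]
    rw [S.zero_symm h₂₃, S.zero_symm hx₃u, h7]
    simp only [mul_zero, add_zero, zero_add]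
    have hsα : σ α ≠ 0 := by simpa using hα0
    exact mul_ne_zero hα0 (mul_ne_zero hα0 hsα)

/-- The line through two orthogonal points. -/
theorem exists_eich_line {x y : V} (hx : L x = x) (hy : L y = y) (hxx : h x x = 0) (hyx : h y x = 0)
    (hn : y ∉ Submodule.span F {x}) {a₀ : F} (ha₀ : σ a₀ = a₀) :
    ∃ g : V ≃ₗ[F] V, g ∈ suGroup h ∧ (∀ v, L (g v) = g (L v)) ∧ g x = x ∧ g y = y + a₀ • x := by
  obtain ⟨α, hα0, hσα⟩ := exists_eig_aux hσ D
  have hε := D.eps_sq
  have hεf := D.eps_fix
  have hε0 := D.eps_ne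
  set c : F := -(ε * a₀ / α) with hcd
  have hσc : σ c = ε * c := by
    rw [hcd, map_neg, map_div₀, map_mul, hεf, ha₀, hσα]
    have e1 : ε * a₀ / (ε * α) = a₀ / α := by field_simp
    have e2 : ε * (ε * a₀ / α) = (ε * ε) * a₀ / α := by ring
    rw [mul_neg, e1, e2, hε, one_mul]
  obtain ⟨w₀, hLw₀, hw₀, hw₀T⟩ := exists_dual S hσ D h2 hy hn hσc
  have hxw : h x w₀ = 0 := hw₀T x (Submodule.subset_span (by simp)) hx
  obtain ⟨g, a, hg, hgc, hgu, hgv⟩ := exists_eich_fixed S D h2 hx hxx hLw₀ (S.zero_symm hxw) hσα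
  refine ⟨g, hg, hgc, hgu, ?_⟩
  rw [hgv, hyx, S.smul_right, hw₀, hσα, hcd]
  have h3 : ε * α * -(ε * a₀ / α) = - a₀ := by
    field_simp
    linear_combination (-a₀) * hε
  rw [h3, zero_smul, mul_zero, zero_smul]
  simp

end line

/-! ### The block argument -/

section block

/-- Isotropic points spanned by fixed vectors. -/
def IsoPt (h : V → V → F) (L : V ≃+ V) (ℓ : Submodule F V) : Prop :=
  ∃ x, L x = x ∧ x ≠ 0 ∧ h x x = 0 ∧ ℓ = Submodule.span F {x}

theorem map_line (g : V ≃ₗ[F] V) (x : V) :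
    (Submodule.span F {x}).map (g : V →ₗ[F] V) = Submodule.span F {g x} := by
  rw [Submodule.map_span, Set.image_singleton]
  rfl

/-- The points of a line of fixed vectors. -/
def lineSet (L : V ≃+ V) (x₁ x₂ : V) : Set (Submodule F V) :=
  {ℓ | ∃ v, L v = v ∧ v ≠ 0 ∧ v ∈ Submodule.span F {x₁, x₂} ∧ ℓ = Submodule.span F {v}}

variable {L : V ≃+ V} {ε : F} (D : Desc σ h L ε)

include D

/-- The points of a line. -/
theorem mem_lineSet {x₁ x₂ : V} (h₁ : L x₁ = x₁) (h₂ : L x₂ = x₂) (hx₁ : x₁ ≠ 0)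
    (hn : x₂ ∉ Submodule.span F {x₁}) {ℓ : Submodule F V} (hℓ : ℓ ∈ lineSet (F := F) L x₁ x₂) :
    ℓ = Submodule.span F {x₁} ∨ ∃ a : F, σ a = a ∧ ℓ = Submodule.span F {x₂ + a • x₁} := by
  obtain ⟨v, hLv, hv0, hv, rfl⟩ := hℓ
  obtain ⟨α, β, rfl⟩ := Submodule.mem_span_pair.1 hv
  have hind : ∀ a b : F, a • x₁ + b • x₂ = 0 → a = 0 ∧ b = 0 := by
    intro a b hab
    have hb : b = 0 := by
      by_contra hb
      apply hn
      rw [Submodule.mem_span_singleton]
      refine ⟨-(a / b), ?_⟩
      have h3 : b • x₂ = (-a) • x₁ := by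
        rw [neg_smul]
        exact eq_neg_of_add_eq_zero_right hab
      have h4 : x₂ = (1 / b) • (b • x₂) := by
        rw [smul_smul, one_div, inv_mul_cancel₀ hb, one_smul]
      rw [h4, h3, smul_smul]
      congr 1
      field_simp
    subst hb
    rw [zero_smul, add_zero] at hab
    exact ⟨(smul_eq_zero.1 hab).resolve_right hx₁, rfl⟩
  have h3 : L (α • x₁ + β • x₂) = σ α • x₁ + σ β • x₂ := by
    rw [map_add, D.smul, D.smul, h₁, h₂]
  rw [h3] at hLv
  have h4 : (σ α - α) • x₁ + (σ β - β) • x₂ = 0 := by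
    rw [sub_smul, sub_smul]
    have : σ α • x₁ - α • x₁ + (σ β • x₂ - β • x₂) = (σ α • x₁ + σ β • x₂) - (α • x₁ + β • x₂) := by abel
    rw [this, hLv, sub_self]
  obtain ⟨h5, h6⟩ := hind _ _ h4
  have hσα : σ α = α := sub_eq_zero.1 h5
  have hσβ : σ β = β := sub_eq_zero.1 h6
  by_cases hβ : β = 0
  · left
    subst hβ
    rw [zero_smul, add_zero] at hv0 ⊢
    have hα : α ≠ 0 := by
      rintro rfl
      exact hv0 (zero_smul _ _)
    exact Submodule.span_singleton_smul_eq (IsUnit.mk0 _ hα) x₁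
  · right
    refine ⟨α / β, by rw [map_div₀, hσα, hσβ], ?_⟩
    have h7 : α • x₁ + β • x₂ = β • (x₂ + (α / β) • x₁) := by
      rw [smul_add, smul_smul, mul_div_cancel₀ _ hβ, add_comm]
    rw [h7]
    exact Submodule.span_singleton_smul_eq (IsUnit.mk0 _ hβ) _

omit D in
/-- The number of points of a line. -/
theorem card_lineSet [Finite F] [FiniteDimensional F V] (D : Desc σ h L ε) {x₁ x₂ : V} (h₁ : L x₁ = x₁)
    (h₂ : L x₂ = x₂) (hx₁ : x₁ ≠ 0) (hn : x₂ ∉ Submodule.span F {x₁}) :
    Nat.card (lineSet (F := F) L x₁ x₂) = Nat.card {a : F // σ a = a} + 1 := by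
  classical
  haveI : Finite V := Module.finite_of_finite F
  have hx₂0 : ∀ a : F, x₂ + a • x₁ ≠ 0 := by
    intro a h0
    apply hn
    rw [Submodule.mem_span_singleton]
    exact ⟨-a, by rw [neg_smul]; exact (eq_neg_of_add_eq_zero_left h0).symm⟩
  have hm₁ : Submodule.span F {x₁} ∈ lineSet (F := F) L x₁ x₂ :=
    ⟨x₁, h₁, hx₁, Submodule.subset_span (by simp), rfl⟩
  have hm₂ : ∀ a : {a : F // σ a = a}, Submodule.span F {x₂ + a.1 • x₁} ∈ lineSet (F := F) L x₁ x₂ := by
    intro a
    refine ⟨_, ?_, hx₂0 _, ?_, rfl⟩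
    · rw [map_add, D.smul, h₁, h₂, a.2]
    · rw [Submodule.mem_span_pair]
      exact ⟨a.1, 1, by rw [one_smul, add_comm]⟩
  let f : Option {a : F // σ a = a} → lineSet (F := F) L x₁ x₂ := fun o =>
    match o with
    | none => ⟨_, hm₁⟩
    | some a => ⟨_, hm₂ a⟩
  have hinj : Function.Injective f := by
    have key : ∀ a : F, Submodule.span F {x₁} ≠ Submodule.span F {x₂ + a • x₁} := by
      intro a h0
      apply hn
      have h3 : x₂ + a • x₁ ∈ Submodule.span F {x₁} := by
        rw [h0]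
        exact Submodule.mem_span_singleton_self _
      have h4 : x₂ = (x₂ + a • x₁) - a • x₁ := by abel
      rw [h4]
      exact Submodule.sub_mem _ h3 (Submodule.smul_mem _ _ (Submodule.mem_span_singleton_self _))
    rintro (_ | a) (_ | b) hab
    · rfl
    · exact absurd (congrArg Subtype.val hab) (key b.1)
    · exact absurd (congrArg Subtype.val hab).symm (key a.1)
    · have h3 : Submodule.span F {x₂ + a.1 • x₁} = Submodule.span F {x₂ + b.1 • x₁} := congrArg Subtype.val hab
      rw [Submodule.span_singleton_eq_span_singleton] at h3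
      obtain ⟨z, hz⟩ := h3
      have h4 : ((z : Fˣ) : F) • (x₂ + a.1 • x₁) = x₂ + b.1 • x₁ := hz
      have h5 : ((z : F) - 1) • x₂ = (b.1 - z * a.1) • x₁ := by
        rw [sub_smul, sub_smul, one_smul, mul_smul]
        rw [smul_add] at h4
        linear_combination (norm := module) h4
      have hz1 : (z : F) = 1 := by
        by_contra hz1
        apply hn
        rw [Submodule.mem_span_singleton]
        refine ⟨(b.1 - z * a.1) / ((z : F) - 1), ?_⟩
        have h6 : (z : F) - 1 ≠ 0 := sub_ne_zero.2 hz1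
        rw [div_eq_inv_mul, mul_smul, ← h5, smul_smul, inv_mul_cancel₀ h6, one_smul]
      rw [hz1, one_smul] at h4
      have h7 : a.1 • x₁ = b.1 • x₁ := add_left_cancel h4
      congr 1
      exact Subtype.ext (smul_left_injective F hx₁ h7)
  have hsurj : Function.Surjective f := by
    rintro ⟨ℓ, hℓ⟩
    rcases mem_lineSet D h₁ h₂ hx₁ hn hℓ with rfl | ⟨a, ha, rfl⟩
    · exact ⟨none, rfl⟩
    · exact ⟨some ⟨a, ha⟩, rfl⟩
  have := Nat.card_congr (Equiv.ofBijective f ⟨hinj, hsurj⟩)
  rw [← this, Finite.card_option]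

omit D

variable [Finite F] [FiniteDimensional F V] (S : HForm σ h) (hσ : Invol σ) (D : Desc σ h L ε) (h2 : (2 : F) ≠ 0)

include S hσ D h2

/-- **The block argument.** -/
theorem block (hodd : Odd (Nat.card {a : F // σ a = a})) (B : Set (Submodule F V))
    (hB : ∀ ℓ ∈ B, IsoPt h L ℓ)
    (hcl : ∀ g : V ≃ₗ[F] V, g ∈ suGroup h → (∀ v, L (g v) = g (L v)) →
      ∀ b ∈ B, b.map (g : V →ₗ[F] V) = b → ∀ y ∈ B, y.map (g : V →ₗ[F] V) ∈ B)
    (hBodd : Odd (Nat.card B)) (hPeven : Even (Nat.card {ℓ : Submodule F V // IsoPt h L ℓ})) :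
    B.Subsingleton := by
  classical
  haveI : Finite V := Module.finite_of_finite F
  obtain ⟨α, hα0, hσα⟩ := exists_eig_aux hσ D
  have hsα : σ α ≠ 0 := by simpa using hα0
  -- opposite points
  have opp_mem : ∀ {x₁ x₂ y : V}, L x₁ = x₁ → L x₂ = x₂ → L y = y → h x₁ x₁ = 0 → h x₂ x₂ = 0 → h y y = 0 →
      Submodule.span F {x₁} ∈ B → Submodule.span F {x₂} ∈ B → h x₂ x₁ ≠ 0 → h y x₁ ≠ 0 →
      Submodule.span F {y} ∈ B := by
    intro x₁ x₂ y h₁ h₂ hy h₁₁ h₂₂ hyy hm₁ hm₂ hopp hyo
    set t : F := h x₂ x₁ / h y x₁ with htd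
    have hε0 := D.eps_ne
    have hσt : σ t = t := by
      rw [htd, map_div₀, D.pair h₂ h₁, D.pair hy h₁]
      field_simp
    have ht0 : t ≠ 0 := div_ne_zero hopp hyo
    have hy' : L (t • y) = t • y := D.fix_smul hy hσt
    have hy'y' : h (t • y) (t • y) = 0 := by
      rw [S.smul_left, S.smul_right, hyy]
      ring
    have hy'x : h (t • y) x₁ = h x₂ x₁ := by
      rw [S.smul_left, htd]
      field_simp
    obtain ⟨g, hg, hgc, hg₁, hg₂⟩ := exists_eich_trans S D h₁ h₂ hy' h₁₁ h₂₂ hy'y' hopp rfl hy'x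
    have h3 := hcl g hg hgc _ hm₁ (by rw [map_line, hg₁]) _ hm₂
    rw [map_line, hg₂] at h3
    rwa [Submodule.span_singleton_smul_eq (IsUnit.mk0 _ ht0)] at h3
  have opp_free : ∀ {y₁ y₂ : V}, L y₁ = y₁ → L y₂ = y₂ → h y₁ y₁ = 0 → h y₂ y₂ = 0 →
      Submodule.span F {y₁} ∈ B → Submodule.span F {y₂} ∈ B → h y₂ y₁ = 0 := by
    intro x₁ x₂ h₁ h₂ h₁₁ h₂₂ hm₁ hm₂
    by_contra hopp
    have huniv : ∀ ℓ, IsoPt h L ℓ → ℓ ∈ B := by
      rintro ℓ ⟨y, hy, hy0, hyy, rfl⟩
      by_cases hyo : h y x₁ = 0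
      · by_cases hys : y ∈ Submodule.span F {x₁}
        · obtain ⟨c, rfl⟩ := Submodule.mem_span_singleton.1 hys
          have hc : c ≠ 0 := by
            rintro rfl
            exact hy0 (zero_smul _ _)
          rwa [Submodule.span_singleton_smul_eq (IsUnit.mk0 _ hc)]
        · have hxs : x₁ ∉ Submodule.span F {y} := by
            intro hm
            obtain ⟨c, rfl⟩ := Submodule.mem_span_singleton.1 hm
            apply hys
            have hc : c ≠ 0 := by
              rintro rfl
              exact hopp (by simp [S.zero_right])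
            rw [Submodule.mem_span_singleton]
            exact ⟨c⁻¹, by rw [smul_smul, inv_mul_cancel₀ hc, one_smul]⟩
          obtain ⟨w₁, hw₁L, hw₁, hw₁T⟩ := exists_dual S hσ D h2 h₁ hxs hσα
          obtain ⟨w₂, hw₂L, hw₂, hw₂T⟩ := exists_dual S hσ D h2 hy hys hσα
          have hyw₁ : h y w₁ = 0 := hw₁T y (Submodule.mem_span_singleton_self _) hy
          have hxw₂ : h x₁ w₂ = 0 := hw₂T x₁ (Submodule.mem_span_singleton_self _) h₁
          have hLz₀ : L (w₁ + w₂) = w₁ + w₂ := by rw [map_add, hw₁L, hw₂L]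
          have hxz₀ : h x₁ (w₁ + w₂) = α := by rw [S.add_right, hw₁, hxw₂, add_zero]
          have hyz₀ : h y (w₁ + w₂) = α := by rw [S.add_right, hyw₁, hw₂, zero_add]
          obtain ⟨z, hLz, hzz, hxz, hzt⟩ := exists_iso_adjust S hσ D h2 h₁ h₁₁ hLz₀ hα0 hxz₀
          have hyz : h y z = α := by rw [hzt _ hyo, hyz₀]
          have hzx : h z x₁ ≠ 0 := by
            rw [S.conj x₁ z, hxz]
            exact hsα
          have hmz := opp_mem h₁ h₂ hLz h₁₁ h₂₂ hzz hm₁ hm₂ hopp hzx
          refine opp_mem hLz h₁ hy hzz h₁₁ hyy hmz hm₁ ?_ ?_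
          · rw [hxz]
            exact hα0
          · rw [hyz]
            exact hα0
      · exact opp_mem h₁ h₂ hy h₁₁ h₂₂ hyy hm₁ hm₂ hopp hyo
    have hBeq : B = {ℓ | IsoPt h L ℓ} := Set.Subset.antisymm (fun ℓ hℓ => hB ℓ hℓ) (fun ℓ hℓ => huniv ℓ hℓ)
    rw [hBeq] at hBodd
    exact (Nat.not_even_iff_odd.2 hBodd) hPeven
  intro ℓ₁ hℓ₁ ℓ₂ hℓ₂
  by_contra hne
  obtain ⟨x₁, h₁, hx₁, h₁₁, rfl⟩ := hB ℓ₁ hℓ₁
  obtain ⟨x₂, h₂, hx₂, h₂₂, rfl⟩ := hB ℓ₂ hℓ₂
  have h₁₂ : h x₂ x₁ = 0 := opp_free h₁ h₂ h₁₁ h₂₂ hℓ₁ hℓ₂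
  have hn : x₂ ∉ Submodule.span F {x₁} := by
    intro hm
    obtain ⟨c, rfl⟩ := Submodule.mem_span_singleton.1 hm
    have hc : c ≠ 0 := by
      rintro rfl
      exact hx₂ (zero_smul _ _)
    exact hne (Submodule.span_singleton_smul_eq (IsUnit.mk0 _ hc) x₁).symm
  have hline : lineSet (F := F) L x₁ x₂ ⊆ B := by
    intro ℓ hℓ
    rcases mem_lineSet D h₁ h₂ hx₁ hn hℓ with rfl | ⟨a, ha, rfl⟩
    · exact hℓ₁
    · obtain ⟨g, hg, hgc, hg₁, hg₂⟩ := exists_eich_line S hσ D h2 h₁ h₂ h₁₁ h₁₂ hn ha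
      have h3 := hcl g hg hgc _ hℓ₁ (by rw [map_line, hg₁]) _ hℓ₂
      rwa [map_line, hg₂] at h3
  have hex : ∃ ℓ ∈ B, ℓ ∉ lineSet (F := F) L x₁ x₂ := by
    by_contra hcon
    push Not at hcon
    have hBeq : B = lineSet (F := F) L x₁ x₂ := Set.Subset.antisymm hcon hline
    rw [hBeq, card_lineSet D h₁ h₂ hx₁ hn] at hBodd
    exact (Nat.not_even_iff_odd.2 hBodd) hodd.add_one
  obtain ⟨ℓ₃, hℓ₃, hℓ₃n⟩ := hex
  obtain ⟨x₃, h₃, hx₃, h₃₃, rfl⟩ := hB ℓ₃ hℓ₃
  have hn₃ : x₃ ∉ Submodule.span F {x₁, x₂} := fun hm => hℓ₃n ⟨x₃, h₃, hx₃, hm, rfl⟩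
  have h₁₃ : h x₃ x₁ = 0 := opp_free h₁ h₃ h₁₁ h₃₃ hℓ₁ hℓ₃
  have h₂₃ : h x₃ x₂ = 0 := opp_free h₂ h₃ h₂₂ h₃₃ hℓ₂ hℓ₃
  obtain ⟨g, hg, hgc, hg₁, hg₂⟩ := exists_eich_move S hσ D h2 h₁ h₂ h₃ h₁₁ h₂₂ h₃₃ h₁₂ h₁₃ h₂₃ hn hn₃
  have h3 := hcl g hg hgc _ hℓ₁ (by rw [map_line, hg₁]) _ hℓ₂
  rw [map_line] at h3
  have hLg : L (g x₂) = g x₂ := by rw [hgc, h₂]
  have hgg : h (g x₂) (g x₂) = 0 := by
    have := (mem_suGroup.1 hg).1 x₂ x₂
    rw [this, h₂₂]
  have h4 := opp_free hLg h₃ hgg h₃₃ h3 hℓ₃
  apply hg₂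
  exact S.zero_symm h4

end block

/-! ### Parity -/

section parity

theorem even_iff_of_invol {α : Type*} [Finite α] (P : α → Prop) (f : α → α) (hP : ∀ a, P a → P (f a))
    (hf : ∀ a, P a → f (f a) = a) :
    Even (Nat.card {a // P a}) ↔ Even (Nat.card {a // P a ∧ f a = a}) := by
  classical
  haveI : Fintype {a // P a} := Fintype.ofFinite _
  let g : Function.End {a // P a} := fun a => ⟨f a.1, hP a.1 a.2⟩
  have hg : g ^ 2 ^ 1 = 1 := by
    funext a
    apply Subtype.ext
    show f (f a.1) = a.1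
    exact hf a.1 a.2
  have h1 := Equiv.Perm.card_fixedPoints_modEq (f := g) (p := 2) (n := 1) (hp := ⟨Nat.prime_two⟩) hg
  have e : {a : {a // P a} // a ∈ Function.fixedPoints g} ≃ {a // P a ∧ f a = a} :=
    { toFun := fun a => ⟨a.1.1, a.1.2, congrArg Subtype.val a.2⟩
      invFun := fun a => ⟨⟨a.1, a.2.1⟩, Subtype.ext a.2.2⟩
      left_inv := fun a => rfl
      right_inv := fun a => rfl }
  rw [← Nat.card_eq_fintype_card] at h1
  rw [← Nat.card_congr e]
  have h2 : Nat.card {a : {a // P a} // a ∈ Function.fixedPoints g} =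
      Fintype.card (Function.fixedPoints g) := by
    rw [← Nat.card_eq_fintype_card]
  rw [h2]
  rw [Nat.even_iff, Nat.even_iff]
  have h3 : _ % 2 = _ % 2 := h1
  rw [h3]

/-- The field of fixed elements has odd order. -/
theorem odd_card_fix [Finite F] (σ : F →+* F) (h2 : (2 : F) ≠ 0) : Odd (Nat.card {a : F // σ a = a}) := by
  rw [← Nat.not_even_iff_odd]
  rw [even_iff_of_invol (fun a : F => σ a = a) (fun a => -a) (fun a ha => by simp [ha]) (fun a _ => neg_neg a)]
  have e : {a : F // σ a = a ∧ -a = a} ≃ Unit :=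
    { toFun := fun _ => ()
      invFun := fun _ => ⟨0, by simp⟩
      left_inv := fun a => by
        apply Subtype.ext
        have h3 : 2 * a.1 = 0 := by linear_combination -a.2.2
        exact ((mul_eq_zero.1 h3).resolve_left h2).symm
      right_inv := fun _ => rfl }
  rw [Nat.card_congr e]
  simp

variable {L : V ≃+ V} {ε : F} 

/-- Transport of points. -/
theorem isoPt_map {g : V ≃ₗ[F] V} (hgc : ∀ v, L (g v) = g (L v)) (hgi : ∀ x, L x = x → h x x = 0 → h (g x) (g x) = 0)
    {ℓ : Submodule F V} (hℓ : IsoPt h L ℓ) : IsoPt h L (ℓ.map (g : V →ₗ[F] V)) := by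
  obtain ⟨x, hx, hx0, hxx, rfl⟩ := hℓ
  rw [map_line]
  exact ⟨g x, by rw [hgc, hx], (map_ne_zero_iff g g.injective).2 hx0, hgi x hx hxx, rfl⟩

variable (S : HForm σ h) (hσ : Invol σ) (D : Desc σ h L ε) (h2 : (2 : F) ≠ 0)

include S D

/-- The orthogonal complement of a vector as a submodule. -/
theorem stableND_perp {W : Submodule F V} (hW : StableND h L W) {u : V} (hu : u ∈ W) (hLu : L u = u)
    (huu : h u u ≠ 0) : StableND h L (W ⊓ LinearMap.ker (S.hL u)) := by
  refine ⟨?_, ?_⟩
  · rintro v ⟨hv, hvu⟩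
    refine ⟨hW.stable v hv, ?_⟩
    have h1 : h v u = 0 := hvu
    show h (L v) u = 0
    rw [D.form_right hLu, h1, map_zero, mul_zero]
  · rintro v ⟨hv, hvu⟩ hvw
    have h1 : h v u = 0 := hvu
    apply hW.nd v hv
    intro y hy
    set c : F := h y u / h u u with hcd
    have hy' : y - c • u ∈ W ⊓ LinearMap.ker (S.hL u) := by
      refine ⟨W.sub_mem hy (W.smul_mem _ hu), ?_⟩
      show h (y - c • u) u = 0
      rw [S.sub_left, S.smul_left, hcd]
      field_simp
      ring
    have h3 := hvw _ hy'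
    rw [S.sub_right, S.smul_right, h1] at h3
    simpa using h3

omit S D in
theorem finite_sub [Finite F] [FiniteDimensional F V] : Finite (Submodule F V) := by
  haveI : Finite V := Module.finite_of_finite F
  exact Finite.of_injective (fun ℓ : Submodule F V => (ℓ : Set V)) SetLike.coe_injective

variable [Finite F] [FiniteDimensional F V]

include hσ h2

/-- **The number of isotropic points spanned by fixed vectors is even.** -/
theorem even_pts_aux : ∀ (d : ℕ) (W : Submodule F V), finrank F W = d → StableND h L W →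
    Even (Nat.card {ℓ : Submodule F V // IsoPt h L ℓ ∧ ℓ ≤ W}) := by
  classical
  haveI : Finite V := Module.finite_of_finite F
  haveI := finite_sub (F := F) (V := V)
  intro d
  induction d using Nat.strong_induction_on with
  | _ d ih =>
    intro W hd hW
    by_cases hW0 : W = ⊥
    · subst hW0
      have : IsEmpty {ℓ : Submodule F V // IsoPt h L ℓ ∧ ℓ ≤ ⊥} := by
        refine ⟨?_⟩
        rintro ⟨ℓ, ⟨x, hx, hx0, hxx, rfl⟩, hle⟩
        exact hx0 ((Submodule.mem_bot F).1 (hle (Submodule.mem_span_singleton_self x)))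
      rw [Nat.card_of_isEmpty]
      exact Even.zero
    obtain ⟨x₀, hx₀, hx₀0⟩ := Submodule.exists_mem_ne_zero_of_ne_bot hW0
    rcases D.eps with hε | hε
    · -- the symmetric case: a reflection
      obtain ⟨u, hu, hLu, huu⟩ := exists_fixed_noniso S hσ D h2 hW hε hx₀ hx₀0
      have hW' := stableND_perp S D hW hu hLu huu
      have hlt : W ⊓ LinearMap.ker (S.hL u) < W := by
        refine lt_of_le_of_ne inf_le_left ?_
        intro heq
        have h3 : u ∈ W ⊓ LinearMap.ker (S.hL u) := by rw [heq]; exact hu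
        exact huu h3.2
      have hfin := Submodule.finrank_lt_finrank_of_lt hlt
      have hrec := ih _ (by omega) _ rfl hW'
      obtain ⟨r, hr⟩ := exists_qrAt S (β := -1) huu (by simp)
      have hru : ∀ v, r v = v + (-2 * h v u / h u u) • u := by
        intro v
        rw [hr.apply]
        congr 2
        ring
      have hrc : ∀ v, L (r v) = r (L v) := by
        intro v
        rw [hru, hru, map_add, D.smul, hLu, D.form_right hLu, hε, one_mul, map_div₀, map_mul,
          S.self_fix, map_neg, map_ofNat]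
      have hrr : ∀ v, r (r v) = v := by
        intro v
        rw [hru (r v), hru v]
        simp only [S.add_left, S.smul_left]
        have : -2 * (h v u + -2 * h v u / h u u * h u u) / h u u = 2 * h v u / h u u := by
          field_simp
          ring
        rw [this, add_assoc, ← add_smul]
        have e3 : -2 * h v u / h u u + 2 * h v u / h u u = 0 := by
          field_simp
          ring
        rw [e3, zero_smul, add_zero]
      have hriso := fun x y => hr.mem_uGroup S x y
      have hmain := even_iff_of_invol (fun ℓ : Submodule F V => IsoPt h L ℓ ∧ ℓ ≤ W)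
        (fun ℓ => ℓ.map (r : V →ₗ[F] V)) (by
          rintro ℓ ⟨hℓ, hle⟩
          refine ⟨isoPt_map hrc (fun x _ hxx => by rw [hriso, hxx]) hℓ, ?_⟩
          obtain ⟨x, hx, hx0, hxx, rfl⟩ := hℓ
          rw [map_line, Submodule.span_singleton_le_iff_mem, hru]
          exact W.add_mem (hle (Submodule.mem_span_singleton_self x)) (W.smul_mem _ hu)) (by
          rintro ℓ ⟨⟨x, hx, hx0, hxx, rfl⟩, hle⟩
          rw [map_line, map_line, hrr])
      rw [hmain]
      have hiff : ∀ ℓ : Submodule F V, ((IsoPt h L ℓ ∧ ℓ ≤ W) ∧ ℓ.map (r : V →ₗ[F] V) = ℓ) ↔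
          (IsoPt h L ℓ ∧ ℓ ≤ W ⊓ LinearMap.ker (S.hL u)) := by
        intro ℓ
        constructor
        · rintro ⟨⟨⟨x, hx, hx0, hxx, rfl⟩, hle⟩, hfix⟩
          refine ⟨⟨x, hx, hx0, hxx, rfl⟩, ?_⟩
          have hxW := hle (Submodule.mem_span_singleton_self x)
          rw [Submodule.span_singleton_le_iff_mem]
          refine ⟨hxW, ?_⟩
          show h x u = 0
          by_contra hxu
          rw [map_line] at hfix
          have h3 : r x ∈ Submodule.span F {x} := by
            rw [← hfix]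
            exact Submodule.mem_span_singleton_self _
          obtain ⟨c, hc⟩ := Submodule.mem_span_singleton.1 h3
          rw [hru] at hc
          set e : F := -2 * h x u / h u u with hed
          have he0 : e ≠ 0 := by
            rw [hed]
            exact div_ne_zero (mul_ne_zero (neg_ne_zero.2 h2) hxu) huu
          have h4 : (c - 1) • x = e • u := by
            rw [sub_smul, one_smul, hc]
            abel
          by_cases hc1 : c = 1
          · rw [hc1, sub_self, zero_smul] at h4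
            have := (smul_eq_zero.1 h4.symm).resolve_left he0
            rw [this, S.zero_left] at huu
            exact huu rfl
          · have hc2 : c - 1 ≠ 0 := sub_ne_zero.2 hc1
            have h5 : x = (e / (c - 1)) • u := by
              rw [div_eq_inv_mul, mul_smul, ← h4, smul_smul, inv_mul_cancel₀ hc2, one_smul]
            rw [h5, S.smul_left, S.smul_right] at hxx
            have ht0 : e / (c - 1) ≠ 0 := div_ne_zero he0 hc2
            have hst : σ (e / (c - 1)) ≠ 0 := (map_ne_zero σ).2 ht0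
            exact (mul_ne_zero ht0 (mul_ne_zero hst huu)) hxx
        · rintro ⟨⟨x, hx, hx0, hxx, rfl⟩, hle⟩
          have hxW := hle (Submodule.mem_span_singleton_self x)
          refine ⟨⟨⟨x, hx, hx0, hxx, rfl⟩, le_trans hle inf_le_left⟩, ?_⟩
          have hxu : h x u = 0 := hxW.2
          rw [map_line, hru, hxu]
          simp
      rw [Nat.card_congr (Equiv.subtypeEquivRight hiff)]
      exact hrec
    · -- the alternating case
      have hiso : ∀ {v : V}, L v = v → h v v = 0 := fun hv => D.self_zero S h2 hε hv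
      obtain ⟨x, hx, hLx, hx0⟩ := exists_fixed_ne S hσ D h2 hW hx₀ hx₀0
      obtain ⟨z, hz, hLz, hxz⟩ := exists_fixed_pair S hσ D h2 hW hx hx0
      set κ : F := h x z with hκd
      have hzx : h z x = -κ := by
        rw [D.swap S hLx hLz, hε, hκd]
        ring
      have hκ' : -κ ≠ 0 := neg_ne_zero.2 hxz
      have hxx := hiso hLx
      have hzz := hiso hLz
      have hσκ : σ κ = -κ := by
        rw [hκd, D.pair hLx hLz, hε]
        ring
      have hn : z ∉ Submodule.span F {x} := by
        intro hm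
        obtain ⟨c, rfl⟩ := Submodule.mem_span_singleton.1 hm
        apply hxz
        rw [hκd, S.smul_right, hxx, mul_zero]
      -- the complement
      let W' : Submodule F V := W ⊓ (LinearMap.ker (S.hL x) ⊓ LinearMap.ker (S.hL z))
      have hmemW' : ∀ v, v ∈ W' ↔ v ∈ W ∧ h v x = 0 ∧ h v z = 0 := fun v => Iff.rfl
      have hW' : StableND h L W' := by
        refine ⟨?_, ?_⟩
        · intro v hv
          obtain ⟨hv₁, hv₂, hv₃⟩ := (hmemW' v).1 hv
          refine (hmemW' _).2 ⟨hW.stable v hv₁, ?_, ?_⟩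
          · rw [D.form_right hLx, hv₂, map_zero, mul_zero]
          · rw [D.form_right hLz, hv₃, map_zero, mul_zero]
        · intro v hv hvw
          obtain ⟨hv₁, hv₂, hv₃⟩ := (hmemW' v).1 hv
          apply hW.nd v hv₁
          intro y hy
          set a : F := h y z / κ with had
          set b : F := h y x / (-κ) with hbd
          have hy' : y - a • x - b • z ∈ W' := by
            refine (hmemW' _).2 ⟨W.sub_mem (W.sub_mem hy (W.smul_mem _ hx)) (W.smul_mem _ hz), ?_, ?_⟩
            · simp only [S.sub_left, S.smul_left, hxx, hzx, hbd]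
              field_simp
              ring
            · simp only [S.sub_left, S.smul_left, hzz, had]
              rw [← hκd]
              field_simp
              ring
          have h3 := hvw _ hy'
          simp only [S.sub_right, S.smul_right, hv₂, hv₃] at h3
          simpa using h3
      have hlt : W' < W := by
        refine lt_of_le_of_ne inf_le_left ?_
        intro heq
        have h3 : x ∈ W' := by
          show x ∈ W ⊓ _
          rw [show W ⊓ (LinearMap.ker (S.hL x) ⊓ LinearMap.ker (S.hL z)) = W from heq]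
          exact hx
        exact hxz ((hmemW' x).1 h3).2.2
      have hfin := Submodule.finrank_lt_finrank_of_lt hlt
      have hrec := ih _ (by omega) _ rfl hW'
      -- the involution
      let φ : V →ₗ[F] V := LinearMap.id - ((2 / κ) • S.hL z).smulRight x - ((2 / (-κ)) • S.hL x).smulRight z
      have hφ : ∀ v, φ v = v - (2 * h v z / κ) • x - (2 * h v x / (-κ)) • z := by
        intro v
        simp only [φ, LinearMap.sub_apply, LinearMap.id_apply, LinearMap.smulRight_apply,
          LinearMap.smul_apply, HForm.hL_apply, smul_eq_mul]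
        congr 2
        · congr 1
          ring
        · ring
      have hφx : φ x = -x := by
        rw [hφ, hxx, ← hκd]
        have e1 : 2 * κ / κ = 2 := by field_simp
        rw [e1]
        simp only [mul_zero, zero_div, zero_smul, sub_zero]
        module
      have hφz : φ z = -z := by
        rw [hφ, hzz, hzx]
        have e1 : 2 * -κ / -κ = 2 := by field_simp
        rw [e1]
        simp only [mul_zero, zero_div, zero_smul, sub_zero]
        module
      have hφφ : ∀ v, φ (φ v) = v := by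
        intro v
        rw [hφ v, map_sub, map_sub, map_smul, map_smul, hφx, hφz, hφ v]
        module
      let r : V ≃ₗ[F] V := LinearEquiv.ofInvolutive φ hφφ
      have hru : ∀ v, r v = v - (2 * h v z / κ) • x - (2 * h v x / (-κ)) • z := hφ
      have hrc : ∀ v, L (r v) = r (L v) := by
        intro v
        rw [hru, hru, map_sub, map_sub, D.smul, D.smul, hLx, hLz, D.form_right hLz, D.form_right hLx, hε]
        rw [map_div₀, map_div₀, map_mul, map_mul, map_neg, hσκ, map_ofNat]
        congr 2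
        · congr 1
          field_simp
        · field_simp
      have hrr : ∀ v, r (r v) = v := hφφ
      have hmain := even_iff_of_invol (fun ℓ : Submodule F V => IsoPt h L ℓ ∧ ℓ ≤ W)
        (fun ℓ => ℓ.map (r : V →ₗ[F] V)) (by
          rintro ℓ ⟨hℓ, hle⟩
          refine ⟨isoPt_map hrc (fun y hy _ => hiso (by rw [hrc, hy])) hℓ, ?_⟩
          obtain ⟨y, hy, hy0, hyy, rfl⟩ := hℓ
          rw [map_line, Submodule.span_singleton_le_iff_mem, hru]
          exact W.sub_mem (W.sub_mem (hle (Submodule.mem_span_singleton_self y)) (W.smul_mem _ hx))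
            (W.smul_mem _ hz)) (by
          rintro ℓ ⟨⟨y, hy, hy0, hyy, rfl⟩, hle⟩
          rw [map_line, map_line, hrr])
      rw [hmain]
      have hind : ∀ a b : F, a • x + b • z = 0 → a = 0 ∧ b = 0 := by
        intro a b hab
        have h3 := congrArg (fun v => h v z) hab
        have h4 := congrArg (fun v => h v x) hab
        simp only [S.add_left, S.smul_left, hzz, hxx, hzx, S.zero_left, ← hκd, mul_zero, add_zero, zero_add] at h3 h4
        exact ⟨(mul_eq_zero.1 h3).resolve_right hxz, (mul_eq_zero.1 h4).resolve_right hκ'⟩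
      let A : Set (Submodule F V) := {ℓ | IsoPt h L ℓ ∧ ℓ ≤ W'}
      let B : Set (Submodule F V) := lineSet (F := F) L x z
      have hiff : ∀ ℓ : Submodule F V, ((IsoPt h L ℓ ∧ ℓ ≤ W) ∧ ℓ.map (r : V →ₗ[F] V) = ℓ) ↔ ℓ ∈ A ∪ B := by
        intro ℓ
        constructor
        · rintro ⟨⟨⟨y, hy, hy0, hyy, rfl⟩, hle⟩, hfix⟩
          have hyW := hle (Submodule.mem_span_singleton_self y)
          rw [map_line] at hfix
          have h3 : r y ∈ Submodule.span F {y} := by
            rw [← hfix]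
            exact Submodule.mem_span_singleton_self _
          obtain ⟨c, hc⟩ := Submodule.mem_span_singleton.1 h3
          rw [hru] at hc
          set a : F := 2 * h y z / κ with had
          set b : F := 2 * h y x / (-κ) with hbd
          by_cases hc1 : c = 1
          · left
            have h4 : a • x + b • z = 0 := by
              rw [hc1, one_smul] at hc
              linear_combination (norm := module) hc
            obtain ⟨ha, hb⟩ := hind _ _ h4
            refine ⟨⟨y, hy, hy0, hyy, rfl⟩, ?_⟩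
            rw [Submodule.span_singleton_le_iff_mem]
            refine (hmemW' _).2 ⟨hyW, ?_, ?_⟩
            · rw [hbd] at hb
              have h5 := (div_eq_zero_iff.1 hb).resolve_right hκ'
              exact (mul_eq_zero.1 h5).resolve_left h2
            · rw [had] at ha
              have h5 := (div_eq_zero_iff.1 ha).resolve_right hxz
              exact (mul_eq_zero.1 h5).resolve_left h2
          · right
            have hc2 : 1 - c ≠ 0 := sub_ne_zero.2 (Ne.symm hc1)
            refine ⟨y, hy, hy0, ?_, rfl⟩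
            rw [Submodule.mem_span_pair]
            refine ⟨a / (1 - c), b / (1 - c), ?_⟩
            have h4 : (1 - c) • y = a • x + b • z := by
              rw [sub_smul, one_smul, hc]
              abel
            have h5 : y = (1 / (1 - c)) • ((1 - c) • y) := by
              rw [smul_smul, one_div, inv_mul_cancel₀ hc2, one_smul]
            rw [h5, h4, smul_add, smul_smul, smul_smul]
            congr 2
            · field_simp
            · field_simp
        · rintro (⟨hℓ, hle⟩ | hℓ)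
          · refine ⟨⟨hℓ, le_trans hle inf_le_left⟩, ?_⟩
            obtain ⟨y, hy, hy0, hyy, rfl⟩ := hℓ
            obtain ⟨_, h3, h4⟩ := (hmemW' y).1 (hle (Submodule.mem_span_singleton_self y))
            rw [map_line, hru, h3, h4]
            simp
          · obtain ⟨y, hy, hy0, hym, rfl⟩ := hℓ
            obtain ⟨α, β, rfl⟩ := Submodule.mem_span_pair.1 hym
            refine ⟨⟨⟨_, hy, hy0, hiso hy, rfl⟩, ?_⟩, ?_⟩
            · rw [Submodule.span_singleton_le_iff_mem]
              exact W.add_mem (W.smul_mem _ hx) (W.smul_mem _ hz)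
            · rw [map_line]
              have h3 : r (α • x + β • z) = (-1 : F) • (α • x + β • z) := by
                show φ (α • x + β • z) = _
                rw [map_add, map_smul, map_smul, hφx, hφz]
                module
              rw [h3]
              exact Submodule.span_singleton_smul_eq (IsUnit.neg isUnit_one) _
      rw [Nat.card_congr (Equiv.subtypeEquivRight hiff)]
      have hdisj : Disjoint A B := by
        rw [Set.disjoint_left]
        rintro ℓ ⟨-, hle⟩ ⟨y, hy, hy0, hym, rfl⟩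
        obtain ⟨_, h3, h4⟩ := (hmemW' y).1 (hle (Submodule.mem_span_singleton_self y))
        obtain ⟨α, β, rfl⟩ := Submodule.mem_span_pair.1 hym
        simp only [S.add_left, S.smul_left, hzz, hxx, hzx, ← hκd, mul_zero, add_zero, zero_add] at h3 h4
        have hα := (mul_eq_zero.1 h4).resolve_right hxz
        have hβ := (mul_eq_zero.1 h3).resolve_right hκ'
        apply hy0
        rw [hα, hβ, zero_smul, zero_smul, add_zero]
      have hcard : Nat.card ↥(A ∪ B) = Nat.card ↥A + Nat.card ↥B := by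
        rw [Nat.card_coe_set_eq, Nat.card_coe_set_eq, Nat.card_coe_set_eq]
        exact Set.ncard_union_eq hdisj (Set.toFinite _) (Set.toFinite _)
      have hcardB : Nat.card ↥B = Nat.card {a : F // σ a = a} + 1 := card_lineSet D hLx hLz hx0 hn
      show Even (Nat.card ↥(A ∪ B))
      rw [hcard, hcardB]
      exact hrec.add (odd_card_fix σ h2).add_one

/-- **The number of isotropic points spanned by fixed vectors is even.** -/
theorem even_pts : Even (Nat.card {ℓ : Submodule F V // IsoPt h L ℓ}) := by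
  have h1 := even_pts_aux S hσ D h2 _ ⊤ rfl (stableND_top S L)
  have e : ∀ ℓ : Submodule F V, (IsoPt h L ℓ ∧ ℓ ≤ ⊤) ↔ IsoPt h L ℓ := fun ℓ => ⟨fun h => h.1, fun h => ⟨h, le_top⟩⟩
  rwa [Nat.card_congr (Equiv.subtypeEquivRight e)] at h1

end parity

section rigid

variable [Finite F] [FiniteDimensional F V] {L : V ≃+ V} {ε : F} (S : HForm σ h) (hσ : Invol σ)
  (D : Desc σ h L ε) (h2 : (2 : F) ≠ 0)

include S hσ D h2

/-- There is a fixed isotropic vector. -/
theorem exists_iso_fixed (hV : 3 ≤ finrank F V) : ∃ x, L x = x ∧ x ≠ 0 ∧ h x x = 0 := by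
  classical
  haveI : Nontrivial V := Module.nontrivial_of_finrank_pos (R := F) (by omega)
  obtain ⟨v, hv⟩ := exists_ne (0 : V)
  rcases D.eps with hε | hε
  · have hT := stableND_top S L
    obtain ⟨u₁, -, hL₁, h₁⟩ := exists_fixed_noniso S hσ D h2 hT hε Submodule.mem_top hv
    have hW₁ := stableND_perp S D hT Submodule.mem_top hL₁ h₁
    have hspan : ∀ (s : Finset V), s.card ≤ 2 → ∃ y, y ∉ Submodule.span F (s : Set V) := by
      intro s hs
      by_contra hcon
      push Not at hcon
      have h3 : Submodule.span F (s : Set V) = ⊤ := by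
        rw [eq_top_iff]
        intro y _
        exact hcon y
      have h4 : finrank F (Submodule.span F (s : Set V)) ≤ s.card := finrank_span_finset_le_card (R := F) s
      rw [h3, finrank_top] at h4
      omega
    -- a second vector
    obtain ⟨y₁, hy₁⟩ := hspan {u₁} (by simp)
    have hy₁' : y₁ - (h y₁ u₁ / h u₁ u₁) • u₁ ≠ 0 := by
      intro h0
      apply hy₁
      rw [sub_eq_zero.1 h0]
      exact Submodule.smul_mem _ _ (Submodule.subset_span (by simp))
    have hm₁ : y₁ - (h y₁ u₁ / h u₁ u₁) • u₁ ∈ (⊤ : Submodule F V) ⊓ LinearMap.ker (S.hL u₁) := by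
      refine ⟨Submodule.mem_top, ?_⟩
      show h _ u₁ = 0
      rw [S.sub_left, S.smul_left]
      field_simp
      ring
    obtain ⟨u₂, hu₂, hL₂, h₂⟩ := exists_fixed_noniso S hσ D h2 hW₁ hε hm₁ hy₁'
    have hW₂ := stableND_perp S D hW₁ hu₂ hL₂ h₂
    have h₂₁ : h u₂ u₁ = 0 := hu₂.2
    obtain ⟨y₂, hy₂⟩ := hspan {u₁, u₂} (Finset.card_le_two)
    have hm₂ : y₂ - (h y₂ u₁ / h u₁ u₁) • u₁ - (h y₂ u₂ / h u₂ u₂) • u₂ ∈
        ((⊤ : Submodule F V) ⊓ LinearMap.ker (S.hL u₁)) ⊓ LinearMap.ker (S.hL u₂) := by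
      refine ⟨⟨Submodule.mem_top, ?_⟩, ?_⟩
      · show h _ u₁ = 0
        simp only [S.sub_left, S.smul_left, h₂₁]
        field_simp
        ring
      · show h _ u₂ = 0
        simp only [S.sub_left, S.smul_left, S.zero_symm h₂₁]
        field_simp
        ring
    have hy₂' : y₂ - (h y₂ u₁ / h u₁ u₁) • u₁ - (h y₂ u₂ / h u₂ u₂) • u₂ ≠ 0 := by
      intro h0
      apply hy₂
      have h3 : y₂ = (h y₂ u₁ / h u₁ u₁) • u₁ + (h y₂ u₂ / h u₂ u₂) • u₂ := by
        linear_combination (norm := module) h0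
      rw [h3]
      refine Submodule.add_mem _ (Submodule.smul_mem _ _ (Submodule.subset_span (by simp)))
        (Submodule.smul_mem _ _ (Submodule.subset_span (by simp)))
    obtain ⟨u₃, hu₃, hL₃, h₃⟩ := exists_fixed_noniso S hσ D h2 hW₂ hε hm₂ hy₂'
    have h₃₁ : h u₃ u₁ = 0 := hu₃.1.2
    have h₃₂ : h u₃ u₂ = 0 := hu₃.2
    -- the equation over the fixed field
    let E : Subfield F := RingHom.eqLocusField σ (RingHom.id F)
    haveI : Fintype E := Fintype.ofFinite E
    have hEcard : Fintype.card E % 2 = 1 := by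
      have h3 := odd_card_fix σ h2
      have h4 : Nat.card E = Nat.card {a : F // σ a = a} :=
        Nat.card_congr (Equiv.subtypeEquivRight fun a => Iff.rfl)
      rw [← h4, Nat.card_eq_fintype_card] at h3
      exact Nat.odd_iff.1 h3
    let a₁ : E := ⟨h u₁ u₁, S.self_fix u₁⟩
    let a₂ : E := ⟨h u₂ u₂, S.self_fix u₂⟩
    let a₃ : E := ⟨h u₃ u₃, S.self_fix u₃⟩
    have ha₁ : a₁ ≠ 0 := fun h0 => h₁ (congrArg Subtype.val h0)
    have ha₂ : a₂ ≠ 0 := fun h0 => h₂ (congrArg Subtype.val h0)
    obtain ⟨s, t, hst⟩ := FiniteField.exists_root_sum_quadratic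
      (f := Polynomial.C a₁ * Polynomial.X ^ 2 + Polynomial.C 0 * Polynomial.X + Polynomial.C 0)
      (g := Polynomial.C a₂ * Polynomial.X ^ 2 + Polynomial.C 0 * Polynomial.X + Polynomial.C a₃)
      (Polynomial.degree_quadratic ha₁) (Polynomial.degree_quadratic ha₂) hEcard
    simp only [Polynomial.eval_add, Polynomial.eval_mul, Polynomial.eval_C, Polynomial.eval_pow,
      Polynomial.eval_X, zero_mul, add_zero] at hst
    have hst' : h u₁ u₁ * (s : F) ^ 2 + (h u₂ u₂ * (t : F) ^ 2 + h u₃ u₃) = 0 :=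
      congrArg Subtype.val hst
    have hσs : σ (s : F) = s := s.2
    have hσt : σ (t : F) = t := t.2
    refine ⟨(s : F) • u₁ + (t : F) • u₂ + u₃, ?_, ?_, ?_⟩
    · rw [map_add, map_add, D.smul, D.smul, hL₁, hL₂, hL₃, hσs, hσt]
    · intro h0
      have h3 := congrArg (fun w => h w u₃) h0
      simp only [S.add_left, S.smul_left, S.zero_left, S.zero_symm h₃₁, S.zero_symm h₃₂, mul_zero, zero_add] at h3
      exact h₃ h3
    · simp only [S.add_left, S.add_right, S.smul_left, S.smul_right, hσs, hσt, h₂₁, S.zero_symm h₂₁, h₃₁,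
        S.zero_symm h₃₁, h₃₂, S.zero_symm h₃₂, mul_zero, add_zero, zero_add]
      linear_combination hst'
  · obtain ⟨x, -, hx, hx0⟩ := exists_fixed_ne S hσ D h2 (stableND_top S L) Submodule.mem_top hv
    exact ⟨x, hx, hx0, D.self_zero S h2 hε hx⟩

/-- **Rigidity.** -/
theorem rigid (hV : 3 ≤ finrank F V) {τ : F ≃+* F} {M : V ≃+ V} (hM : IsSemiIso τ h M)
    (hz : ∀ x, L x = x → x ≠ 0 → h x x = 0 → ∃ c : F, M x = c • x) :
    (∀ a, σ a = a → τ a = a) ∧ ∃ a₀ : F, a₀ ≠ 0 ∧ ∀ x, L x = x → M x = a₀ • x := by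
  classical
  obtain ⟨x₀, hx₀, hx₀0, hx₀x₀⟩ := exists_iso_fixed S hσ D h2 hV
  have hT := stableND_top S L
  obtain ⟨z, -, hLz, hxz⟩ := exists_fixed_pair S hσ D h2 hT Submodule.mem_top hx₀0
  rcases D.eps with hε | hε
  · obtain ⟨y₀, hLy₀, hy₀y₀, hxy₀, -⟩ := exists_iso_adjust S hσ D h2 hx₀ hx₀x₀ hLz hxz rfl
    set c₀ : F := h x₀ z with hc₀
    have hσc₀ : σ c₀ = c₀ := by
      rw [hc₀, D.pair hx₀ hLz, hε, one_mul]
    have hyx₀ : h y₀ x₀ = c₀ := by
      rw [D.swap S hx₀ hLy₀, hxy₀, hε, one_mul]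
    obtain ⟨y, hyd⟩ : ∃ y : V, y = c₀⁻¹ • y₀ := ⟨_, rfl⟩
    have hLy : L y = y := by
      rw [hyd]
      exact D.fix_smul hLy₀ (by rw [map_inv₀, hσc₀])
    have H : IsHP h x₀ y := by
      refine ⟨hx₀x₀, ?_, ?_⟩
      · rw [hyd, S.smul_left, S.smul_right, hy₀y₀]
        ring
      · rw [hyd, S.smul_left, hyx₀]
        exact inv_mul_cancel₀ hxz
    have hxy := H.ef S
    have hx0 := H.ne_left S
    have hy0 := H.ne_right S
    obtain ⟨c_x, hcx⟩ := hz x₀ hx₀ hx0 H.ee
    obtain ⟨c_y, hcy⟩ := hz y hLy hy0 H.ff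
    have hcx0 : c_x ≠ 0 := by
      rintro rfl
      rw [zero_smul] at hcx
      exact hx0 ((map_eq_zero_iff M M.injective).1 hcx)
    have hcy0 : c_y ≠ 0 := by
      rintro rfl
      rw [zero_smul] at hcy
      exact hy0 ((map_eq_zero_iff M M.injective).1 hcy)
    have hscx : σ c_x ≠ 0 := by simpa using hcx0
    have hscy : σ c_y ≠ 0 := by simpa using hcy0
    have hkey : ∀ w ∈ perp2 S x₀ y, L w = w → ∀ a : F, σ a = a → a + σ a + h w w = 0 →
        M w = c_y • w ∧ c_y * a = τ a * c_x := by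
      intro w hw hLw a hσa ha
      have hwx : h w x₀ = 0 := hw.1
      have hwy : h w y = 0 := hw.2
      have hxw : h x₀ w = 0 := S.zero_symm hwx
      have hyw : h y w = 0 := S.zero_symm hwy
      set z := y + w + a • x₀ with hzd
      have hLz' : L z = z := by
        rw [hzd, map_add, map_add, D.smul, hLy, hLw, hx₀, hσa]
      have hzz : h z z = 0 := by
        simp only [hzd, S.add_left, S.add_right, S.smul_left, S.smul_right, H.ff, hyw, H.fe, hwy, hwx,
          hxy, hxw, H.ee]
        linear_combination ha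
      have hzx : h z x₀ = 1 := by
        simp only [hzd, S.add_left, S.smul_left, H.fe, hwx, H.ee]
        ring
      have hzy : h z y = a := by
        simp only [hzd, S.add_left, S.smul_left, H.ff, hwy, hxy]
        ring
      have hz0 : z ≠ 0 := by
        intro h0
        rw [h0, S.zero_left] at hzx
        exact zero_ne_one hzx
      obtain ⟨c, hc⟩ := hz z hLz' hz0 hzz
      have hMw1 : h (M w) x₀ = 0 := by
        have h1 := hM.form w x₀
        rw [hcx, S.smul_right, hwx, map_zero] at h1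
        exact (mul_eq_zero.1 h1).resolve_left hscx
      have hMw2 : h (M w) y = 0 := by
        have h1 := hM.form w y
        rw [hcy, S.smul_right, hwy, map_zero] at h1
        exact (mul_eq_zero.1 h1).resolve_left hscy
      have hexp : M z = c_y • y + M w + (τ a * c_x) • x₀ := by
        rw [hzd, map_add, map_add, hM.smul, hcx, hcy, smul_smul]
      have h1 := congrArg (fun v => h v x₀) hc
      simp only [S.smul_left, hzx, hexp, S.add_left, H.fe, hMw1, H.ee, mul_zero, add_zero, mul_one] at h1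
      have h2' := congrArg (fun v => h v y) hc
      simp only [S.smul_left, hzy, hexp, S.add_left, H.ff, hMw2, hxy, mul_zero, zero_add, mul_one] at h2'
      subst h1
      refine ⟨?_, h2'.symm⟩
      have h3 : M w = c_y • z - c_y • y - (τ a * c_x) • x₀ := by
        rw [← hc, hexp]
        abel
      rw [h3, hzd, h2']
      module
    have h12 : σ (1 / 2 : F) = 1 / 2 := by rw [map_div₀, map_one, map_ofNat]
    have hW : ∀ w ∈ perp2 S x₀ y, L w = w → M w = c_y • w := by
      intro w hw hLw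
      refine (hkey w hw hLw (-(1 / 2) * h w w) ?_ ?_).1
      · rw [map_mul, map_neg, h12, S.self_fix]
      · rw [map_mul, map_neg, h12, S.self_fix]
        field_simp
        ring
    have hpstable : StableND h L (perp2 S x₀ y) := by
      refine ⟨?_, ?_⟩
      · rintro v ⟨h3, h4⟩
        refine ⟨?_, ?_⟩
        · rw [D.form_right hx₀, h3, map_zero, mul_zero]
        · rw [D.form_right hLy, h4, map_zero, mul_zero]
      · intro v hv hvw
        exact perp2_nd S H v hv hvw
    have hpne : perp2 S x₀ y ≠ ⊥ := by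
      intro h0
      have h3 := finrank_perp2 S H
      rw [h0, finrank_bot] at h3
      omega
    obtain ⟨w₀, hw₀, hw₀0⟩ := Submodule.exists_mem_ne_zero_of_ne_bot hpne
    obtain ⟨u₀, hu₀, hLu₀, hu₀u₀⟩ := exists_fixed_noniso S hσ D h2 hpstable hε hw₀ hw₀0
    have hu₀0 : u₀ ≠ 0 := by
      rintro rfl
      exact hu₀u₀ (S.zero_left _)
    have hρ : ∀ a, σ a = a → τ a = a := by
      intro d hd
      have h1 := hW _ (Submodule.smul_mem _ d hu₀) (D.fix_smul hLu₀ hd)
      rw [hM.smul, hW u₀ hu₀ hLu₀, smul_smul, smul_smul] at h1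
      have h3 := smul_left_injective F hu₀0 h1
      have h4 : c_y * (τ d - d) = 0 := by linear_combination h3
      have h5 := (mul_eq_zero.1 h4).resolve_left hcy0
      linear_combination h5
    have hxy' : c_x = c_y := by
      have h1 := (hkey u₀ hu₀ hLu₀ (-(1 / 2) * h u₀ u₀) (by
        rw [map_mul, map_neg, h12, S.self_fix]) (by
        rw [map_mul, map_neg, h12, S.self_fix]
        field_simp
        ring)).2
      rw [hρ _ (by rw [map_mul, map_neg, h12, S.self_fix])] at h1
      have h3 : (-(1 / 2) * h u₀ u₀) * (c_x - c_y) = 0 := by linear_combination -h1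
      have h4 : -(1 / 2) * h u₀ u₀ ≠ 0 := mul_ne_zero (by
        simp only [ne_eq, neg_eq_zero, div_eq_zero_iff, one_ne_zero, false_or]
        exact h2) hu₀u₀
      have h5 := (mul_eq_zero.1 h3).resolve_left h4
      linear_combination h5
    refine ⟨hρ, c_y, hcy0, fun v hLv => ?_⟩
    have hdec : v = proj x₀ y v h + h v y • x₀ + h v x₀ • y := decomp (e := x₀) (f := y) (h := h) v
    have hσvy : σ (h v y) = h v y := by
      rw [D.pair hLv hLy, hε, one_mul]
    have hσvx : σ (h v x₀) = h v x₀ := by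
      rw [D.pair hLv hx₀, hε, one_mul]
    have hLp : L (proj x₀ y v h) = proj x₀ y v h := by
      simp only [proj, map_sub, D.smul, hLv, hx₀, hLy, hσvy, hσvx]
    conv_lhs => rw [hdec]
    rw [map_add, map_add, hM.smul, hM.smul, hW _ (proj_mem S H v) hLp, hρ _ hσvy, hρ _ hσvx, hcx, hcy, hxy']
    conv_rhs => rw [hdec]
    simp only [smul_add, smul_comm c_y]
  · have hiso : ∀ {v : V}, L v = v → h v v = 0 := fun hv => D.self_zero S h2 hε hv
    have key1 : ∀ {v w : V} {c d : F}, L v = v → L w = w → v ≠ 0 → w ∉ Submodule.span F {v} →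
        M v = c • v → M w = d • w → c = d := by
      intro v w c d hv hw hv0 hn hc hd
      have hvw0 : v + w ≠ 0 := by
        intro h0
        apply hn
        rw [Submodule.mem_span_singleton]
        exact ⟨-1, by rw [neg_smul, one_smul]; exact (eq_neg_of_add_eq_zero_right h0).symm⟩
      have hLvw : L (v + w) = v + w := by rw [map_add, hv, hw]
      obtain ⟨e, he⟩ := hz _ hLvw hvw0 (hiso hLvw)
      rw [map_add, hc, hd, smul_add] at he
      have h3 : (d - e) • w = (e - c) • v := by
        linear_combination (norm := module) he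
      have hde : d = e := by
        by_contra hne
        apply hn
        rw [Submodule.mem_span_singleton]
        refine ⟨(e - c) / (d - e), ?_⟩
        have h4 : d - e ≠ 0 := sub_ne_zero.2 hne
        rw [div_eq_inv_mul, mul_smul, ← h3, smul_smul, inv_mul_cancel₀ h4, one_smul]
      rw [hde, sub_self, zero_smul] at h3
      have h5 := (smul_eq_zero.1 h3.symm).resolve_right hv0
      rw [hde]
      exact (sub_eq_zero.1 h5).symm
    have hz0 : z ≠ 0 := by
      rintro rfl
      exact hxz (S.zero_right _)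
    have hzn : z ∉ Submodule.span F {x₀} := by
      intro hm
      obtain ⟨c, rfl⟩ := Submodule.mem_span_singleton.1 hm
      apply hxz
      rw [S.smul_right, hx₀x₀, mul_zero]
    obtain ⟨c₀, hc₀⟩ := hz x₀ hx₀ hx₀0 hx₀x₀
    obtain ⟨d₀, hd₀⟩ := hz z hLz hz0 (hiso hLz)
    have hcd : c₀ = d₀ := key1 hx₀ hLz hx₀0 hzn hc₀ hd₀
    have hc₀0 : c₀ ≠ 0 := by
      rintro rfl
      rw [zero_smul] at hc₀
      exact hx₀0 ((map_eq_zero_iff M M.injective).1 hc₀)
    have hall : ∀ v, L v = v → M v = c₀ • v := by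
      intro v hLv
      by_cases hv0 : v = 0
      · subst hv0
        simp
      obtain ⟨c, hc⟩ := hz v hLv hv0 (hiso hLv)
      by_cases hvn : v ∈ Submodule.span F {x₀}
      · have hvn' : v ∉ Submodule.span F {z} := by
          intro hm
          apply hzn
          obtain ⟨a, rfl⟩ := Submodule.mem_span_singleton.1 hm
          obtain ⟨b, hb⟩ := Submodule.mem_span_singleton.1 hvn
          have ha : a ≠ 0 := by
            rintro rfl
            exact hv0 (zero_smul _ _)
          rw [Submodule.mem_span_singleton]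
          refine ⟨a⁻¹ * b, ?_⟩
          rw [mul_smul, hb, smul_smul, inv_mul_cancel₀ ha, one_smul]
        rw [hc, ← key1 hLz hLv hz0 hvn' hd₀ hc, hcd]
      · rw [hc, ← key1 hx₀ hLv hx₀0 hvn hc₀ hc]
    refine ⟨?_, c₀, hc₀0, hall⟩
    intro a ha
    have h3 := hall _ (D.fix_smul hx₀ ha)
    rw [hM.smul, hc₀, smul_smul, smul_smul] at h3
    have h4 := smul_left_injective F hx₀0 h3
    have h5 : c₀ * (τ a - a) = 0 := by linear_combination h4
    have h6 := (mul_eq_zero.1 h5).resolve_left hc₀0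
    linear_combination h6

/-- **Rigidity**, final form. -/
theorem rigid_final (hV : 3 ≤ finrank F V) {τ : F ≃+* F} {M : V ≃+ V} (hM : IsSemiIso τ h M)
    (hz : ∀ x, L x = x → x ≠ 0 → h x x = 0 → ∃ c : F, M x = c • x) :
    ∃ a₀ : F, a₀ ≠ 0 ∧ ((∀ v, M v = a₀ • v) ∨ (∀ v, M v = a₀ • L v)) := by
  obtain ⟨hρ, a₀, ha₀, hM₀⟩ := rigid S hσ D h2 hV hM hz
  refine ⟨a₀, ha₀, ?_⟩
  obtain ⟨d, hd0, hd⟩ := hσ.exists_pure
  have hσd : σ d = -d := by linear_combination hd
  have hτd2 : τ d * τ d = d * d := by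
    rw [← map_mul]
    exact hρ _ (by rw [map_mul, hσd]; ring)
  have h12 : σ (1 / 2 : F) = 1 / 2 := by rw [map_div₀, map_one, map_ofNat]
  have hτ12 : τ (1 / 2 : F) = 1 / 2 := hρ _ h12
  have hdec : ∀ v : V, v = (1 / 2 : F) • (v + L v) + (1 / (2 * d)) • (d • (v - L v)) := by
    intro v
    rw [smul_smul]
    have h3 : 1 / (2 * d) * d = 1 / 2 := by
      field_simp
    rw [h3, ← smul_add]
    have h4 : v + L v + (v - L v) = (2 : F) • v := by module
    rw [h4, smul_smul]
    have h5 : (1 / 2 : F) * 2 = 1 := by field_simp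
    rw [h5, one_smul]
  have hMv : ∀ v : V, M v = a₀ • ((1 / 2 : F) • (v + L v) + τ (1 / (2 * d)) • (d • (v - L v))) := by
    intro v
    conv_lhs => rw [hdec v]
    rw [map_add, hM.smul, hM.smul, hτ12, hM₀ _ (D.fix_add v), hM₀ _ (D.fix_sub hd v)]
    module
  have hcases : τ d = d ∨ τ d = -d := by
    have h3 : (τ d - d) * (τ d + d) = 0 := by linear_combination hτd2
    rcases mul_eq_zero.1 h3 with h4 | h4
    · exact Or.inl (sub_eq_zero.1 h4)
    · exact Or.inr (by linear_combination h4)
  have h2ne : τ 2 = 2 := map_ofNat τ 2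
  rcases hcases with hc | hc
  · left
    intro v
    rw [hMv, map_div₀, map_one, map_mul, hc, h2ne, ← hdec]
  · right
    intro v
    rw [hMv, map_div₀, map_one, map_mul, hc, h2ne]
    congr 1
    rw [smul_smul]
    have h3 : 1 / (2 * -d) * d = -(1 / 2) := by
      field_simp
    rw [h3]
    have h4 : L v = (1 / 2 : F) • (v + L v) + (-(1 / 2 : F)) • (v - L v) := by
      have h5 : (1 / 2 : F) • (v + L v) + (-(1 / 2 : F)) • (v - L v) = ((1 / 2 : F) * 2) • L v := by
        module
      rw [h5]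
      have h6 : (1 / 2 : F) * 2 = 1 := by field_simp
      rw [h6, one_smul]
    exact h4.symm

end rigid

end Cfsg.Agent.Lib.AutCl.InvGeo
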