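/-
Field automorphisms of odd order of `PSU_n(q)`: Lang-Steinberg, centralisers, class counts.
-/
import Mathlib
import Cfsg.Agent.Lib.AutCl.PSUGroup
import Cfsg.Agent.Lib.KS71.PSLClassConj

set_option autoImplicit false
set_option linter.unusedSimpArgs false
set_option linter.unusedSectionVars false
set_option linter.style.haveILetI false
set_option linter.unusedVariables false

namespace Cfsg.Agent.Lib.AutCl.PSUField

open Module Matrix MulAction
open Cfsg.Agent.Lib.AutCl.HermSemi Cfsg.Agent.Lib.AutCl.PSUAut Cfsg.Agent.Lib.AutCl.PSUCount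
open Cfsg.Agent.Lib.AutCl.PSUGroup
open Cfsg.Agent.Lib.Classical.HermBridge
open Cfsg.Agent.Lib.HermCount.Field
open Cfsg.Agent.Lib.KS71.Speiser
open Cfsg.Agent.Lib.KS71.PSLAutGroup (mapGL coe_mapGL mapGL_mul mapGL_inv map_mul_map invTrGL coe_invTrGL)
open Cfsg.Agent.Lib.KS71.PSLTwist (sc coe_sc sc_mul sc_central mapGL_sc mapGL_mapGL mapGL_one twN twN_zero
  twN_succ twN_succ' twN_sc cocycle herm_eq)
open Cfsg.Agent.Lib.KS71.PSLCent (dt coe_dt dg coe_dg dt_dg dt_sc dt_mapGL mapGL_dg exists_fix order_dvd)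
open scoped MatrixGroups

universe u

variable {F : Type u} [Field F] [Fintype F]

/-- The field-theoretic facts for an automorphism of odd order. -/
structure OddField (σ : F ≃+* F) (q q₀ r : ℕ) : Prop where
  hF : Fintype.card F = q ^ 2
  hr : orderOf σ = r
  hr0 : 0 < r
  exists_S : ∃ S : Subfield F, (∀ x, x ∈ S ↔ σ x = x) ∧ Nat.card S = q₀ ^ 2
  pow_fix : ∀ z, σ z = z → z ^ q = z ^ q₀

theorem r_dvd {p f r : ℕ} [Fact p.Prime] (hF2 : Fintype.card F = p ^ (f * 2)) (hf : 1 ≤ f) (σ : F ≃+* F)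
    (hr : orderOf σ = r) (hro : Odd r) : r ∣ f := by
  have h := order_dvd hF2 (by omega) σ
  rw [hr] at h
  exact Nat.Coprime.dvd_of_dvd_mul_right (Nat.coprime_two_right.2 hro) h

theorem mk_oddField {q p f r : ℕ} [Fact p.Prime] (hF : Fintype.card F = q ^ 2) (hq : q = p ^ f) (hf : 1 ≤ f)
    (σ : F ≃+* F) (hr : orderOf σ = r) (hro : Odd r) : OddField σ q (p ^ (f / r)) r := by
  have hF2 : Fintype.card F = p ^ (f * 2) := by rw [hF, hq, pow_mul]
  have hdvd := r_dvd hF2 hf σ hr hro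
  have hr0 : 0 < r := hro.pos
  have hfr : f / r * r = f := Nat.div_mul_cancel hdvd
  have hex : ∃ S : Subfield F, (∀ x, x ∈ S ↔ σ x = x) ∧ Nat.card S = (p ^ (f / r)) ^ 2 := by
    obtain ⟨S, hS, hc⟩ := exists_fix hF2 σ
    refine ⟨S, hS, ?_⟩
    rw [hc, hr, ← pow_mul]
    congr 1
    obtain ⟨d, rfl⟩ := hdvd
    rw [Nat.mul_assoc, Nat.mul_div_cancel_left _ hr0, Nat.mul_div_cancel_left _ hr0]
  refine ⟨hF, hr, hr0, hex, fun z hz => ?_⟩
  obtain ⟨S, hS, hc⟩ := hex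
  letI : Fintype S := Fintype.ofFinite S
  have hS2 : Fintype.card S = (p ^ (f / r)) ^ 2 := by rw [← Nat.card_eq_fintype_card, hc]
  obtain ⟨m, hm⟩ := hro
  have hqq : q = p ^ (f / r) * ((p ^ (f / r)) ^ 2) ^ m := by
    rw [← pow_mul, ← pow_succ', hq, ← pow_mul]
    congr 1
    rw [show 2 * m + 1 = r by omega]
    exact hfr.symm
  have hpow : ∀ (y : S) (k : ℕ), y ^ (((p ^ (f / r)) ^ 2) ^ k) = y := by
    intro y k
    rw [← hS2]
    exact FiniteField.pow_card_pow k y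
  have hzS : z ∈ S := (hS z).2 hz
  have h1 := hpow (⟨z, hzS⟩ ^ (p ^ (f / r))) m
  have h2 := congrArg Subtype.val h1
  simp only [SubmonoidClass.coe_pow] at h2
  rw [hqq, pow_mul]
  exact h2

section oddfield

variable {σ : F ≃+* F} {q q₀ r : ℕ} (H : OddField σ q q₀ r)

include H

theorem OddField.hσr : σ ^ r = 1 := by
  rw [← H.hr]
  exact pow_orderOf_eq_one σ

/-- Norms from the fixed field. -/
theorem fix_norm {w : F} (hw : σ w = w) (hw0 : w ≠ 0) (hwq : w ^ q = w) :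
    ∃ e : F, e ≠ 0 ∧ σ e = e ∧ e ^ (q + 1) = w := by
  obtain ⟨S, hS, hc⟩ := H.exists_S
  letI : Fintype S := Fintype.ofFinite S
  have hS2 : Fintype.card S = q₀ ^ 2 := by rw [← Nat.card_eq_fintype_card, hc]
  let w' : S := ⟨w, (hS w).2 hw⟩
  have hw' : w' ^ q₀ = w' := Subtype.ext (by
    show w ^ q₀ = w
    rw [← H.pow_fix w hw, hwq])
  have hw'0 : w' ≠ 0 := fun h => hw0 (congrArg Subtype.val h)
  have hcard := card_norm_fiber hS2 w' hw' hw'0
  have hpos : 0 < Nat.card {a : S // a ^ (q₀ + 1) = w'} := by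
    rw [hcard]
    omega
  obtain ⟨⟨a, ha⟩⟩ := (Nat.card_pos_iff.mp hpos).1
  have hae : ((a : S) : F) ^ (q₀ + 1) = w := congrArg Subtype.val ha
  have hfa : σ (a : F) = a := (hS _).1 a.2
  refine ⟨a, ?_, hfa, ?_⟩
  · intro h0
    rw [h0, zero_pow (by omega)] at hae
    exact hw0 hae.symm
  · rw [pow_succ, H.pow_fix _ hfa, ← pow_succ]
    exact hae

/-- Hilbert 90 for the norm one group. -/
theorem h90_U1 {ζ : F} (hζ : ζ ^ (q + 1) = 1) (hN : nrm σ r ζ = 1) :
    ∃ b : F, b ≠ 0 ∧ b ^ (q + 1) = 1 ∧ ζ * σ b = b := by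
  obtain ⟨c, hc0, hc⟩ := hilbert90 σ H.hr H.hr0 ζ hN
  have hF := H.hF
  have hw : σ (c ^ (q + 1)) = c ^ (q + 1) := by
    rw [map_pow]
    conv_rhs => rw [← hc, mul_pow, hζ, one_mul]
  have hw0 : c ^ (q + 1) ≠ 0 := pow_ne_zero _ hc0
  have hwq : (c ^ (q + 1)) ^ q = c ^ (q + 1) := by
    have h1 : c ^ (q ^ 2) = c := by
      rw [← hF]
      exact FiniteField.pow_card c
    rw [← pow_mul, add_mul, one_mul, pow_add, ← pow_two, h1, pow_succ, mul_comm]
  obtain ⟨e, he0, hfe, he⟩ := fix_norm H hw hw0 hwq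
  refine ⟨c / e, div_ne_zero hc0 he0, ?_, ?_⟩
  · rw [div_pow, he, div_self hw0]
  · rw [map_div₀, hfe, ← mul_div_assoc, hc]

end oddfield

/-- A counting argument for two endomorphisms. -/
theorem range_eq_ker {G : Type*} [CommGroup G] [Finite G] (N D : G →* G) (h1 : N.ker = D.range)
    (h2 : N.range ≤ D.ker) : N.range = D.ker := by
  have hcard : Nat.card N.range = Nat.card D.ker := by
    have h3 := Subgroup.card_mul_index N.ker
    have h4 := Subgroup.card_mul_index D.ker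
    rw [Subgroup.index_ker] at h3 h4
    rw [h1] at h3
    have hpos : 0 < Nat.card D.range := Nat.card_pos
    have h5 : Nat.card D.range * Nat.card N.range = Nat.card D.range * Nat.card D.ker := by
      rw [h3, ← h4, mul_comm]
    exact Nat.eq_of_mul_eq_mul_left hpos h5
  exact Subgroup.eq_of_le_of_card_ge h2 (by rw [hcard])

section oddfield2

variable {σ : F ≃+* F} {q q₀ r : ℕ} (H : OddField σ q q₀ r)

include H

/-- The twisted norm on the norm one group maps onto the fixed points. -/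
theorem nrm_U1_surj {ζ : F} (hζ : ζ ^ (q + 1) = 1) (hfix : σ ζ = ζ) :
    ∃ u : F, u ≠ 0 ∧ u ^ (q + 1) = 1 ∧ nrm σ r u = ζ := by
  classical
  have hσr := H.hσr
  have hnrm_pow : ∀ a : F, nrm σ r a ^ (q + 1) = nrm σ r (a ^ (q + 1)) := by
    intro a
    unfold nrm
    rw [← Finset.prod_pow]
    refine Finset.prod_congr rfl fun i _ => ?_
    rw [map_pow]
  have hmem : ∀ (z : U1 F q), ((z : Fˣ) : F) ^ (q + 1) = 1 := fun z => (mem_U1).1 z.2
  have hone : nrm σ r (1 : F) = 1 := by simp [nrm]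
  let N : U1 F q →* U1 F q :=
    { toFun := fun z => ⟨Units.mk0 (nrm σ r ((z : Fˣ) : F)) (nrm_ne_zero σ r (z : Fˣ).ne_zero), (mem_U1).2 (by
        show nrm σ r ((z : Fˣ) : F) ^ (q + 1) = 1
        rw [hnrm_pow, hmem, hone])⟩
      map_one' := by
        apply Subtype.ext
        apply Units.ext
        exact hone
      map_mul' := fun x y => by
        apply Subtype.ext
        apply Units.ext
        exact nrm_mul σ r _ _ }
  have hN : ∀ z, (((N z : U1 F q) : Fˣ) : F) = nrm σ r ((z : Fˣ) : F) := fun z => rfl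
  have hmemσ : ∀ z : U1 F q, Units.mk0 (σ ((z : Fˣ) : F))⁻¹ (inv_ne_zero ((map_ne_zero σ).2 (z : Fˣ).ne_zero)) ∈ U1 F q := by
    intro z
    rw [mem_U1]
    show (σ ((z : Fˣ) : F))⁻¹ ^ (q + 1) = 1
    rw [inv_pow, ← map_pow, hmem, map_one, inv_one]
  let D : U1 F q →* U1 F q :=
    { toFun := fun z => z * ⟨Units.mk0 (σ ((z : Fˣ) : F))⁻¹ (inv_ne_zero ((map_ne_zero σ).2 (z : Fˣ).ne_zero)), hmemσ z⟩
      map_one' := by
        apply Subtype.ext
        apply Units.ext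
        show (1 : F) * (σ (1 : F))⁻¹ = 1
        simp
      map_mul' := fun x y => by
        apply Subtype.ext
        apply Units.ext
        show (((x : Fˣ) : F) * ((y : Fˣ) : F)) * (σ (((x : Fˣ) : F) * ((y : Fˣ) : F)))⁻¹ =
          (((x : Fˣ) : F) * (σ ((x : Fˣ) : F))⁻¹) * (((y : Fˣ) : F) * (σ ((y : Fˣ) : F))⁻¹)
        rw [map_mul, mul_inv]
        ring }
  have hD : ∀ z, (((D z : U1 F q) : Fˣ) : F) = ((z : Fˣ) : F) * (σ ((z : Fˣ) : F))⁻¹ := fun z => rfl
  have h1 : N.ker = D.range := by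
    ext a
    constructor
    · intro ha
      have ha' : nrm σ r ((a : Fˣ) : F) = 1 := by
        have h3 : N a = 1 := ha
        rw [← hN, h3]
        rfl
      obtain ⟨b, hb0, hb1, hb⟩ := h90_U1 H (hmem a) ha'
      refine ⟨⟨Units.mk0 b hb0, (mem_U1).2 hb1⟩, ?_⟩
      apply Subtype.ext
      apply Units.ext
      rw [hD]
      show b * (σ b)⁻¹ = _
      have hsb : σ b ≠ 0 := (map_ne_zero σ).2 hb0
      calc b * (σ b)⁻¹ = (((a : Fˣ) : F) * σ b) * (σ b)⁻¹ := by rw [hb]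
        _ = _ := by rw [mul_assoc, mul_inv_cancel₀ hsb, mul_one]
    · rintro ⟨c, rfl⟩
      rw [MonoidHom.mem_ker]
      apply Subtype.ext
      apply Units.ext
      rw [hN, hD]
      have hc0 : ((c : Fˣ) : F) ≠ 0 := (c : Fˣ).ne_zero
      have hsc : σ ((c : Fˣ) : F) ≠ 0 := (map_ne_zero σ).2 hc0
      have h3 := nrm_map σ hσr ((c : Fˣ) : F)
      have h5 : nrm σ r (((c : Fˣ) : F) * (σ ((c : Fˣ) : F))⁻¹) * nrm σ r (σ ((c : Fˣ) : F)) =
          nrm σ r (σ ((c : Fˣ) : F)) := by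
        rw [← nrm_mul, mul_assoc, inv_mul_cancel₀ hsc, mul_one, h3]
      exact (mul_eq_right₀ (nrm_ne_zero σ r hsc)).1 h5
  have h2 : N.range ≤ D.ker := by
    rintro _ ⟨c, rfl⟩
    rw [MonoidHom.mem_ker]
    apply Subtype.ext
    apply Units.ext
    rw [hD, hN]
    show _ = (1 : F)
    rw [map_nrm σ hσr]
    exact mul_inv_cancel₀ (nrm_ne_zero σ r (c : Fˣ).ne_zero)
  have heq := range_eq_ker N D h1 h2
  have hζ0 : ζ ≠ 0 := by
    rintro rfl
    rw [zero_pow (by omega)] at hζ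
    exact zero_ne_one hζ
  have hz : (⟨Units.mk0 ζ hζ0, (mem_U1).2 hζ⟩ : U1 F q) ∈ D.ker := by
    rw [MonoidHom.mem_ker]
    apply Subtype.ext
    apply Units.ext
    rw [hD]
    show ζ * (σ ζ)⁻¹ = 1
    rw [hfix]
    exact mul_inv_cancel₀ hζ0
  rw [← heq] at hz
  obtain ⟨u, hu⟩ := hz
  refine ⟨((u : Fˣ) : F), (u : Fˣ).ne_zero, hmem u, ?_⟩
  have := congrArg (fun z : U1 F q => ((z : Fˣ) : F)) hu
  exact this

end oddfield2

/-! ### Lang-Steinberg -/

section lift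

variable {σ : F ≃+* F} {q q₀ r : ℕ} (H : OddField σ q q₀ r) (n : ℕ)

include H

/-- The coboundary may be taken in the unitary group. -/
theorem lift_GU {g k₁ : GL (Fin n) F} (hg : g ∈ Cfsg.GU n F q) (hk : g * mapGL σ k₁ = k₁) :
    ∃ k : GL (Fin n) F, k ∈ Cfsg.GU n F q ∧ g * mapGL σ k = k := by
  classical
  have hF := H.hF
  obtain ⟨S, hS, hc⟩ := H.exists_S
  letI : Fintype S := Fintype.ofFinite S
  have hS2 : Fintype.card S = q₀ ^ 2 := by rw [← Nat.card_eq_fintype_card, hc]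
  let φ : F →+* F := frobHom hF
  have hφ : ∀ x, φ x = x ^ q := fun x => frobHom_apply hF x
  have hφ2 : ∀ x, φ (φ x) = x := (invol_frob hF).invol
  have hσφ : ∀ x, σ (φ x) = φ (σ x) := fun x => by rw [hφ, hφ, map_pow]
  have hgU := (Cfsg.Agent.Lib.KS71.GUBasic.mem_GU_iff_mat φ hφ g).1 hg
  -- the form matrix
  let K₁ : Matrix (Fin n) (Fin n) F := (k₁ : Matrix (Fin n) (Fin n) F)
  let A : Matrix (Fin n) (Fin n) F := K₁ᵀ * K₁.map φ
  have hkK : (g : Matrix (Fin n) (Fin n) F) * K₁.map σ = K₁ := congrArg Units.val hk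
  have hmapφ : ∀ X Y : Matrix (Fin n) (Fin n) F, (X * Y).map φ = X.map φ * Y.map φ := fun X Y => Matrix.map_mul
  have hAσ : A.map σ = A := by
    have e1 : A.map σ = (K₁.map σ)ᵀ * (K₁.map σ).map φ := by
      show (K₁ᵀ * K₁.map φ).map σ = _
      rw [map_mul_map]
      congr 1
      refine Matrix.ext fun i j => ?_
      exact hσφ _
    rw [e1]
    show _ = K₁ᵀ * K₁.map φ
    conv_rhs => rw [← hkK]
    rw [Matrix.transpose_mul, hmapφ]
    calc (K₁.map σ)ᵀ * (K₁.map σ).map φ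
        = (K₁.map σ)ᵀ * ((g : Matrix (Fin n) (Fin n) F)ᵀ * (g : Matrix (Fin n) (Fin n) F).map φ) * (K₁.map σ).map φ := by
          rw [hgU, Matrix.mul_one]
      _ = _ := by simp only [Matrix.mul_assoc]
  have hAφ : A.map φ = Aᵀ := by
    show (K₁ᵀ * K₁.map φ).map φ = (K₁ᵀ * K₁.map φ)ᵀ
    rw [hmapφ, Matrix.transpose_mul, Matrix.transpose_transpose]
    congr 1
    refine Matrix.ext fun i j => ?_
    exact hφ2 _
  have hent : ∀ i j, A i j ∈ S := fun i j => (hS _).2 (congrFun (congrFun hAσ i) j)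
  let A₀ : Matrix (Fin n) (Fin n) S := Matrix.of fun i j => ⟨A i j, hent i j⟩
  have hA₀ : A₀.map S.subtype = A := by
    refine Matrix.ext fun i j => ?_
    rfl
  have hdetA : A.det ≠ 0 := by
    have hK : K₁.det ≠ 0 := (Matrix.GeneralLinearGroup.det k₁).ne_zero
    have e : A.det = K₁.det * φ K₁.det := by
      show (K₁ᵀ * K₁.map φ).det = _
      rw [Matrix.det_mul, Matrix.det_transpose]
      congr 1
      exact (RingHom.map_det φ K₁).symm
    rw [e]
    exact mul_ne_zero hK (by simpa using hK)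
  have hdet₀ : A₀.det ≠ 0 := by
    intro h0
    have h1 : S.subtype A₀.det = (A₀.map S.subtype).det := RingHom.map_det S.subtype A₀
    rw [h0, map_zero, hA₀] at h1
    exact hdetA h1.symm
  -- the involution of the fixed field
  have hinjφ : Function.Injective (frobHom hS2) := (frobHom hS2).injective
  let φS : S ≃+* S := RingEquiv.ofBijective (frobHom hS2) ⟨hinjφ, Finite.surjective_of_injective hinjφ⟩
  have hφS : ∀ x : S, φS x = x ^ q₀ := fun x => frobHom_apply hS2 x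
  have hφS2 : ∀ x : S, φS (φS x) = x := (invol_frob hS2).invol
  have hφSv : ∀ x : S, ((φS x : S) : F) = φ (x : F) := by
    intro x
    rw [hφS, hφ, SubmonoidClass.coe_pow, H.pow_fix _ ((hS _).1 x.2)]
  let A₀G : GL (Fin n) S := Matrix.GeneralLinearGroup.mkOfDetNeZero A₀ hdet₀
  have hherm : (A₀G : Matrix (Fin n) (Fin n) S) = ((A₀G : Matrix (Fin n) (Fin n) S).map φS)ᵀ := by
    refine Matrix.ext fun i j => ?_
    apply Subtype.ext
    show A i j = ((φS (A₀ j i) : S) : F)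
    rw [hφSv]
    have := congrFun (congrFun hAφ j) i
    exact this.symm
  obtain ⟨K₀, hK₀⟩ := herm_eq hS2 φS hφS hφS2 A₀G hherm
  -- back to `F`
  let KG : GL (Fin n) F := Matrix.GeneralLinearGroup.map S.subtype K₀
  have hKG : (KG : Matrix (Fin n) (Fin n) F) = (K₀ : Matrix (Fin n) (Fin n) S).map S.subtype := rfl
  have hKGinv : ((KG⁻¹ : GL (Fin n) F) : Matrix (Fin n) (Fin n) F) =
      ((K₀⁻¹ : GL (Fin n) S) : Matrix (Fin n) (Fin n) S).map S.subtype := by
    have : KG⁻¹ = Matrix.GeneralLinearGroup.map S.subtype K₀⁻¹ := (map_inv _ K₀).symm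
    rw [this]
    rfl
  have hAK : A = (KG : Matrix (Fin n) (Fin n) F) * ((KG : Matrix (Fin n) (Fin n) F).map φ)ᵀ := by
    have h1 := congrArg (fun M : Matrix (Fin n) (Fin n) S => M.map S.subtype) hK₀
    beta_reduce at h1
    have h2 : (A₀G : Matrix (Fin n) (Fin n) S).map S.subtype = A := hA₀
    rw [h2] at h1
    rw [h1, Matrix.map_mul, hKG]
    congr 1
    refine Matrix.ext fun i j => ?_
    show ((φS ((K₀ : Matrix (Fin n) (Fin n) S) j i) : S) : F) = φ (((K₀ : Matrix (Fin n) (Fin n) S) j i : S) : F)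
    exact hφSv _
  let HG : GL (Fin n) F := invTrGL KG
  have hHG : (HG : Matrix (Fin n) (Fin n) F) = ((KG⁻¹ : GL (Fin n) F) : Matrix (Fin n) (Fin n) F)ᵀ := coe_invTrGL KG
  have hHσ : mapGL σ HG = HG := by
    apply Units.ext
    rw [coe_mapGL, hHG, hKGinv]
    refine Matrix.ext fun i j => ?_
    exact (hS _).1 (((K₀⁻¹ : GL (Fin n) S) : Matrix (Fin n) (Fin n) S) j i).2
  refine ⟨k₁ * HG, ?_, ?_⟩
  · rw [Cfsg.Agent.Lib.KS71.GUBasic.mem_GU_iff_mat φ hφ, Units.val_mul, Matrix.transpose_mul, hmapφ]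
    have hKinv : ((KG⁻¹ : GL (Fin n) F) : Matrix (Fin n) (Fin n) F) * (KG : Matrix (Fin n) (Fin n) F) = 1 := by
      rw [← Units.val_mul, inv_mul_cancel]
      rfl
    have hKinv2 : (KG : Matrix (Fin n) (Fin n) F) * ((KG⁻¹ : GL (Fin n) F) : Matrix (Fin n) (Fin n) F) = 1 := by
      rw [← Units.val_mul, mul_inv_cancel]
      rfl
    calc (HG : Matrix (Fin n) (Fin n) F)ᵀ * (k₁ : Matrix (Fin n) (Fin n) F)ᵀ *
          ((k₁ : Matrix (Fin n) (Fin n) F).map φ * (HG : Matrix (Fin n) (Fin n) F).map φ)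
        = (HG : Matrix (Fin n) (Fin n) F)ᵀ * A * (HG : Matrix (Fin n) (Fin n) F).map φ := by
          simp only [Matrix.mul_assoc, A, K₁]
      _ = ((KG⁻¹ : GL (Fin n) F) : Matrix (Fin n) (Fin n) F) * ((KG : Matrix (Fin n) (Fin n) F) *
            ((KG : Matrix (Fin n) (Fin n) F).map φ)ᵀ) *
            (((KG⁻¹ : GL (Fin n) F) : Matrix (Fin n) (Fin n) F)ᵀ).map φ := by
          rw [hHG, Matrix.transpose_transpose, ← hAK]
      _ = ((KG : Matrix (Fin n) (Fin n) F).map φ)ᵀ * (((KG⁻¹ : GL (Fin n) F) : Matrix (Fin n) (Fin n) F)ᵀ).map φ := by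
          rw [← Matrix.mul_assoc, hKinv, Matrix.one_mul]
      _ = ((((KG⁻¹ : GL (Fin n) F) : Matrix (Fin n) (Fin n) F) * (KG : Matrix (Fin n) (Fin n) F)).map φ)ᵀ := by
          rw [hmapφ, Matrix.transpose_mul, Matrix.transpose_map]
      _ = 1 := by
          rw [hKinv, Matrix.map_one _ (map_zero φ) (map_one φ), Matrix.transpose_one]
  · rw [mapGL_mul, hHσ, ← mul_assoc, hk]

end lift

/-! ### Powers of semilinear automorphisms -/

section powers

variable {q : ℕ} (hF : Fintype.card F = q ^ 2) (n : ℕ)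

include hF

theorem Th_eq_of {g₁ g₂ : GL (Fin n) F} {τ₁ τ₂ : F ≃+* F} (h₁ : g₁ ∈ Cfsg.GU n F q) (h₂ : g₂ ∈ Cfsg.GU n F q)
    (h3 : g₁ = g₂) (h4 : τ₁ = τ₂) : Th hF n g₁ h₁ τ₁ = Th hF n g₂ h₂ τ₂ := by
  subst h3
  subst h4
  rfl

theorem twN_mem (σ : F ≃+* F) {g : GL (Fin n) F} (hg : g ∈ Cfsg.GU n F q) (k : ℕ) :
    twN σ g k ∈ Cfsg.GU n F q := by
  induction k with
  | zero => exact one_mem _
  | succ k ih =>
    rw [twN_succ]
    exact mul_mem hg (mapGL_mem hF n ih σ)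

theorem Th_pow (σ : F ≃+* F) {g : GL (Fin n) F} (hg : g ∈ Cfsg.GU n F q) (k : ℕ) :
    (Th hF n g hg σ) ^ k = Th hF n (twN σ g k) (twN_mem hF n σ hg k) (σ ^ k) := by
  induction k with
  | zero =>
    rw [pow_zero]
    exact (Th_one hF n).symm
  | succ k ih =>
    rw [pow_succ', ih, Th_mul]
    exact Th_eq_of hF n _ _ rfl (pow_succ' σ k).symm

/-- Standard field automorphisms. -/
theorem eq_Th_of_isField {σ : F ≃+* F} {φ : MulAut (Cfsg.PSU n F q)} (h : Cfsg.IsFieldAutPSUOf σ φ) :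
    φ = Th hF n 1 (one_mem _) σ := by
  ext1 x
  obtain ⟨s, rfl⟩ := QuotientGroup.mk_surjective x
  obtain ⟨s₁, hs₁⟩ := exists_conj hF n (one_mem (Cfsg.GU n F q)) σ s
  rw [Th_mk hF n (one_mem _) σ s s₁ hs₁]
  refine h s s₁ ?_
  rw [hs₁, one_conj_eq hF]

/-- The standard field automorphisms as a homomorphism. -/
noncomputable def fieldHom : (F ≃+* F) →* MulAut (Cfsg.PSU n F q) where
  toFun σ := Th hF n 1 (one_mem _) σ
  map_one' := Th_one hF n
  map_mul' σ τ := by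
    rw [Th_mul]
    refine Th_eq_of hF n _ _ ?_ rfl
    have : mapGL σ (1 : GL (Fin n) F) = 1 := map_one _
    rw [this, mul_one]

theorem orderOf_field (hn : 3 ≤ n) (σ : F ≃+* F) :
    orderOf (Th hF n 1 (one_mem (Cfsg.GU n F q)) σ) = orderOf σ := by
  have hinj : Function.Injective (fieldHom hF n) := by
    intro σ τ h
    exact (Th_eq_imp hF n hn (one_mem _) (one_mem _) h).1.symm
  exact orderOf_injective (fieldHom hF n) hinj σ

/-- Conjugating field automorphisms. -/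
theorem Th_field_conj (σ : F ≃+* F) (k : Cfsg.GU n F q) :
    Th hF n 1 (one_mem _) σ * piG hF n k =
      piG hF n ⟨mapGL σ k.1, mapGL_mem hF n k.2 σ⟩ * Th hF n 1 (one_mem _) σ := by
  rw [piG_apply, piG_apply, Th_mul, Th_mul]
  refine Th_eq_of hF n _ _ ?_ ?_
  · have : mapGL (RingEquiv.refl F) (1 : GL (Fin n) F) = 1 := map_one _
    rw [this, mul_one, one_mul]
  · ext a
    rfl

end powers

section core

variable {σ : F ≃+* F} {q q₀ r : ℕ} (H : OddField σ q q₀ r) (n : ℕ) (hn : 3 ≤ n)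

include H hn

/-- The matrix of an element giving the trivial automorphism. -/
theorem eq_sc_of_Th_eq_one {g : GL (Fin n) F} (hg : g ∈ Cfsg.GU n F q)
    (h : Th H.hF n g hg (RingEquiv.refl F) = 1) :
    ∃ z : Fˣ, z ∈ U1 F q ∧ g = sc n z := by
  rw [← Th_one H.hF n] at h
  obtain ⟨-, ζ, hζ, hv⟩ := Th_eq_imp H.hF n hn (one_mem _) hg h.symm
  have hζ0 : ζ ≠ 0 := by
    rintro rfl
    rw [zero_pow (by omega)] at hζ
    exact zero_ne_one hζ
  refine ⟨Units.mk0 ζ hζ0, (mem_U1).2 hζ, ?_⟩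
  apply Units.ext
  rw [coe_sc]
  apply Matrix.mulVec_injective
  funext v
  rw [hv v, Matrix.smul_mulVec]
  rfl

theorem sc_inj {c d : Fˣ} (h : (sc n c : GL (Fin n) F) = sc n d) : (c : F) = d := by
  have h4 := congrArg (fun z : GL (Fin n) F => ((z : GL (Fin n) F) : Matrix (Fin n) (Fin n) F)) h
  simp only [coe_sc] at h4
  have h5 := congrFun (congrFun h4 ⟨0, by omega⟩) ⟨0, by omega⟩
  simpa using h5

/-- **Lang-Steinberg**: an element of the right order in the coset of the field automorphism is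
conjugate to it. -/
theorem core_field (g : GL (Fin n) F) (hg : g ∈ Cfsg.GU n F q) (h : (Th H.hF n g hg σ) ^ r = 1) :
    ∃ (k : GL (Fin n) F) (hk : k ∈ Cfsg.GU n F q), Th H.hF n g hg σ =
      Th H.hF n k hk (RingEquiv.refl F) * Th H.hF n 1 (one_mem _) σ * (Th H.hF n k hk (RingEquiv.refl F))⁻¹ := by
  have hF := H.hF
  have hσr := H.hσr
  rw [Th_pow hF n σ hg r] at h
  have h1 : Th hF n (twN σ g r) (twN_mem hF n σ hg r) (RingEquiv.refl F) = 1 := by
    rw [← h]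
    exact Th_eq_of hF n _ _ rfl hσr.symm
  obtain ⟨z, hz, hN⟩ := eq_sc_of_Th_eq_one H n hn _ h1
  have hfix : σ (z : F) = z := by
    have h2 := twN_succ' σ g r
    rw [twN_succ, hN, hσr, mapGL_one, mapGL_sc, sc_central] at h2
    exact sc_inj H n hn (mul_left_cancel h2)
  have hzi : ((z⁻¹ : Fˣ) : F) ^ (q + 1) = 1 := (mem_U1).1 (inv_mem hz)
  have hfixi : σ ((z⁻¹ : Fˣ) : F) = ((z⁻¹ : Fˣ) : F) := by
    rw [Units.val_inv_eq_inv_val, map_inv₀, hfix]
  obtain ⟨u, hu0, hu, hnu⟩ := nrm_U1_surj H hzi hfixi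
  let U : Fˣ := Units.mk0 u hu0
  have hU : U ∈ U1 F q := (mem_U1).2 hu
  have h6 : twN σ (g * sc n U) r = 1 := by
    rw [twN_sc, hN]
    have h7 : Units.mk0 (nrm σ r (U : F)) (nrm_ne_zero σ r U.ne_zero) = z⁻¹ := by
      apply Units.ext
      exact hnu
    rw [h7, ← sc_mul, mul_inv_cancel]
    exact map_one _
  obtain ⟨k₁, hk₁⟩ := cocycle σ H.hr H.hr0 _ h6
  have hg₁ : g * sc n U ∈ Cfsg.GU n F q := by
    rw [← sc_central]
    exact scal_mem hF n hg ((MonoidHom.mem_ker).1 hU)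
  obtain ⟨k, hkU, hk⟩ := lift_GU H n hg₁ hk₁
  refine ⟨k, hkU, ?_⟩
  rw [eq_mul_inv_iff_mul_eq]
  have hg₂ : Th hF n g hg σ = Th hF n (g * sc n U) hg₁ σ := by
    symm
    refine Th_scalar hF n hg hg₁ σ (ζ := (U : F)) U.ne_zero ?_
    rw [← sc_central]
    exact coe_scal n g U
  rw [hg₂, Th_mul, Th_mul]
  refine Th_eq_of hF n _ _ ?_ ?_
  · rw [hk]
    have : mapGL (RingEquiv.refl F) (1 : GL (Fin n) F) = 1 := map_one _
    rw [this, mul_one]
  · ext a
    rfl

/-- Elements whose automorphism commutes with the field automorphism. -/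
theorem cc_field (g : Cfsg.GU n F q)
    (h : piG H.hF n g * Th H.hF n 1 (one_mem _) σ = Th H.hF n 1 (one_mem _) σ * piG H.hF n g) :
    ∃ b : Fˣ, b ∈ U1 F q ∧ mapGL σ (g.1 * sc n b) = g.1 * sc n b := by
  have hF := H.hF
  have hσr := H.hσr
  rw [Th_field_conj hF n] at h
  have h1 := mul_right_cancel h
  rw [piG_apply, piG_apply] at h1
  obtain ⟨-, ζ, hζ, hv⟩ := Th_eq_imp hF n hn g.2 _ h1
  have hζ0 : ζ ≠ 0 := by
    rintro rfl
    rw [zero_pow (by omega)] at hζ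
    exact zero_ne_one hζ
  let c : Fˣ := Units.mk0 ζ hζ0
  have hc : c ∈ U1 F q := (mem_U1).2 hζ
  have hσg : mapGL σ g.1 = g.1 * sc n c := by
    apply Units.ext
    rw [Units.val_mul, coe_sc, Matrix.mul_smul, Matrix.mul_one]
    apply Matrix.mulVec_injective
    funext v
    rw [hv v, Matrix.smul_mulVec]
    rfl
  have hk : ∀ k, mapGL (σ ^ k) g.1 = g.1 * sc n (Units.mk0 (nrm σ k (c : F)) (nrm_ne_zero σ k c.ne_zero)) := by
    intro k
    induction k with
    | zero =>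
      have h3 : Units.mk0 (nrm σ 0 (c : F)) (nrm_ne_zero σ 0 c.ne_zero) = 1 := by
        apply Units.ext
        simp [nrm]
      have h4 : (sc n (1 : Fˣ) : GL (Fin n) F) = 1 := map_one _
      rw [pow_zero, mapGL_one, h3, h4, mul_one]
    | succ k ih =>
      have h3 : Units.mk0 (nrm σ (k + 1) (c : F)) (nrm_ne_zero σ (k + 1) c.ne_zero) =
          c * Units.map (σ : F →+* F) (Units.mk0 (nrm σ k (c : F)) (nrm_ne_zero σ k c.ne_zero)) := by
        apply Units.ext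
        show nrm σ (k + 1) (c : F) = c * σ (nrm σ k (c : F))
        unfold nrm
        rw [Finset.prod_range_succ', map_prod]
        simp only [pow_zero]
        rw [mul_comm]
        congr 1
        refine Finset.prod_congr rfl fun i _ => ?_
        rw [pow_succ']
        rfl
      rw [pow_succ', ← mapGL_mapGL, ih, mapGL_mul, mapGL_sc, hσg, h3, sc_mul, mul_assoc]
  have h5 := hk r
  rw [hσr, mapGL_one] at h5
  have h6 : (sc n (Units.mk0 (nrm σ r (c : F)) (nrm_ne_zero σ _ c.ne_zero)) : GL (Fin n) F) = sc n 1 :=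
    (mul_eq_left.1 h5.symm).trans (map_one _).symm
  have h7 : nrm σ r (c : F) = 1 := by
    have := sc_inj H n hn h6
    simpa using this
  obtain ⟨b, hb0, hb1, hb⟩ := h90_U1 H hζ h7
  refine ⟨Units.mk0 b hb0, (mem_U1).2 hb1, ?_⟩
  rw [mapGL_mul, mapGL_sc, hσg, mul_assoc, ← sc_mul]
  congr 2
  apply Units.ext
  exact hb

end core

/-! ### The conjugacy statement -/

section conj

variable {p f q : ℕ} [Fact p.Prime] (hq : q = p ^ f) (hf : 1 ≤ f) (hF : Fintype.card F = q ^ 2) {n : ℕ}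
  (hn : 3 ≤ n) (hs : ¬ (n = 3 ∧ q = 2))

include hq hf hF hn hs

/-- **Conjugacy in the coset of a field automorphism.** -/
theorem main_conj (x δ : MulAut (Cfsg.PSU n F q)) (hx : Cfsg.IsFieldAutClassPSU x) {r : ℕ}
    (hxr : orderOf x = r) (hδ : δ ∈ Cfsg.inndiagPSU n F q) :
    orderOf (δ * x) = r ↔ Cfsg.IsConjUnder (Cfsg.inndiagPSU n F q) x (δ * x) := by
  constructor
  · intro hy
    have hord : (δ * x) ^ r = 1 := by
      rw [← hy]
      exact pow_orderOf_eq_one _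
    obtain ⟨α, φ, σ, -, hodd, hφ, hαx⟩ := hx
    have hφ' := eq_Th_of_isField hF n hφ
    have hσr : orderOf σ = r := by
      rw [← orderOf_field hF n hn σ, ← hφ', ← hαx, Cfsg.Agent.Lib.KS71.PSLClassConj.conj_orderOf, hxr]
    have hro : Odd r := hσr ▸ hodd
    have H := mk_oddField hF hq hf σ hσr hro
    have h1 := inndiag_normal hF n hq hn hs α δ hδ
    obtain ⟨g, hg⟩ := (mem_inndiag_iff hF n).1 h1
    have h2 : Th hF n g.1 g.2 σ = α * (δ * x) * α⁻¹ := by
      have h3 : Th hF n g.1 g.2 σ = piG hF n g * Th hF n 1 (one_mem _) σ := Th_factor hF n g.2 σ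
      rw [h3, ← hg, ← hφ', ← hαx]
      group
    obtain ⟨k, hk, hke⟩ := core_field H n hn g.1 g.2 (by
      rw [h2, conj_pow, hord, mul_one, mul_inv_cancel])
    have h3 : α⁻¹ * Th hF n k hk (RingEquiv.refl F) * (α⁻¹)⁻¹ ∈ Cfsg.inndiagPSU n F q :=
      inndiag_normal hF n hq hn hs α⁻¹ _ ((mem_inndiag_iff hF n).2 ⟨⟨k, hk⟩, rfl⟩)
    refine ⟨_, h3, ?_⟩
    rw [h2, ← hφ', ← hαx] at hke
    have h4 : δ * x = α⁻¹ * (α * (δ * x) * α⁻¹) * α := by group
    rw [h4, hke]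
    group
  · rintro ⟨h, -, hh⟩
    rw [hh, Cfsg.Agent.Lib.KS71.PSLClassConj.conj_orderOf, hxr]

end conj

end Cfsg.Agent.Lib.AutCl.PSUField
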