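/-
Centralisers and class counts of field automorphisms of odd order of `PSU_n(q)`.
-/
import Mathlib
import Cfsg.Agent.Lib.AutCl.PSUField

set_option autoImplicit false
set_option linter.unusedSimpArgs false
set_option linter.unusedSectionVars false
set_option linter.style.haveILetI false
set_option linter.unusedVariables false

namespace Cfsg.Agent.Lib.AutCl.PSUFieldCent

open Module Matrix MulAction
open Cfsg.Agent.Lib.AutCl.HermSemi Cfsg.Agent.Lib.AutCl.PSUAut Cfsg.Agent.Lib.AutCl.PSUCount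
open Cfsg.Agent.Lib.AutCl.PSUGroup Cfsg.Agent.Lib.AutCl.PSUField
open Cfsg.Agent.Lib.Classical.HermBridge
open Cfsg.Agent.Lib.HermCount.Field
open Cfsg.Agent.Lib.KS71.Speiser
open Cfsg.Agent.Lib.KS71.ClassSplit
open Cfsg.Agent.Lib.KS71.PSLAutGroup (mapGL coe_mapGL mapGL_mul mapGL_inv map_mul_map invTrGL coe_invTrGL)
open Cfsg.Agent.Lib.KS71.PSLTwist (sc coe_sc sc_mul sc_central mapGL_sc mapGL_mapGL mapGL_one twN twN_zero
  twN_succ twN_succ' twN_sc cocycle herm_eq)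
open Cfsg.Agent.Lib.KS71.PSLCent (dt coe_dt dg coe_dg dt_dg dt_sc dt_mapGL mapGL_dg exists_fix order_dvd
  exists_embed inn_normal)
open scoped MatrixGroups

universe u

variable {F : Type u} [Field F] [Fintype F]

/-- The fixed points of a field automorphism on the norm one group. -/
def FixU1 (σ : F ≃+* F) (q : ℕ) : Subgroup (U1 F q) where
  carrier := {u | σ ((u : Fˣ) : F) = (u : Fˣ)}
  mul_mem' {a b} ha hb := by
    simp only [Set.mem_ofPred_eq] at *
    show σ (((a : Fˣ) : F) * ((b : Fˣ) : F)) = ((a : Fˣ) : F) * ((b : Fˣ) : F)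
    rw [map_mul, ha, hb]
  one_mem' := by
    show σ (1 : F) = 1
    exact map_one σ
  inv_mem' {a} ha := by
    simp only [Set.mem_ofPred_eq] at *
    show σ (((a : Fˣ)⁻¹ : Fˣ) : F) = (((a : Fˣ)⁻¹ : Fˣ) : F)
    rw [Units.val_inv_eq_inv_val, map_inv₀, ha]

theorem mem_FixU1 {σ : F ≃+* F} {q : ℕ} {u : U1 F q} : u ∈ FixU1 σ q ↔ σ ((u : Fˣ) : F) = (u : Fˣ) := Iff.rfl

section main

variable {σ : F ≃+* F} {q q₀ r : ℕ} (H : OddField σ q q₀ r) (n : ℕ) (hn : 3 ≤ n)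

include H

theorem card_FixU1 : Nat.card (FixU1 σ q) = q₀ + 1 := by
  classical
  obtain ⟨S, hS, hc⟩ := H.exists_S
  letI : Fintype S := Fintype.ofFinite S
  have hS2 : Fintype.card S = q₀ ^ 2 := by rw [← Nat.card_eq_fintype_card, hc]
  refine Eq.trans ?_ (card_norm_fiber hS2 1 (one_pow q₀) one_ne_zero)
  have hval : ∀ u : FixU1 σ q, (⟨(((u : U1 F q) : Fˣ) : F), (hS _).2 u.2⟩ : S) ^ (q₀ + 1) = 1 := by
    intro u
    apply Subtype.ext
    have h1 : (((u : U1 F q) : Fˣ) : F) ^ (q + 1) = 1 := (mem_U1).1 (u : U1 F q).2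
    rw [pow_succ, H.pow_fix _ u.2, ← pow_succ] at h1
    exact h1
  refine Nat.card_congr (Equiv.ofBijective
    (fun u : FixU1 σ q => (⟨⟨(((u : U1 F q) : Fˣ) : F), (hS _).2 u.2⟩, hval u⟩ : {a : S // a ^ (q₀ + 1) = 1})) ⟨?_, ?_⟩)
  · intro u v h
    have h1 : (((u : U1 F q) : Fˣ) : F) = (((v : U1 F q) : Fˣ) : F) :=
      congrArg (fun a : {a : S // a ^ (q₀ + 1) = 1} => ((a.1 : S) : F)) h
    exact Subtype.ext (Subtype.ext (Units.ext h1))
  · rintro ⟨⟨a, haS⟩, ha⟩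
    have ha' : a ^ (q₀ + 1) = 1 := congrArg Subtype.val ha
    have ha0 : a ≠ 0 := by
      rintro rfl
      rw [zero_pow (by omega)] at ha'
      exact zero_ne_one ha'
    have hfa : σ a = a := (hS a).1 haS
    refine ⟨⟨⟨Units.mk0 a ha0, (mem_U1).2 ?_⟩, hfa⟩, rfl⟩
    show a ^ (q + 1) = 1
    rw [pow_succ, H.pow_fix _ hfa, ← pow_succ]
    exact ha'

theorem mem_comap_iff (g : Cfsg.GU n F q) (X : MulAut (Cfsg.PSU n F q)) :
    g ∈ (Subgroup.centralizer {X}).comap (piG H.hF n) ↔ piG H.hF n g * X = X * piG H.hF n g := by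
  rw [Subgroup.mem_comap, Subgroup.mem_centralizer_iff]
  constructor
  · intro h
    exact (h X rfl).symm
  · rintro h _ rfl
    exact h.symm

theorem piG_sc {b : Fˣ} (hb : sc n b ∈ Cfsg.GU n F q) : piG H.hF n ⟨sc n b, hb⟩ = 1 := by
  rw [piG_apply, ← Th_one H.hF n]
  refine Th_scalar H.hF n (one_mem _) hb _ b.ne_zero ?_
  rw [coe_sc]
  rfl

theorem sc_mem {b : Fˣ} (hb : b ∈ U1 F q) : sc n b ∈ Cfsg.GU n F q := by
  have h := scal_mem H.hF n (one_mem (Cfsg.GU n F q)) ((MonoidHom.mem_ker).1 hb)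
  rwa [mul_one] at h

include hn

theorem D_field :
    ((Subgroup.centralizer {Th H.hF n 1 (one_mem _) σ}).comap (piG H.hF n)).map (detU H.hF n) =
      FixU1 σ q ⊔ (powMonoidHom n : U1 F q →* U1 F q).range := by
  have hF := H.hF
  apply le_antisymm
  · rintro _ ⟨g, hg, rfl⟩
    have h1 := (mem_comap_iff H n g _).1 hg
    obtain ⟨b, hb, hbf⟩ := cc_field H n hn g h1
    have hg₁ : g.1 * sc n b ∈ Cfsg.GU n F q := mul_mem g.2 (sc_mem H n hb)
    let bU : U1 F q := ⟨b, hb⟩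
    have h2 : detU hF n ⟨_, hg₁⟩ ∈ FixU1 σ q := by
      rw [mem_FixU1]
      show σ ((dt (g.1 * sc n b) : Fˣ) : F) = ((dt (g.1 * sc n b) : Fˣ) : F)
      rw [← dt_mapGL, hbf]
    have h3 : detU hF n g = detU hF n ⟨_, hg₁⟩ * (bU⁻¹) ^ n := by
      apply Subtype.ext
      show dt g.1 = dt (g.1 * sc n b) * (b⁻¹) ^ n
      rw [map_mul, dt_sc, inv_pow, mul_inv_cancel_right]
    rw [h3]
    exact Subgroup.mul_mem _ (Subgroup.mem_sup_left h2) (Subgroup.mem_sup_right ⟨bU⁻¹, rfl⟩)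
  · apply sup_le
    · intro u hu
      have hn1 : 1 ≤ n := by omega
      refine ⟨⟨dg hn1 u, dg_mem hF n hn1 u.2⟩, ?_, Subtype.ext (dt_dg hn1 _)⟩
      rw [SetLike.mem_coe, mem_comap_iff H, Th_field_conj hF n]
      congr 2
      apply Subtype.ext
      exact (mapGL_dg hn1 σ _ hu).symm
    · rintro _ ⟨c, rfl⟩
      refine ⟨⟨sc n (c : Fˣ), sc_mem H n c.2⟩, ?_, ?_⟩
      · rw [SetLike.mem_coe, mem_comap_iff H, piG_sc H n, one_mul, mul_one]
      · apply Subtype.ext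
        exact dt_sc _

theorem count_field (hc : Nat.card (U1 F q) = q + 1) :
    Cfsg.splitClassCount (Cfsg.inndiagPSU n F q) (Cfsg.Inn (Cfsg.PSU n F q)) (Th H.hF n 1 (one_mem _) σ) =
      Nat.gcd n ((q + 1) / (q₀ + 1)) := by
  rw [count_eq H.hF n (by omega), D_field H n hn, sup_comm]
  have h1 : FixU1 σ q = (powMonoidHom ((q + 1) / (q₀ + 1)) : U1 F q →* U1 F q).range := by
    have h2 := subgroup_eq_range (FixU1 σ q)
    rwa [card_FixU1 H, hc] at h2
  rw [h1]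
  have hd : (q + 1) / (q₀ + 1) ∣ Nat.card (U1 F q) := by
    rw [hc]
    apply Nat.div_dvd_of_dvd
    have h2 := Subgroup.card_subgroup_dvd_card (FixU1 σ q)
    rwa [card_FixU1 H, hc] at h2
  exact index_range_sup n _ hd

end main

section cent

variable {σ : F ≃+* F} {q q₀ r : ℕ} (H : OddField σ q q₀ r) (n : ℕ) (hn : 3 ≤ n)
  {F₀ : Type*} [Field F₀] [Fintype F₀] (hF₀ : Fintype.card F₀ = q₀ ^ 2) (ι₀ : F₀ →+* F)
  (hι₀ : ∀ x, σ x = x ↔ x ∈ Set.range ι₀)

include H hn hF₀ hι₀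

/-- **The centraliser of a field automorphism.** -/
theorem cent_iso :
    Nonempty (↥(Cfsg.inndiagPSU n F q ⊓ Subgroup.centralizer {Th H.hF n 1 (one_mem _) σ}) ≃* Cfsg.PGU n F₀ q₀) := by
  classical
  have hF := H.hF
  let φ : F →+* F := frobHom hF
  have hφ : ∀ x, φ x = x ^ q := fun x => frobHom_apply hF x
  let φ₀ : F₀ →+* F₀ := frobHom hF₀
  have hφ₀ : ∀ x, φ₀ x = x ^ q₀ := fun x => frobHom_apply hF₀ x
  have hcomp : ∀ x : F₀, ι₀ (φ₀ x) = φ (ι₀ x) := by
    intro x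
    rw [hφ₀, hφ, map_pow, H.pow_fix _ ((hι₀ _).2 ⟨x, rfl⟩)]
  have hmapi : ∀ M : Matrix (Fin n) (Fin n) F₀, (M.map φ₀).map ι₀ = (M.map ι₀).map φ := by
    intro M
    refine Matrix.ext fun i j => ?_
    exact hcomp _
  let mapι₁ : GL (Fin n) F₀ →* GL (Fin n) F := Matrix.GeneralLinearGroup.map ι₀
  have hmapι₁ : ∀ u : GL (Fin n) F₀, ((mapι₁ u : GL (Fin n) F) : Matrix (Fin n) (Fin n) F) =
      (u : Matrix (Fin n) (Fin n) F₀).map ι₀ := fun u => rfl
  have hmemι : ∀ u : Cfsg.GU n F₀ q₀, mapι₁ u.1 ∈ Cfsg.GU n F q := by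
    intro u
    have h1 := (Cfsg.Agent.Lib.KS71.GUBasic.mem_GU_iff_mat φ₀ hφ₀ u.1).1 u.2
    rw [Cfsg.Agent.Lib.KS71.GUBasic.mem_GU_iff_mat φ hφ, hmapι₁]
    have h2 := congrArg (fun X : Matrix (Fin n) (Fin n) F₀ => X.map ι₀) h1
    beta_reduce at h2
    rw [Matrix.map_mul, hmapi, Matrix.map_one _ (map_zero ι₀) (map_one ι₀)] at h2
    exact h2
  let mapι : Cfsg.GU n F₀ q₀ →* Cfsg.GU n F q :=
    { toFun := fun u => ⟨mapι₁ u.1, hmemι u⟩
      map_one' := Subtype.ext (map_one mapι₁)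
      map_mul' := fun a b => Subtype.ext (map_mul mapι₁ a.1 b.1) }
  have hmapιc : ∀ u : Cfsg.GU n F₀ q₀, (((mapι u).1 : GL (Fin n) F) : Matrix (Fin n) (Fin n) F) =
      (u.1 : Matrix (Fin n) (Fin n) F₀).map ι₀ := fun u => rfl
  let base : Cfsg.GU n F₀ q₀ →* MulAut (Cfsg.PSU n F q) := (piG hF n).comp mapι
  have hfix : ∀ u : Cfsg.GU n F₀ q₀, mapGL σ (mapι u).1 = (mapι u).1 := by
    intro u
    apply Units.ext
    rw [coe_mapGL, hmapιc]
    refine Matrix.ext fun i j => ?_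
    exact (hι₀ _).2 ⟨_, rfl⟩
  have hbase : ∀ u, base u ∈ Cfsg.inndiagPSU n F q ⊓ Subgroup.centralizer {Th hF n 1 (one_mem _) σ} := by
    intro u
    refine ⟨(mem_inndiag_iff hF n).2 ⟨mapι u, rfl⟩, ?_⟩
    have : mapι u ∈ (Subgroup.centralizer {Th hF n 1 (one_mem _) σ}).comap (piG hF n) := by
      rw [mem_comap_iff H, Th_field_conj hF n]
      congr 2
      apply Subtype.ext
      exact (hfix u).symm
    exact this
  let Ψ : Cfsg.GU n F₀ q₀ →* ↥(Cfsg.inndiagPSU n F q ⊓ Subgroup.centralizer {Th hF n 1 (one_mem _) σ}) :=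
    base.codRestrict _ hbase
  have hΨ : ∀ u, (Ψ u : MulAut (Cfsg.PSU n F q)) = piG hF n (mapι u) := fun u => rfl
  have hsurj : Function.Surjective Ψ := by
    rintro ⟨δ, hδ₁, hδ₂⟩
    obtain ⟨g, rfl⟩ := (mem_inndiag_iff hF n).1 hδ₁
    have h1 : g ∈ (Subgroup.centralizer {Th hF n 1 (one_mem _) σ}).comap (piG hF n) := hδ₂
    rw [mem_comap_iff H] at h1
    obtain ⟨b, hb, hbf⟩ := cc_field H n hn g h1
    have hg' : g.1 * sc n b ∈ Cfsg.GU n F q := mul_mem g.2 (sc_mem H n hb)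
    set g' := g.1 * sc n b with hg'd
    have hent : ∀ i j, ∃ y : F₀, ι₀ y = (g' : Matrix (Fin n) (Fin n) F) i j := by
      intro i j
      apply (hι₀ _).1
      have := congrArg (fun z : GL (Fin n) F => (z : Matrix (Fin n) (Fin n) F) i j) hbf
      exact this
    choose pre hpre using hent
    let u₀ : Matrix (Fin n) (Fin n) F₀ := Matrix.of pre
    have hmap : u₀.map ι₀ = (g' : Matrix (Fin n) (Fin n) F) := by
      refine Matrix.ext fun i j => ?_
      exact hpre i j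
    have hinj : Function.Injective (fun X : Matrix (Fin n) (Fin n) F₀ => X.map ι₀) :=
      Matrix.map_injective ι₀.injective
    have hMat : u₀ᵀ * u₀.map φ₀ = 1 := by
      apply hinj
      beta_reduce
      rw [Matrix.map_mul, hmapi, Matrix.map_one _ (map_zero ι₀) (map_one ι₀), Matrix.transpose_map, hmap]
      exact (Cfsg.Agent.Lib.KS71.GUBasic.mem_GU_iff_mat φ hφ g').1 hg'
    have hdet : u₀.det ≠ 0 := by
      intro h0
      have h2 := congrArg Matrix.det hMat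
      rw [Matrix.det_mul, Matrix.det_transpose, h0, zero_mul, Matrix.det_one] at h2
      exact zero_ne_one h2
    let k₀ : GL (Fin n) F₀ := Matrix.GeneralLinearGroup.mkOfDetNeZero u₀ hdet
    have hk₀ : k₀ ∈ Cfsg.GU n F₀ q₀ := (Cfsg.Agent.Lib.KS71.GUBasic.mem_GU_iff_mat φ₀ hφ₀ k₀).2 hMat
    refine ⟨⟨k₀, hk₀⟩, ?_⟩
    apply Subtype.ext
    have h3 : mapι ⟨k₀, hk₀⟩ = ⟨g', hg'⟩ := by
      apply Subtype.ext
      apply Units.ext
      exact hmap
    show piG hF n (mapι ⟨k₀, hk₀⟩) = piG hF n g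
    rw [h3, piG_apply, piG_apply]
    refine Th_scalar hF n g.2 hg' _ b.ne_zero ?_
    rw [hg'd, ← sc_central]
    exact coe_scal n g.1 b
  have hker : Ψ.ker = (Cfsg.Geo.scalars (Fin n) F₀).subgroupOf (Cfsg.GU n F₀ q₀) := by
    ext u
    have h1 : u ∈ Ψ.ker ↔ piG hF n (mapι u) = 1 := by
      rw [MonoidHom.mem_ker]
      constructor
      · intro h
        exact congrArg Subtype.val h
      · intro h
        exact Subtype.ext h
    rw [h1, Subgroup.mem_subgroupOf, Cfsg.Geo.mem_scalars_iff]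
    constructor
    · intro h
      obtain ⟨z, hz, hzg⟩ := eq_sc_of_Th_eq_one H n hn (mapι u).2 h
      let i₀ : Fin n := ⟨0, by omega⟩
      have hent : ∀ i j, ι₀ ((u.1 : Matrix (Fin n) (Fin n) F₀) i j) = if i = j then (z : F) else 0 := by
        intro i j
        have h3 := congrArg (fun w : GL (Fin n) F => (w : Matrix (Fin n) (Fin n) F) i j) hzg
        simp only [coe_sc] at h3
        have h4 : ((mapι u).1 : Matrix (Fin n) (Fin n) F) i j = ι₀ ((u.1 : Matrix (Fin n) (Fin n) F₀) i j) := rfl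
        rw [h4] at h3
        rw [h3]
        by_cases hij : i = j
        · subst hij
          simp
        · simp [hij]
      have hne : (u.1 : Matrix (Fin n) (Fin n) F₀) i₀ i₀ ≠ 0 := by
        intro h0
        have e2 := hent i₀ i₀
        rw [h0, map_zero, if_pos rfl] at e2
        exact z.ne_zero e2.symm
      refine ⟨Units.mk0 _ hne, ?_⟩
      refine Matrix.ext fun i j => ?_
      by_cases hij : i = j
      · subst hij
        have e1 := hent i i
        have e2 := hent i₀ i₀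
        simp only [if_true] at e1 e2
        have e3 : (u.1 : Matrix (Fin n) (Fin n) F₀) i i = (u.1 : Matrix (Fin n) (Fin n) F₀) i₀ i₀ :=
          ι₀.injective (e1.trans e2.symm)
        simp [e3]
      · have e1 := hent i j
        rw [if_neg hij] at e1
        have e2 : (u.1 : Matrix (Fin n) (Fin n) F₀) i j = 0 := by
          apply ι₀.injective
          rw [e1, map_zero]
        simp [e2, hij]
    · rintro ⟨v, hv⟩
      rw [piG_apply, ← Th_one hF n]
      have hv0 : ι₀ (v : F₀) ≠ 0 := (map_ne_zero ι₀).2 v.ne_zero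
      refine Th_scalar hF n (one_mem _) (mapι u).2 _ hv0 ?_
      rw [hmapιc, hv]
      refine Matrix.ext fun i j => ?_
      by_cases hij : i = j
      · subst hij
        simp
      · simp [hij]
  let e1 := QuotientGroup.quotientKerEquivOfSurjective Ψ hsurj
  let e2 : (↥(Cfsg.GU n F₀ q₀) ⧸ Ψ.ker) ≃* Cfsg.PGU n F₀ q₀ := QuotientGroup.quotientMulEquivOfEq hker
  exact ⟨e1.symm.trans e2⟩

end cent

section final

variable {p f q : ℕ} [Fact p.Prime] (hq : q = p ^ f) (hf : 1 ≤ f) (hF : Fintype.card F = q ^ 2) {n : ℕ}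
  (hn : 3 ≤ n) (hs : ¬ (n = 3 ∧ q = 2))

include hq hf hF hn hs

/-- **Centralisers and class counts of field automorphisms of odd prime order.** -/
theorem main_cent (x : MulAut (Cfsg.PSU n F q)) (hx : Cfsg.IsFieldAutClassPSU x) {r : ℕ} (hro : Odd r)
    (hxr : orderOf x = r) (F₀ : Type*) [Field F₀] [Fintype F₀] (hF₀ : Fintype.card F₀ = p ^ (2 * (f / r))) :
    r ∣ f ∧ Nonempty (↥(Cfsg.inndiagPSU n F q ⊓ Subgroup.centralizer {x}) ≃* Cfsg.PGU n F₀ (p ^ (f / r))) ∧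
      Cfsg.splitClassCount (Cfsg.inndiagPSU n F q) (Cfsg.Inn (Cfsg.PSU n F q)) x =
        Nat.gcd n ((q + 1) / (p ^ (f / r) + 1)) := by
  obtain ⟨α, φ, σ, -, hodd, hφ, hαx⟩ := hx
  have hφ' := eq_Th_of_isField hF n hφ
  have hσr : orderOf σ = r := by
    rw [← orderOf_field hF n hn σ, ← hφ', ← hαx, Cfsg.Agent.Lib.KS71.PSLClassConj.conj_orderOf, hxr]
  have H := mk_oddField hF hq hf σ hσr hro
  have hF2 : Fintype.card F = p ^ (f * 2) := by rw [hF, hq, pow_mul]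
  have hdvd := r_dvd hF2 hf σ hσr hro
  have hαx' : α * x * α⁻¹ = Th hF n 1 (one_mem _) σ := by rw [hαx, hφ']
  have hnorm : ∀ (a : MulAut (Cfsg.PSU n F q)), ∀ h ∈ Cfsg.inndiagPSU n F q, a * h * a⁻¹ ∈ Cfsg.inndiagPSU n F q :=
    fun a h hh => inndiag_normal hF n hq hn hs a h hh
  refine ⟨hdvd, ?_, ?_⟩
  · have e1 := centConj (Cfsg.inndiagPSU n F q) hnorm α x _ hαx'
    have hF₀' : Fintype.card F₀ = (p ^ (f / r)) ^ 2 := by rw [hF₀, ← pow_mul, mul_comm]
    have hF₀'' : Fintype.card F₀ = p ^ (f * 2 / orderOf σ) := by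
      rw [hF₀, hσr]
      congr 1
      obtain ⟨d, rfl⟩ := hdvd
      have hr0 : 0 < r := hro.pos
      rw [Nat.mul_assoc, Nat.mul_div_cancel_left _ hr0, Nat.mul_div_cancel_left _ hr0, mul_comm]
    obtain ⟨ι₀, hι₀⟩ := exists_embed hF2 (by omega) σ hF₀''
    obtain ⟨e2⟩ := cent_iso H n hn hF₀' ι₀ hι₀
    exact ⟨e1.trans e2⟩
  · rw [← split_conj (Cfsg.inndiagPSU n F q) (Cfsg.Inn (Cfsg.PSU n F q)) hnorm (fun a h hh => inn_normal a h hh) α x,
      hαx']
    exact count_field H n hn (card_U1 hF)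

end final

end Cfsg.Agent.Lib.AutCl.PSUFieldCent
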