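/-
The action of the automorphism group of `PSU_n(q)` on the subspaces of the natural module; the core of
the local balance theorem for involutory graph automorphisms.
-/
import Mathlib
import Cfsg.Agent.Lib.AutCl.PSUGroup
import Cfsg.Agent.Lib.AutCl.InvGeo

set_option autoImplicit false
set_option linter.unusedSimpArgs false
set_option linter.unusedSectionVars false
set_option linter.style.haveILetI false
set_option linter.unusedVariables false

namespace Cfsg.Agent.Lib.AutCl.PSUPts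

open Module Matrix MulAction
open Cfsg.Agent.Lib.Classical.HermBasic Cfsg.Agent.Lib.Classical.HermElem
open Cfsg.Agent.Lib.AutCl.HermSemi Cfsg.Agent.Lib.AutCl.PSUAut Cfsg.Agent.Lib.AutCl.PSUCount
open Cfsg.Agent.Lib.AutCl.PSUGroup Cfsg.Agent.Lib.AutCl.InvGeo
open Cfsg.Agent.Lib.Classical.HermBridge Cfsg.Agent.Lib.Classical.MatrixBridge
open Cfsg.Agent.Lib.HermCount.Field
open Cfsg.Agent.Lib.KS71.PSLAutGroup (mapGL coe_mapGL mapGL_mul mapGL_inv map_mul_map)
open scoped MatrixGroups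

universe u

variable {F : Type u} [Field F]

section smap

variable {V : Type*} [AddCommGroup V] [Module F V]

/-- The image of a subspace under a semilinear bijection. -/
def smap (M : V ≃+ V) (τ : F ≃+* F) (hM : ∀ (a : F) (v : V), M (a • v) = τ a • M v) (ℓ : Submodule F V) :
    Submodule F V where
  carrier := M '' ℓ
  add_mem' := by
    rintro _ _ ⟨x, hx, rfl⟩ ⟨y, hy, rfl⟩
    exact ⟨x + y, ℓ.add_mem hx hy, map_add M x y⟩
  zero_mem' := ⟨0, ℓ.zero_mem, map_zero M⟩
  smul_mem' := by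
    rintro c _ ⟨x, hx, rfl⟩
    exact ⟨τ.symm c • x, ℓ.smul_mem _ hx, by rw [hM, τ.apply_symm_apply]⟩

theorem mem_smap {M : V ≃+ V} {τ : F ≃+* F} {hM : ∀ (a : F) (v : V), M (a • v) = τ a • M v} {ℓ : Submodule F V}
    {v : V} : v ∈ smap M τ hM ℓ ↔ ∃ x ∈ ℓ, M x = v := Iff.rfl

theorem smap_congr {M M' : V ≃+ V} {τ τ' : F ≃+* F} {hM : ∀ (a : F) (v : V), M (a • v) = τ a • M v}
    {hM' : ∀ (a : F) (v : V), M' (a • v) = τ' a • M' v} {ζ : F} (hζ : ζ ≠ 0) (h : ∀ v, M' v = ζ • M v)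
    (ℓ : Submodule F V) : smap M' τ' hM' ℓ = smap M τ hM ℓ := by
  ext v
  rw [mem_smap, mem_smap]
  constructor
  · rintro ⟨x, hx, rfl⟩
    refine ⟨τ.symm ζ • x, ℓ.smul_mem _ hx, ?_⟩
    rw [hM, τ.apply_symm_apply, h]
  · rintro ⟨x, hx, rfl⟩
    refine ⟨τ'.symm ζ⁻¹ • x, ℓ.smul_mem _ hx, ?_⟩
    rw [hM', τ'.apply_symm_apply, h, smul_smul, inv_mul_cancel₀ hζ, one_smul]

theorem smap_span (M : V ≃+ V) (τ : F ≃+* F) (hM : ∀ (a : F) (v : V), M (a • v) = τ a • M v) (x : V) :
    smap M τ hM (Submodule.span F {x}) = Submodule.span F {M x} := by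
  ext v
  rw [mem_smap, Submodule.mem_span_singleton]
  constructor
  · rintro ⟨y, hy, rfl⟩
    obtain ⟨c, rfl⟩ := Submodule.mem_span_singleton.1 hy
    exact ⟨τ c, (hM c x).symm⟩
  · rintro ⟨c, rfl⟩
    exact ⟨τ.symm c • x, Submodule.smul_mem _ _ (Submodule.mem_span_singleton_self x), by
      rw [hM, τ.apply_symm_apply]⟩

end smap

section act

variable [Fintype F] {q : ℕ} (hF : Fintype.card F = q ^ 2) (n : ℕ)

/-- The hypothesis that every automorphism is semilinear. -/
def HasRep : Prop := ∀ ν : MulAut (Cfsg.PSU n F q), ∃ (g : GL (Fin n) F) (hg : g ∈ Cfsg.GU n F q) (τ : F ≃+* F),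
  ν = Th hF n g hg τ

variable {hF n}

/-- The smul property of the semilinear map. -/
theorem semi_smul {g : GL (Fin n) F} (hg : g ∈ Cfsg.GU n F q) (τ : F ≃+* F) (a : F) (v : Fin n → F) :
    semiOf n g τ (a • v) = τ a • semiOf n g τ v :=
  (semiOf_semi (q := q) n hg τ).smul a v

variable (hF n)

/-- The action of a pair on subspaces. -/
noncomputable def pairMap {g : GL (Fin n) F} (hg : g ∈ Cfsg.GU n F q) (τ : F ≃+* F) (ℓ : Submodule F (Fin n → F)) :
    Submodule F (Fin n → F) :=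
  smap (semiOf n g τ) τ (semi_smul hg τ) ℓ

/-- The action of an automorphism on subspaces. -/
noncomputable def act (hrep : HasRep hF n) (ν : MulAut (Cfsg.PSU n F q)) (ℓ : Submodule F (Fin n → F)) :
    Submodule F (Fin n → F) :=
  pairMap n (hrep ν).choose_spec.choose (hrep ν).choose_spec.choose_spec.choose ℓ

variable {hF n}

theorem act_Th (hn : 3 ≤ n) (hrep : HasRep hF n) {g : GL (Fin n) F} (hg : g ∈ Cfsg.GU n F q) (τ : F ≃+* F)
    (ℓ : Submodule F (Fin n → F)) : act hF n hrep (Th hF n g hg τ) ℓ = pairMap n hg τ ℓ := by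
  have h1 := (hrep (Th hF n g hg τ)).choose_spec.choose_spec.choose_spec
  obtain ⟨hτ, ζ, hζ, hv⟩ := Th_eq_imp hF n hn _ _ h1
  have hζ0 : ζ ≠ 0 := by
    rintro rfl
    rw [zero_pow (by omega)] at hζ
    exact zero_ne_one hζ
  unfold act pairMap
  refine smap_congr hζ0 ?_ ℓ
  intro v
  rw [semiOf_apply, semiOf_apply, hτ, hv]

theorem pairMap_span {g : GL (Fin n) F} (hg : g ∈ Cfsg.GU n F q) (τ : F ≃+* F) (x : Fin n → F) :
    pairMap n hg τ (Submodule.span F {x}) = Submodule.span F {semiOf n g τ x} :=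
  smap_span _ _ _ x

theorem act_one (hn : 3 ≤ n) (hrep : HasRep hF n) (ℓ : Submodule F (Fin n → F)) : act hF n hrep 1 ℓ = ℓ := by
  rw [← Th_one hF n, act_Th hn]
  ext v
  unfold pairMap
  rw [mem_smap]
  have e : ∀ x, semiOf n (1 : GL (Fin n) F) (RingEquiv.refl F) x = x := by
    intro x
    rw [semiOf_apply]
    simp only [Units.val_one, Matrix.one_mulVec]
    rfl
  constructor
  · rintro ⟨x, hx, rfl⟩
    rwa [e]
  · intro hv
    exact ⟨v, hv, e v⟩

theorem semiOf_mul {g g' : GL (Fin n) F} (τ τ' : F ≃+* F) (x : Fin n → F) :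
    semiOf n (g * mapGL τ g') (τ * τ') x = semiOf n g τ (semiOf n g' τ' x) := by
  rw [semiOf_apply, semiOf_apply, semiOf_apply, tauHat_mulVec, Units.val_mul, coe_mapGL, Matrix.mulVec_mulVec]
  rfl

theorem act_mul (hn : 3 ≤ n) (hrep : HasRep hF n) (ν ν' : MulAut (Cfsg.PSU n F q)) (ℓ : Submodule F (Fin n → F)) :
    act hF n hrep (ν * ν') ℓ = act hF n hrep ν (act hF n hrep ν' ℓ) := by
  obtain ⟨g, hg, τ, rfl⟩ := hrep ν
  obtain ⟨g', hg', τ', rfl⟩ := hrep ν'
  rw [Th_mul, act_Th hn, act_Th hn, act_Th hn]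
  ext v
  unfold pairMap
  simp only [mem_smap]
  constructor
  · rintro ⟨x, hx, rfl⟩
    exact ⟨_, ⟨x, hx, rfl⟩, (semiOf_mul τ τ' x).symm⟩
  · rintro ⟨_, ⟨x, hx, rfl⟩, rfl⟩
    exact ⟨x, hx, semiOf_mul τ τ' x⟩

/-- The action of a special unitary element. -/
theorem act_conj (hn : 3 ≤ n) (hrep : HasRep hF n) (s : Cfsg.SU n F q) (ℓ : Submodule F (Fin n → F)) :
    act hF n hrep (MulAut.conj (QuotientGroup.mk s : Cfsg.PSU n F q)) ℓ =
      ℓ.map ((suEquiv n q s).1 : (Fin n → F) →ₗ[F] (Fin n → F)) := by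
  rw [conj_mk hF n, piG_apply, act_Th hn]
  ext v
  unfold pairMap
  rw [mem_smap, Submodule.mem_map]
  have e : ∀ x, semiOf n (suToGU n s).1 (RingEquiv.refl F) x = (suEquiv n q s).1 x := by
    intro x
    rw [semiOf_apply, suEquiv_apply, coe_suToGU]
    rfl
  constructor
  · rintro ⟨x, hx, rfl⟩
    exact ⟨x, hx, (e x).symm⟩
  · rintro ⟨x, hx, rfl⟩
    exact ⟨x, hx, e x⟩

/-- An element commuting with the semilinear map is fixed by the automorphism. -/
theorem Th_fix {g : GL (Fin n) F} (hg : g ∈ Cfsg.GU n F q) (τ : F ≃+* F) (s : Cfsg.SU n F q)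
    (hc : ∀ v, semiOf n g τ ((suEquiv n q s).1 v) = (suEquiv n q s).1 (semiOf n g τ v)) :
    Th hF n g hg τ (QuotientGroup.mk s) = QuotientGroup.mk s := by
  refine Th_mk hF n hg τ s s ?_
  apply Matrix.ext_of_mulVec_single
  intro i
  rw [conj_formula hF n hg τ s, suAut_apply, hc, AddEquiv.apply_symm_apply, suEquiv_apply]

/-- Scaling a semilinear bijection. -/
noncomputable def scaleEquiv {V : Type*} [AddCommGroup V] [Module F V] (d : F) (hd : d ≠ 0) (M : V ≃+ V) : V ≃+ V where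
  toFun v := d • M v
  invFun v := M.symm (d⁻¹ • v)
  left_inv v := by simp [smul_smul, inv_mul_cancel₀ hd]
  right_inv v := by simp [smul_smul, mul_inv_cancel₀ hd]
  map_add' a b := by simp

theorem scaleEquiv_apply {V : Type*} [AddCommGroup V] [Module F V] (d : F) (hd : d ≠ 0) (M : V ≃+ V) (v : V) :
    scaleEquiv d hd M v = d • M v := rfl

end act

section core

variable [Fintype F] {q : ℕ} (hF : Fintype.card F = q ^ 2) {n : ℕ} (hn : 3 ≤ n) (hrep : HasRep hF n)

include hn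

/-- The involution attached to an involutory automorphism. -/
theorem desc_scale {g : GL (Fin n) F} (hg : g ∈ Cfsg.GU n F q) {τ : F ≃+* F} (hτ : ∀ a, τ a = frobHom hF a)
    {z d : F} (hz : z = 1 ∨ z = -1) (hgz : ∀ v, semiOf n g τ (semiOf n g τ v) = z • v) (hd : d ≠ 0)
    (hdn : d * frobHom hF d = z) :
    Desc (frobHom hF) (Cfsg.hermForm n F q) (scaleEquiv d hd (semiOf n g τ)) z := by
  have hM := semiOf_semi (q := q) n hg τ
  have S := hform hF n
  refine ⟨?_, ?_, ?_, hz⟩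
  · intro a v
    rw [scaleEquiv_apply, scaleEquiv_apply, hM.smul, hτ, smul_comm]
  · intro u v
    rw [scaleEquiv_apply, scaleEquiv_apply, S.smul_left, S.smul_right, hM.form, hτ]
    rw [← hdn]
    ring
  · intro v
    rw [scaleEquiv_apply, scaleEquiv_apply, hM.smul, hgz, hτ, smul_smul, smul_smul, hdn]
    rcases hz with rfl | rfl <;> simp

include hrep

/-- **The core of local balance for involutory automorphisms.** -/
theorem inv_core {g : GL (Fin n) F} (hg : g ∈ Cfsg.GU n F q) {τ : F ≃+* F} (hτ : ∀ a, τ a = frobHom hF a)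
    {z : F} (hz : z = 1 ∨ z = -1) (hgz : ∀ v, semiOf n g τ (semiOf n g τ v) = z • v) (h2 : (2 : F) ≠ 0)
    (hβ2 : orderOf (Th hF n g hg τ) = 2) (N : Subgroup (MulAut (Cfsg.PSU n F q)))
    (hNc : ∀ ν ∈ N, ν * Th hF n g hg τ = Th hF n g hg τ * ν)
    (hNn : ∀ ν ∈ N, ∀ s : Cfsg.SU n F q, Th hF n g hg τ (QuotientGroup.mk s) = QuotientGroup.mk s →
      MulAut.conj (QuotientGroup.mk s : Cfsg.PSU n F q) * ν * (MulAut.conj (QuotientGroup.mk s : Cfsg.PSU n F q))⁻¹ ∈ N)
    (hNodd : Odd (Nat.card N)) : N = ⊥ := by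
  classical
  have S := hform hF n
  have hσ := invol_frob hF
  have hzfix : frobHom hF z = z := by
    rcases hz with rfl | rfl
    · exact map_one _
    · rw [map_neg, map_one]
  have hz0 : z ≠ 0 := by
    rcases hz with rfl | rfl
    · exact one_ne_zero
    · exact neg_ne_zero.2 one_ne_zero
  obtain ⟨d, hdn⟩ := hσ.exists_norm z hz0 hzfix
  have hd : d ≠ 0 := by
    rintro rfl
    rw [zero_mul] at hdn
    exact hz0 hdn.symm
  have D := desc_scale hF hn hg hτ hz hgz hd hdn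
  set L := scaleEquiv d hd (semiOf n g τ) with hLd
  have hLv : ∀ v, L v = d • semiOf n g τ v := fun v => rfl
  have hSemi : ∀ v, semiOf n g τ v = d⁻¹ • L v := by
    intro v
    rw [hLv, smul_smul, inv_mul_cancel₀ hd, one_smul]
  have hM := semiOf_semi (q := q) n hg τ
  set β := Th hF n g hg τ with hβ
  let A := act hF n hrep
  have hA1 : ∀ ℓ, A 1 ℓ = ℓ := act_one hn hrep
  have hAm : ∀ ν ν' ℓ, A (ν * ν') ℓ = A ν (A ν' ℓ) := act_mul hn hrep
  have hAspan : ∀ {g' : GL (Fin n) F} (hg' : g' ∈ Cfsg.GU n F q) (τ' : F ≃+* F) (x : Fin n → F),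
      A (Th hF n g' hg' τ') (Submodule.span F {x}) = Submodule.span F {semiOf n g' τ' x} := by
    intro g' hg' τ' x
    show act hF n hrep _ _ = _
    rw [act_Th hn, pairMap_span]
  have hfr : finrank F (Fin n → F) = n := Module.finrank_fin_fun F
  -- points are permuted
  have hIso : ∀ ν ∈ N, ∀ ℓ, IsoPt (Cfsg.hermForm n F q) L ℓ → IsoPt (Cfsg.hermForm n F q) L (A ν ℓ) := by
    intro ν hν ℓ hℓ
    obtain ⟨x, hx, hx0, hxx, rfl⟩ := hℓ
    have hβx : A β (Submodule.span F {x}) = Submodule.span F {x} := by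
      rw [hβ, hAspan, hSemi, hx]
      exact Submodule.span_singleton_smul_eq (IsUnit.mk0 _ (inv_ne_zero hd)) x
    have hcomm : A β (A ν (Submodule.span F {x})) = A ν (Submodule.span F {x}) := by
      rw [← hAm, ← hNc ν hν, hAm, hβx]
    obtain ⟨g', hg', τ', rfl⟩ := hrep ν
    have hM' := semiOf_semi (q := q) n hg' τ'
    rw [hAspan] at hcomm ⊢
    set y := semiOf n g' τ' x with hyd
    have hy0 : y ≠ 0 := (map_ne_zero_iff (semiOf n g' τ') (semiOf n g' τ').injective).2 hx0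
    have hyy : Cfsg.hermForm n F q y y = 0 := by
      rw [hyd, hM'.form, hxx, map_zero]
    rw [hβ, hAspan] at hcomm
    have h3 : semiOf n g τ y ∈ Submodule.span F {y} := by
      rw [← hcomm]
      exact Submodule.mem_span_singleton_self _
    obtain ⟨c, hc⟩ := Submodule.mem_span_singleton.1 h3
    have hLy : L y = (d * c) • y := by
      rw [hLv, ← hc, smul_smul]
    by_cases h4 : y + L y = 0
    · obtain ⟨e, he0, he⟩ := hσ.exists_pure
      have h5 : L y = -y := by
        rw [eq_neg_iff_add_eq_zero, add_comm]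
        exact h4
      have h6 : e • (y - L y) = (e * 2) • y := by
        rw [h5, mul_smul]
        module
      refine ⟨e • (y - L y), D.fix_sub he y, ?_, ?_, ?_⟩
      · rw [h6]
        exact smul_ne_zero (mul_ne_zero he0 h2) hy0
      · rw [h6, S.smul_left, S.smul_right, hyy]
        ring
      · rw [h6]
        exact (Submodule.span_singleton_smul_eq (IsUnit.mk0 _ (mul_ne_zero he0 h2)) y).symm
    · have h6 : y + L y = (1 + d * c) • y := by
        rw [hLy]
        module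
      have h7 : 1 + d * c ≠ 0 := by
        intro h8
        apply h4
        rw [h6, h8, zero_smul]
      refine ⟨y + L y, D.fix_add y, h4, ?_, ?_⟩
      · rw [h6, S.smul_left, S.smul_right, hyy]
        ring
      · rw [h6]
        exact (Submodule.span_singleton_smul_eq (IsUnit.mk0 _ h7) y).symm
  -- orbits
  have hstep1 : ∀ ν ∈ N, ∀ ℓ, IsoPt (Cfsg.hermForm n F q) L ℓ → A ν ℓ = ℓ := by
    intro ν hν ℓ hℓ
    letI : MulAction N (Submodule F (Fin n → F)) :=
      { smul := fun a b => A a.1 b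
        one_smul := fun b => hA1 b
        mul_smul := fun a a' b => hAm a.1 a'.1 b }
    have hact : ∀ (a : N) b, a • b = A a.1 b := fun a b => rfl
    let B : Set (Submodule F (Fin n → F)) := MulAction.orbit N ℓ
    have hmemB : ∀ ℓ', ℓ' ∈ B ↔ ∃ a ∈ N, A a ℓ = ℓ' := by
      intro ℓ'
      constructor
      · rintro ⟨a, rfl⟩
        exact ⟨a.1, a.2, rfl⟩
      · rintro ⟨a, ha, rfl⟩
        exact ⟨⟨a, ha⟩, rfl⟩
    have hB : ∀ ℓ' ∈ B, IsoPt (Cfsg.hermForm n F q) L ℓ' := by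
      intro ℓ' hℓ'
      obtain ⟨a, ha, rfl⟩ := (hmemB ℓ').1 hℓ'
      exact hIso a ha ℓ hℓ
    have hcl : ∀ ρ : (Fin n → F) ≃ₗ[F] (Fin n → F), ρ ∈ suGroup (Cfsg.hermForm n F q) →
        (∀ v, L (ρ v) = ρ (L v)) → ∀ b ∈ B, b.map (ρ : (Fin n → F) →ₗ[F] (Fin n → F)) = b →
        ∀ y ∈ B, y.map (ρ : (Fin n → F) →ₗ[F] (Fin n → F)) ∈ B := by
      intro ρ hρ hρc b hb hbfix y hy
      let s : Cfsg.SU n F q := (suEquiv n q).symm ⟨ρ, hρ⟩
      have hs : (suEquiv n q s).1 = ρ := by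
        simp [s]
      have hfix : β (QuotientGroup.mk s) = QuotientGroup.mk s := by
        refine Th_fix hg τ s ?_
        intro v
        rw [hs, hSemi, hρc, hSemi, map_smul]
      set c : MulAut (Cfsg.PSU n F q) := MulAut.conj (QuotientGroup.mk s : Cfsg.PSU n F q) with hcd
      have hcA : ∀ ℓ', A c ℓ' = ℓ'.map (ρ : (Fin n → F) →ₗ[F] (Fin n → F)) := by
        intro ℓ'
        show act hF n hrep _ _ = _
        rw [hcd, act_conj hn hrep, hs]
      obtain ⟨a₁, ha₁, rfl⟩ := (hmemB b).1 hb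
      obtain ⟨a₂, ha₂, rfl⟩ := (hmemB y).1 hy
      rw [← hcA] at hbfix ⊢
      rw [hmemB]
      refine ⟨c * (a₂ * a₁⁻¹) * c⁻¹ * a₁, mul_mem (hNn _ (mul_mem ha₂ (inv_mem ha₁)) s hfix) ha₁, ?_⟩
      rw [hAm]
      rw [show A (c * (a₂ * a₁⁻¹) * c⁻¹) (A a₁ ℓ) = A (c * (a₂ * a₁⁻¹) * c⁻¹) (A c (A a₁ ℓ)) by rw [hbfix]]
      rw [← hAm, ← hAm, ← hAm]
      congr 1
      group
    have hBodd : Odd (Nat.card B) := by
      have h3 := MulAction.index_stabilizer N ℓ
      have h4 : Nat.card B = (MulAction.stabilizer N ℓ).index := by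
        rw [h3]
        exact Nat.card_coe_set_eq _
      rw [h4]
      exact Odd.of_dvd_nat hNodd (Subgroup.index_dvd_card _)
    have hblock := block D S hσ h2 (odd_card_fix _ h2) B hB hcl hBodd (even_pts S hσ D h2)
    exact hblock ((hmemB _).2 ⟨ν, hν, rfl⟩) ((hmemB _).2 ⟨1, one_mem _, hA1 ℓ⟩)
  -- rigidity
  rw [eq_bot_iff]
  intro ν hν
  rw [Subgroup.mem_bot]
  have hνN := hν
  obtain ⟨g', hg', τ', rfl⟩ := hrep ν
  have hM' := semiOf_semi (q := q) n hg' τ'
  have hz' : ∀ x, L x = x → x ≠ 0 → Cfsg.hermForm n F q x x = 0 → ∃ c : F, semiOf n g' τ' x = c • x := by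
    intro x hx hx0 hxx
    have h3 := hstep1 _ hν _ ⟨x, hx, hx0, hxx, rfl⟩
    rw [hAspan] at h3
    have h4 : semiOf n g' τ' x ∈ Submodule.span F {x} := by
      rw [← h3]
      exact Submodule.mem_span_singleton_self _
    obtain ⟨c, hc⟩ := Submodule.mem_span_singleton.1 h4
    exact ⟨c, hc.symm⟩
  obtain ⟨a₀, ha₀, hcases⟩ := rigid_final S hσ D h2 (by rw [hfr]; exact hn) hM' hz'
  haveI : Nontrivial (Fin n → F) := Module.nontrivial_of_finrank_pos (R := F) (by omega)
  obtain ⟨v₀, hv₀⟩ := exists_ne (0 : Fin n → F)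
  have hSemi' : ∀ v, semiOf n g' τ' v = (g' : Matrix (Fin n) (Fin n) F) *ᵥ tauHat n τ' v := fun v => rfl
  rcases hcases with hc | hc
  · have hτ' : τ' = RingEquiv.refl F := by
      ext a
      have h3 := hM'.smul a v₀
      rw [hc, hc, smul_comm] at h3
      have h4 := smul_left_injective F (smul_ne_zero ha₀ hv₀) h3
      exact h4.symm
    subst hτ'
    have hg'm : (g' : Matrix (Fin n) (Fin n) F) = a₀ • ((1 : GL (Fin n) F) : Matrix (Fin n) (Fin n) F) := by
      apply Matrix.mulVec_injective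
      funext v
      have h3 := hc v
      rw [hSemi'] at h3
      rw [Matrix.smul_mulVec, Units.val_one, Matrix.one_mulVec]
      exact h3
    rw [Th_scalar hF n (one_mem _) hg' _ ha₀ hg'm, Th_one]
  · exfalso
    have hτ' : τ' = τ := by
      ext a
      have h3 := hM'.smul a v₀
      rw [hc, hc, hLv, hLv, hM.smul] at h3
      have h4 : (τ a) • (a₀ • d • semiOf n g τ v₀) = (τ' a) • (a₀ • d • semiOf n g τ v₀) := by
        rw [← h3]
        module
      have h5 := smul_left_injective F (smul_ne_zero ha₀ (smul_ne_zero hd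
        ((map_ne_zero_iff (semiOf n g τ) (semiOf n g τ).injective).2 hv₀))) h4
      exact h5.symm
    subst hτ'
    have hg'm : (g' : Matrix (Fin n) (Fin n) F) = (a₀ * d) • (g : Matrix (Fin n) (Fin n) F) := by
      apply Matrix.mulVec_injective
      funext w
      obtain ⟨v, rfl⟩ := (tauHat n τ').surjective w
      have h3 := hc v
      rw [hLv, hSemi', semiOf_apply, smul_smul] at h3
      rw [Matrix.smul_mulVec]
      exact h3
    have h5 : Th hF n g' hg' τ' = β := Th_scalar hF n hg hg' _ (mul_ne_zero ha₀ hd) hg'm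
    rw [h5] at hνN
    have h6 := Subgroup.orderOf_dvd_natCard N hνN
    rw [hβ2] at h6
    have h7 := Odd.of_dvd_nat hNodd h6
    exact absurd h7 (by decide)

end core

end Cfsg.Agent.Lib.AutCl.PSUPts
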