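/-
The subgroup `PSU_n(q₀)` of `PSU_n(q)` and the core of the local balance theorem for field automorphisms of
odd prime order.
-/
import Mathlib
import Cfsg.Agent.Lib.AutCl.PSUFieldCent
import Cfsg.Agent.Lib.AutCl.PSUPts

set_option autoImplicit false
set_option linter.unusedSimpArgs false
set_option linter.unusedSectionVars false
set_option linter.style.haveILetI false
set_option linter.unusedVariables false

namespace Cfsg.Agent.Lib.AutCl.PSUCore

open Module Matrix MulAction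
open Cfsg.Agent.Lib.Classical.HermBasic Cfsg.Agent.Lib.Classical.HermElem
open Cfsg.Agent.Lib.AutCl.HermSemi Cfsg.Agent.Lib.AutCl.PSUAut Cfsg.Agent.Lib.AutCl.PSUCount
open Cfsg.Agent.Lib.AutCl.PSUGroup Cfsg.Agent.Lib.AutCl.PSUField Cfsg.Agent.Lib.AutCl.PSUFieldCent
open Cfsg.Agent.Lib.AutCl.PSUPts
open Cfsg.Agent.Lib.Classical.HermBridge Cfsg.Agent.Lib.Classical.MatrixBridge
open Cfsg.Agent.Lib.HermCount.Field
open Cfsg.Agent.Lib.KS71.PSLAutGroup (mapGL coe_mapGL mapGL_mul mapGL_inv map_mul_map)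
open Cfsg.Agent.Lib.KS71.PSLTwist (sc coe_sc sc_mul sc_central mapGL_sc mapGL_mapGL mapGL_one)
open Cfsg.Agent.Lib.KS71.PSLCent (dt coe_dt dg coe_dg dt_dg dt_sc dt_mapGL mapGL_dg exists_fix order_dvd exists_embed)
open scoped MatrixGroups

universe u

section center

variable {F : Type*} [Field F] [Fintype F] {q : ℕ} (hF : Fintype.card F = q ^ 2) {n : ℕ} (hn : 3 ≤ n)

theorem matrix_eq_scalar {A : Matrix (Fin n) (Fin n) F} {ζ : F} :
    (∀ v : Fin n → F, A *ᵥ v = ζ • v) ↔ A = ζ • (1 : Matrix (Fin n) (Fin n) F) := by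
  constructor
  · intro h
    apply Matrix.mulVec_injective
    funext v
    rw [h, Matrix.smul_mulVec, Matrix.one_mulVec]
  · rintro rfl v
    rw [Matrix.smul_mulVec, Matrix.one_mulVec]

include hF hn

theorem mem_center_iff (s : Cfsg.SU n F q) :
    s ∈ Subgroup.center (Cfsg.SU n F q) ↔
      ∃ ζ : F, ((s : Matrix.SpecialLinearGroup (Fin n) F) : Matrix (Fin n) (Fin n) F) = ζ • 1 := by
  constructor
  · intro hs
    have h1 : (QuotientGroup.mk s : Cfsg.PSU n F q) = 1 := (QuotientGroup.eq_one_iff s).2 hs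
    have h2 := conj_mk hF n s
    rw [h1, map_one, piG_apply] at h2
    have h3 : Th hF n 1 (one_mem _) (RingEquiv.refl F) = Th hF n (suToGU n s).1 (suToGU n s).2 (RingEquiv.refl F) := by
      rw [Th_one]
      exact h2
    obtain ⟨-, ζ, -, hv⟩ := Th_eq_imp hF n hn _ _ h3
    refine ⟨ζ, ?_⟩
    apply Matrix.mulVec_injective
    funext v
    have h4 := hv v
    rw [Units.val_one, Matrix.one_mulVec] at h4
    rw [Matrix.smul_mulVec, Matrix.one_mulVec]
    exact h4
  · rintro ⟨ζ, hζ⟩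
    rw [Subgroup.mem_center_iff]
    intro t
    apply Subtype.ext
    apply Subtype.ext
    show (t.1 : Matrix (Fin n) (Fin n) F) * (s.1 : Matrix (Fin n) (Fin n) F) = (s.1 : Matrix (Fin n) (Fin n) F) * (t.1 : Matrix (Fin n) (Fin n) F)
    rw [hζ]
    simp

theorem mk_eq_of_scalar {s s' : Cfsg.SU n F q} {ζ : F}
    (h : ((s' : Matrix.SpecialLinearGroup (Fin n) F) : Matrix (Fin n) (Fin n) F) =
      ζ • ((s : Matrix.SpecialLinearGroup (Fin n) F) : Matrix (Fin n) (Fin n) F)) :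
    (QuotientGroup.mk s' : Cfsg.PSU n F q) = QuotientGroup.mk s := by
  rw [QuotientGroup.eq, mem_center_iff hF hn]
  refine ⟨ζ⁻¹, ?_⟩
  haveI : Nonempty (Fin n) := ⟨⟨0, by omega⟩⟩
  have hζ : ζ ≠ 0 := by
    rintro rfl
    have h1 := congrArg Matrix.det h
    rw [zero_smul, Matrix.SpecialLinearGroup.det_coe, Matrix.det_zero] at h1
    exact one_ne_zero h1
  have h0 : ((s'⁻¹ : Cfsg.SU n F q).1 : Matrix (Fin n) (Fin n) F) * (s'.1 : Matrix (Fin n) (Fin n) F) = 1 := by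
    have := congrArg (fun x : Cfsg.SU n F q => ((x.1 : Matrix.SpecialLinearGroup (Fin n) F) : Matrix (Fin n) (Fin n) F))
      (inv_mul_cancel s')
    exact this
  have h1 : (s.1 : Matrix (Fin n) (Fin n) F) = ζ⁻¹ • (s'.1 : Matrix (Fin n) (Fin n) F) := by
    rw [h, smul_smul, inv_mul_cancel₀ hζ, one_smul]
  show ((s'⁻¹ : Cfsg.SU n F q).1 : Matrix (Fin n) (Fin n) F) * (s.1 : Matrix (Fin n) (Fin n) F) = _
  rw [h1, Matrix.mul_smul, h0]

end center

section map

variable {F : Type*} [Field F] [Fintype F] {σ : F ≃+* F} {q q₀ r : ℕ} (H : OddField σ q q₀ r) (n : ℕ)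
  {F₀ : Type*} [Field F₀] [Fintype F₀] (hF₀ : Fintype.card F₀ = q₀ ^ 2) (ι₀ : F₀ →+* F)
  (hι₀ : ∀ x, σ x = x ↔ x ∈ Set.range ι₀)

include H hF₀ hι₀ in
theorem frob_comp (x : F₀) : ι₀ (frobHom hF₀ x) = frobHom H.hF (ι₀ x) := by
  rw [frobHom_apply, frobHom_apply, map_pow, H.pow_fix _ ((hι₀ _).2 ⟨x, rfl⟩)]

include H hF₀ hι₀ in
theorem map_mem_GU {g : GL (Fin n) F₀} (hg : g ∈ Cfsg.GU n F₀ q₀) :
    Matrix.GeneralLinearGroup.map ι₀ g ∈ Cfsg.GU n F q := by
  have h1 := (Cfsg.Agent.Lib.KS71.GUBasic.mem_GU_iff_mat (frobHom hF₀) (frobHom_apply hF₀) g).1 hg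
  rw [Cfsg.Agent.Lib.KS71.GUBasic.mem_GU_iff_mat (frobHom H.hF) (frobHom_apply H.hF)]
  have h2 := congrArg (fun X : Matrix (Fin n) (Fin n) F₀ => X.map ι₀) h1
  beta_reduce at h2
  rw [Matrix.map_mul, Matrix.map_one _ (map_zero ι₀) (map_one ι₀), Matrix.transpose_map] at h2
  have h3 : ((g : Matrix (Fin n) (Fin n) F₀).map (frobHom hF₀)).map ι₀ =
      ((g : Matrix (Fin n) (Fin n) F₀).map ι₀).map (frobHom H.hF) := by
    refine Matrix.ext fun i j => ?_
    exact frob_comp H hF₀ ι₀ hι₀ _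
  rw [h3] at h2
  exact h2

/-- The inclusion `SU_n(q₀) → SU_n(q)`. -/
noncomputable def mapSU : Cfsg.SU n F₀ q₀ →* Cfsg.SU n F q where
  toFun u := ⟨Matrix.SpecialLinearGroup.map ι₀ u.1, fun x y =>
    map_mem_GU H n hF₀ ι₀ hι₀ (suToGU n u).2 x y⟩
  map_one' := Subtype.ext (map_one _)
  map_mul' a b := Subtype.ext (map_mul _ a.1 b.1)

theorem coe_mapSU (u : Cfsg.SU n F₀ q₀) :
    ((mapSU H n hF₀ ι₀ hι₀ u).1 : Matrix (Fin n) (Fin n) F) = (u.1 : Matrix (Fin n) (Fin n) F₀).map ι₀ := rfl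

include hι₀ in
/-- Matrices with entries fixed by `σ` come from the small field. -/
theorem exists_lift_mat (A : Matrix (Fin n) (Fin n) F) (hA : A.map σ = A) :
    ∃ A₀ : Matrix (Fin n) (Fin n) F₀, A₀.map ι₀ = A := by
  have hent : ∀ i j, ∃ y : F₀, ι₀ y = A i j := by
    intro i j
    apply (hι₀ _).1
    exact congrFun (congrFun hA i) j
  choose pre hpre using hent
  exact ⟨Matrix.of pre, Matrix.ext fun i j => hpre i j⟩

include H hF₀ hι₀ in
theorem exists_lift (s : Cfsg.SU n F q) (hs : ((s.1 : Matrix (Fin n) (Fin n) F).map σ) = s.1) :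
    ∃ u : Cfsg.SU n F₀ q₀, mapSU H n hF₀ ι₀ hι₀ u = s := by
  obtain ⟨u₀, hu₀⟩ := exists_lift_mat n ι₀ hι₀ _ hs
  have hinj : Function.Injective (fun X : Matrix (Fin n) (Fin n) F₀ => X.map ι₀) :=
    Matrix.map_injective ι₀.injective
  have hdet : u₀.det = 1 := by
    apply ι₀.injective
    rw [map_one, RingHom.map_det]
    have h1 : ι₀.mapMatrix u₀ = (s.1 : Matrix (Fin n) (Fin n) F) := hu₀
    rw [h1, Matrix.SpecialLinearGroup.det_coe]
  let u₁ : Matrix.SpecialLinearGroup (Fin n) F₀ := ⟨u₀, hdet⟩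
  have hmem : u₁ ∈ Cfsg.SU n F₀ q₀ := by
    have h2 : (Matrix.SpecialLinearGroup.toGL u₁) ∈ Cfsg.GU n F₀ q₀ := by
      rw [Cfsg.Agent.Lib.KS71.GUBasic.mem_GU_iff_mat (frobHom hF₀) (frobHom_apply hF₀)]
      apply hinj
      beta_reduce
      rw [Matrix.map_mul, Matrix.map_one _ (map_zero ι₀) (map_one ι₀), Matrix.transpose_map]
      have h3 : (u₀.map (frobHom hF₀)).map ι₀ = (u₀.map ι₀).map (frobHom H.hF) := by
        refine Matrix.ext fun i j => ?_
        exact frob_comp H hF₀ ι₀ hι₀ _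
      show (u₀.map ι₀)ᵀ * (u₀.map (frobHom hF₀)).map ι₀ = 1
      rw [h3, hu₀]
      exact (Cfsg.Agent.Lib.KS71.GUBasic.mem_GU_iff_mat (frobHom H.hF) (frobHom_apply H.hF) _).1 (suToGU n s).2
    exact fun x y => h2 x y
  refine ⟨⟨u₁, hmem⟩, ?_⟩
  apply Subtype.ext
  apply Subtype.ext
  exact hu₀

/-- The map from `SU_n(q₀)` to `PSU_n(q)`. -/
noncomputable def Phi : Cfsg.SU n F₀ q₀ →* Cfsg.PSU n F q :=
  (QuotientGroup.mk' (Subgroup.center (Cfsg.SU n F q))).comp (mapSU H n hF₀ ι₀ hι₀)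

theorem Phi_apply (u : Cfsg.SU n F₀ q₀) :
    Phi H n hF₀ ι₀ hι₀ u = (QuotientGroup.mk (mapSU H n hF₀ ι₀ hι₀ u) : Cfsg.PSU n F q) := rfl

variable {n} (hn : 3 ≤ n)

include hn

theorem mapSU_center (u : Cfsg.SU n F₀ q₀) :
    mapSU H n hF₀ ι₀ hι₀ u ∈ Subgroup.center (Cfsg.SU n F q) ↔ u ∈ Subgroup.center (Cfsg.SU n F₀ q₀) := by
  rw [mem_center_iff H.hF hn, mem_center_iff hF₀ hn, coe_mapSU]
  constructor
  · rintro ⟨ζ, hζ⟩
    let i₀ : Fin n := ⟨0, by omega⟩
    have hent : ∀ i j, ι₀ ((u.1 : Matrix (Fin n) (Fin n) F₀) i j) = (ζ • (1 : Matrix (Fin n) (Fin n) F)) i j :=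
      fun i j => congrFun (congrFun hζ i) j
    refine ⟨(u.1 : Matrix (Fin n) (Fin n) F₀) i₀ i₀, ?_⟩
    refine Matrix.ext fun i j => ?_
    apply ι₀.injective
    rw [hent]
    by_cases hij : i = j
    · subst hij
      have e1 := hent i₀ i₀
      simp only [Matrix.smul_apply, Matrix.one_apply_eq, smul_eq_mul, mul_one] at e1 ⊢
      exact e1.symm
    · simp [hij]
  · rintro ⟨ζ, hζ⟩
    refine ⟨ι₀ ζ, ?_⟩
    rw [hζ]
    refine Matrix.ext fun i j => ?_
    by_cases hij : i = j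
    · subst hij
      simp
    · simp [hij]

theorem ker_Phi : (Phi H n hF₀ ι₀ hι₀).ker = Subgroup.center (Cfsg.SU n F₀ q₀) := by
  ext u
  rw [MonoidHom.mem_ker, Phi_apply, QuotientGroup.eq_one_iff, mapSU_center H hF₀ ι₀ hι₀ hn]

/-- The subgroup `PSU_n(q₀)`. -/
noncomputable def isoRange : Cfsg.PSU n F₀ q₀ ≃* (Phi H n hF₀ ι₀ hι₀).range :=
  (QuotientGroup.quotientMulEquivOfEq (ker_Phi H hF₀ ι₀ hι₀ hn).symm).trans
    (QuotientGroup.quotientKerEquivRange _)

theorem Th_Phi (u : Cfsg.SU n F₀ q₀) :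
    Th H.hF n 1 (one_mem _) σ (Phi H n hF₀ ι₀ hι₀ u) = Phi H n hF₀ ι₀ hι₀ u := by
  rw [Phi_apply]
  refine Th_mk H.hF n (one_mem _) σ _ _ ?_
  rw [one_conj_eq H.hF, coe_mapSU]
  refine Matrix.ext fun i j => ?_
  exact ((hι₀ _).2 ⟨_, rfl⟩).symm

theorem mem_range_of_fix (s : Cfsg.SU n F q) (hs : ((s.1 : Matrix (Fin n) (Fin n) F).map σ) = s.1) :
    (QuotientGroup.mk s : Cfsg.PSU n F q) ∈ (Phi H n hF₀ ι₀ hι₀).range := by
  obtain ⟨u, rfl⟩ := exists_lift H n hF₀ ι₀ hι₀ s hs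
  exact ⟨u, rfl⟩

end map

section diag

variable {F : Type*} [Field F] [Fintype F] {q : ℕ} (hF : Fintype.card F = q ^ 2) {n : ℕ} (hn : 3 ≤ n)

include hF hn

/-- A diagonal element of determinant one. -/
theorem exists_diag (ω : Fˣ) (hω : ω ∈ U1 F q) :
    ∃ s : Cfsg.SU n F q, (∀ σ : F ≃+* F, σ (ω : F) = ω → ((s.1 : Matrix (Fin n) (Fin n) F).map σ) = s.1) ∧
      (ω ≠ 1 → (QuotientGroup.mk s : Cfsg.PSU n F q) ≠ 1) ∧
      ∀ k : ℕ, ω ^ k = 1 → (QuotientGroup.mk s : Cfsg.PSU n F q) ^ k = 1 := by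
  classical
  let i₀ : Fin n := ⟨0, by omega⟩
  let i₁ : Fin n := ⟨1, by omega⟩
  let i₂ : Fin n := ⟨2, by omega⟩
  have h01 : i₀ ≠ i₁ := by simp [i₀, i₁, Fin.ext_iff]
  have h02 : i₀ ≠ i₂ := by simp [i₀, i₂, Fin.ext_iff]
  have h12 : i₁ ≠ i₂ := by simp [i₁, i₂, Fin.ext_iff]
  let f : Fin n → F := fun i => if i = i₀ then (ω : F) else if i = i₁ then (ω : F)⁻¹ else 1
  have hf0 : f i₀ = ω := by simp [f]
  have hf1 : f i₁ = (ω : F)⁻¹ := by simp [f, h01.symm]
  have hf2 : f i₂ = 1 := by simp [f, h02.symm, h12.symm]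
  have hdet : (Matrix.diagonal f).det = 1 := by
    rw [Matrix.det_diagonal, Finset.prod_eq_mul i₀ i₁ h01]
    · rw [hf0, hf1]
      exact mul_inv_cancel₀ ω.ne_zero
    · intro c _ hc
      simp [f, hc.1, hc.2]
    · simp
    · simp
  let s₁ : Matrix.SpecialLinearGroup (Fin n) F := ⟨Matrix.diagonal f, hdet⟩
  have hω' : (ω : F) * frobHom hF ω = 1 := by
    rw [frobHom_apply, ← pow_succ']
    exact (mem_U1).1 hω
  have hω'' : (ω : F)⁻¹ * frobHom hF ((ω : F)⁻¹) = 1 := by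
    rw [map_inv₀, ← mul_inv, hω', inv_one]
  have hfφ : ∀ i, f i * frobHom hF (f i) = 1 := by
    intro i
    by_cases h1 : i = i₀
    · rw [h1, hf0]
      exact hω'
    · by_cases h2 : i = i₁
      · rw [h2, hf1]
        exact hω''
      · simp [f, h1, h2]
  have hmem : s₁ ∈ Cfsg.SU n F q := by
    have h2 : (Matrix.SpecialLinearGroup.toGL s₁) ∈ Cfsg.GU n F q := by
      rw [Cfsg.Agent.Lib.KS71.GUBasic.mem_GU_iff_mat (frobHom hF) (frobHom_apply hF)]
      show (Matrix.diagonal f)ᵀ * (Matrix.diagonal f).map (frobHom hF) = 1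
      rw [Matrix.diagonal_transpose, Matrix.diagonal_map (map_zero _), Matrix.diagonal_mul_diagonal]
      rw [← Matrix.diagonal_one]
      congr 1
      funext i
      exact hfφ i
    exact fun x y => h2 x y
  refine ⟨⟨s₁, hmem⟩, ?_, ?_, ?_⟩
  · intro σ hσ
    show (Matrix.diagonal f).map σ = Matrix.diagonal f
    have h3 : (Matrix.diagonal f).map σ = Matrix.diagonal (σ ∘ f) := Matrix.diagonal_map (map_zero σ)
    rw [h3]
    congr 1
    funext i
    by_cases h1 : i = i₀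
    · simp [f, h1, hσ]
    · by_cases h2 : i = i₁
      · simp [f, h1, h2, h01.symm, hσ, map_inv₀]
      · simp [f, h1, h2]
  · intro hne h1
    rw [QuotientGroup.eq_one_iff, mem_center_iff hF hn] at h1
    obtain ⟨ζ, hζ⟩ := h1
    have h2 : Matrix.diagonal f = ζ • (1 : Matrix (Fin n) (Fin n) F) := hζ
    have e0 := congrFun (congrFun h2 i₀) i₀
    have e2 := congrFun (congrFun h2 i₂) i₂
    simp only [Matrix.diagonal_apply_eq, Matrix.smul_apply, Matrix.one_apply_eq, smul_eq_mul, mul_one, hf0, hf2] at e0 e2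
    apply hne
    apply Units.ext
    rw [e0, ← e2]
    rfl
  · intro k hk
    have hωk : (ω : F) ^ k = 1 := by
      rw [← Units.val_pow_eq_pow_val, hk, Units.val_one]
    have hs : (⟨s₁, hmem⟩ : Cfsg.SU n F q) ^ k = 1 := by
      apply Subtype.ext
      apply Subtype.ext
      show (Matrix.diagonal f) ^ k = 1
      rw [Matrix.diagonal_pow, ← Matrix.diagonal_one]
      congr 1
      funext i
      show f i ^ k = 1
      by_cases h1 : i = i₀
      · rw [h1, hf0, hωk]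
      · by_cases h2 : i = i₁
        · rw [h2, hf1, inv_pow, hωk, inv_one]
        · simp [f, h1, h2]
    rw [← QuotientGroup.mk_pow, hs]
    rfl

end diag

section core

variable {F : Type*} [Field F] [Fintype F] {σ : F ≃+* F} {q q₀ r : ℕ} (H : OddField σ q q₀ r) {n : ℕ}
  {F₀ : Type*} [Field F₀] [Fintype F₀] (hF₀ : Fintype.card F₀ = q₀ ^ 2) (ι₀ : F₀ →+* F)
  (hι₀ : ∀ x, σ x = x ↔ x ∈ Set.range ι₀) (hn : 3 ≤ n)

include H hF₀ hn hι₀

/-- A prime dividing the order of the centraliser divides the order of the small unitary group. -/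
theorem dvd_card_range {p : ℕ} (hp : p.Prime)
    (hdvd : p ∣ Nat.card (MonoidHom.eqLocus (Th H.hF n 1 (one_mem _) σ).toMonoidHom
      (MonoidHom.id (Cfsg.PSU n F q)))) :
    p ∣ Nat.card (Phi H n hF₀ ι₀ hι₀).range := by
  classical
  haveI : Fact p.Prime := ⟨hp⟩
  have hF := H.hF
  obtain ⟨c, hc⟩ := exists_prime_orderOf_dvd_card' p hdvd
  by_cases hpq : p ∣ q₀ + 1
  · have hcard := card_FixU1 H
    obtain ⟨ω, hω⟩ := exists_prime_orderOf_dvd_card' (G := FixU1 σ q) p (by rw [hcard]; exact hpq)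
    have hωp : (((ω : U1 F q) : Fˣ)) ^ p = 1 := by
      have h1 : ω ^ p = 1 := by rw [← hω]; exact pow_orderOf_eq_one ω
      exact congrArg (fun z : FixU1 σ q => (((z : U1 F q) : Fˣ))) h1
    have hω1 : ((ω : U1 F q) : Fˣ) ≠ 1 := by
      intro h1
      have h2 : ω = 1 := Subtype.ext (Subtype.ext h1)
      rw [h2, orderOf_one] at hω
      exact hp.one_lt.ne hω
    obtain ⟨s, hs1, hs2, hs3⟩ := exists_diag hF hn ((ω : U1 F q) : Fˣ) (ω : U1 F q).2
    have hmem := mem_range_of_fix H hF₀ ι₀ hι₀ hn s (hs1 σ ω.2)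
    have hord : orderOf (QuotientGroup.mk s : Cfsg.PSU n F q) = p :=
      orderOf_eq_prime (hs3 p hωp) (hs2 hω1)
    rw [← hord]
    exact Subgroup.orderOf_dvd_natCard _ hmem
  · obtain ⟨s, hs⟩ := QuotientGroup.mk_surjective (c.1 : Cfsg.PSU n F q)
    have hcfix : Th hF n 1 (one_mem _) σ c.1 = c.1 := c.2
    have hcomm : piG hF n (suToGU n s) * Th hF n 1 (one_mem _) σ = Th hF n 1 (one_mem _) σ * piG hF n (suToGU n s) := by
      rw [← conj_mk hF n s, hs]
      ext1 x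
      simp only [MulAut.mul_apply, MulAut.conj_apply, map_mul, map_inv, hcfix]
    obtain ⟨b, hb, hbf⟩ := cc_field H n hn (suToGU n s) hcomm
    have hcop : Nat.Coprime (Nat.card (FixU1 σ q)) p := by
      rw [card_FixU1 H]
      exact (Nat.Prime.coprime_iff_not_dvd hp).2 hpq |>.symm
    set g₁ : GL (Fin n) F := (suToGU n s).1 * sc n b with hg₁d
    have hg₁ : g₁ ∈ Cfsg.GU n F q := mul_mem (suToGU n s).2 (sc_mem H n hb)
    have hdets : dt (suToGU n s).1 = 1 := by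
      apply Units.ext
      rw [coe_dt]
      exact (s.1).2
    have hy : dt g₁ = b ^ n := by
      rw [hg₁d, map_mul, hdets, one_mul, dt_sc]
    -- `c ^ p = 1`
    have hsp : (QuotientGroup.mk (s ^ p) : Cfsg.PSU n F q) = 1 := by
      rw [QuotientGroup.mk_pow, hs]
      have h1 : c ^ p = 1 := by rw [← hc]; exact pow_orderOf_eq_one c
      exact congrArg Subtype.val h1
    rw [QuotientGroup.eq_one_iff, mem_center_iff hF hn] at hsp
    obtain ⟨w, hw⟩ := hsp
    have hgp : ((g₁ ^ p : GL (Fin n) F) : Matrix (Fin n) (Fin n) F) = (w * (b : F) ^ p) • 1 := by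
      have e1 : g₁ ^ p = (suToGU n s).1 ^ p * sc n (b ^ p) := by
        rw [hg₁d, Commute.mul_pow (sc_central b _).symm]
        congr 1
        exact (map_pow (Matrix.GeneralLinearGroup.scalar (Fin n)) b p).symm
      have e2 : (((suToGU n s).1 ^ p : GL (Fin n) F) : Matrix (Fin n) (Fin n) F) = w • 1 := by
        rw [← hw]
        rw [Units.val_pow_eq_pow_val, coe_suToGU]
        rfl
      rw [e1, Units.val_mul, e2, coe_sc, Units.val_pow_eq_pow_val, Matrix.smul_mul, Matrix.one_mul, smul_smul]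
    set z : F := w * (b : F) ^ p with hzd
    have hGUp : g₁ ^ p ∈ Cfsg.GU n F q := pow_mem hg₁ p
    let i₀ : Fin n := ⟨0, by omega⟩
    have hzφ : z * frobHom hF z = 1 := by
      have h1 := (Cfsg.Agent.Lib.KS71.GUBasic.mem_GU_iff_mat (frobHom hF) (frobHom_apply hF) _).1 hGUp
      rw [hgp] at h1
      have h2 := congrFun (congrFun h1 i₀) i₀
      have h3 : ((z • (1 : Matrix (Fin n) (Fin n) F)).map (frobHom hF)) = (frobHom hF z) • 1 := by
        refine Matrix.ext fun i j => ?_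
        by_cases hij : i = j
        · subst hij
          simp
        · rw [Matrix.map_apply]
          simp only [Matrix.smul_apply, Matrix.one_apply_ne hij, smul_zero, map_zero]
      rw [h3, Matrix.transpose_smul, Matrix.transpose_one, Matrix.smul_mul, Matrix.mul_smul, Matrix.one_mul] at h2
      simpa using h2
    have hz0 : z ≠ 0 := by
      rintro h0
      rw [h0, zero_mul] at hzφ
      exact zero_ne_one hzφ
    have hzσ : σ z = z := by
      have h1 : mapGL σ (g₁ ^ p) = g₁ ^ p := by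
        have h2 : mapGL σ (g₁ ^ p) = (mapGL σ g₁) ^ p := map_pow (Matrix.GeneralLinearGroup.map (σ : F →+* F)) g₁ p
        rw [h2, hbf]
      have h2 := congrArg (fun x : GL (Fin n) F => (x : Matrix (Fin n) (Fin n) F) i₀ i₀) h1
      simp only [coe_mapGL, hgp] at h2
      simpa using h2
    let zU : Fˣ := Units.mk0 z hz0
    have hzU : zU ∈ U1 F q := by
      rw [mem_U1]
      show z ^ (q + 1) = 1
      rw [pow_succ']
      rw [frobHom_apply] at hzφ
      exact hzφ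
    let zF : FixU1 σ q := ⟨⟨zU, hzU⟩, hzσ⟩
    let y : FixU1 σ q := ⟨⟨dt g₁, det_norm hF n hg₁⟩, by
      show σ ((dt g₁ : Fˣ) : F) = ((dt g₁ : Fˣ) : F)
      rw [← dt_mapGL, hbf]⟩
    have hg₁p : g₁ ^ p = sc n zU := by
      apply Units.ext
      rw [hgp, coe_sc]
      rfl
    have hrel : y ^ p = zF ^ n := by
      apply Subtype.ext
      apply Subtype.ext
      show (dt g₁) ^ p = zU ^ n
      rw [← map_pow, hg₁p, dt_sc]
    let e : FixU1 σ q := (powCoprime hcop).symm zF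
    have he : e ^ p = zF := by
      have h1 := (powCoprime hcop).apply_symm_apply zF
      rwa [powCoprime_apply] at h1
    have hyn : y = e ^ n := by
      apply (powCoprime hcop).injective
      rw [powCoprime_apply, powCoprime_apply, hrel, pow_right_comm, he]
    let eU : Fˣ := ((e : U1 F q) : Fˣ)
    have heU : eU ∈ U1 F q := (e : U1 F q).2
    have hσe : σ (eU : F) = eU := e.2
    have hyU : dt g₁ = eU ^ n := congrArg (fun z : FixU1 σ q => (((z : U1 F q) : Fˣ))) hyn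
    let G : Cfsg.GU n F q := ⟨g₁ * sc n eU⁻¹, mul_mem hg₁ (sc_mem H n (inv_mem heU))⟩
    have hG : detU hF n G = 1 := by
      apply Subtype.ext
      show dt (g₁ * sc n eU⁻¹) = 1
      rw [map_mul, dt_sc, hyU, inv_pow, mul_inv_cancel]
    obtain ⟨s₂, hs₂⟩ := exists_su_of_ker hF n hG
    have hs₂m : (s₂.1 : Matrix (Fin n) (Fin n) F) = ((G.1 : GL (Fin n) F) : Matrix (Fin n) (Fin n) F) := by
      rw [← hs₂, coe_suToGU]
    have hmkeq : (QuotientGroup.mk s₂ : Cfsg.PSU n F q) = QuotientGroup.mk s := by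
      refine mk_eq_of_scalar hF hn (ζ := (b : F) * ((eU⁻¹ : Fˣ) : F)) ?_
      rw [hs₂m]
      show ((g₁ * sc n eU⁻¹ : GL (Fin n) F) : Matrix (Fin n) (Fin n) F) = _
      rw [hg₁d, Units.val_mul, Units.val_mul, coe_sc, coe_sc, coe_suToGU]
      simp only [Matrix.mul_smul, Matrix.mul_one, smul_smul]
      rw [mul_comm]
    have hfixs₂ : ((s₂.1 : Matrix (Fin n) (Fin n) F).map σ) = s₂.1 := by
      rw [hs₂m]
      rw [← coe_mapGL]
      congr 1
      show mapGL σ (g₁ * sc n eU⁻¹) = g₁ * sc n eU⁻¹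
      rw [mapGL_mul, hbf, mapGL_sc]
      congr 3
      apply Units.ext
      show σ (((eU⁻¹ : Fˣ)) : F) = ((eU⁻¹ : Fˣ) : F)
      rw [Units.val_inv_eq_inv_val, map_inv₀, hσe]
    have hmem := mem_range_of_fix H hF₀ ι₀ hι₀ hn s₂ hfixs₂
    rw [hmkeq, hs] at hmem
    have hord : orderOf (c.1 : Cfsg.PSU n F q) = p := by
      rw [← hc]
      exact Subgroup.orderOf_coe c
    rw [← hord]
    exact Subgroup.orderOf_dvd_natCard _ hmem

end core

theorem pow_eq_one_of_fix_aux {K : Type*} [Field K] [Finite K] (σ τ : K ≃+* K) (hτ : ∀ x, σ x = x → τ x = x) :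
    τ ^ orderOf σ = 1 := by
  classical
  haveI : Fintype K := Fintype.ofFinite K
  letI : Fintype (Subgroup.zpowers σ) := Fintype.ofFinite _
  let S := FixedPoints.subfield (Subgroup.zpowers σ) K
  have h1 : Module.finrank S K = orderOf σ := by
    rw [FixedPoints.finrank_eq_card (Subgroup.zpowers σ) K, ← Nat.card_eq_fintype_card, Nat.card_zpowers]
  haveI : IsGalois S K := IsGalois.of_fixed_field K (Subgroup.zpowers σ)
  have hfix : ∀ r : S, τ (algebraMap S K r) = algebraMap S K r := by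
    intro r
    apply hτ
    exact r.2 ⟨σ, Subgroup.mem_zpowers σ⟩
  let τ₁ : K ≃ₐ[S] K := AlgEquiv.ofRingEquiv hfix
  have hcard : Nat.card (K ≃ₐ[S] K) = orderOf σ := by
    rw [IsGalois.card_aut_eq_finrank, h1]
  have h2 : τ₁ ^ orderOf σ = 1 := by
    rw [← hcard]
    exact pow_card_eq_one'
  have h3 : ∀ (k : ℕ) (x : K), (τ₁ ^ k) x = (τ ^ k) x := by
    intro k
    induction k with
    | zero =>
      intro x
      rfl
    | succ k ih =>
      intro x
      rw [pow_succ', pow_succ', AlgEquiv.mul_apply, ih]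
      rfl
  ext x
  rw [← h3, h2]
  rfl

/-- When an Eichler transformation is a scalar multiple of another one, their centres agree. -/
theorem trans_scalar {K V : Type*} [Field K] [AddCommGroup V] [Module K V] {φ : K →+* K} {h : V → V → K}
    (S : HForm φ h) {x y : V} {a b ζ : K} {ρ ρ' : V ≃ₗ[K] V} (hE : EichAt φ h x 0 a ρ) (hE' : EichAt φ h y 0 b ρ')
    (ha : a ≠ 0) (hx0 : x ≠ 0) (hrel : ∀ v, ρ v = ζ • ρ' v) : ∃ c : K, y = c • x := by
  have hρ : ∀ v, ρ v = v + (a * h v x) • x := by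
    intro v
    rw [hE.apply, S.zero_right]
    simp
  have hρ' : ∀ v, ρ' v = v + (b * h v y) • y := by
    intro v
    rw [hE'.apply, S.zero_right]
    simp
  have hyy : h y y = 0 := hE'.ee
  have hxx : h x x = 0 := hE.ee
  have h1 := hrel x
  rw [hρ, hxx, mul_zero, zero_smul, add_zero, hρ'] at h1
  have hζ : ζ = 1 := by
    by_cases hxy : h x y = 0
    · rw [hxy, mul_zero, zero_smul, add_zero] at h1
      have h2 : (ζ - 1) • x = 0 := by
        rw [sub_smul, one_smul, ← h1, sub_self]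
      exact sub_eq_zero.1 ((smul_eq_zero.1 h2).resolve_right hx0)
    · have h2 := congrArg (fun w => h w y) h1
      simp only [S.smul_left, S.add_left, hyy, mul_zero, add_zero] at h2
      have h3 : (ζ - 1) * h x y = 0 := by linear_combination -h2
      exact sub_eq_zero.1 ((mul_eq_zero.1 h3).resolve_right hxy)
  subst hζ
  obtain ⟨v, hv⟩ : ∃ v, h v x ≠ 0 := by
    by_contra hcon
    push Not at hcon
    exact hx0 (S.sep_right x hcon)
  have h2 := hrel v
  rw [one_smul, hρ, hρ'] at h2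
  have h3 : (a * h v x) • x = (b * h v y) • y := add_left_cancel h2
  have h4 : b * h v y ≠ 0 := by
    intro h0
    rw [h0, zero_smul] at h3
    exact (smul_ne_zero (mul_ne_zero ha hv) hx0) h3
  refine ⟨(a * h v x) / (b * h v y), ?_⟩
  rw [div_eq_inv_mul, mul_smul, h3, smul_smul, inv_mul_cancel₀ h4, one_smul]

section pts

variable {F : Type*} [Field F] [Fintype F] {q : ℕ} (hF : Fintype.card F = q ^ 2) {n : ℕ} (hn : 3 ≤ n)

include hF hn

/-- The conjugate of an element of the special unitary group acts as the conjugate map. -/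
theorem suEquiv_conj {g : GL (Fin n) F} (hg : g ∈ Cfsg.GU n F q) (τ : F ≃+* F) (s s' : Cfsg.SU n F q)
    (hs' : ((s' : Matrix.SpecialLinearGroup (Fin n) F) : Matrix (Fin n) (Fin n) F) =
      (g : Matrix (Fin n) (Fin n) F) *
        (((s : Matrix.SpecialLinearGroup (Fin n) F) : Matrix (Fin n) (Fin n) F)).map τ *
        ((g⁻¹ : GL (Fin n) F) : Matrix (Fin n) (Fin n) F)) :
    (suEquiv n q s').1 = (semiOf_semi (q := q) n hg τ).conj (suEquiv n q s).1 := by
  ext1 v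
  rw [suEquiv_apply, hs', conj_formula hF n hg τ s]
  rfl

/-- An automorphism fixing a transvection fixes its centre. -/
theorem point_of_fix {g : GL (Fin n) F} (hg : g ∈ Cfsg.GU n F q) (τ : F ≃+* F) (s : Cfsg.SU n F q) {x : Fin n → F}
    {a : F} (hE : EichAt (frobHom hF) (Cfsg.hermForm n F q) x 0 a (suEquiv n q s).1) (ha : a ≠ 0) (hx0 : x ≠ 0)
    (hfix : Th hF n g hg τ (QuotientGroup.mk s) = QuotientGroup.mk s) : ∃ c : F, semiOf n g τ x = c • x := by
  have S := hform hF n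
  have hM := semiOf_semi (q := q) n hg τ
  obtain ⟨s', hs'⟩ := exists_conj hF n hg τ s
  rw [Th_mk hF n hg τ s s' hs'] at hfix
  rw [QuotientGroup.eq, mem_center_iff hF hn] at hfix
  obtain ⟨ζ, hζ⟩ := hfix
  have hρ' := suEquiv_conj hF hn hg τ s s' hs'
  have hE' := hM.conj_eich (tau_frob hF τ) hE
  rw [← hρ', map_zero] at hE'
  have h0 : (s'.1 : Matrix (Fin n) (Fin n) F) * ((s'⁻¹ : Cfsg.SU n F q).1 : Matrix (Fin n) (Fin n) F) = 1 := by
    have := congrArg (fun x : Cfsg.SU n F q => ((x.1 : Matrix.SpecialLinearGroup (Fin n) F) : Matrix (Fin n) (Fin n) F))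
      (mul_inv_cancel s')
    exact this
  have hsm : (s.1 : Matrix (Fin n) (Fin n) F) = ζ • (s'.1 : Matrix (Fin n) (Fin n) F) := by
    have h1 : ((s'⁻¹ * s : Cfsg.SU n F q).1 : Matrix (Fin n) (Fin n) F) =
        ((s'⁻¹ : Cfsg.SU n F q).1 : Matrix (Fin n) (Fin n) F) * (s.1 : Matrix (Fin n) (Fin n) F) := rfl
    rw [h1] at hζ
    have h2 := congrArg (fun X => (s'.1 : Matrix (Fin n) (Fin n) F) * X) hζ
    beta_reduce at h2
    rw [← Matrix.mul_assoc, h0, Matrix.one_mul, Matrix.mul_smul, Matrix.mul_one] at h2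
    exact h2
  obtain ⟨c, hc⟩ := trans_scalar S hE hE' ha hx0 (ζ := ζ) (by
    intro v
    rw [suEquiv_apply, suEquiv_apply, hsm, Matrix.smul_mulVec])
  exact ⟨c, hc⟩

end pts

section rigid

variable {F : Type*} [Field F] [Fintype F] {σ : F ≃+* F} {q q₀ r : ℕ} (H : OddField σ q q₀ r) {n : ℕ}
  {F₀ : Type*} [Field F₀] [Fintype F₀] (hF₀ : Fintype.card F₀ = q₀ ^ 2) (ι₀ : F₀ →+* F)
  (hι₀ : ∀ x, σ x = x ↔ x ∈ Set.range ι₀) (hn : 3 ≤ n)

include H hF₀ hn hι₀

/-- The representative of an element of the centraliser can be chosen over the small field. -/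
theorem cent_rep {g' : GL (Fin n) F} (hg' : g' ∈ Cfsg.GU n F q) (τ' : F ≃+* F)
    (hc : Th H.hF n g' hg' τ' * Th H.hF n 1 (one_mem _) σ = Th H.hF n 1 (one_mem _) σ * Th H.hF n g' hg' τ') :
    ∃ (g'' : GL (Fin n) F) (hg'' : g'' ∈ Cfsg.GU n F q), Th H.hF n g'' hg'' τ' = Th H.hF n g' hg' τ' ∧
      mapGL σ g'' = g'' := by
  have hF := H.hF
  have hcomm : Th hF n 1 (one_mem _) τ' * Th hF n 1 (one_mem _) σ = Th hF n 1 (one_mem _) σ * Th hF n 1 (one_mem _) τ' := by
    have h1 := map_mul (fieldHom hF n) τ' σ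
    have h2 := map_mul (fieldHom hF n) σ τ'
    rw [Cfsg.Agent.Lib.KS71.GalFin.comm τ' σ, h2] at h1
    exact h1.symm
  rw [Th_factor hF n hg' τ'] at hc
  have hc' : Th hF n g' hg' (RingEquiv.refl F) * Th hF n 1 (one_mem _) σ =
      Th hF n 1 (one_mem _) σ * Th hF n g' hg' (RingEquiv.refl F) := by
    apply mul_right_cancel (b := Th hF n 1 (one_mem _) τ')
    calc _ = Th hF n g' hg' (RingEquiv.refl F) * (Th hF n 1 (one_mem _) σ * Th hF n 1 (one_mem _) τ') := by group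
      _ = (Th hF n g' hg' (RingEquiv.refl F) * Th hF n 1 (one_mem _) τ') * Th hF n 1 (one_mem _) σ := by
        rw [← hcomm]
        group
      _ = _ := by
        rw [hc]
        group
  obtain ⟨b, hb, hbf⟩ := cc_field H n hn ⟨g', hg'⟩ hc'
  refine ⟨g' * sc n b, mul_mem hg' (sc_mem H n hb), ?_, hbf⟩
  refine Th_scalar hF n hg' _ τ' b.ne_zero ?_
  rw [← sc_central]
  exact coe_scal n g' b

/-- The automorphisms commuting with the field automorphism preserve the small unitary group. -/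
theorem Th_range {g : GL (Fin n) F} (hg : g ∈ Cfsg.GU n F q) (τ : F ≃+* F) (hfix : mapGL σ g = g)
    (u : Cfsg.SU n F₀ q₀) : Th H.hF n g hg τ (Phi H n hF₀ ι₀ hι₀ u) ∈ (Phi H n hF₀ ι₀ hι₀).range := by
  have hF := H.hF
  obtain ⟨s', hs'⟩ := exists_conj hF n hg τ (mapSU H n hF₀ ι₀ hι₀ u)
  rw [Phi_apply, Th_mk hF n hg τ _ s' hs']
  refine mem_range_of_fix H hF₀ ι₀ hι₀ hn s' ?_
  rw [hs']
  have e1 : (g : Matrix (Fin n) (Fin n) F).map σ = g := by
    rw [← coe_mapGL, hfix]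
  have e2 : ((g⁻¹ : GL (Fin n) F) : Matrix (Fin n) (Fin n) F).map σ = (g⁻¹ : GL (Fin n) F) := by
    rw [← coe_mapGL, mapGL_inv, hfix]
  have e3 : ∀ z, σ (τ z) = τ (σ z) := by
    intro z
    have := congrArg (fun ρ : F ≃+* F => ρ z) (Cfsg.Agent.Lib.KS71.GalFin.comm σ τ)
    exact this
  have e4 : (((mapSU H n hF₀ ι₀ hι₀ u).1 : Matrix (Fin n) (Fin n) F).map τ).map σ =
      ((mapSU H n hF₀ ι₀ hι₀ u).1 : Matrix (Fin n) (Fin n) F).map τ := by
    refine Matrix.ext fun i j => ?_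
    show σ (τ (ι₀ _)) = τ (ι₀ _)
    rw [e3, (hι₀ _).2 ⟨_, rfl⟩]
  rw [Matrix.map_mul, Matrix.map_mul, e1, e2, e4]

/-- **Rigidity** over the small field. -/
theorem rigid_field {g : GL (Fin n) F} (hg : g ∈ Cfsg.GU n F q) (τ : F ≃+* F) (hfix : mapGL σ g = g)
    (hz : ∀ x₀ : Fin n → F₀, x₀ ≠ 0 → Cfsg.hermForm n F₀ q₀ x₀ x₀ = 0 →
      ∃ c : F, semiOf n g τ (ι₀ ∘ x₀) = c • (ι₀ ∘ x₀)) :
    (∀ a, σ a = a → τ a = a) ∧ ∃ ζ : F, ζ ≠ 0 ∧ (g : Matrix (Fin n) (Fin n) F) = ζ • ((1 : GL (Fin n) F) : Matrix (Fin n) (Fin n) F) := by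
  classical
  have hF := H.hF
  have hinj := ι₀.injective
  have e3 : ∀ z, σ (τ z) = τ (σ z) := by
    intro z
    have := congrArg (fun ρ : F ≃+* F => ρ z) (Cfsg.Agent.Lib.KS71.GalFin.comm σ τ)
    exact this
  -- the restriction of `τ`
  have hτι : ∀ a : F₀, ∃ b : F₀, ι₀ b = τ (ι₀ a) := by
    intro a
    apply (hι₀ _).1
    rw [e3, (hι₀ _).2 ⟨_, rfl⟩]
  choose f hf using hτι
  let τ₀h : F₀ →+* F₀ :=
    { toFun := f
      map_one' := hinj (by rw [hf, map_one, map_one])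
      map_mul' := fun a b => hinj (by simp only [hf, map_mul])
      map_zero' := hinj (by rw [hf, map_zero, map_zero])
      map_add' := fun a b => hinj (by simp only [hf, map_add]) }
  have hbij : Function.Bijective τ₀h := by
    have h1 : Function.Injective τ₀h := τ₀h.injective
    exact ⟨h1, Finite.surjective_of_injective h1⟩
  let τ₀ : F₀ ≃+* F₀ := RingEquiv.ofBijective τ₀h hbij
  have hτ₀ : ∀ a, ι₀ (τ₀ a) = τ (ι₀ a) := fun a => hf a
  -- the lift of `g`
  obtain ⟨g₀m, hg₀m⟩ := exists_lift_mat n ι₀ hι₀ (g : Matrix (Fin n) (Fin n) F) (by rw [← coe_mapGL, hfix])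
  have hinjm : Function.Injective (fun X : Matrix (Fin n) (Fin n) F₀ => X.map ι₀) :=
    Matrix.map_injective hinj
  have hMat : g₀mᵀ * g₀m.map (frobHom hF₀) = 1 := by
    apply hinjm
    beta_reduce
    rw [Matrix.map_mul, Matrix.map_one _ (map_zero ι₀) (map_one ι₀), Matrix.transpose_map]
    have h3 : (g₀m.map (frobHom hF₀)).map ι₀ = (g₀m.map ι₀).map (frobHom hF) := by
      refine Matrix.ext fun i j => ?_
      exact frob_comp H hF₀ ι₀ hι₀ _
    rw [h3, hg₀m]
    exact (Cfsg.Agent.Lib.KS71.GUBasic.mem_GU_iff_mat (frobHom hF) (frobHom_apply hF) g).1 hg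
  have hdet : g₀m.det ≠ 0 := by
    intro h0
    have h2 := congrArg Matrix.det hMat
    rw [Matrix.det_mul, Matrix.det_transpose, h0, zero_mul, Matrix.det_one] at h2
    exact zero_ne_one h2
  let g₀ : GL (Fin n) F₀ := Matrix.GeneralLinearGroup.mkOfDetNeZero g₀m hdet
  have hg₀c : (g₀ : Matrix (Fin n) (Fin n) F₀) = g₀m := rfl
  have hg₀ : g₀ ∈ Cfsg.GU n F₀ q₀ :=
    (Cfsg.Agent.Lib.KS71.GUBasic.mem_GU_iff_mat (frobHom hF₀) (frobHom_apply hF₀) g₀).2 hMat
  have hι : ∀ v : Fin n → F₀, ι₀ ∘ (semiOf n g₀ τ₀ v) = semiOf n g τ (ι₀ ∘ v) := by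
    intro v
    funext i
    rw [semiOf_apply, semiOf_apply, ← hg₀m]
    simp only [Function.comp_apply, Matrix.mulVec, dotProduct, map_sum, map_mul, hg₀c, Matrix.map_apply, tauHat_apply, hτ₀]
  have hz₀ : ∀ z : Fin n → F₀, z ≠ 0 → Cfsg.hermForm n F₀ q₀ z z = 0 → ∃ c₀ : F₀, semiOf n g₀ τ₀ z = c₀ • z := by
    intro z hz0 hzz
    obtain ⟨c, hc⟩ := hz z hz0 hzz
    rw [← hι] at hc
    obtain ⟨i, hi⟩ := Function.ne_iff.1 hz0
    have hi' : z i ≠ 0 := hi
    refine ⟨(semiOf n g₀ τ₀ z) i / z i, ?_⟩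
    have hci : c = ι₀ ((semiOf n g₀ τ₀ z) i / z i) := by
      have h1 := congrFun hc i
      simp only [Function.comp_apply, Pi.smul_apply, smul_eq_mul] at h1
      rw [map_div₀, h1]
      have : ι₀ (z i) ≠ 0 := (map_ne_zero ι₀).2 hi'
      field_simp
    rw [hci] at hc
    funext j
    apply hinj
    have h1 := congrFun hc j
    simp only [Function.comp_apply, Pi.smul_apply, smul_eq_mul] at h1
    rw [h1]
    simp only [Pi.smul_apply, smul_eq_mul, map_mul]
  have hfr : finrank F₀ (Fin n → F₀) = n := Module.finrank_fin_fun F₀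
  obtain ⟨hτfix, ζ, hζ⟩ := semi_rigid (hform hF₀ n) (invol_frob hF₀) (by rw [hfr]; exact hn)
    (semiOf_semi (q := q₀) n hg₀ τ₀) hz₀
  constructor
  · intro a ha
    obtain ⟨a₀, rfl⟩ := (hι₀ a).1 ha
    rw [← hτ₀, hτfix]
  · have hm : g₀m = ζ • 1 := by
      rw [← matrix_eq_scalar]
      intro v
      have h1 := hζ v
      rw [semiOf_apply] at h1
      have h2 : tauHat n τ₀ v = v := by
        funext i
        simp [hτfix, τ₀]
      rwa [h2] at h1
    have hζ0 : ζ ≠ 0 := by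
      rintro rfl
      rw [zero_smul] at hm
      haveI : Nonempty (Fin n) := ⟨⟨0, by omega⟩⟩
      rw [hm, Matrix.det_zero] at hdet
      exact hdet rfl
    refine ⟨ι₀ ζ, (map_ne_zero ι₀).2 hζ0, ?_⟩
    rw [← hg₀m, hm, Units.val_one]
    refine Matrix.ext fun i j => ?_
    by_cases hij : i = j
    · subst hij
      simp
    · simp [hij]

end rigid

end Cfsg.Agent.Lib.AutCl.PSUCore
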