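/-
The core of the local balance theorem for field automorphisms of odd prime order of `PSU_n(q)`.
-/
import Mathlib
import Cfsg.Agent.Lib.AutCl.PSUCore
import Cfsg.Agent.Lib.Classical.HermOrders

set_option autoImplicit false
set_option linter.unusedSimpArgs false
set_option linter.unusedSectionVars false
set_option linter.style.haveILetI false
set_option linter.unusedVariables false

namespace Cfsg.Agent.Lib.AutCl.PSUCore2

open Module Matrix MulAction
open Cfsg.Agent.Lib.Classical.HermBasic Cfsg.Agent.Lib.Classical.HermElem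
open Cfsg.Agent.Lib.AutCl.HermSemi Cfsg.Agent.Lib.AutCl.PSUAut Cfsg.Agent.Lib.AutCl.PSUCount
open Cfsg.Agent.Lib.AutCl.PSUGroup Cfsg.Agent.Lib.AutCl.PSUField Cfsg.Agent.Lib.AutCl.PSUFieldCent
open Cfsg.Agent.Lib.AutCl.PSUPts Cfsg.Agent.Lib.AutCl.PSUCore
open Cfsg.Agent.Lib.Classical.HermBridge Cfsg.Agent.Lib.Classical.MatrixBridge
open Cfsg.Agent.Lib.HermCount.Field
open Cfsg.Agent.Lib.KS71.PSLAutGroup (mapGL coe_mapGL mapGL_mul mapGL_inv map_mul_map)
open Cfsg.Agent.Lib.KS71.PSLTwist (sc coe_sc sc_mul sc_central mapGL_sc mapGL_mapGL mapGL_one)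
open scoped MatrixGroups

universe u

theorem conj_map {G : Type*} [Group G] (ν : MulAut G) (k : G) :
    MulAut.conj (ν k) = ν * MulAut.conj k * ν⁻¹ := by
  ext z
  simp only [MulAut.mul_apply, MulAut.conj_apply, _root_.map_mul, _root_.map_inv, MulAut.apply_inv_self]

theorem conj_inj {F : Type*} [Field F] [Fintype F] {q : ℕ} (hF : Fintype.card F = q ^ 2) {n : ℕ} (hn : 3 ≤ n) :
    Function.Injective (MulAut.conj : Cfsg.PSU n F q →* MulAut (Cfsg.PSU n F q)) := by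
  rw [injective_iff_map_eq_one]
  intro a ha
  have : a ∈ Subgroup.center (Cfsg.PSU n F q) := by
    rw [Subgroup.mem_center_iff]
    intro b
    have h7 := congrArg (fun φ : MulAut (Cfsg.PSU n F q) => φ b) ha
    simp only [MulAut.conj_apply, MulAut.one_apply] at h7
    exact eq_mul_inv_iff_mul_eq.1 h7.symm
  rw [center_PSU hF n hn] at this
  exact this

section abs

variable {K V : Type*} [Field K] [AddCommGroup V] [Module K V] {φ : K →+* K} {h : V → V → K} (S : HForm φ h)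

include S

/-- In characteristic two the product of two transvections whose centres are not orthogonal can have
order three. -/
theorem three_abs {x y : V} (hxx : h x x = 0) (hyy : h y y = 0) (h2 : (2 : K) = 0)
    (hκ : h x y * φ (h x y) = 1) (A : V → V)
    (hA : ∀ v, A v = v + h v x • x + (h v y + h v x * h x y) • y) (v : V) : A (A (A v)) = v := by
  have hyx : h y x = φ (h x y) := S.conj x y
  set κ := h x y with hκd
  set κ' := φ κ with hκ'd
  have h1 : ∀ v, h (A v) x = h v y * κ' := by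
    intro v
    rw [hA]
    simp only [S.add_left, S.smul_left, hxx, hyx]
    linear_combination h v x * hκ + h v x * h2
  have h3 : ∀ v, h (A v) y = h v y + h v x * κ := by
    intro v
    rw [hA]
    simp only [S.add_left, S.smul_left, hyy, ← hκd]
    ring
  have e1 := hA v
  have e2 := hA (A v)
  have e3 := hA (A (A v))
  rw [h1 (A v), h3 (A v), h1 v, h3 v] at e3
  rw [h1 v, h3 v] at e2
  rw [e3, e2, e1]
  have hc1 : h v x + h v y * κ' + (h v y + h v x * κ) * κ' = 0 := by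
    linear_combination h v x * hκ + h v x * h2 + h v y * κ' * h2
  have hc2 : (h v y + h v x * κ) + (h v y + h v x * κ + h v y * κ' * κ) +
      (h v y + h v x * κ + h v y * κ' * κ + (h v y + h v x * κ) * κ' * κ) = 0 := by
    linear_combination (3 * h v y + h v x * κ) * hκ + (3 * h v y + 2 * h v x * κ) * h2
  have : v + h v x • x + (h v y + h v x * κ) • y + (h v y * κ') • x +
        (h v y + h v x * κ + h v y * κ' * κ) • y + ((h v y + h v x * κ) * κ') • x +
        (h v y + h v x * κ + h v y * κ' * κ + (h v y + h v x * κ) * κ' * κ) • y =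
      v + (h v x + h v y * κ' + (h v y + h v x * κ) * κ') • x +
        ((h v y + h v x * κ) + (h v y + h v x * κ + h v y * κ' * κ) +
      (h v y + h v x * κ + h v y * κ' * κ + (h v y + h v x * κ) * κ' * κ)) • y := by
    module
  rw [this, hc1, hc2, zero_smul, zero_smul, add_zero, add_zero]

/-- There are no totally isotropic lines in dimension three. -/
theorem line_dim3 (hσ : Invol φ) [FiniteDimensional K V] (hdim : finrank K V = 3) {x y : V} (hx0 : x ≠ 0)
    (hxx : h x x = 0) (hyy : h y y = 0) (hxy : h x y = 0) : ∃ c : K, y = c • x := by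
  obtain ⟨f, hff, hfx⟩ := S.exists_partner hσ hx0 hxx
  have HP : IsHP h x f := ⟨hxx, hff, hfx⟩
  have hdimp := finrank_perp2 S HP
  have h1 : finrank K (perp2 S x f) = 1 := by omega
  set w := proj x f y h with hw
  have hwm : w ∈ perp2 S x f := proj_mem S HP y
  have hyx : h y x = 0 := S.zero_symm hxy
  have hdec : y = w + h y f • x := by
    have := decomp (h := h) (e := x) (f := f) y
    rw [hyx, zero_smul, add_zero] at this
    exact this
  have hww : h w w = 0 := by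
    have h2 : h w x = 0 := hwm.1
    have h3 : h x w = 0 := S.zero_symm h2
    rw [hdec] at hyy
    simp only [S.add_left, S.add_right, S.smul_left, S.smul_right, h2, h3, hxx] at hyy
    simpa using hyy
  have hw0 : w = 0 := by
    apply perp2_nd S HP w hwm
    intro v hv
    by_cases hw0 : w = 0
    · rw [hw0, S.zero_left]
    · have h4 : (⟨w, hwm⟩ : perp2 S x f) ≠ 0 := fun h0 => hw0 (congrArg Subtype.val h0)
      obtain ⟨c, hc⟩ := (finrank_eq_one_iff_of_nonzero' (⟨w, hwm⟩ : perp2 S x f) h4).1 h1 ⟨v, hv⟩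
      have h5 : c • w = v := congrArg Subtype.val hc
      rw [← h5, S.smul_right, hww, mul_zero]
  refine ⟨h y f, ?_⟩
  rw [hw0, zero_add] at hdec
  exact hdec

end abs

section fieldcore

variable {F : Type*} [Field F] [Fintype F] {σ : F ≃+* F} {q q₀ p : ℕ} (H : OddField σ q q₀ p) {n : ℕ}
  {F₀ : Type*} [Field F₀] [Fintype F₀] (hF₀ : Fintype.card F₀ = q₀ ^ 2) (ι₀ : F₀ →+* F)
  (hι₀ : ∀ x, σ x = x ↔ x ∈ Set.range ι₀) (hn : 3 ≤ n)

include H hι₀ in
/-- The form over the small field. -/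
theorem herm_map (x y : Fin n → F₀) :
    Cfsg.hermForm n F q (ι₀ ∘ x) (ι₀ ∘ y) = ι₀ (Cfsg.hermForm n F₀ q₀ x y) := by
  simp only [Cfsg.hermForm, map_sum, map_mul, map_pow, Function.comp_apply]
  refine Finset.sum_congr rfl fun i _ => ?_
  rw [H.pow_fix _ ((hι₀ _).2 ⟨_, rfl⟩)]

include H hF₀ hι₀ in
/-- A transvection over the small field. -/
theorem exists_fixed_trans {x₀ : Fin n → F₀} (hx₀ : Cfsg.hermForm n F₀ q₀ x₀ x₀ = 0) {a₀ : F₀}
    (ha₀ : a₀ + frobHom hF₀ a₀ = 0) :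
    ∃ s : Cfsg.SU n F q, ((s.1 : Matrix (Fin n) (Fin n) F).map σ) = s.1 ∧
      EichAt (frobHom H.hF) (Cfsg.hermForm n F q) (ι₀ ∘ x₀) 0 (ι₀ a₀) (suEquiv n q s).1 := by
  classical
  have hF := H.hF
  have S := hform hF n
  set x' : Fin n → F := ι₀ ∘ x₀ with hx'
  have hxx : Cfsg.hermForm n F q x' x' = 0 := by rw [hx', herm_map H ι₀ hι₀, hx₀, map_zero]
  have ha : ι₀ a₀ + frobHom hF (ι₀ a₀) + Cfsg.hermForm n F q 0 0 = 0 := by
    rw [S.zero_left, add_zero, ← frob_comp H hF₀ ι₀ hι₀, ← map_add, ha₀, map_zero]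
  obtain ⟨ρ, hρ⟩ := exists_eichAt S hxx (S.zero_left _) ha
  have hmem : ρ ∈ suGroup (Cfsg.hermForm n F q) := hρ.mem_suGroup S
  set s : Cfsg.SU n F q := (suEquiv n q).symm ⟨ρ, hmem⟩ with hs
  have hsρ : (suEquiv n q s).1 = ρ := by rw [hs, MulEquiv.apply_symm_apply]
  refine ⟨s, ?_, by rw [hsρ]; exact hρ⟩
  refine Matrix.ext fun i j => ?_
  rw [Matrix.map_apply]
  have h1 : ((s.1 : Matrix (Fin n) (Fin n) F)) i j = ((s.1 : Matrix (Fin n) (Fin n) F) *ᵥ Pi.single j 1) i := by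
    simp
  have h2 : Cfsg.hermForm n F q (Pi.single j 1) x' = ι₀ (frobHom hF₀ (x₀ j)) := by
    rw [frob_comp H hF₀ ι₀ hι₀, frobHom_apply]
    simp [Cfsg.hermForm, Pi.single_apply, hx']
  have h3 : ((s.1 : Matrix (Fin n) (Fin n) F)) i j =
      ι₀ ((Pi.single j 1 : Fin n → F₀) i + a₀ * frobHom hF₀ (x₀ j) * x₀ i) := by
    rw [h1, ← suEquiv_apply, hsρ, hρ.apply, h2, S.zero_right]
    by_cases hij : i = j
    · subst hij
      simp [hx']
    · simp [hx', hij]
  rw [h3]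
  exact (hι₀ _).2 ⟨_, rfl⟩

include H hι₀ in
/-- Semilinear maps over the small field preserve rational vectors. -/
theorem semiOf_fix {g : GL (Fin n) F} (τ : F ≃+* F) (hfix : mapGL σ g = g) (v : Fin n → F)
    (hv : ∀ i, σ (v i) = v i) (i : Fin n) : σ (semiOf n g τ v i) = semiOf n g τ v i := by
  have e3 : ∀ z, σ (τ z) = τ (σ z) := by
    intro z
    have := congrArg (fun ρ : F ≃+* F => ρ z) (Cfsg.Agent.Lib.KS71.GalFin.comm σ τ)
    exact this
  have e1 : (g : Matrix (Fin n) (Fin n) F).map σ = g := by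
    rw [← coe_mapGL, hfix]
  rw [semiOf_apply]
  simp only [Matrix.mulVec, dotProduct, map_sum, map_mul, tauHat_apply]
  refine Finset.sum_congr rfl fun j _ => ?_
  rw [e3, hv]
  have := congrFun (congrFun e1 i) j
  rw [Matrix.map_apply] at this
  rw [this]

include H hF₀ hn hι₀

/-- The special case `n = 3`, `q₀ = 2`. -/
theorem point_special (hn3 : n = 3) (hq₀ : q₀ = 2) (N : Subgroup (MulAut (Cfsg.PSU n F q)))
    (h3 : ¬ 3 ∣ Nat.card N)
    (hNn : ∀ ν ∈ N, ∀ k : Cfsg.PSU n F q, Th H.hF n 1 (one_mem _) σ k = k →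
      MulAut.conj k * ν * (MulAut.conj k)⁻¹ ∈ N)
    {g : GL (Fin n) F} (hg : g ∈ Cfsg.GU n F q) (τ : F ≃+* F) (hfix : mapGL σ g = g)
    (hν : Th H.hF n g hg τ ∈ N) {x₀ : Fin n → F₀} (hx0 : x₀ ≠ 0) (hxx : Cfsg.hermForm n F₀ q₀ x₀ x₀ = 0) :
    ∃ c : F, semiOf n g τ (ι₀ ∘ x₀) = c • (ι₀ ∘ x₀) := by
  classical
  have hF := H.hF
  have S := hform hF n
  have hσ' := invol_frob hF
  have hfr : finrank F (Fin n → F) = 3 := by rw [Module.finrank_fin_fun, hn3]
  have hF₀4 : Fintype.card F₀ = 4 := by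
    rw [hF₀, hq₀]
    norm_num
  have h20 : (2 : F₀) = 0 := by
    have h1 : ((Fintype.card F₀ : ℕ) : F₀) = 0 := FiniteField.cast_card_eq_zero F₀
    rw [hF₀4] at h1
    have h2 : (2 : F₀) * 2 = 0 := by
      rw [← h1]
      norm_num
    exact mul_self_eq_zero.1 h2
  have h2 : (2 : F) = 0 := by
    have : ι₀ 2 = ι₀ 0 := congrArg ι₀ h20
    rwa [map_ofNat, map_zero] at this
  have ha₀ : (1 : F₀) + frobHom hF₀ 1 = 0 := by
    rw [map_one, one_add_one_eq_two, h20]
  obtain ⟨s, hsf, hE⟩ := exists_fixed_trans H hF₀ ι₀ hι₀ hxx ha₀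
  rw [map_one] at hE
  set x' : Fin n → F := ι₀ ∘ x₀ with hx'
  have hx'0 : x' ≠ 0 := by
    intro h0
    apply hx0
    funext i
    apply ι₀.injective
    have := congrFun h0 i
    simpa [hx'] using this
  have hM := semiOf_semi (q := q) n hg τ
  obtain ⟨s', hs'⟩ := exists_conj hF n hg τ s
  have hE' := hM.conj_eich (tau_frob hF τ) hE
  rw [← suEquiv_conj hF hn hg τ s s' hs', map_zero, map_one] at hE'
  set y : Fin n → F := semiOf n g τ x' with hy
  by_contra hcon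
  have hx'x' : Cfsg.hermForm n F q x' x' = 0 := hE.ee
  have hyy : Cfsg.hermForm n F q y y = 0 := hE'.ee
  have hκ0 : Cfsg.hermForm n F q x' y ≠ 0 := by
    intro h0
    obtain ⟨c, hc⟩ := line_dim3 S hσ' hfr hx'0 hx'x' hyy h0
    exact hcon ⟨c, hc⟩
  have hρ : ∀ v, (suEquiv n q s).1 v = v + Cfsg.hermForm n F q v x' • x' := by
    intro v
    rw [hE.apply, S.zero_right]
    simp
  have hρ' : ∀ v, (suEquiv n q s').1 v = v + Cfsg.hermForm n F q v y • y := by
    intro v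
    rw [hE'.apply, S.zero_right]
    simp
  -- the value `κ`
  have hx'σ : ∀ i, σ (x' i) = x' i := fun i => (hι₀ _).2 ⟨_, rfl⟩
  have hyσ : ∀ i, σ (y i) = y i := semiOf_fix H ι₀ hι₀ τ hfix x' hx'σ
  have hκσ : σ (Cfsg.hermForm n F q x' y) = Cfsg.hermForm n F q x' y := by
    simp only [Cfsg.hermForm, map_sum, map_mul, map_pow, hx'σ, hyσ]
  obtain ⟨κ₀, hκ₀⟩ := (hι₀ _).1 hκσ
  have hκ₀0 : κ₀ ≠ 0 := by
    rintro rfl
    rw [map_zero] at hκ₀
    exact hκ0 hκ₀.symm
  have hκ₀3 : κ₀ ^ 3 = 1 := by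
    have := FiniteField.pow_card_sub_one_eq_one κ₀ hκ₀0
    rwa [hF₀4] at this
  have hκ : Cfsg.hermForm n F q x' y * frobHom hF (Cfsg.hermForm n F q x' y) = 1 := by
    rw [frobHom_apply, H.pow_fix _ hκσ, hq₀, ← pow_succ', ← hκ₀, ← map_pow, hκ₀3, map_one]
  -- the square of the transvection
  have hss : s * s = 1 := by
    apply (suEquiv n q).injective
    apply Subtype.ext
    rw [map_mul, map_one]
    ext1 v
    show (suEquiv n q s).1 ((suEquiv n q s).1 v) = v
    rw [hρ, hρ]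
    simp only [S.add_left, S.smul_left, hx'x', mul_zero, add_zero]
    rw [add_assoc, ← add_smul, ← two_mul, h2, zero_mul, zero_smul, add_zero]
  -- the order three element
  have hthree : (s' * s) ^ 3 = 1 := by
    apply (suEquiv n q).injective
    apply Subtype.ext
    rw [map_one]
    ext1 v
    have hA := three_abs S hx'x' hyy h2 hκ (fun v => (suEquiv n q s').1 ((suEquiv n q s).1 v)) (by
      intro v
      beta_reduce
      rw [hρ', hρ]
      simp only [S.add_left, S.smul_left]) v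
    beta_reduce at hA
    have e : (s' * s) ^ 3 = (s' * s) * ((s' * s) * (s' * s)) := by
      rw [pow_succ, pow_two, mul_assoc]
    rw [e]
    simp only [map_mul]
    exact hA
  have hne : (QuotientGroup.mk (s' * s) : Cfsg.PSU n F q) ≠ 1 := by
    intro h1
    rw [QuotientGroup.eq_one_iff, mem_center_iff hF hn] at h1
    obtain ⟨ζ, hζ⟩ := h1
    have h5 : (suEquiv n q (s' * s)).1 x' = ζ • x' := by
      rw [suEquiv_apply, hζ, Matrix.smul_mulVec, Matrix.one_mulVec]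
    have h6 : (suEquiv n q (s' * s)).1 x' = (suEquiv n q s').1 ((suEquiv n q s).1 x') := by
      rw [map_mul]
      rfl
    rw [h6, hρ, hx'x', zero_smul, add_zero, hρ'] at h5
    apply hcon
    refine ⟨(Cfsg.hermForm n F q x' y)⁻¹ * (ζ - 1), ?_⟩
    rw [mul_smul, sub_smul, one_smul, ← h5]
    simp [smul_smul, hκ0]
  have hord : orderOf (QuotientGroup.mk (s' * s) : Cfsg.PSU n F q) = 3 := by
    haveI : Fact (Nat.Prime 3) := ⟨by norm_num⟩
    refine orderOf_eq_prime ?_ hne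
    rw [← QuotientGroup.mk_pow, hthree]
    rfl
  -- the commutator
  set k : Cfsg.PSU n F q := QuotientGroup.mk s with hk
  have hkk : k * k = 1 := by
    rw [hk, ← QuotientGroup.mk_mul, hss]
    rfl
  have hkfix : Th hF n 1 (one_mem _) σ k = k := by
    refine Th_mk hF n (one_mem _) σ s s ?_
    rw [one_conj_eq hF, hsf]
  have hνk : Th hF n g hg τ k = QuotientGroup.mk s' := Th_mk hF n hg τ s s' hs'
  have hconj : MulAut.conj (QuotientGroup.mk (s' * s) : Cfsg.PSU n F q) =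
      Th hF n g hg τ * (MulAut.conj k * (Th hF n g hg τ)⁻¹ * (MulAut.conj k)⁻¹) := by
    have hkinv : (MulAut.conj k)⁻¹ = MulAut.conj k := by
      rw [← map_inv]
      congr 1
      exact inv_eq_of_mul_eq_one_left hkk
    rw [hkinv, QuotientGroup.mk_mul, ← hνk, ← hk, map_mul, conj_map]
    group
  have hmemN : MulAut.conj (QuotientGroup.mk (s' * s) : Cfsg.PSU n F q) ∈ N := by
    rw [hconj]
    exact mul_mem hν (hNn _ (inv_mem hν) k hkfix)
  have hinjc := conj_inj hF hn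
  have hord' : orderOf (MulAut.conj (QuotientGroup.mk (s' * s) : Cfsg.PSU n F q)) = 3 := by
    rw [orderOf_injective _ hinjc, hord]
  apply h3
  rw [← hord']
  exact Subgroup.orderOf_dvd_natCard N hmemN

end fieldcore

section main

variable {F : Type*} [Field F] [Fintype F] {σ : F ≃+* F} {q q₀ p : ℕ} (H : OddField σ q q₀ p) {n : ℕ}
  {F₀ : Type*} [Field F₀] [Fintype F₀] (hF₀ : Fintype.card F₀ = q₀ ^ 2) (ι₀ : F₀ →+* F)
  (hι₀ : ∀ x, σ x = x ↔ x ∈ Set.range ι₀) (hn : 3 ≤ n)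

include H hF₀ hn hι₀

/-- If the small subgroup is simple, it is fixed by every element of `N`. -/
theorem range_fixed_of_simple (hK₀ : ¬ (n = 3 ∧ q₀ = 2)) (hp : p.Prime)
    (hrep : HasRep H.hF n) (N : Subgroup (MulAut (Cfsg.PSU n F q)))
    (hNc : ∀ ν ∈ N, ν * Th H.hF n 1 (one_mem _) σ = Th H.hF n 1 (one_mem _) σ * ν)
    (hNn : ∀ ν ∈ N, ∀ k : Cfsg.PSU n F q, Th H.hF n 1 (one_mem _) σ k = k →
      MulAut.conj k * ν * (MulAut.conj k)⁻¹ ∈ N)
    (hNcop : Nat.Coprime (Nat.card N) p)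
    (hdvd : p ∣ Nat.card (MonoidHom.eqLocus (Th H.hF n 1 (one_mem _) σ).toMonoidHom
      (MonoidHom.id (Cfsg.PSU n F q)))) :
    ∀ ν ∈ N, ∀ k ∈ (Phi H n hF₀ ι₀ hι₀).range, ν k = k := by
  classical
  have hF := H.hF
  set R := (Phi H n hF₀ ι₀ hι₀).range with hR
  haveI : IsSimpleGroup (Cfsg.PSU n F₀ q₀) := isSimpleGroup_PSU hF₀ n hn hK₀
  haveI hsimp : IsSimpleGroup R := (isoRange H hF₀ ι₀ hι₀ hn).symm.isSimpleGroup
  have hRfix : ∀ k ∈ R, Th hF n 1 (one_mem _) σ k = k := by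
    rintro k ⟨u, rfl⟩
    exact Th_Phi H hF₀ ι₀ hι₀ hn u
  have hstable : ∀ ν ∈ N, ∀ k ∈ R, ν k ∈ R := by
    rintro ν hν k ⟨u, rfl⟩
    obtain ⟨g', hg', τ', rfl⟩ := hrep ν
    obtain ⟨g'', hg'', he, hfix⟩ := cent_rep H hF₀ ι₀ hι₀ hn hg' τ' (hNc _ hν)
    rw [← he]
    exact Th_range H hF₀ ι₀ hι₀ hn hg'' τ' hfix u
  let M : Subgroup R := N.comap ((MulAut.conj : Cfsg.PSU n F q →* MulAut (Cfsg.PSU n F q)).comp R.subtype)
  have hM : M.Normal := by
    refine ⟨fun m hm r => ?_⟩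
    show MulAut.conj (((r * m * r⁻¹ : R) : Cfsg.PSU n F q)) ∈ N
    have h1 : MulAut.conj (((r * m * r⁻¹ : R) : Cfsg.PSU n F q)) =
        MulAut.conj (r : Cfsg.PSU n F q) * MulAut.conj (m : Cfsg.PSU n F q) * (MulAut.conj (r : Cfsg.PSU n F q))⁻¹ := by
      simp only [Subgroup.coe_mul, Subgroup.coe_inv, map_mul, _root_.map_inv]
    rw [h1]
    exact hNn _ hm _ (hRfix _ r.2)
  rcases hsimp.eq_bot_or_eq_top_of_normal M hM with hbot | htop
  · intro ν hν k hk
    have h1 : (⟨ν k, hstable ν hν k hk⟩ * (⟨k, hk⟩ : R)⁻¹ : R) ∈ M := by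
      show MulAut.conj (ν k * k⁻¹) ∈ N
      have h2 : MulAut.conj (ν k * k⁻¹) = ν * (MulAut.conj k * ν⁻¹ * (MulAut.conj k)⁻¹) := by
        rw [map_mul, conj_map, _root_.map_inv]
        group
      rw [h2]
      exact mul_mem hν (hNn _ (inv_mem hν) k (hRfix k hk))
    rw [hbot, Subgroup.mem_bot] at h1
    have h2 := congrArg Subtype.val h1
    have h3 : ν k * k⁻¹ = 1 := h2
    exact mul_inv_eq_one.1 h3
  · exfalso
    have hdR : p ∣ Nat.card R := dvd_card_range H hF₀ ι₀ hι₀ hn hp hdvd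
    have hinj : Function.Injective ((MulAut.conj : Cfsg.PSU n F q →* MulAut (Cfsg.PSU n F q)).comp R.subtype) :=
      (conj_inj hF hn).comp R.subtype_injective
    have hle : ((MulAut.conj : Cfsg.PSU n F q →* MulAut (Cfsg.PSU n F q)).comp R.subtype).range ≤ N := by
      rintro _ ⟨r, rfl⟩
      have : r ∈ M := by rw [htop]; exact Subgroup.mem_top r
      exact this
    have hc : Nat.card R ∣ Nat.card N := by
      have h1 : Nat.card R = Nat.card ((MulAut.conj : Cfsg.PSU n F q →* MulAut (Cfsg.PSU n F q)).comp R.subtype).range :=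
        Nat.card_congr (MonoidHom.ofInjective hinj).toEquiv
      rw [h1]
      exact Subgroup.card_dvd_of_le hle
    have h4 : p ∣ Nat.card N := hdR.trans hc
    have h5 := Nat.Coprime.eq_one_of_dvd hNcop.symm h4
    exact hp.one_lt.ne h5.symm

/-- The point-wise conclusion. -/
theorem points_fixed (hp : p.Prime) (hodd : Odd p)
    (hrep : HasRep H.hF n) (N : Subgroup (MulAut (Cfsg.PSU n F q)))
    (hNc : ∀ ν ∈ N, ν * Th H.hF n 1 (one_mem _) σ = Th H.hF n 1 (one_mem _) σ * ν)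
    (hNn : ∀ ν ∈ N, ∀ k : Cfsg.PSU n F q, Th H.hF n 1 (one_mem _) σ k = k →
      MulAut.conj k * ν * (MulAut.conj k)⁻¹ ∈ N)
    (hNcop : Nat.Coprime (Nat.card N) p)
    (hdvd : p ∣ Nat.card (MonoidHom.eqLocus (Th H.hF n 1 (one_mem _) σ).toMonoidHom
      (MonoidHom.id (Cfsg.PSU n F q))))
    {g : GL (Fin n) F} (hg : g ∈ Cfsg.GU n F q) (τ : F ≃+* F) (hfix : mapGL σ g = g)
    (hν : Th H.hF n g hg τ ∈ N) {x₀ : Fin n → F₀} (hx0 : x₀ ≠ 0) (hxx : Cfsg.hermForm n F₀ q₀ x₀ x₀ = 0) :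
    ∃ c : F, semiOf n g τ (ι₀ ∘ x₀) = c • (ι₀ ∘ x₀) := by
  classical
  have hF := H.hF
  by_cases hK₀ : n = 3 ∧ q₀ = 2
  · obtain ⟨hn3, hq₀⟩ := hK₀
    refine point_special H hF₀ ι₀ hι₀ hn hn3 hq₀ N ?_ hNn hg τ hfix hν hx0 hxx
    -- `p = 3`
    have hdR : p ∣ Nat.card (Phi H n hF₀ ι₀ hι₀).range := dvd_card_range H hF₀ ι₀ hι₀ hn hp hdvd
    rw [← Nat.card_congr (isoRange H hF₀ ι₀ hι₀ hn).toEquiv] at hdR
    have hc := Cfsg.Agent.Lib.Classical.HermOrders.card_PSU hF₀ n (by omega)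
    subst hn3
    subst hq₀
    have h72 : Nat.card (Cfsg.PSU 3 F₀ 2) = 72 := by
      generalize Nat.card (Cfsg.PSU 3 F₀ 2) = c at hc ⊢
      norm_num [Finset.prod_range_succ] at hc
      omega
    rw [h72] at hdR
    have hp3 : p = 3 := by
      have h1 : p ∣ 2 ^ 3 * 3 ^ 2 := by
        have : (72 : ℕ) = 2 ^ 3 * 3 ^ 2 := by norm_num
        rwa [this] at hdR
      rcases (Nat.Prime.dvd_mul hp).1 h1 with h2 | h2
      · have h3 := (Nat.prime_dvd_prime_iff_eq hp Nat.prime_two).1 (hp.dvd_of_dvd_pow h2)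
        subst h3
        exact absurd hodd (by decide)
      · exact (Nat.prime_dvd_prime_iff_eq hp Nat.prime_three).1 (hp.dvd_of_dvd_pow h2)
    subst hp3
    intro h4
    have h5 := Nat.Coprime.eq_one_of_dvd hNcop.symm h4
    omega
  · have hR := range_fixed_of_simple H hF₀ ι₀ hι₀ hn hK₀ hp hrep N hNc hNn hNcop hdvd
    obtain ⟨a₀, ha₀0, ha₀⟩ := (invol_frob hF₀).exists_pure
    obtain ⟨s, hsf, hE⟩ := exists_fixed_trans H hF₀ ι₀ hι₀ hxx ha₀
    have hm := mem_range_of_fix H hF₀ ι₀ hι₀ hn s hsf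
    have h1 := hR _ hν _ hm
    have hx'0 : ι₀ ∘ x₀ ≠ 0 := by
      intro h0
      apply hx0
      funext i
      apply ι₀.injective
      have := congrFun h0 i
      simpa using this
    exact point_of_fix hF hn hg τ s hE ((map_ne_zero ι₀).2 ha₀0) hx'0 h1

/-- **The core** with the small field given. -/
theorem field_core_aux (hp : p.Prime) (hodd : Odd p)
    (hrep : HasRep H.hF n) (N : Subgroup (MulAut (Cfsg.PSU n F q)))
    (hNc : ∀ ν ∈ N, ν * Th H.hF n 1 (one_mem _) σ = Th H.hF n 1 (one_mem _) σ * ν)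
    (hNn : ∀ ν ∈ N, ∀ k : Cfsg.PSU n F q, Th H.hF n 1 (one_mem _) σ k = k →
      MulAut.conj k * ν * (MulAut.conj k)⁻¹ ∈ N)
    (hNcop : Nat.Coprime (Nat.card N) p)
    (hdvd : p ∣ Nat.card (MonoidHom.eqLocus (Th H.hF n 1 (one_mem _) σ).toMonoidHom
      (MonoidHom.id (Cfsg.PSU n F q)))) : N = ⊥ := by
  classical
  have hF := H.hF
  rw [eq_bot_iff]
  intro ν hν
  obtain ⟨g', hg', τ', rfl⟩ := hrep ν
  obtain ⟨g, hg, he, hfix⟩ := cent_rep H hF₀ ι₀ hι₀ hn hg' τ' (hNc _ hν)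
  rw [← he] at hν ⊢
  obtain ⟨hτ, ζ, hζ0, hζ⟩ := rigid_field H hF₀ ι₀ hι₀ hn hg τ' hfix
    (fun x₀ hx0 hxx => points_fixed H hF₀ ι₀ hι₀ hn hp hodd hrep N hNc hNn hNcop hdvd hg τ' hfix hν hx0 hxx)
  have h1 : Th hF n g hg τ' = Th hF n 1 (one_mem _) τ' := Th_scalar hF n (one_mem _) hg τ' hζ0 hζ
  rw [h1] at hν ⊢
  have h2 : τ' ^ p = 1 := by
    have := pow_eq_one_of_fix_aux σ τ' hτ
    rwa [H.hr] at this
  have h3 : (Th hF n 1 (one_mem _) τ') ^ p = 1 := by
    have e1 : Th hF n 1 (one_mem _) τ' = fieldHom hF n τ' := rfl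
    rw [e1, ← map_pow, h2, map_one]
  have h4 : orderOf (Th hF n 1 (one_mem _) τ') ∣ p := orderOf_dvd_of_pow_eq_one h3
  have h5 : orderOf (Th hF n 1 (one_mem _) τ') ∣ Nat.card N := Subgroup.orderOf_dvd_natCard N hν
  have h6 := Nat.Coprime.eq_one_of_dvd (Nat.Coprime.coprime_dvd_left h5 hNcop) h4
  rw [Subgroup.mem_bot]
  exact orderOf_eq_one_iff.1 h6

end main

/-- **The core** of the local balance theorem for field automorphisms of odd prime order. -/
theorem field_core {F : Type*} [Field F] [Fintype F] {σ : F ≃+* F} {q q₀ p : ℕ} (H : OddField σ q q₀ p) {n : ℕ}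
    (hn : 3 ≤ n) (hp : p.Prime) (hodd : Odd p)
    (hrep : HasRep H.hF n) (N : Subgroup (MulAut (Cfsg.PSU n F q)))
    (hNc : ∀ ν ∈ N, ν * Th H.hF n 1 (one_mem _) σ = Th H.hF n 1 (one_mem _) σ * ν)
    (hNn : ∀ ν ∈ N, ∀ k : Cfsg.PSU n F q, Th H.hF n 1 (one_mem _) σ k = k →
      MulAut.conj k * ν * (MulAut.conj k)⁻¹ ∈ N)
    (hNcop : Nat.Coprime (Nat.card N) p)
    (hdvd : p ∣ Nat.card (MonoidHom.eqLocus (Th H.hF n 1 (one_mem _) σ).toMonoidHom
      (MonoidHom.id (Cfsg.PSU n F q)))) : N = ⊥ := by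
  classical
  obtain ⟨S, hS, hc⟩ := H.exists_S
  haveI : Fintype S := Fintype.ofFinite S
  have hF₀ : Fintype.card S = q₀ ^ 2 := by
    rw [← Nat.card_eq_fintype_card, hc]
  have hι₀ : ∀ x, σ x = x ↔ x ∈ Set.range S.subtype := by
    intro x
    rw [← hS]
    constructor
    · intro h
      exact ⟨⟨x, h⟩, rfl⟩
    · rintro ⟨y, rfl⟩
      exact y.2
  exact field_core_aux H hF₀ S.subtype hι₀ hn hp hodd hrep N hNc hNn hNcop hdvd

end Cfsg.Agent.Lib.AutCl.PSUCore2
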