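/-
The subgroup `PSL_n(F₀)` of `PSL_n(F)` and the core of the local balance theorem for field automorphisms.
-/
import Mathlib
import Cfsg.Agent.Lib.AutCl.PSUCore2
import Cfsg.Agent.Lib.KS71.PSLCent
import Cfsg.Agent.Lib.KS71.PSLAutMain
import Cfsg.Agent.Lib.Classical.Transvections
import Cfsg.Agent.Lib.Classical.SLBasic

set_option autoImplicit false
set_option linter.unusedSimpArgs false
set_option linter.unusedSectionVars false
set_option linter.style.haveILetI false
set_option linter.unusedVariables false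

namespace Cfsg.Agent.Lib.AutCl.PSLCoreF

open Matrix
open scoped MatrixGroups
open Cfsg.Agent.Lib.KS71.PSLCore Cfsg.Agent.Lib.KS71.PSLAutGroup Cfsg.Agent.Lib.KS71.PSLTwist
open Cfsg.Agent.Lib.KS71.PSLCent
open Cfsg.Agent.Lib.AutCl.PSUCore2 (conj_map)
open Cfsg.Agent.Lib.AutCl.PSUCore (pow_eq_one_of_fix_aux)

section map

variable {F : Type*} [Field F] {σ : F ≃+* F} {n : ℕ}
  {F₀ : Type*} [Field F₀] (ι₀ : F₀ →+* F)

/-- The map `SL_n(F₀) → PSL_n(F)`. -/
noncomputable def Phi : Matrix.SpecialLinearGroup (Fin n) F₀ →* ProjectiveSpecialLinearGroup (Fin n) F :=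
  (QuotientGroup.mk' (Subgroup.center (Matrix.SpecialLinearGroup (Fin n) F))).comp
    (Matrix.SpecialLinearGroup.map ι₀)

theorem Phi_apply (u : Matrix.SpecialLinearGroup (Fin n) F₀) :
    Phi ι₀ u = mkP (Matrix.SpecialLinearGroup.map ι₀ u) := rfl

theorem coe_map (u : Matrix.SpecialLinearGroup (Fin n) F₀) :
    ((Matrix.SpecialLinearGroup.map ι₀ u : Matrix.SpecialLinearGroup (Fin n) F) : Matrix (Fin n) (Fin n) F) =
      (u : Matrix (Fin n) (Fin n) F₀).map ι₀ := rfl

theorem map_center (hn : 1 ≤ n) (u : Matrix.SpecialLinearGroup (Fin n) F₀) :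
    Matrix.SpecialLinearGroup.map ι₀ u ∈ Subgroup.center (Matrix.SpecialLinearGroup (Fin n) F) ↔
      u ∈ Subgroup.center (Matrix.SpecialLinearGroup (Fin n) F₀) := by
  simp only [Matrix.SpecialLinearGroup.mem_center_iff, Fintype.card_fin]
  constructor
  · rintro ⟨r, hr, hm⟩
    let i₀ : Fin n := ⟨0, by omega⟩
    have hent : ∀ i j, ι₀ ((u : Matrix (Fin n) (Fin n) F₀) i j) = (Matrix.scalar (Fin n) r) i j := by
      intro i j
      rw [hm]
      rfl
    have hr₀ : r = ι₀ ((u : Matrix (Fin n) (Fin n) F₀) i₀ i₀) := by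
      rw [hent]
      simp
    refine ⟨(u : Matrix (Fin n) (Fin n) F₀) i₀ i₀, ?_, ?_⟩
    · apply ι₀.injective
      rw [map_pow, ← hr₀, hr, map_one]
    · refine Matrix.ext fun i j => ?_
      apply ι₀.injective
      rw [hent]
      by_cases hij : i = j
      · subst hij
        simp [hr₀]
      · simp [hij]
  · rintro ⟨r, hr, hm⟩
    refine ⟨ι₀ r, by rw [← map_pow, hr, map_one], ?_⟩
    rw [coe_map, ← hm]
    refine Matrix.ext fun i j => ?_
    by_cases hij : i = j
    · subst hij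
      simp
    · simp [hij]

theorem ker_Phi (hn : 1 ≤ n) : (Phi (n := n) ι₀).ker = Subgroup.center (Matrix.SpecialLinearGroup (Fin n) F₀) := by
  ext u
  rw [MonoidHom.mem_ker, Phi_apply, QuotientGroup.eq_one_iff, map_center ι₀ hn]

/-- The subgroup `PSL_n(F₀)`. -/
noncomputable def isoRange (hn : 1 ≤ n) :
    ProjectiveSpecialLinearGroup (Fin n) F₀ ≃* (Phi (n := n) ι₀).range :=
  (QuotientGroup.quotientMulEquivOfEq (ker_Phi ι₀ hn).symm).trans (QuotientGroup.quotientKerEquivRange _)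

/-- The fixed elements of `SL_n`. -/
def IsFix (σ : F ≃+* F) (s : Matrix.SpecialLinearGroup (Fin n) F) : Prop :=
  (s : Matrix (Fin n) (Fin n) F).map σ = s

theorem isFix_iff (s : Matrix.SpecialLinearGroup (Fin n) F) : IsFix σ s ↔ fieldS σ s = s :=
  ⟨fun h => Subtype.ext h, fun h => congrArg Subtype.val h⟩

variable {ι₀} (hι₀ : ∀ x, σ x = x ↔ x ∈ Set.range ι₀)

include hι₀

theorem isFix_map (u : Matrix.SpecialLinearGroup (Fin n) F₀) : IsFix σ (Matrix.SpecialLinearGroup.map ι₀ u) := by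
  refine Matrix.ext fun i j => ?_
  exact (hι₀ _).2 ⟨_, rfl⟩

theorem exists_lift_mat (A : Matrix (Fin n) (Fin n) F) (hA : A.map σ = A) :
    ∃ A₀ : Matrix (Fin n) (Fin n) F₀, A₀.map ι₀ = A := by
  have hent : ∀ i j, ∃ y : F₀, ι₀ y = A i j := by
    intro i j
    apply (hι₀ _).1
    exact congrFun (congrFun hA i) j
  choose pre hpre using hent
  exact ⟨Matrix.of pre, Matrix.ext fun i j => hpre i j⟩

theorem exists_lift (s : Matrix.SpecialLinearGroup (Fin n) F) (hs : IsFix σ s) :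
    ∃ u : Matrix.SpecialLinearGroup (Fin n) F₀, Matrix.SpecialLinearGroup.map ι₀ u = s := by
  obtain ⟨u₀, hu₀⟩ := exists_lift_mat hι₀ _ hs
  have hdet : u₀.det = 1 := by
    apply ι₀.injective
    rw [map_one, RingHom.map_det]
    have h1 : ι₀.mapMatrix u₀ = (s : Matrix (Fin n) (Fin n) F) := hu₀
    rw [h1, Matrix.SpecialLinearGroup.det_coe]
  exact ⟨⟨u₀, hdet⟩, Subtype.ext hu₀⟩

theorem mem_range_of_fix (s : Matrix.SpecialLinearGroup (Fin n) F) (hs : IsFix σ s) :
    mkP s ∈ (Phi (n := n) ι₀).range := by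
  obtain ⟨u, rfl⟩ := exists_lift hι₀ s hs
  exact ⟨u, rfl⟩

theorem field_Phi (u : Matrix.SpecialLinearGroup (Fin n) F₀) :
    autOf (fieldS σ) (Phi ι₀ u) = Phi ι₀ u := by
  rw [Phi_apply, autOf_mkP, (isFix_iff _).1 (isFix_map hι₀ u)]

omit hι₀

theorem isFix_conj {g : GL (Fin n) F} (hg : mapGL σ g = g) {s : Matrix.SpecialLinearGroup (Fin n) F}
    (hs : IsFix σ s) : IsFix σ (conjS g s) := by
  have e1 : (g : Matrix (Fin n) (Fin n) F).map σ = g := by
    rw [← coe_mapGL, hg]
  have e2 : ((g⁻¹ : GL (Fin n) F) : Matrix (Fin n) (Fin n) F).map σ = (g⁻¹ : GL (Fin n) F) := by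
    rw [← coe_mapGL, mapGL_inv, hg]
  have hs' : (s : Matrix (Fin n) (Fin n) F).map σ = s := hs
  show ((conjS g s : Matrix.SpecialLinearGroup (Fin n) F) : Matrix (Fin n) (Fin n) F).map σ = _
  rw [coe_conjS, map_mul_map, map_mul_map, e1, e2, hs']

variable [Finite F]

theorem isFix_field (τ : F ≃+* F) {s : Matrix.SpecialLinearGroup (Fin n) F}
    (hs : IsFix σ s) : IsFix σ (fieldS τ s) := by
  have e3 : ∀ z, σ (τ z) = τ (σ z) := by
    intro z
    have := congrArg (fun ρ : F ≃+* F => ρ z) (Cfsg.Agent.Lib.KS71.GalFin.comm σ τ)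
    exact this
  show ((s : Matrix (Fin n) (Fin n) F).map τ).map σ = (s : Matrix (Fin n) (Fin n) F).map τ
  refine Matrix.ext fun i j => ?_
  have := congrFun (congrFun hs i) j
  rw [Matrix.map_apply] at this
  simp only [Matrix.map_apply]
  rw [e3, this]

omit [Finite F] in
theorem isFix_invTr {s : Matrix.SpecialLinearGroup (Fin n) F} (hs : IsFix σ s) : IsFix σ (invTrS s) := by
  have h1 : fieldS σ s⁻¹ = s⁻¹ := by
    rw [map_inv, (isFix_iff _).1 hs]
  show (((s⁻¹ : Matrix.SpecialLinearGroup (Fin n) F) : Matrix (Fin n) (Fin n) F)ᵀ).map σ =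
    ((s⁻¹ : Matrix.SpecialLinearGroup (Fin n) F) : Matrix (Fin n) (Fin n) F)ᵀ
  rw [Matrix.transpose_map]
  congr 1
  exact (isFix_iff _).2 h1

end map

section diag

variable {F₀ : Type*} [Field F₀] {n : ℕ} (hn : 2 ≤ n)

include hn

/-- A diagonal element of determinant one. -/
theorem exists_diag (ω : F₀ˣ) :
    ∃ s : Matrix.SpecialLinearGroup (Fin n) F₀,
      (∀ k : ℕ, ω ^ k = 1 → s ^ k = 1) ∧
      (s ∈ Subgroup.center (Matrix.SpecialLinearGroup (Fin n) F₀) → (ω : F₀) = (ω : F₀)⁻¹ ∧ (3 ≤ n → (ω : F₀) = 1)) := by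
  classical
  let i₀ : Fin n := ⟨0, by omega⟩
  let i₁ : Fin n := ⟨1, by omega⟩
  have h01 : i₀ ≠ i₁ := by simp [i₀, i₁, Fin.ext_iff]
  let f : Fin n → F₀ := fun i => if i = i₀ then (ω : F₀) else if i = i₁ then (ω : F₀)⁻¹ else 1
  have hf0 : f i₀ = ω := by simp [f]
  have hf1 : f i₁ = (ω : F₀)⁻¹ := by simp [f, h01.symm]
  have hdet : (Matrix.diagonal f).det = 1 := by
    rw [Matrix.det_diagonal, Finset.prod_eq_mul i₀ i₁ h01]
    · rw [hf0, hf1]
      exact mul_inv_cancel₀ ω.ne_zero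
    · intro c _ hc
      simp [f, hc.1, hc.2]
    · simp
    · simp
  let s₀ : Matrix.SpecialLinearGroup (Fin n) F₀ := ⟨Matrix.diagonal f, hdet⟩
  refine ⟨s₀, ?_, ?_⟩
  · intro k hk
    have hωk : (ω : F₀) ^ k = 1 := by
      rw [← Units.val_pow_eq_pow_val, hk, Units.val_one]
    apply Subtype.ext
    show (Matrix.diagonal f) ^ k = 1
    rw [Matrix.diagonal_pow, ← Matrix.diagonal_one]
    congr 1
    funext i
    show f i ^ k = 1
    by_cases h1 : i = i₀
    · rw [h1, hf0, hωk]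
    · by_cases h2 : i = i₁
      · rw [h2, hf1, inv_pow, hωk, inv_one]
      · simp [f, h1, h2]
  · intro hc
    rw [Matrix.SpecialLinearGroup.mem_center_iff] at hc
    obtain ⟨r, -, hr⟩ := hc
    have hr' : Matrix.scalar (Fin n) r = Matrix.diagonal f := hr
    have hent : ∀ i, r = f i := by
      intro i
      have := congrFun (congrFun hr' i) i
      simpa using this
    have e0 := hent i₀
    rw [hf0] at e0
    constructor
    · have e1 := hent i₁
      rw [hf1] at e1
      exact e0.symm.trans e1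
    · intro h3
      let i₂ : Fin n := ⟨2, by omega⟩
      have h02 : i₂ ≠ i₀ := by simp [i₀, i₂, Fin.ext_iff]
      have h12 : i₂ ≠ i₁ := by simp [i₁, i₂, Fin.ext_iff]
      have hf2 : f i₂ = 1 := by simp [f, h02, h12]
      have e2 := hent i₂
      rw [hf2] at e2
      exact e0.symm.trans e2

end diag

section card

variable (F₀ : Type*) [Field F₀] [Fintype F₀]

theorem card_psl2 : Nat.gcd 2 (Fintype.card F₀ - 1) * Nat.card (ProjectiveSpecialLinearGroup (Fin 2) F₀) =
    (Fintype.card F₀ + 1) * Fintype.card F₀ * (Fintype.card F₀ - 1) := by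
  classical
  have h1 := Cfsg.Agent.Lib.Classical.SLBasic.card_gl_eq_gcd_mul_card_psl (F := F₀) (ι := Fin 2)
  have h2 := Matrix.card_GL_field (𝔽 := F₀) 2
  rw [h1, Fintype.card_fin] at h2
  simp only [Fin.prod_univ_two, Fin.val_zero, Fin.val_one, pow_zero, pow_one] at h2
  set q := Fintype.card F₀ with hqd
  have hq2 : 2 ≤ q := Fintype.one_lt_card
  obtain ⟨m, hm⟩ : ∃ m, q = m + 1 := ⟨q - 1, by omega⟩
  have hm0 : 0 < m := by omega
  rw [hm] at h2 ⊢
  simp only [Nat.add_sub_cancel] at h2 ⊢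
  have e1 : (m + 1) ^ 2 - 1 = m * (m + 2) := by
    have : (m + 1) ^ 2 = m * (m + 2) + 1 := by ring
    omega
  have e2 : (m + 1) ^ 2 - (m + 1) = m * (m + 1) := by
    have : (m + 1) ^ 2 = m * (m + 1) + (m + 1) := by ring
    omega
  rw [e1, e2] at h2
  have h3 : m * (Nat.gcd 2 m * Nat.card (ProjectiveSpecialLinearGroup (Fin 2) F₀)) =
      m * ((m + 1 + 1) * (m + 1) * m) := by
    have : m * (Nat.gcd 2 m * Nat.card (ProjectiveSpecialLinearGroup (Fin 2) F₀)) =
      Nat.gcd 2 m * (m * Nat.card (ProjectiveSpecialLinearGroup (Fin 2) F₀)) := by ring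
    rw [this, h2]
    ring
  exact Nat.eq_of_mul_eq_mul_left hm0 h3

end card

section core

variable {F : Type*} [Field F] [Fintype F] {σ : F ≃+* F} {n : ℕ}
  {F₀ : Type*} [Field F₀] [Fintype F₀] {ι₀ : F₀ →+* F} (hι₀ : ∀ x, σ x = x ↔ x ∈ Set.range ι₀) (hn : 2 ≤ n)

include hι₀

theorem card_FixU₀ : Nat.card (FixU σ) = Fintype.card F₀ - 1 := by
  classical
  let e : F₀ˣ → FixU σ := fun y => ⟨Units.map (ι₀ : F₀ →* F) y, (hι₀ _).2 ⟨(y : F₀), rfl⟩⟩
  have hb : Function.Bijective e := by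
    constructor
    · intro a b hab
      apply Units.ext
      apply ι₀.injective
      exact congrArg (fun u : FixU σ => ((u : Fˣ) : F)) hab
    · rintro ⟨u, hu⟩
      obtain ⟨y, hy⟩ := (hι₀ _).1 hu
      have h0 : y ≠ 0 := by
        rintro rfl
        rw [map_zero] at hy
        exact u.ne_zero hy.symm
      refine ⟨Units.mk0 y h0, ?_⟩
      apply Subtype.ext
      apply Units.ext
      exact hy
  rw [← Nat.card_congr (Equiv.ofBijective e hb), Nat.card_eq_fintype_card, Fintype.card_units]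

include hn

/-- A prime dividing the order of the centraliser divides the order of the small group. -/
theorem dvd_card_range {p : ℕ} (hp : p.Prime)
    (hdvd : p ∣ Nat.card (MonoidHom.eqLocus (autOf (n := n) (fieldS σ)).toMonoidHom
      (MonoidHom.id (ProjectiveSpecialLinearGroup (Fin n) F)))) :
    p ∣ Nat.card (Phi (n := n) ι₀).range := by
  classical
  haveI : Fact p.Prime := ⟨hp⟩
  obtain ⟨c, hc⟩ := exists_prime_orderOf_dvd_card' p hdvd
  by_cases hpq : p ∣ Fintype.card F₀ - 1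
  · by_cases hn2p : n = 2 ∧ p = 2
    · obtain ⟨rfl, rfl⟩ := hn2p
      rw [← Nat.card_congr (isoRange ι₀ (by omega)).toEquiv]
      have h1 := card_psl2 F₀
      have hq2 : 2 ≤ Fintype.card F₀ := Fintype.one_lt_card
      obtain ⟨m, hm⟩ := hpq
      have h3 : Nat.gcd 2 (Fintype.card F₀ - 1) = 2 := by
        rw [hm]
        exact Nat.gcd_eq_left (Dvd.intro _ rfl)
      rw [h3] at h1
      set q := Fintype.card F₀
      have hqd : q = 2 * m + 1 := by omega
      set P := Nat.card (ProjectiveSpecialLinearGroup (Fin 2) F₀)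
      have h4 : 2 * P = (2 * m + 1 + 1) * (2 * m + 1) * (2 * m) := by
        rw [h1, hqd]
        simp
      have h5 : 2 * P = 2 * ((2 * (m + 1)) * (2 * m + 1) * m) := by
        rw [h4]
        ring
      have h6 : P = 2 * ((m + 1) * (2 * m + 1) * m) := by
        have := Nat.eq_of_mul_eq_mul_left (by norm_num : 0 < 2) h5
        rw [this]
        ring
      rw [h6]
      exact Dvd.intro _ rfl
    · have hcardU : Nat.card F₀ˣ = Fintype.card F₀ - 1 := by
        rw [Nat.card_eq_fintype_card, Fintype.card_units]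
      obtain ⟨ω, hω⟩ := exists_prime_orderOf_dvd_card' (G := F₀ˣ) p (by rw [hcardU]; exact hpq)
      have hωp : ω ^ p = 1 := by rw [← hω]; exact pow_orderOf_eq_one ω
      obtain ⟨u, hu1, hu2⟩ := exists_diag (F₀ := F₀) hn ω
      have hord : orderOf (Phi ι₀ u) = p := by
        refine orderOf_eq_prime ?_ ?_
        · rw [← map_pow, hu1 p hωp, map_one]
        · intro h0
          have h1 : u ∈ (Phi (n := n) ι₀).ker := h0
          rw [ker_Phi ι₀ (by omega)] at h1
          obtain ⟨h2, h3⟩ := hu2 h1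
          have hω1 : (ω : F₀) ≠ 1 := by
            intro h4
            have h5 : ω = 1 := Units.ext h4
            rw [h5, orderOf_one] at hω
            exact hp.one_lt.ne hω
          by_cases h4 : 3 ≤ n
          · exact hω1 (h3 h4)
          · have hn2 : n = 2 := by omega
            have hp2 : p ≠ 2 := fun h => hn2p ⟨hn2, h⟩
            have h5 : (ω : F₀) ^ 2 = 1 := by
              rw [pow_two]
              nth_rewrite 1 [h2]
              exact inv_mul_cancel₀ ω.ne_zero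
            have h6 : ω ^ 2 = 1 := Units.ext (by simpa using h5)
            have h7 := orderOf_dvd_of_pow_eq_one h6
            rw [hω] at h7
            exact hp2 ((Nat.prime_dvd_prime_iff_eq hp Nat.prime_two).1 h7)
      rw [← hord]
      exact Subgroup.orderOf_dvd_natCard _ ⟨u, rfl⟩
  · obtain ⟨s, hs⟩ := mkP_surj (c.1 : ProjectiveSpecialLinearGroup (Fin n) F)
    have hcfix : autOf (fieldS σ) c.1 = c.1 := c.2
    have hcomm : autOf (conjS (slGL s)) * autOf (fieldS σ) = autOf (fieldS σ) * autOf (conjS (slGL s)) := by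
      rw [← conj_mkP, hs]
      ext1 x
      simp only [MulAut.mul_apply, MulAut.conj_apply, map_mul, map_inv, hcfix]
    obtain ⟨b, hbf⟩ := cc_field hn σ (slGL s) hcomm
    have hcop : Nat.Coprime (Nat.card (FixU σ)) p := by
      rw [card_FixU₀ hι₀]
      exact ((Nat.Prime.coprime_iff_not_dvd hp).2 hpq).symm
    set g₁ : GL (Fin n) F := slGL s * sc n b with hg₁d
    have hdets : dt (slGL s) = 1 := by
      apply Units.ext
      rw [coe_dt]
      exact s.2
    have hy : dt g₁ = b ^ n := by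
      rw [hg₁d, map_mul, hdets, one_mul, dt_sc]
    have hsp : mkP (s ^ p) = 1 := by
      have e : mkP (s ^ p) = (mkP s) ^ p := map_pow (QuotientGroup.mk' _) s p
      rw [e, hs]
      have h1 : c ^ p = 1 := by rw [← hc]; exact pow_orderOf_eq_one c
      exact congrArg Subtype.val h1
    rw [QuotientGroup.eq_one_iff, Matrix.SpecialLinearGroup.mem_center_iff] at hsp
    obtain ⟨w, -, hw⟩ := hsp
    have hgp : ((g₁ ^ p : GL (Fin n) F) : Matrix (Fin n) (Fin n) F) = (w * (b : F) ^ p) • 1 := by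
      have e1 : g₁ ^ p = (slGL s) ^ p * sc n (b ^ p) := by
        rw [hg₁d, Commute.mul_pow (sc_central b _).symm]
        congr 1
        exact (map_pow (Matrix.GeneralLinearGroup.scalar (Fin n)) b p).symm
      have e2 : (((slGL s) ^ p : GL (Fin n) F) : Matrix (Fin n) (Fin n) F) = w • 1 := by
        have h1 : (((slGL s) ^ p : GL (Fin n) F) : Matrix (Fin n) (Fin n) F) =
            ((s ^ p : Matrix.SpecialLinearGroup (Fin n) F) : Matrix (Fin n) (Fin n) F) := by
          rw [Units.val_pow_eq_pow_val, coe_slGL]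
          rfl
        rw [h1, ← hw]
        refine Matrix.ext fun i j => ?_
        by_cases hij : i = j
        · subst hij
          simp
        · simp [hij]
      rw [e1, Units.val_mul, e2, coe_sc, Units.val_pow_eq_pow_val, Matrix.smul_mul, Matrix.one_mul, smul_smul]
    set z : F := w * (b : F) ^ p with hzd
    let i₀ : Fin n := ⟨0, by omega⟩
    have hz0 : z ≠ 0 := by
      rintro h0
      have h1 := congrArg Matrix.det hgp
      rw [h0, zero_smul] at h1
      haveI : Nonempty (Fin n) := ⟨i₀⟩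
      rw [Matrix.det_zero] at h1
      exact ((g₁ ^ p : GL (Fin n) F).isUnit.map Matrix.detMonoidHom).ne_zero h1
    have hzσ : σ z = z := by
      have h1 : mapGL σ (g₁ ^ p) = g₁ ^ p := by
        have h2 : mapGL σ (g₁ ^ p) = (mapGL σ g₁) ^ p := map_pow (Matrix.GeneralLinearGroup.map (σ : F →+* F)) g₁ p
        rw [h2, hbf]
      have h2 := congrArg (fun x : GL (Fin n) F => (x : Matrix (Fin n) (Fin n) F) i₀ i₀) h1
      simp only [coe_mapGL, hgp] at h2
      simpa using h2
    let zU : Fˣ := Units.mk0 z hz0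
    let zF : FixU σ := ⟨zU, hzσ⟩
    let y : FixU σ := ⟨dt g₁, by
      show σ ((dt g₁ : Fˣ) : F) = ((dt g₁ : Fˣ) : F)
      rw [← dt_mapGL, hbf]⟩
    have hg₁p : g₁ ^ p = sc n zU := by
      apply Units.ext
      rw [hgp, coe_sc]
      rfl
    have hrel : y ^ p = zF ^ n := by
      apply Subtype.ext
      show (dt g₁) ^ p = zU ^ n
      rw [← map_pow, hg₁p, dt_sc]
    let e : FixU σ := (powCoprime hcop).symm zF
    have he : e ^ p = zF := by
      have h1 := (powCoprime hcop).apply_symm_apply zF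
      rwa [powCoprime_apply] at h1
    have hyn : y = e ^ n := by
      apply (powCoprime hcop).injective
      rw [powCoprime_apply, powCoprime_apply, hrel, pow_right_comm, he]
    let eU : Fˣ := (e : Fˣ)
    have hσe : σ (eU : F) = eU := e.2
    have hyU : dt g₁ = eU ^ n := congrArg (fun z : FixU σ => (z : Fˣ)) hyn
    let G : GL (Fin n) F := g₁ * sc n eU⁻¹
    have hG : (G : Matrix (Fin n) (Fin n) F).det = 1 := by
      have h1 : dt G = 1 := by
        show dt (g₁ * sc n eU⁻¹) = 1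
        rw [map_mul, dt_sc, hyU, inv_pow, mul_inv_cancel]
      have h2 := congrArg (fun u : Fˣ => (u : F)) h1
      exact h2
    let s₂ : Matrix.SpecialLinearGroup (Fin n) F := ⟨(G : Matrix (Fin n) (Fin n) F), hG⟩
    have hmkeq : mkP s₂ = mkP s := by
      symm
      rw [mkP_eq_iff]
      refine ⟨(b : F) * ((eU⁻¹ : Fˣ) : F), ?_⟩
      show ((g₁ * sc n eU⁻¹ : GL (Fin n) F) : Matrix (Fin n) (Fin n) F) = _
      rw [hg₁d, Units.val_mul, Units.val_mul, coe_sc, coe_sc, coe_slGL]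
      simp only [Matrix.mul_smul, Matrix.mul_one, smul_smul]
      rw [mul_comm]
    have hfixs₂ : IsFix σ s₂ := by
      show (G : Matrix (Fin n) (Fin n) F).map σ = G
      rw [← coe_mapGL]
      congr 1
      show mapGL σ (g₁ * sc n eU⁻¹) = g₁ * sc n eU⁻¹
      rw [mapGL_mul, hbf, mapGL_sc]
      congr 3
      apply Units.ext
      show σ (((eU⁻¹ : Fˣ)) : F) = ((eU⁻¹ : Fˣ) : F)
      rw [Units.val_inv_eq_inv_val, map_inv₀, hσe]
    have hmem := mem_range_of_fix hι₀ s₂ hfixs₂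
    rw [hmkeq, hs] at hmem
    have hord : orderOf (c.1 : ProjectiveSpecialLinearGroup (Fin n) F) = p := by
      rw [← hc]
      exact Subgroup.orderOf_coe c
    rw [← hord]
    exact Subgroup.orderOf_dvd_natCard _ hmem

end core

section conjinj

variable {F : Type*} [Field F] [Finite F] {n : ℕ}

theorem conj_inj (hn : 2 ≤ n) :
    Function.Injective (MulAut.conj : ProjectiveSpecialLinearGroup (Fin n) F →* MulAut (ProjectiveSpecialLinearGroup (Fin n) F)) := by
  rw [injective_iff_map_eq_one]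
  intro a ha
  obtain ⟨t, rfl⟩ := mkP_surj a
  rw [conj_mkP, conj_eq_one_iff hn] at ha
  obtain ⟨c, hc⟩ := ha
  have h1 : mkP (1 : Matrix.SpecialLinearGroup (Fin n) F) = mkP t := by
    rw [mkP_eq_iff]
    refine ⟨c, ?_⟩
    have h2 := congrArg (fun x : GL (Fin n) F => (x : Matrix (Fin n) (Fin n) F)) hc
    simp only [coe_slGL, coe_sc] at h2
    rw [h2]
    simp
  rw [← h1]
  rfl

end conjinj

section reps

variable {F : Type*} [Field F] [Fintype F] {n : ℕ} {r f : ℕ}

/-- The representatives. -/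
theorem exists_rep (hn : 2 ≤ n) (hr : r.Prime) (hF : Fintype.card F = r ^ f) (hf : 1 ≤ f)
    (ν : MulAut (ProjectiveSpecialLinearGroup (Fin n) F)) :
    ∃ (g : GL (Fin n) F) (τ : F ≃+* F), ν = autOf (conjS g) * autOf (fieldS τ) ∨
      (3 ≤ n ∧ ν = autOf (conjS g) * autOf (fieldS τ) * autOf invTrS) := by
  by_cases h3 : 3 ≤ n
  · obtain ⟨g, τ, h⟩ := Cfsg.Agent.Lib.KS71.PSLAutMain.main hr hF hf hn ν
    exact ⟨g, τ, h.imp id (fun h' => ⟨h3, h'⟩)⟩
  · have h2 : n = 2 := by omega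
    subst h2
    obtain ⟨g, τ, h⟩ := Cfsg.Agent.Lib.KS71.PSLAut2.main2
      (fun β x hx => Cfsg.Agent.Lib.KS71.PSLSylow.isT_map hr hF hf (le_refl 2) β hx) ν
    exact ⟨g, τ, Or.inl h⟩

variable {σ : F ≃+* F}

theorem field_comm (τ : F ≃+* F) :
    autOf (n := n) (fieldS τ) * autOf (fieldS σ) = autOf (fieldS σ) * autOf (fieldS τ) := by
  have h1 := map_mul (fieldHom (n := n) (F := F)) τ σ
  have h2 := map_mul (fieldHom (n := n) (F := F)) σ τ
  rw [Cfsg.Agent.Lib.KS71.GalFin.comm τ σ, h2] at h1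
  exact h1.symm

/-- The representatives of an element commuting with a field automorphism. -/
theorem exists_rep_fix (hn : 2 ≤ n) (hr : r.Prime) (hF : Fintype.card F = r ^ f) (hf : 1 ≤ f)
    (ν : MulAut (ProjectiveSpecialLinearGroup (Fin n) F))
    (hc : ν * autOf (fieldS σ) = autOf (fieldS σ) * ν) :
    ∃ (g : GL (Fin n) F) (τ : F ≃+* F), mapGL σ g = g ∧ (ν = autOf (conjS g) * autOf (fieldS τ) ∨
      (3 ≤ n ∧ ν = autOf (conjS g) * autOf (fieldS τ) * autOf invTrS)) := by
  obtain ⟨g, τ, h⟩ := exists_rep hn hr hF hf ν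
  have key : ∀ X : MulAut (ProjectiveSpecialLinearGroup (Fin n) F),
      X * autOf (fieldS σ) = autOf (fieldS σ) * X → ν = autOf (conjS g) * X →
      ∃ b : Fˣ, mapGL σ (g * sc n b) = g * sc n b := by
    intro X hX hν
    apply cc_field hn σ g
    rw [hν] at hc
    apply mul_right_cancel (b := X)
    calc autOf (conjS g) * autOf (fieldS σ) * X = autOf (conjS g) * (X * autOf (fieldS σ)) := by
          rw [mul_assoc, hX]
      _ = autOf (fieldS σ) * (autOf (conjS g) * X) := by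
          rw [← mul_assoc, hc]
      _ = _ := by group
  have hconj : ∀ b : Fˣ, autOf (conjS (g * sc n b)) = autOf (conjS g) := fun b => conj_scalar g b
  rcases h with h | ⟨h3, h⟩
  · obtain ⟨b, hb⟩ := key _ (field_comm τ) h
    exact ⟨g * sc n b, τ, hb, Or.inl (by rw [hconj]; exact h)⟩
  · have hX : (autOf (fieldS τ) * autOf invTrS) * autOf (fieldS σ) =
        autOf (fieldS σ) * (autOf (fieldS τ) * autOf (n := n) invTrS) := by
      rw [mul_assoc, invTr_field, ← mul_assoc, field_comm, mul_assoc]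
    obtain ⟨b, hb⟩ := key _ hX (by rw [h, mul_assoc])
    exact ⟨g * sc n b, τ, hb, Or.inr ⟨h3, by rw [hconj]; exact h⟩⟩

end reps

section small

variable {F : Type*} [Field F] {F₀ : Type*} [Field F₀] [Fintype F₀] (ι₀ : F₀ →+* F) {p : ℕ}

/-- Two transvections. -/
def u₁ : Matrix.SpecialLinearGroup (Fin 2) F₀ := ⟨!![1, 1; 0, 1], by simp [Matrix.det_fin_two]⟩
def u₂ : Matrix.SpecialLinearGroup (Fin 2) F₀ := ⟨!![1, 0; 1, 1], by simp [Matrix.det_fin_two]⟩

theorem eq2 {a b c d a' b' c' d' : F₀} (h1 : a = a') (h2 : b = b') (h3 : c = c') (h4 : d = d') :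
    !![a, b; c, d] = !![a', b'; c', d'] := by
  rw [h1, h2, h3, h4]

theorem coe_u₁ : ((u₁ (F₀ := F₀) : Matrix.SpecialLinearGroup (Fin 2) F₀) : Matrix (Fin 2) (Fin 2) F₀) = !![1, 1; 0, 1] := rfl
theorem coe_u₂ : ((u₂ (F₀ := F₀) : Matrix.SpecialLinearGroup (Fin 2) F₀) : Matrix (Fin 2) (Fin 2) F₀) = !![1, 0; 1, 1] := rfl

theorem coe_prod : ((u₁ (F₀ := F₀) * u₂ : Matrix.SpecialLinearGroup (Fin 2) F₀) : Matrix (Fin 2) (Fin 2) F₀) = !![1 + 1, 1; 1, 1] := by
  rw [Matrix.SpecialLinearGroup.coe_mul, coe_u₁, coe_u₂, Matrix.mul_fin_two]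
  apply eq2 <;> ring

theorem not_center_prod : u₁ (F₀ := F₀) * u₂ ∉ Subgroup.center (Matrix.SpecialLinearGroup (Fin 2) F₀) := by
  intro h
  rw [Matrix.SpecialLinearGroup.mem_center_iff] at h
  obtain ⟨r, -, hr⟩ := h
  have h1 : (Matrix.scalar (Fin 2) r) 0 1 = ((u₁ (F₀ := F₀) * u₂ : Matrix.SpecialLinearGroup (Fin 2) F₀) : Matrix (Fin 2) (Fin 2) F₀) 0 1 := by
    rw [hr]
  rw [coe_prod] at h1
  have h2 : (0 : F₀) = 1 := by simpa using h1
  exact zero_ne_one h2

/-- The normal subgroups of `PSL_2(2)` and `PSL_2(3)`. -/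
theorem small_normal (hq : (Fintype.card F₀ = 2 ∧ p = 3) ∨ (Fintype.card F₀ = 3 ∧ p = 2))
    (M : Subgroup (Phi (n := 2) ι₀).range) (hM : M.Normal) (hcop : Nat.Coprime (Nat.card M) p) : M = ⊥ := by
  classical
  by_contra hne
  have hM1 : Nat.card M ≠ 1 := by
    intro h
    exact hne (Subgroup.eq_bot_of_card_eq M h)
  have hPhi1 : ∀ u : Matrix.SpecialLinearGroup (Fin 2) F₀,
      u ∈ Subgroup.center (Matrix.SpecialLinearGroup (Fin 2) F₀) → Phi ι₀ u = 1 := by
    intro u hu
    have : u ∈ (Phi (n := 2) ι₀).ker := by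
      rw [ker_Phi ι₀ (by norm_num)]
      exact hu
    exact this
  have hPhi2 : Phi ι₀ (u₁ (F₀ := F₀) * u₂) ≠ 1 := by
    intro h0
    have h1 : u₁ (F₀ := F₀) * u₂ ∈ (Phi (n := 2) ι₀).ker := h0
    rw [ker_Phi ι₀ (by norm_num)] at h1
    exact not_center_prod h1
  let a : (Phi (n := 2) ι₀).range := ⟨Phi ι₀ u₁, u₁, rfl⟩
  let b : (Phi (n := 2) ι₀).range := ⟨Phi ι₀ u₂, u₂, rfl⟩
  have hab1 : a * b ≠ 1 := by
    intro h0
    apply hPhi2
    rw [map_mul]
    exact congrArg Subtype.val h0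
  have hidx := Subgroup.card_mul_index M
  have hcR : Nat.card (Phi (n := 2) ι₀).range = Nat.card (ProjectiveSpecialLinearGroup (Fin 2) F₀) :=
    (Nat.card_congr (isoRange ι₀ (by norm_num)).toEquiv).symm
  have hP := card_psl2 F₀
  have hmem : ∀ x : (Phi (n := 2) ι₀).range, x ^ M.index ∈ M := fun x => @Subgroup.pow_index_mem _ _ M hM x
  rcases hq with ⟨hq, rfl⟩ | ⟨hq, rfl⟩
  · -- `PSL_2(2)`
    have h20 : (2 : F₀) = 0 := by
      have h1 : ((Fintype.card F₀ : ℕ) : F₀) = 0 := FiniteField.cast_card_eq_zero F₀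
      rw [hq] at h1
      exact_mod_cast h1
    have hu1 : u₁ (F₀ := F₀) ^ 2 = 1 := by
      apply Subtype.ext
      rw [pow_two]
      show ((u₁ (F₀ := F₀) : Matrix.SpecialLinearGroup (Fin 2) F₀) : Matrix (Fin 2) (Fin 2) F₀) * (u₁ : Matrix.SpecialLinearGroup (Fin 2) F₀) = 1
      rw [coe_u₁, Matrix.mul_fin_two, Matrix.one_fin_two]
      apply eq2
      · ring
      · linear_combination h20
      · ring
      · ring
    have hu2 : u₂ (F₀ := F₀) ^ 2 = 1 := by
      apply Subtype.ext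
      rw [pow_two]
      show ((u₂ (F₀ := F₀) : Matrix.SpecialLinearGroup (Fin 2) F₀) : Matrix (Fin 2) (Fin 2) F₀) * (u₂ : Matrix.SpecialLinearGroup (Fin 2) F₀) = 1
      rw [coe_u₂, Matrix.mul_fin_two, Matrix.one_fin_two]
      apply eq2
      · ring
      · ring
      · linear_combination h20
      · ring
    have hu3 : (u₁ (F₀ := F₀) * u₂) ^ 3 = 1 := by
      apply Subtype.ext
      rw [pow_succ, pow_two]
      show ((u₁ (F₀ := F₀) * u₂ : Matrix.SpecialLinearGroup (Fin 2) F₀) : Matrix (Fin 2) (Fin 2) F₀) *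
        (u₁ * u₂ : Matrix.SpecialLinearGroup (Fin 2) F₀) * (u₁ * u₂ : Matrix.SpecialLinearGroup (Fin 2) F₀) = 1
      rw [coe_prod, Matrix.mul_fin_two, Matrix.mul_fin_two, Matrix.one_fin_two]
      apply eq2
      · linear_combination 6 * h20
      · linear_combination 4 * h20
      · linear_combination 4 * h20
      · linear_combination 2 * h20
    have ha2 : a ^ 2 = 1 := by
      apply Subtype.ext
      show (Phi ι₀ u₁) ^ 2 = 1
      rw [← map_pow, hu1, map_one]
    have hb2 : b ^ 2 = 1 := by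
      apply Subtype.ext
      show (Phi ι₀ u₂) ^ 2 = 1
      rw [← map_pow, hu2, map_one]
    have hab3 : (a * b) ^ 3 = 1 := by
      apply Subtype.ext
      show (Phi ι₀ u₁ * Phi ι₀ u₂) ^ 3 = 1
      rw [← map_mul, ← map_pow, hu3, map_one]
    have hc6 : Nat.card (Phi (n := 2) ι₀).range = 6 := by
      rw [hcR]
      rw [hq] at hP
      generalize Nat.card (ProjectiveSpecialLinearGroup (Fin 2) F₀) = P at hP ⊢
      norm_num at hP
      exact hP
    -- the order of `M`
    have hdvd6 : Nat.card M ∣ 6 := by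
      rw [← hc6]
      exact Subgroup.card_subgroup_dvd_card M
    have hM2 : Nat.card M = 2 := by
      have hle : Nat.card M ≤ 6 := Nat.le_of_dvd (by norm_num) hdvd6
      have key : ∀ c ≤ 6, c ∣ 6 → Nat.Coprime c 3 → c ≠ 1 → c = 2 := by decide
      exact key _ hle hdvd6 hcop hM1
    have hidx3 : M.index = 3 := by
      rw [hM2, hc6] at hidx
      omega
    rw [hidx3] at hmem
    have haM : a ∈ M := by
      have := hmem a
      have e : a ^ 3 = a := by
        rw [pow_succ, ha2, one_mul]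
      rwa [e] at this
    have hbM : b ∈ M := by
      have := hmem b
      have e : b ^ 3 = b := by
        rw [pow_succ, hb2, one_mul]
      rwa [e] at this
    have hord : orderOf (a * b) = 3 := by
      haveI : Fact (Nat.Prime 3) := ⟨by norm_num⟩
      exact orderOf_eq_prime hab3 hab1
    have h3 := Subgroup.orderOf_dvd_natCard M (mul_mem haM hbM)
    rw [hord, hM2] at h3
    exact absurd h3 (by decide)
  · -- `PSL_2(3)`
    have h30 : (3 : F₀) = 0 := by
      have h1 : ((Fintype.card F₀ : ℕ) : F₀) = 0 := FiniteField.cast_card_eq_zero F₀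
      rw [hq] at h1
      exact_mod_cast h1
    have hu1 : u₁ (F₀ := F₀) ^ 3 = 1 := by
      apply Subtype.ext
      rw [pow_succ, pow_two]
      show ((u₁ (F₀ := F₀) : Matrix.SpecialLinearGroup (Fin 2) F₀) : Matrix (Fin 2) (Fin 2) F₀) * (u₁ : Matrix.SpecialLinearGroup (Fin 2) F₀) * (u₁ : Matrix.SpecialLinearGroup (Fin 2) F₀) = 1
      rw [coe_u₁, Matrix.mul_fin_two, Matrix.mul_fin_two, Matrix.one_fin_two]
      apply eq2
      · ring
      · linear_combination h30
      · ring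
      · ring
    have hu2 : u₂ (F₀ := F₀) ^ 3 = 1 := by
      apply Subtype.ext
      rw [pow_succ, pow_two]
      show ((u₂ (F₀ := F₀) : Matrix.SpecialLinearGroup (Fin 2) F₀) : Matrix (Fin 2) (Fin 2) F₀) * (u₂ : Matrix.SpecialLinearGroup (Fin 2) F₀) * (u₂ : Matrix.SpecialLinearGroup (Fin 2) F₀) = 1
      rw [coe_u₂, Matrix.mul_fin_two, Matrix.mul_fin_two, Matrix.one_fin_two]
      apply eq2
      · ring
      · ring
      · linear_combination h30
      · ring
    have hu3 : (u₁ (F₀ := F₀) * u₂) ^ 2 ∈ Subgroup.center (Matrix.SpecialLinearGroup (Fin 2) F₀) := by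
      rw [Matrix.SpecialLinearGroup.mem_center_iff]
      refine ⟨-1, by simp, ?_⟩
      rw [pow_two]
      show _ = ((u₁ (F₀ := F₀) * u₂ : Matrix.SpecialLinearGroup (Fin 2) F₀) : Matrix (Fin 2) (Fin 2) F₀) *
        (u₁ * u₂ : Matrix.SpecialLinearGroup (Fin 2) F₀)
      rw [coe_prod, Matrix.mul_fin_two]
      have e : Matrix.scalar (Fin 2) (-1 : F₀) = !![-1, 0; 0, -1] := by
        refine Matrix.ext fun i j => ?_
        fin_cases i <;> fin_cases j <;> simp
      rw [e]
      apply eq2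
      · linear_combination (-2 : F₀) * h30
      · linear_combination (-1 : F₀) * h30
      · linear_combination (-1 : F₀) * h30
      · linear_combination (-1 : F₀) * h30
    have ha3 : a ^ 3 = 1 := by
      apply Subtype.ext
      show (Phi ι₀ u₁) ^ 3 = 1
      rw [← map_pow, hu1, map_one]
    have hb3 : b ^ 3 = 1 := by
      apply Subtype.ext
      show (Phi ι₀ u₂) ^ 3 = 1
      rw [← map_pow, hu2, map_one]
    have hab2 : (a * b) ^ 2 = 1 := by
      apply Subtype.ext
      show (Phi ι₀ u₁ * Phi ι₀ u₂) ^ 2 = 1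
      rw [← map_mul, ← map_pow]
      exact hPhi1 _ hu3
    have hc12 : Nat.card (Phi (n := 2) ι₀).range = 12 := by
      rw [hcR]
      rw [hq] at hP
      generalize Nat.card (ProjectiveSpecialLinearGroup (Fin 2) F₀) = P at hP ⊢
      norm_num at hP
      omega
    have hdvd12 : Nat.card M ∣ 12 := by
      rw [← hc12]
      exact Subgroup.card_subgroup_dvd_card M
    have hM3 : Nat.card M = 3 := by
      have hle : Nat.card M ≤ 12 := Nat.le_of_dvd (by norm_num) hdvd12
      have key : ∀ c ≤ 12, c ∣ 12 → Nat.Coprime c 2 → c ≠ 1 → c = 3 := by decide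
      exact key _ hle hdvd12 hcop hM1
    have hidx4 : M.index = 4 := by
      rw [hM3, hc12] at hidx
      omega
    rw [hidx4] at hmem
    have haM : a ∈ M := by
      have := hmem a
      have e : a ^ 4 = a := by
        rw [pow_succ, ha3, one_mul]
      rwa [e] at this
    have hbM : b ∈ M := by
      have := hmem b
      have e : b ^ 4 = b := by
        rw [pow_succ, hb3, one_mul]
      rwa [e] at this
    have hord : orderOf (a * b) = 2 := by
      haveI : Fact (Nat.Prime 2) := ⟨Nat.prime_two⟩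
      exact orderOf_eq_prime hab2 hab1
    have h3 := Subgroup.orderOf_dvd_natCard M (mul_mem haM hbM)
    rw [hord, hM3] at h3
    exact absurd h3 (by decide)

end small

section main

variable {F : Type*} [Field F] [Fintype F] {σ : F ≃+* F} {n : ℕ}
  {F₀ : Type*} [Field F₀] [Fintype F₀] {ι₀ : F₀ →+* F} (hι₀ : ∀ x, σ x = x ↔ x ∈ Set.range ι₀) (hn : 2 ≤ n)
  {r f p : ℕ}

include hι₀ hn

/-- The elements commuting with the field automorphism preserve the small subgroup. -/
theorem stable (hr : r.Prime) (hF : Fintype.card F = r ^ f) (hf : 1 ≤ f)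
    (ν : MulAut (ProjectiveSpecialLinearGroup (Fin n) F))
    (hc : ν * autOf (fieldS σ) = autOf (fieldS σ) * ν) {k : ProjectiveSpecialLinearGroup (Fin n) F}
    (hk : k ∈ (Phi (n := n) ι₀).range) : ν k ∈ (Phi (n := n) ι₀).range := by
  obtain ⟨u, rfl⟩ := hk
  obtain ⟨g, τ, hg, h⟩ := exists_rep_fix hn hr hF hf ν hc
  have hu := isFix_map (n := n) hι₀ u
  rcases h with rfl | ⟨-, rfl⟩
  · exact mem_range_of_fix hι₀ (conjS g (fieldS τ _)) (isFix_conj hg (isFix_field τ hu))
  · exact mem_range_of_fix hι₀ (conjS g (fieldS τ (invTrS _))) (isFix_conj hg (isFix_field τ (isFix_invTr hu)))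

/-- The elements of a core fix the small subgroup pointwise. -/
theorem range_fixed (hr : r.Prime) (hF : Fintype.card F = r ^ f) (hf : 1 ≤ f) [CharP F r] (hp : p.Prime) (hpr : p ≠ r)
    (N : Subgroup (MulAut (ProjectiveSpecialLinearGroup (Fin n) F)))
    (hNc : ∀ ν ∈ N, ν * autOf (fieldS σ) = autOf (fieldS σ) * ν)
    (hNn : ∀ ν ∈ N, ∀ k : ProjectiveSpecialLinearGroup (Fin n) F, autOf (fieldS σ) k = k →
      MulAut.conj k * ν * (MulAut.conj k)⁻¹ ∈ N)
    (hNcop : Nat.Coprime (Nat.card N) p)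
    (hdvd : p ∣ Nat.card (MonoidHom.eqLocus (autOf (n := n) (fieldS σ)).toMonoidHom
      (MonoidHom.id (ProjectiveSpecialLinearGroup (Fin n) F)))) :
    ∀ ν ∈ N, ∀ k ∈ (Phi (n := n) ι₀).range, ν k = k := by
  classical
  have hRfix : ∀ k ∈ (Phi (n := n) ι₀).range, autOf (fieldS σ) k = k := by
    rintro k ⟨u, rfl⟩
    exact field_Phi hι₀ u
  have hcinj := conj_inj (F := F) hn
  let M : Subgroup (Phi (n := n) ι₀).range :=
    N.comap ((MulAut.conj : ProjectiveSpecialLinearGroup (Fin n) F →* MulAut (ProjectiveSpecialLinearGroup (Fin n) F)).comp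
      (Phi (n := n) ι₀).range.subtype)
  have hM : M.Normal := by
    refine ⟨fun m hm x => ?_⟩
    show MulAut.conj (((x * m * x⁻¹ : (Phi (n := n) ι₀).range) : ProjectiveSpecialLinearGroup (Fin n) F)) ∈ N
    have h1 : MulAut.conj (((x * m * x⁻¹ : (Phi (n := n) ι₀).range) : ProjectiveSpecialLinearGroup (Fin n) F)) =
        MulAut.conj (x : ProjectiveSpecialLinearGroup (Fin n) F) * MulAut.conj (m : ProjectiveSpecialLinearGroup (Fin n) F) *
          (MulAut.conj (x : ProjectiveSpecialLinearGroup (Fin n) F))⁻¹ := by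
      simp only [Subgroup.coe_mul, Subgroup.coe_inv, map_mul, _root_.map_inv]
    rw [h1]
    exact hNn _ hm _ (hRfix _ x.2)
  have hinj : Function.Injective ((MulAut.conj : ProjectiveSpecialLinearGroup (Fin n) F →* MulAut (ProjectiveSpecialLinearGroup (Fin n) F)).comp
      (Phi (n := n) ι₀).range.subtype) := hcinj.comp (Phi (n := n) ι₀).range.subtype_injective
  have hdR : p ∣ Nat.card (Phi (n := n) ι₀).range := dvd_card_range hι₀ hn hp hdvd
  have hMcard : Nat.card M ∣ Nat.card N := by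
    have h1 : Nat.card M = Nat.card (M.map ((MulAut.conj : ProjectiveSpecialLinearGroup (Fin n) F →* MulAut (ProjectiveSpecialLinearGroup (Fin n) F)).comp
        (Phi (n := n) ι₀).range.subtype)) :=
      Nat.card_congr (M.equivMapOfInjective _ hinj).toEquiv
    rw [h1]
    refine Subgroup.card_dvd_of_le ?_
    rintro _ ⟨m, hm, rfl⟩
    exact hm
  have hbot : M = ⊥ := by
    by_cases hsm : n = 2 ∧ (Fintype.card F₀ = 2 ∨ Fintype.card F₀ = 3)
    · obtain ⟨rfl, hq⟩ := hsm
      have hP := card_psl2 F₀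
      have hcR : Nat.card (Phi (n := 2) ι₀).range = Nat.card (ProjectiveSpecialLinearGroup (Fin 2) F₀) :=
        (Nat.card_congr (isoRange ι₀ (by norm_num)).toEquiv).symm
      rw [hcR] at hdR
      have hch : ((Fintype.card F₀ : ℕ) : F) = 0 := by
        have h1 : ((Fintype.card F₀ : ℕ) : F₀) = 0 := FiniteField.cast_card_eq_zero F₀
        have h2 := congrArg ι₀ h1
        rwa [map_natCast, map_zero] at h2
      have hrd : r ∣ Fintype.card F₀ := (CharP.cast_eq_zero_iff F r _).1 hch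
      have hcop2 : Nat.Coprime (Nat.card M) p := Nat.Coprime.coprime_dvd_left hMcard hNcop
      refine small_normal ι₀ ?_ M hM hcop2
      rcases hq with hq | hq
      · left
        refine ⟨hq, ?_⟩
        rw [hq] at hP hrd
        have hr2 : r = 2 := (Nat.prime_dvd_prime_iff_eq hr Nat.prime_two).1 hrd
        generalize Nat.card (ProjectiveSpecialLinearGroup (Fin 2) F₀) = P at hP hdR
        norm_num at hP
        subst hP
        have h6 : p ∣ 2 * 3 := hdR
        rcases (Nat.Prime.dvd_mul hp).1 h6 with h7 | h7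
        · exact absurd ((Nat.prime_dvd_prime_iff_eq hp Nat.prime_two).1 h7) (by rw [hr2] at hpr; exact hpr)
        · exact (Nat.prime_dvd_prime_iff_eq hp Nat.prime_three).1 h7
      · right
        refine ⟨hq, ?_⟩
        rw [hq] at hP hrd
        have hr3 : r = 3 := (Nat.prime_dvd_prime_iff_eq hr Nat.prime_three).1 hrd
        generalize Nat.card (ProjectiveSpecialLinearGroup (Fin 2) F₀) = P at hP hdR
        norm_num at hP
        have hP12 : P = 12 := by omega
        subst hP12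
        have h6 : p ∣ 2 ^ 2 * 3 := hdR
        rcases (Nat.Prime.dvd_mul hp).1 h6 with h7 | h7
        · exact (Nat.prime_dvd_prime_iff_eq hp Nat.prime_two).1 (hp.dvd_of_dvd_pow h7)
        · exact absurd ((Nat.prime_dvd_prime_iff_eq hp Nat.prime_three).1 h7) (by rw [hr3] at hpr; exact hpr)
    · have hs : IsSimpleGroup (ProjectiveSpecialLinearGroup (Fin n) F₀) := by
        by_cases h3 : 3 ≤ n
        · exact Cfsg.Agent.Lib.Classical.Transvections.psl_isSimpleGroup (by simpa using h3)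
        · have h2 : n = 2 := by omega
          subst h2
          apply Matrix.ProjectiveSpecialLinearGroup.rank_two_simple
          have h4 : 2 ≤ Fintype.card F₀ := Fintype.one_lt_card
          rw [Nat.card_eq_fintype_card]
          by_contra h5
          apply hsm
          refine ⟨rfl, ?_⟩
          omega
      haveI := hs
      haveI hsimp : IsSimpleGroup (Phi (n := n) ι₀).range := (isoRange ι₀ (by omega)).symm.isSimpleGroup
      rcases hsimp.eq_bot_or_eq_top_of_normal M hM with h | h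
      · exact h
      · exfalso
        rw [h, Nat.card_congr (Subgroup.topEquiv).toEquiv] at hMcard
        have h4 : p ∣ Nat.card N := hdR.trans hMcard
        have h5 := Nat.Coprime.eq_one_of_dvd hNcop.symm h4
        exact hp.one_lt.ne h5.symm
  intro ν hν k hk
  have h1 : (⟨ν k, stable hι₀ hn hr hF hf ν (hNc ν hν) hk⟩ * (⟨k, hk⟩ : (Phi (n := n) ι₀).range)⁻¹ :
      (Phi (n := n) ι₀).range) ∈ M := by
    show MulAut.conj (ν k * k⁻¹) ∈ N
    have h2 : MulAut.conj (ν k * k⁻¹) = ν * (MulAut.conj k * ν⁻¹ * (MulAut.conj k)⁻¹) := by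
      rw [map_mul, conj_map, _root_.map_inv]
      group
    rw [h2]
    exact mul_mem hν (hNn _ (inv_mem hν) k (hRfix k hk))
  rw [hbot, Subgroup.mem_bot] at h1
  have h2 := congrArg Subtype.val h1
  have h3 : ν k * k⁻¹ = 1 := h2
  exact mul_inv_eq_one.1 h3

omit hn in
/-- Transvections with rational data lie in the small subgroup. -/
theorem el_mem_range (d : D n F) (hv : ∀ i, σ (d.v i) = d.v i) (hφ : ∀ i, σ (d.φ i) = d.φ i) :
    el d ∈ (Phi (n := n) ι₀).range := by
  refine mem_range_of_fix hι₀ _ ?_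
  show ((tv d.v d.φ d.hh : Matrix.SpecialLinearGroup (Fin n) F) : Matrix (Fin n) (Fin n) F).map σ = _
  rw [coe_tv]
  refine Matrix.ext fun i j => ?_
  simp only [Matrix.map_apply, Matrix.add_apply, map_add, vecMulVec_apply, map_mul, hv, hφ]
  congr 1
  by_cases hij : i = j
  · subst hij
    simp
  · simp [hij]

/-- A graph type automorphism does not fix the small subgroup. -/
theorem not_graph (h3 : 3 ≤ n) (g : GL (Fin n) F) (τ : F ≃+* F)
    (hfix : ∀ k ∈ (Phi (n := n) ι₀).range,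
      (autOf (conjS g) * autOf (fieldS τ) * autOf invTrS : MulAut (ProjectiveSpecialLinearGroup (Fin n) F)) k = k) : False := by
  classical
  let i₀ : Fin n := ⟨0, by omega⟩
  let i₁ : Fin n := ⟨1, by omega⟩
  let i₂ : Fin n := ⟨2, by omega⟩
  have h01 : i₀ ≠ i₁ := by simp [i₀, i₁, Fin.ext_iff]
  have h02 : i₀ ≠ i₂ := by simp [i₀, i₂, Fin.ext_iff]
  have h12 : i₁ ≠ i₂ := by simp [i₁, i₂, Fin.ext_iff]
  have hsing : ∀ (ρ : F ≃+* F) (i j : Fin n), ρ ((Pi.single i 1 : Fin n → F) j) = (Pi.single i 1 : Fin n → F) j := by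
    intro ρ i j
    by_cases hij : j = i
    · subst hij
      simp
    · simp [hij]
  have hne : ∀ i : Fin n, (Pi.single i 1 : Fin n → F) ≠ 0 := by
    intro i hi
    have := congrFun hi i
    simp at this
  have key : ∀ j : Fin n, j ≠ i₀ → ∃ a : F, (g : Matrix (Fin n) (Fin n) F) *ᵥ (-(Pi.single j 1 : Fin n → F)) = a • (Pi.single i₀ 1 : Fin n → F) := by
    intro j hj
    have hh : (Pi.single j 1 : Fin n → F) ⬝ᵥ (Pi.single i₀ 1 : Fin n → F) = 0 := by
      simp [hj]
    let d : D n F := D.mk (Pi.single i₀ 1) (Pi.single j 1) (hne _) (hne _) hh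
    have hmem := el_mem_range (n := n) hι₀ d (fun i => hsing σ _ i) (fun i => hsing σ _ i)
    have h1 := hfix _ hmem
    have h2 : (autOf (conjS g) * autOf (fieldS τ) * autOf invTrS : MulAut (ProjectiveSpecialLinearGroup (Fin n) F)) (el d) =
        el (D.conj g (D.field τ (D.dual d))) := by
      rw [el_conj, el_field, el_dual]
      rfl
    rw [h2] at h1
    obtain ⟨a, ha⟩ := (el_eq_imp (by omega) h1.symm).1
    refine ⟨a, ?_⟩
    have h4 : (fun i => τ ((D.dual d).v i)) = -(Pi.single j 1 : Fin n → F) := by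
      funext i
      show τ (-(Pi.single j 1 : Fin n → F) i) = _
      rw [map_neg, hsing]
      rfl
    have h5 : (D.conj g (D.field τ (D.dual d))).v = (g : Matrix (Fin n) (Fin n) F) *ᵥ (fun i => τ ((D.dual d).v i)) := rfl
    rw [h5, h4] at ha
    exact ha
  have hginj : ∀ x : Fin n → F, (g : Matrix (Fin n) (Fin n) F) *ᵥ x = 0 → x = 0 := by
    intro x hx
    have h1 : ((g⁻¹ : GL (Fin n) F) : Matrix (Fin n) (Fin n) F) *ᵥ ((g : Matrix (Fin n) (Fin n) F) *ᵥ x) = 0 := by
      rw [hx, Matrix.mulVec_zero]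
    rwa [Matrix.mulVec_mulVec, gl_inv_mul, Matrix.one_mulVec] at h1
  obtain ⟨a₁, ha₁⟩ := key i₁ h01.symm
  obtain ⟨a₂, ha₂⟩ := key i₂ h02.symm
  have h5 : (g : Matrix (Fin n) (Fin n) F) *ᵥ (a₂ • (-(Pi.single i₁ 1 : Fin n → F)) - a₁ • (-(Pi.single i₂ 1 : Fin n → F))) = 0 := by
    rw [Matrix.mulVec_sub, Matrix.mulVec_smul, Matrix.mulVec_smul, ha₁, ha₂, smul_smul, smul_smul, mul_comm, sub_self]
  have h6 := hginj _ h5
  have h7 := congrFun h6 i₁
  simp [h12, h12.symm] at h7
  rw [h7, zero_smul] at ha₂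
  have h8 := hginj _ ha₂
  exact hne i₂ (neg_eq_zero.1 h8)

/-- Semilinear automorphisms fixing the small subgroup fix the rational points. -/
theorem point_of_fix (g : GL (Fin n) F) (τ : F ≃+* F)
    (hfix : ∀ k ∈ (Phi (n := n) ι₀).range,
      (autOf (conjS g) * autOf (fieldS τ) : MulAut (ProjectiveSpecialLinearGroup (Fin n) F)) k = k)
    (x₀ : Fin n → F₀) (hx₀ : x₀ ≠ 0) :
    ∃ a : F, (g : Matrix (Fin n) (Fin n) F) *ᵥ (fun i => τ (ι₀ (x₀ i))) = a • (ι₀ ∘ x₀) := by
  classical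
  obtain ⟨d₀, hd₀⟩ := Cfsg.Agent.Lib.KS71.PSLAut3.exists_flag_of_v hn x₀ hx₀
  have hinj : ∀ y : Fin n → F₀, y ≠ 0 → ι₀ ∘ y ≠ 0 := by
    intro y hy h0
    apply hy
    funext i
    apply ι₀.injective
    have := congrFun h0 i
    simpa using this
  have hh : (ι₀ ∘ d₀.φ) ⬝ᵥ (ι₀ ∘ x₀) = 0 := by
    have h1 := d₀.hh
    rw [hd₀] at h1
    have h2 := congrArg ι₀ h1
    rw [map_zero, dotProduct, map_sum] at h2
    simpa [dotProduct] using h2
  let d : D n F := D.mk (ι₀ ∘ x₀) (ι₀ ∘ d₀.φ) (hinj _ hx₀) (hinj _ d₀.hφ) hh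
  have hmem := el_mem_range (n := n) hι₀ d (fun i => (hι₀ _).2 ⟨_, rfl⟩) (fun i => (hι₀ _).2 ⟨_, rfl⟩)
  have h1 := hfix _ hmem
  rw [el_semi] at h1
  obtain ⟨a, ha⟩ := (el_eq_imp (by omega) h1.symm).1
  exact ⟨a, ha⟩

/-- **Rigidity** over the small field. -/
theorem rigid_small (g : GL (Fin n) F) (τ : F ≃+* F) (hg : mapGL σ g = g)
    (hz : ∀ x₀ : Fin n → F₀, x₀ ≠ 0 →
      ∃ a : F, (g : Matrix (Fin n) (Fin n) F) *ᵥ (fun i => τ (ι₀ (x₀ i))) = a • (ι₀ ∘ x₀)) :
    (∀ a, σ a = a → τ a = a) ∧ ∃ c : Fˣ, g = sc n c := by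
  classical
  have hinj := ι₀.injective
  have e3 : ∀ z, σ (τ z) = τ (σ z) := by
    intro z
    have := congrArg (fun ρ : F ≃+* F => ρ z) (Cfsg.Agent.Lib.KS71.GalFin.comm σ τ)
    exact this
  have hτι : ∀ a : F₀, ∃ b : F₀, ι₀ b = τ (ι₀ a) := by
    intro a
    apply (hι₀ _).1
    rw [e3, (hι₀ _).2 ⟨_, rfl⟩]
  choose f hf using hτι
  let τ₀h : F₀ →+* F₀ :=
    { toFun := f
      map_one' := hinj (by rw [hf, map_one, map_one])
      map_mul' := fun a b => hinj (by simp only [hf, map_mul])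
      map_zero' := hinj (by rw [hf, map_zero, map_zero])
      map_add' := fun a b => hinj (by simp only [hf, map_add]) }
  have hbij : Function.Bijective τ₀h := by
    have h1 : Function.Injective τ₀h := τ₀h.injective
    exact ⟨h1, Finite.surjective_of_injective h1⟩
  let τ₀ : F₀ ≃+* F₀ := RingEquiv.ofBijective τ₀h hbij
  have hτ₀ : ∀ a, ι₀ (τ₀ a) = τ (ι₀ a) := fun a => hf a
  obtain ⟨g₀m, hg₀m⟩ := exists_lift_mat hι₀ (g : Matrix (Fin n) (Fin n) F) (by rw [← coe_mapGL, hg])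
  have hdet : g₀m.det ≠ 0 := by
    intro h0
    have h1 : ι₀ g₀m.det = (g : Matrix (Fin n) (Fin n) F).det := by
      rw [RingHom.map_det, ← hg₀m]
      rfl
    rw [h0, map_zero] at h1
    exact ((g : GL (Fin n) F).isUnit.map Matrix.detMonoidHom).ne_zero h1.symm
  let g₀ : GL (Fin n) F₀ := Matrix.GeneralLinearGroup.mkOfDetNeZero g₀m hdet
  have hg₀c : (g₀ : Matrix (Fin n) (Fin n) F₀) = g₀m := rfl
  have hι : ∀ v : Fin n → F₀, ι₀ ∘ ((g₀ : Matrix (Fin n) (Fin n) F₀) *ᵥ (fun i => τ₀ (v i))) =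
      (g : Matrix (Fin n) (Fin n) F) *ᵥ (fun i => τ (ι₀ (v i))) := by
    intro v
    funext i
    rw [← hg₀m]
    simp only [Function.comp_apply, Matrix.mulVec, dotProduct, map_sum, map_mul, hg₀c, Matrix.map_apply, hτ₀]
  have hzz : ∀ w : Fin n → F₀, w ≠ 0 →
      ∃ a : F₀, (fun i => τ₀ (w i)) = a • (((g₀⁻¹ : GL (Fin n) F₀) : Matrix (Fin n) (Fin n) F₀) *ᵥ w) := by
    intro w hw
    obtain ⟨a, ha⟩ := hz w hw
    rw [← hι] at ha
    obtain ⟨i, hi⟩ := Function.ne_iff.1 hw
    have hi' : w i ≠ 0 := hi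
    set a₀ := ((g₀ : Matrix (Fin n) (Fin n) F₀) *ᵥ (fun i => τ₀ (w i))) i / w i with ha₀
    have hci : a = ι₀ a₀ := by
      have h1 := congrFun ha i
      simp only [Function.comp_apply, Pi.smul_apply, smul_eq_mul] at h1
      rw [ha₀, map_div₀, h1]
      have : ι₀ (w i) ≠ 0 := (map_ne_zero ι₀).2 hi'
      field_simp
    have h2 : (g₀ : Matrix (Fin n) (Fin n) F₀) *ᵥ (fun i => τ₀ (w i)) = a₀ • w := by
      funext j
      apply hinj
      have h1 := congrFun ha j
      simp only [Function.comp_apply, Pi.smul_apply, smul_eq_mul] at h1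
      rw [h1, hci]
      simp only [Pi.smul_apply, smul_eq_mul, map_mul]
    refine ⟨a₀, ?_⟩
    have h3 : ((g₀⁻¹ : GL (Fin n) F₀) : Matrix (Fin n) (Fin n) F₀) *ᵥ ((g₀ : Matrix (Fin n) (Fin n) F₀) *ᵥ (fun i => τ₀ (w i))) =
        ((g₀⁻¹ : GL (Fin n) F₀) : Matrix (Fin n) (Fin n) F₀) *ᵥ (a₀ • w) := by rw [h2]
    rwa [Matrix.mulVec_mulVec, gl_inv_mul, Matrix.one_mulVec, Matrix.mulVec_smul] at h3
  have hM : ∀ w : Fin n → F₀, w ≠ 0 → ((g₀⁻¹ : GL (Fin n) F₀) : Matrix (Fin n) (Fin n) F₀) *ᵥ w ≠ 0 := by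
    intro w hw h0
    apply hw
    have h1 : (g₀ : Matrix (Fin n) (Fin n) F₀) *ᵥ (((g₀⁻¹ : GL (Fin n) F₀) : Matrix (Fin n) (Fin n) F₀) *ᵥ w) = 0 := by
      rw [h0, Matrix.mulVec_zero]
    rwa [Matrix.mulVec_mulVec, gl_mul_inv, Matrix.one_mulVec] at h1
  obtain ⟨hτ₀r, c, hc0, hc⟩ := semi_rigid hn _ hM τ₀ hzz
  constructor
  · intro a ha
    obtain ⟨a₀, rfl⟩ := (hι₀ a).1 ha
    rw [← hτ₀, hτ₀r]
    rfl
  · have hgm : g₀m = c⁻¹ • 1 := by
      have h1 : (g₀ : Matrix (Fin n) (Fin n) F₀) * ((g₀⁻¹ : GL (Fin n) F₀) : Matrix (Fin n) (Fin n) F₀) = 1 := gl_mul_inv g₀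
      rw [hc, Matrix.mul_smul, Matrix.mul_one, hg₀c] at h1
      have h2 := congrArg (fun X => c⁻¹ • X) h1
      simp only [smul_smul, inv_mul_cancel₀ hc0, one_smul] at h2
      exact h2
    have hc1 : ι₀ c⁻¹ ≠ 0 := (map_ne_zero ι₀).2 (inv_ne_zero hc0)
    refine ⟨Units.mk0 (ι₀ c⁻¹) hc1, ?_⟩
    apply Units.ext
    rw [coe_sc, ← hg₀m, hgm]
    refine Matrix.ext fun i j => ?_
    by_cases hij : i = j
    · subst hij
      simp
    · simp [hij]

/-- **The core** with the small field given. -/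
theorem field_core_aux (hr : r.Prime) (hF : Fintype.card F = r ^ f) (hf : 1 ≤ f) [CharP F r] (hp : p.Prime) (hpr : p ≠ r)
    (hσ : orderOf σ = p) (N : Subgroup (MulAut (ProjectiveSpecialLinearGroup (Fin n) F)))
    (hNc : ∀ ν ∈ N, ν * autOf (fieldS σ) = autOf (fieldS σ) * ν)
    (hNn : ∀ ν ∈ N, ∀ k : ProjectiveSpecialLinearGroup (Fin n) F, autOf (fieldS σ) k = k →
      MulAut.conj k * ν * (MulAut.conj k)⁻¹ ∈ N)
    (hNcop : Nat.Coprime (Nat.card N) p)
    (hdvd : p ∣ Nat.card (MonoidHom.eqLocus (autOf (n := n) (fieldS σ)).toMonoidHom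
      (MonoidHom.id (ProjectiveSpecialLinearGroup (Fin n) F)))) : N = ⊥ := by
  classical
  rw [eq_bot_iff]
  intro ν hν
  have hR := range_fixed hι₀ hn hr hF hf hp hpr N hNc hNn hNcop hdvd ν hν
  obtain ⟨g, τ, hg, h⟩ := exists_rep_fix hn hr hF hf ν (hNc ν hν)
  rcases h with rfl | ⟨h3, rfl⟩
  · obtain ⟨hτ, c, hc⟩ := rigid_small hι₀ hn g τ hg (fun x₀ hx₀ => point_of_fix hι₀ hn g τ hR x₀ hx₀)
    have h1 : autOf (conjS g) = 1 := (conj_eq_one_iff hn g).2 ⟨c, hc⟩
    rw [h1, one_mul] at hν ⊢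
    have h2 : τ ^ p = 1 := by
      have := pow_eq_one_of_fix_aux σ τ hτ
      rwa [hσ] at this
    have h3 : (autOf (n := n) (fieldS τ)) ^ p = 1 := by
      have e1 : autOf (n := n) (fieldS τ) = fieldHom τ := rfl
      rw [e1, ← map_pow, h2, map_one]
    have h4 : orderOf (autOf (n := n) (fieldS τ)) ∣ p := orderOf_dvd_of_pow_eq_one h3
    have h5 : orderOf (autOf (n := n) (fieldS τ)) ∣ Nat.card N := Subgroup.orderOf_dvd_natCard N hν
    have h6 := Nat.Coprime.eq_one_of_dvd (Nat.Coprime.coprime_dvd_left h5 hNcop) h4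
    rw [Subgroup.mem_bot]
    exact orderOf_eq_one_iff.1 h6
  · exact (not_graph hι₀ hn h3 g τ hR).elim

end main

/-- **The core** of the local balance theorem for field automorphisms of prime order. -/
theorem field_core {F : Type*} [Field F] [Fintype F] {σ : F ≃+* F} {n r f p : ℕ} (hn : 2 ≤ n) [Fact r.Prime]
    (hF : Fintype.card F = r ^ f) (hf : 1 ≤ f) [CharP F r] (hp : p.Prime) (hpr : p ≠ r)
    (hσ : orderOf σ = p) (N : Subgroup (MulAut (ProjectiveSpecialLinearGroup (Fin n) F)))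
    (hNc : ∀ ν ∈ N, ν * autOf (fieldS σ) = autOf (fieldS σ) * ν)
    (hNn : ∀ ν ∈ N, ∀ k : ProjectiveSpecialLinearGroup (Fin n) F, autOf (fieldS σ) k = k →
      MulAut.conj k * ν * (MulAut.conj k)⁻¹ ∈ N)
    (hNcop : Nat.Coprime (Nat.card N) p)
    (hdvd : p ∣ Nat.card (MonoidHom.eqLocus (autOf (n := n) (fieldS σ)).toMonoidHom
      (MonoidHom.id (ProjectiveSpecialLinearGroup (Fin n) F)))) : N = ⊥ := by
  classical
  obtain ⟨S, hS, hc⟩ := exists_fix hF σ
  haveI : Fintype S := Fintype.ofFinite S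
  have hι₀ : ∀ x, σ x = x ↔ x ∈ Set.range S.subtype := by
    intro x
    rw [← hS]
    constructor
    · intro h
      exact ⟨⟨x, h⟩, rfl⟩
    · rintro ⟨y, rfl⟩
      exact y.2
  exact field_core_aux hι₀ hn (Fact.out) hF hf hp hpr hσ N hNc hNn hNcop hdvd

end Cfsg.Agent.Lib.AutCl.PSLCoreF
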