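/-
The core of the local balance theorem for graph-field involutions of `PSL_n(F)`.
-/
import Mathlib
import Cfsg.Agent.Lib.AutCl.PSLCoreF
import Cfsg.Agent.Lib.KS71.PSLCentGF

set_option autoImplicit false
set_option linter.unusedSimpArgs false
set_option linter.unusedSectionVars false
set_option linter.style.haveILetI false
set_option linter.unusedVariables false

namespace Cfsg.Agent.Lib.AutCl.PSLCoreG

open Matrix Module
open scoped MatrixGroups
open Cfsg.Agent.Lib.KS71.PSLCore Cfsg.Agent.Lib.KS71.PSLAutGroup Cfsg.Agent.Lib.KS71.PSLTwist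
open Cfsg.Agent.Lib.KS71.PSLCent Cfsg.Agent.Lib.KS71.PSLCentGF
open Cfsg.Agent.Lib.AutCl.PSUCore2 (conj_map)
open Cfsg.Agent.Lib.AutCl.PSLCoreF (conj_inj exists_rep)
open Cfsg.Agent.Lib.AutCl.PSUAut (semiOf semiOf_apply semiOf_semi exists_conj tauHat)
open Cfsg.Agent.Lib.AutCl.PSUCount (semi_rigid)
open Cfsg.Agent.Lib.Classical.HermBasic Cfsg.Agent.Lib.Classical.HermElem
open Cfsg.Agent.Lib.Classical.HermBridge
open Cfsg.Agent.Lib.HermCount.Field (frobHom frobHom_apply)

section odd

variable {F : Type*} [Field F] {n : ℕ}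

/-- The square of a graph type automorphism is semilinear. -/
theorem graph_sq (g : GL (Fin n) F) (τ : F ≃+* F) :
    (autOf (conjS g) * autOf (fieldS τ) * autOf invTrS : MulAut (ProjectiveSpecialLinearGroup (Fin n) F)) ^ 2 =
      autOf (conjS (g * mapGL τ (invTrGL g))) * autOf (fieldS (τ * τ)) := by
  have h1 : autOf (n := n) (F := F) invTrS * autOf invTrS = 1 := invTr_sq
  rw [pow_two, Cfsg.Agent.Lib.KS71.PSLAutGroup.conj_mul, field_mul]
  calc autOf (conjS g) * autOf (fieldS τ) * autOf invTrS * (autOf (conjS g) * autOf (fieldS τ) * autOf invTrS)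
      = autOf (conjS g) * autOf (fieldS τ) * (autOf invTrS * autOf (conjS g)) * autOf (fieldS τ) * autOf invTrS := by
        group
    _ = autOf (conjS g) * autOf (fieldS τ) * (autOf (conjS (invTrGL g)) * autOf invTrS) * autOf (fieldS τ) * autOf invTrS := by
        rw [invTr_conj]
    _ = autOf (conjS g) * (autOf (fieldS τ) * autOf (conjS (invTrGL g))) * (autOf invTrS * autOf (fieldS τ)) * autOf invTrS := by
        group
    _ = autOf (conjS g) * (autOf (conjS (mapGL τ (invTrGL g))) * autOf (fieldS τ)) * (autOf (fieldS τ) * autOf invTrS) * autOf invTrS := by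
        rw [field_conj, invTr_field]
    _ = autOf (conjS g) * autOf (conjS (mapGL τ (invTrGL g))) * (autOf (fieldS τ) * autOf (fieldS τ)) * (autOf invTrS * autOf invTrS) := by
        group
    _ = _ := by
        rw [h1, mul_one]

/-- An automorphism of odd order is semilinear. -/
theorem not_graph_of_odd [Finite F] (hn : 3 ≤ n) (g : GL (Fin n) F) (τ : F ≃+* F)
    (hodd : Odd (orderOf (autOf (conjS g) * autOf (fieldS τ) * autOf invTrS : MulAut (ProjectiveSpecialLinearGroup (Fin n) F)))) : False := by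
  set ν : MulAut (ProjectiveSpecialLinearGroup (Fin n) F) := autOf (conjS g) * autOf (fieldS τ) * autOf invTrS with hν
  obtain ⟨m, hm⟩ := hodd
  have h1 : ν ^ (2 * (m + 1)) = ν := by
    have : 2 * (m + 1) = orderOf ν + 1 := by omega
    rw [this, pow_succ, pow_orderOf_eq_one, one_mul]
  rw [pow_mul, hν, graph_sq, pow_semi] at h1
  exact semi_ne_dual hn _ _ _ _ h1

end odd

section su

variable {F : Type*} [Field F] [Fintype F] {q : ℕ} (hF : Fintype.card F = q ^ 2) {n : ℕ} (hn : 3 ≤ n)

/-- The map `SU_n(q) → PSL_n(F)`. -/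
noncomputable def Psi : Cfsg.SU n F q →* ProjectiveSpecialLinearGroup (Fin n) F :=
  (QuotientGroup.mk' (Subgroup.center (Matrix.SpecialLinearGroup (Fin n) F))).comp (Cfsg.SU n F q).subtype

theorem Psi_apply (s : Cfsg.SU n F q) : Psi s = mkP (s : Matrix.SpecialLinearGroup (Fin n) F) := rfl

include hF hn

theorem ker_Psi : (Psi (n := n) (F := F) (q := q)).ker = Subgroup.center (Cfsg.SU n F q) := by
  ext s
  rw [MonoidHom.mem_ker, Psi_apply, QuotientGroup.eq_one_iff, Cfsg.Agent.Lib.AutCl.PSUCore.mem_center_iff hF hn,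
    Matrix.SpecialLinearGroup.mem_center_iff]
  constructor
  · rintro ⟨r, -, hr⟩
    refine ⟨r, ?_⟩
    rw [← hr]
    refine Matrix.ext fun i j => ?_
    by_cases hij : i = j
    · subst hij
      simp
    · simp [hij]
  · rintro ⟨ζ, hζ⟩
    refine ⟨ζ, ?_, ?_⟩
    · have h1 := ((s : Matrix.SpecialLinearGroup (Fin n) F)).2
      have h2 : ((s : Matrix.SpecialLinearGroup (Fin n) F) : Matrix (Fin n) (Fin n) F).det = 1 := h1
      rw [hζ, Matrix.det_smul, Matrix.det_one, mul_one, Fintype.card_fin] at h2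
      rw [Fintype.card_fin]
      exact h2
    · rw [hζ]
      refine Matrix.ext fun i j => ?_
      by_cases hij : i = j
      · subst hij
        simp
      · simp [hij]

/-- The image of `SU_n(q)`. -/
noncomputable def isoRangeU : Cfsg.PSU n F q ≃* (Psi (n := n) (F := F) (q := q)).range :=
  (QuotientGroup.quotientMulEquivOfEq (ker_Psi hF hn).symm).trans (QuotientGroup.quotientKerEquivRange _)

/-- The elements of `SU_n(q)` are fixed by the graph-field automorphism. -/
theorem gf_Psi (σ : F ≃+* F) (hσq : ∀ x, σ x = x ^ q) (s : Cfsg.SU n F q) :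
    gf σ (Psi s) = Psi s := by
  have h1 : slGL (s : Matrix.SpecialLinearGroup (Fin n) F) ∈ Cfsg.GU n F q :=
    (Cfsg.Agent.Lib.AutCl.PSUGroup.suToGU n s).2
  have h2 := (mem_GU_iff_Θ σ hσq _).1 h1
  rw [Psi_apply]
  show mkP (fieldS σ (invTrS _)) = _
  apply mkP_congr
  rw [coe_fieldS, coe_invTrS]
  have h3 := congrArg (fun x : GL (Fin n) F => (x : Matrix (Fin n) (Fin n) F)) h2
  simp only [coe_Θ, coe_slGL] at h3
  rw [← h3, coe_slGL_inv, Matrix.transpose_map]

end su

section core

variable {F : Type*} [Field F] [Fintype F] {q : ℕ} (hF : Fintype.card F = q ^ 2) {n : ℕ} (hn : 3 ≤ n)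
  {r f : ℕ}

include hF hn

/-- An element of `SU_n(q)` which is a transvection with centre a given isotropic vector. -/
theorem exists_su_trans {x : Fin n → F} (hx0 : x ≠ 0) (hxx : Cfsg.hermForm n F q x x = 0) {a : F} (ha0 : a ≠ 0)
    (ha : a + frobHom hF a = 0) :
    ∃ (s : Cfsg.SU n F q) (d : D n F), d.v = x ∧ Psi s = el d := by
  classical
  have S := hform hF n
  have ha' : a + frobHom hF a + Cfsg.hermForm n F q 0 0 = 0 := by
    rw [S.zero_left, add_zero, ha]
  obtain ⟨ρ, hρ⟩ := exists_eichAt S hxx (S.zero_left _) ha'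
  have hmem : ρ ∈ suGroup (Cfsg.hermForm n F q) := hρ.mem_suGroup S
  set s : Cfsg.SU n F q := (suEquiv n q).symm ⟨ρ, hmem⟩ with hs
  have hsρ : (suEquiv n q s).1 = ρ := by rw [hs, MulEquiv.apply_symm_apply]
  let φ : Fin n → F := fun j => a * frobHom hF (x j)
  have hφ0 : φ ≠ 0 := by
    obtain ⟨i, hi⟩ := Function.ne_iff.1 hx0
    intro h0
    have h1 := congrFun h0 i
    have h2 : a * frobHom hF (x i) = 0 := h1
    rcases mul_eq_zero.1 h2 with h3 | h3
    · exact ha0 h3
    · exact hi ((map_eq_zero _).1 h3)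
  have hh : φ ⬝ᵥ x = 0 := by
    have h1 : φ ⬝ᵥ x = a * Cfsg.hermForm n F q x x := by
      simp only [dotProduct, Cfsg.hermForm, φ, Finset.mul_sum, frobHom_apply]
      refine Finset.sum_congr rfl fun i _ => ?_
      ring
    rw [h1, hxx, mul_zero]
  refine ⟨s, D.mk x φ hx0 hφ0 hh, rfl, ?_⟩
  rw [Psi_apply]
  apply mkP_congr
  show _ = 1 + vecMulVec x φ
  refine Matrix.ext fun i j => ?_
  have h1 : ((s : Matrix.SpecialLinearGroup (Fin n) F) : Matrix (Fin n) (Fin n) F) i j =
      (((s : Matrix.SpecialLinearGroup (Fin n) F) : Matrix (Fin n) (Fin n) F) *ᵥ Pi.single j 1) i := by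
    simp
  have h2 : Cfsg.hermForm n F q (Pi.single j 1) x = frobHom hF (x j) := by
    rw [frobHom_apply]
    simp [Cfsg.hermForm, Pi.single_apply]
  rw [h1, ← suEquiv_apply, hsρ, hρ.apply, h2, S.zero_right]
  simp only [smul_zero, add_zero, zero_smul, sub_zero, Pi.add_apply, Pi.smul_apply, smul_eq_mul, Matrix.add_apply,
    vecMulVec_apply, φ]
  rw [Matrix.one_apply, Pi.single_apply]
  by_cases hij : i = j
  · subst hij
    simp
    ring
  · simp [hij]
    ring

/-- **The core** for a standard graph-field automorphism. -/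
theorem graph_field_core (hr : r.Prime) (hF' : Fintype.card F = r ^ f) (hf : 1 ≤ f) (hodd : Odd q) (σ : F ≃+* F)
    (hσ : orderOf σ = 2) (hσq : ∀ x, σ x = x ^ q) (N : Subgroup (MulAut (ProjectiveSpecialLinearGroup (Fin n) F)))
    (hNc : ∀ ν ∈ N, ν * gf σ = gf σ * ν)
    (hNn : ∀ ν ∈ N, ∀ k : ProjectiveSpecialLinearGroup (Fin n) F, gf σ k = k →
      MulAut.conj k * ν * (MulAut.conj k)⁻¹ ∈ N)
    (hNodd : Odd (Nat.card N)) : N = ⊥ := by
  classical
  have hn2 : 2 ≤ n := by omega
  have hfr : finrank F (Fin n → F) = n := Module.finrank_fin_fun F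
  have hq2 := Cfsg.Agent.Lib.HermCount.Field.two_le hF
  have hσmap : ∀ x, σ x = frobHom hF x := fun x => by rw [hσq, frobHom_apply]
  have h20 : (2 : F) ≠ 0 := by
    intro h0
    have h1 : ((2 : ℕ) : F) = 0 := by exact_mod_cast h0
    have h2 : ((q : ℕ) : F) = 0 := by
      have h3 : ((Fintype.card F : ℕ) : F) = 0 := FiniteField.cast_card_eq_zero F
      rw [hF] at h3
      push_cast at h3
      exact pow_eq_zero_iff (two_ne_zero) |>.1 h3
    obtain ⟨m, hm⟩ := hodd
    have h4 : ((2 * m + 1 : ℕ) : F) = 0 := by rw [← hm]; exact h2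
    push_cast at h4
    have h5 : (2 : F) = 0 := h0
    rw [h5, zero_mul, zero_add] at h4
    exact one_ne_zero h4
  -- every element of `N` is semilinear, with a representative in `GU`
  have hrep : ∀ ν ∈ N, ∃ (g : GL (Fin n) F) (τ : F ≃+* F), g ∈ Cfsg.GU n F q ∧ ν = autOf (conjS g) * autOf (fieldS τ) := by
    intro ν hν
    obtain ⟨g, τ, h⟩ := exists_rep hn2 hr hF' hf ν
    have hoddν : Odd (orderOf ν) := Odd.of_dvd_nat hNodd (Subgroup.orderOf_dvd_natCard N hν)
    rcases h with rfl | ⟨-, rfl⟩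
    · have hc := hNc _ hν
      have hcc : autOf (conjS g) * gf σ = gf σ * autOf (conjS g) := by
        apply mul_right_cancel (b := autOf (fieldS τ))
        calc autOf (conjS g) * gf σ * autOf (fieldS τ) = autOf (conjS g) * (autOf (fieldS τ) * gf σ) := by
              rw [mul_assoc, field_gf]
          _ = gf σ * (autOf (conjS g) * autOf (fieldS τ)) := by
              rw [← mul_assoc, hc]
          _ = _ := by group
      obtain ⟨b, hb⟩ := cc_graph hn2 σ hσ g hcc
      refine ⟨g * sc n b, τ, (mem_GU_iff_Θ σ hσq _).2 hb, ?_⟩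
      rw [show autOf (conjS (g * sc n b)) = autOf (conjS g) from conj_scalar g b]
    · exact (not_graph_of_odd hn g τ hoddν).elim
  have hRfix : ∀ k ∈ (Psi (n := n) (F := F) (q := q)).range, gf σ k = k := by
    rintro k ⟨s, rfl⟩
    exact gf_Psi hF hn σ hσq s
  have hstable : ∀ ν ∈ N, ∀ k ∈ (Psi (n := n) (F := F) (q := q)).range, ν k ∈ (Psi (n := n) (F := F) (q := q)).range := by
    rintro ν hν k ⟨s, rfl⟩
    obtain ⟨g, τ, hg, rfl⟩ := hrep ν hν
    obtain ⟨s', hs'⟩ := exists_conj hF n hg τ s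
    refine ⟨s', ?_⟩
    rw [Psi_apply, Psi_apply]
    show _ = mkP (conjS g (fieldS τ _))
    apply mkP_congr
    rw [coe_conjS, coe_fieldS, hs']
  have hcinj := conj_inj (F := F) hn2
  let M : Subgroup (Psi (n := n) (F := F) (q := q)).range :=
    N.comap ((MulAut.conj : ProjectiveSpecialLinearGroup (Fin n) F →* MulAut (ProjectiveSpecialLinearGroup (Fin n) F)).comp
      (Psi (n := n) (F := F) (q := q)).range.subtype)
  have hM : M.Normal := by
    refine ⟨fun m hm x => ?_⟩
    show MulAut.conj (((x * m * x⁻¹ : (Psi (n := n) (F := F) (q := q)).range) : ProjectiveSpecialLinearGroup (Fin n) F)) ∈ N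
    have h1 : MulAut.conj (((x * m * x⁻¹ : (Psi (n := n) (F := F) (q := q)).range) : ProjectiveSpecialLinearGroup (Fin n) F)) =
        MulAut.conj (x : ProjectiveSpecialLinearGroup (Fin n) F) * MulAut.conj (m : ProjectiveSpecialLinearGroup (Fin n) F) *
          (MulAut.conj (x : ProjectiveSpecialLinearGroup (Fin n) F))⁻¹ := by
      simp only [Subgroup.coe_mul, Subgroup.coe_inv, map_mul, _root_.map_inv]
    rw [h1]
    exact hNn _ hm _ (hRfix _ x.2)
  have hinj : Function.Injective ((MulAut.conj : ProjectiveSpecialLinearGroup (Fin n) F →* MulAut (ProjectiveSpecialLinearGroup (Fin n) F)).comp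
      (Psi (n := n) (F := F) (q := q)).range.subtype) := hcinj.comp (Psi (n := n) (F := F) (q := q)).range.subtype_injective
  have hMcard : Nat.card M ∣ Nat.card N := by
    have h1 : Nat.card M = Nat.card (M.map ((MulAut.conj : ProjectiveSpecialLinearGroup (Fin n) F →* MulAut (ProjectiveSpecialLinearGroup (Fin n) F)).comp
        (Psi (n := n) (F := F) (q := q)).range.subtype)) :=
      Nat.card_congr (M.equivMapOfInjective _ hinj).toEquiv
    rw [h1]
    refine Subgroup.card_dvd_of_le ?_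
    rintro _ ⟨m, hm, rfl⟩
    exact hm
  have hs32 : ¬ (n = 3 ∧ q = 2) := by
    rintro ⟨-, rfl⟩
    exact absurd hodd (by decide)
  haveI : IsSimpleGroup (Cfsg.PSU n F q) := isSimpleGroup_PSU hF n hn hs32
  haveI hsimp : IsSimpleGroup (Psi (n := n) (F := F) (q := q)).range := (isoRangeU hF hn).symm.isSimpleGroup
  have hbot : M = ⊥ := by
    rcases hsimp.eq_bot_or_eq_top_of_normal M hM with h | h
    · exact h
    · exfalso
      rw [h, Nat.card_congr (Subgroup.topEquiv).toEquiv] at hMcard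
      -- an involution
      have hω : ((-1 : Fˣ)) ∈ Cfsg.Agent.Lib.AutCl.PSUGroup.U1 F q := by
        rw [Cfsg.Agent.Lib.AutCl.PSUGroup.mem_U1]
        obtain ⟨m, hm⟩ := hodd
        have : q + 1 = 2 * (m + 1) := by omega
        rw [this, pow_mul]
        simp
      obtain ⟨s, -, hs2, hs3⟩ := Cfsg.Agent.Lib.AutCl.PSUCore.exists_diag hF hn (-1 : Fˣ) hω
      have hne : (-1 : Fˣ) ≠ 1 := by
        intro h1
        have h2 : (-1 : F) = 1 := by
          have := congrArg (fun u : Fˣ => (u : F)) h1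
          simpa using this
        apply h20
        linear_combination -h2
      have h1 := hs2 hne
      have h2 := hs3 2 (by simp)
      have hord : orderOf (QuotientGroup.mk s : Cfsg.PSU n F q) = 2 := by
        haveI : Fact (Nat.Prime 2) := ⟨Nat.prime_two⟩
        exact orderOf_eq_prime h2 h1
      have h3 : 2 ∣ Nat.card (Cfsg.PSU n F q) := by
        rw [← hord]
        exact orderOf_dvd_natCard _
      rw [Nat.card_congr (isoRangeU hF hn).toEquiv] at h3
      have h4 := h3.trans hMcard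
      obtain ⟨m, hm⟩ := hNodd
      omega
  -- the fixed points
  have hfixed : ∀ ν ∈ N, ∀ k ∈ (Psi (n := n) (F := F) (q := q)).range, ν k = k := by
    intro ν hν k hk
    have h1 : (⟨ν k, hstable ν hν k hk⟩ * (⟨k, hk⟩ : (Psi (n := n) (F := F) (q := q)).range)⁻¹ :
        (Psi (n := n) (F := F) (q := q)).range) ∈ M := by
      show MulAut.conj (ν k * k⁻¹) ∈ N
      have h2 : MulAut.conj (ν k * k⁻¹) = ν * (MulAut.conj k * ν⁻¹ * (MulAut.conj k)⁻¹) := by
        rw [map_mul, conj_map, _root_.map_inv]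
        group
      rw [h2]
      exact mul_mem hν (hNn _ (inv_mem hν) k (hRfix k hk))
    rw [hbot, Subgroup.mem_bot] at h1
    have h2 := congrArg Subtype.val h1
    have h3 : ν k * k⁻¹ = 1 := h2
    exact mul_inv_eq_one.1 h3
  rw [eq_bot_iff]
  intro ν hν
  obtain ⟨g, τ, hg, rfl⟩ := hrep ν hν
  have hfx := hfixed _ hν
  obtain ⟨a, ha0, ha⟩ := (invol_frob hF).exists_pure
  have hz : ∀ z : Fin n → F, z ≠ 0 → Cfsg.hermForm n F q z z = 0 → ∃ c : F, semiOf n g τ z = c • z := by
    intro z hz0 hzz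
    obtain ⟨s, d, hd, hs⟩ := exists_su_trans hF hn hz0 hzz ha0 ha
    have h1 := hfx _ ⟨s, rfl⟩
    rw [hs, el_semi] at h1
    obtain ⟨c, hc⟩ := (el_eq_imp (by omega) h1.symm).1
    refine ⟨c, ?_⟩
    have e : (D.conj g (D.field τ d)).v = semiOf n g τ z := by
      rw [semiOf_apply, ← hd]
      rfl
    rw [e, hd] at hc
    exact hc
  obtain ⟨hτ, ζ, hζ⟩ := semi_rigid (hform hF n) (invol_frob hF) (by rw [hfr]; exact hn)
    (semiOf_semi (q := q) n hg τ) hz
  have hτ1 : τ = 1 := by
    ext a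
    exact hτ a
  subst hτ1
  have hgm : (g : Matrix (Fin n) (Fin n) F) = ζ • 1 := by
    rw [← Cfsg.Agent.Lib.AutCl.PSUCore.matrix_eq_scalar]
    intro v
    have h1 := hζ v
    rw [semiOf_apply] at h1
    have h2 : tauHat n (1 : F ≃+* F) v = v := rfl
    rwa [h2] at h1
  have hζ0 : ζ ≠ 0 := by
    rintro rfl
    rw [zero_smul] at hgm
    have h1 := (g : GL (Fin n) F).isUnit.map Matrix.detMonoidHom
    haveI : Nonempty (Fin n) := ⟨⟨0, by omega⟩⟩
    have h2 : Matrix.detMonoidHom (g : Matrix (Fin n) (Fin n) F) = 0 := by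
      show (g : Matrix (Fin n) (Fin n) F).det = 0
      rw [hgm, Matrix.det_zero]
    exact h1.ne_zero h2
  have h1 : autOf (conjS g) = 1 := (conj_eq_one_iff hn2 g).2 ⟨Units.mk0 ζ hζ0, by
    apply Units.ext
    rw [hgm, coe_sc]
    rfl⟩
  rw [h1, one_mul]
  exact (field_one (n := n) (F := F)) ▸ Subgroup.one_mem _

end core

end Cfsg.Agent.Lib.AutCl.PSLCoreG
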