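/-
The core of the local balance theorem for graph involutions of `PSL_n(F)`: symmetric and alternating forms,
through their Hermitian extension to a quadratic extension of the field.
-/
import Mathlib
import Cfsg.Agent.Lib.AutCl.PSLCoreG
import Cfsg.Agent.Lib.Schur.AltInv

set_option autoImplicit false
set_option linter.unusedSimpArgs false
set_option linter.unusedSectionVars false
set_option linter.style.haveILetI false
set_option linter.unusedVariables false

namespace Cfsg.Agent.Lib.AutCl.PSLCoreS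

open Matrix Module
open scoped MatrixGroups
open Cfsg.Agent.Lib.KS71.PSLCore Cfsg.Agent.Lib.KS71.PSLAutGroup Cfsg.Agent.Lib.KS71.PSLTwist
open Cfsg.Agent.Lib.KS71.PSLCent
open Cfsg.Agent.Lib.AutCl.PSUCore2 (conj_map)
open Cfsg.Agent.Lib.AutCl.PSLCoreF (conj_inj exists_rep)
open Cfsg.Agent.Lib.AutCl.PSLCoreG (not_graph_of_odd)
open Cfsg.Agent.Lib.AutCl.PSUAut (semiOf semiOf_apply tauHat tauHat_apply tauHat_mulVec)
open Cfsg.Agent.Lib.AutCl.PSUPts (smap mem_smap smap_congr smap_span semiOf_mul scaleEquiv scaleEquiv_apply)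
open Cfsg.Agent.Lib.AutCl.HermSemi (IsSemiIso)
open Cfsg.Agent.Lib.AutCl.InvGeo (Desc IsoPt block rigid_final even_pts odd_card_fix)
open Cfsg.Agent.Lib.Classical.HermBasic
open Cfsg.Agent.Lib.HermCount.Field (frobHom frobHom_apply)

section form

variable {F E : Type*} [Field F] [Field E] (σ : E ≃+* E) (ι : F →+* E) {n : ℕ} (A : Matrix (Fin n) (Fin n) F) (e : E)

/-- The Hermitian extension of a form. -/
def hExt (u v : Fin n → E) : E := e * (u ⬝ᵥ ((A.map ι) *ᵥ (tauHat n σ v)))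

variable {σ ι A e}

theorem hExt_def (u v : Fin n → E) : hExt σ ι A e u v = e * (u ⬝ᵥ ((A.map ι) *ᵥ (tauHat n σ v))) := rfl

theorem tau_tau (hσ : Invol (σ : E →+* E)) (v : Fin n → E) : tauHat n σ (tauHat n σ v) = v := by
  funext i
  exact hσ.invol (v i)

theorem tau_dot (ρ : E ≃+* E) (x y : Fin n → E) : ρ (x ⬝ᵥ y) = tauHat n ρ x ⬝ᵥ tauHat n ρ y := by
  simp [dotProduct, map_sum, tauHat_apply]

variable {ε : F} (hσ : Invol (σ : E →+* E)) (hι : ∀ x, σ x = x ↔ x ∈ Set.range ι) (hε : ε = 1 ∨ ε = -1)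
  (hA : Aᵀ = ε • A) (he : σ e = ι ε * e)

include hι in
theorem map_fix : (A.map ι).map σ = A.map ι := by
  refine Matrix.ext fun i j => ?_
  exact (hι _).2 ⟨_, rfl⟩

include hσ hι in
theorem dot_sigma (x y : Fin n → E) :
    σ (x ⬝ᵥ ((A.map ι) *ᵥ (tauHat n σ y))) = tauHat n σ x ⬝ᵥ ((A.map ι) *ᵥ y) := by
  rw [tau_dot, tauHat_mulVec, map_fix hι, tau_tau hσ]

include hA in
theorem dot_swap (x y : Fin n → E) :
    y ⬝ᵥ ((A.map ι) *ᵥ x) = ι ε * (x ⬝ᵥ ((A.map ι) *ᵥ y)) := by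
  have h1 : (A.map ι)ᵀ = ι ε • A.map ι := by
    refine Matrix.ext fun i j => ?_
    have h2 := congrFun (congrFun hA i) j
    simp only [Matrix.transpose_apply, Matrix.smul_apply, Matrix.map_apply, smul_eq_mul] at h2 ⊢
    rw [h2, map_mul]
  rw [Matrix.dotProduct_mulVec, ← Matrix.mulVec_transpose, h1, Matrix.smul_mulVec, dotProduct_comm, dotProduct_smul,
    smul_eq_mul]

theorem hExt_nd (hdet : A.det ≠ 0) (he0 : e ≠ 0) (x : Fin n → E) (hx : ∀ y, hExt σ ι A e x y = 0) : x = 0 := by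
  classical
  have hdet' : (A.map ι).det ≠ 0 := by
    have h1 : (A.map ι).det = ι A.det := by
      have := RingHom.map_det ι A
      exact this.symm
    rw [h1]
    exact (map_ne_zero ι).2 hdet
  have hw : x ᵥ* (A.map ι) = 0 := by
    funext i
    have h1 := hx (tauHat n σ.symm (Pi.single i 1))
    rw [hExt_def] at h1
    have h2 : tauHat n σ (tauHat n σ.symm (Pi.single i (1 : E))) = Pi.single i 1 := by
      funext j
      simp [tauHat_apply]
    rw [h2] at h1
    have h3 := (mul_eq_zero.1 h1).resolve_left he0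
    rw [Matrix.dotProduct_mulVec] at h3
    simpa using h3
  have h5 : x ᵥ* ((A.map ι) * (A.map ι)⁻¹) = 0 := by
    rw [← Matrix.vecMul_vecMul, hw, Matrix.zero_vecMul]
  rw [Matrix.mul_nonsing_inv _ (Ne.isUnit hdet'), Matrix.vecMul_one] at h5
  exact h5

include hσ hι hA he in
theorem hform_ext (hdet : A.det ≠ 0) (he0 : e ≠ 0) : HForm (σ : E →+* E) (hExt σ ι A e) where
  add_left x y z := by
    simp only [hExt_def, add_dotProduct, mul_add]
  smul_left a x z := by
    simp only [hExt_def, smul_dotProduct, smul_eq_mul]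
    ring
  conj x y := by
    show hExt σ ι A e y x = σ (hExt σ ι A e x y)
    rw [hExt_def, hExt_def, map_mul, dot_sigma hσ hι, he, dot_swap hA]
    ring
  nd x hx := hExt_nd hdet he0 x hx

include hσ hι hε hA he in
theorem desc_ext (he0 : e ≠ 0) : Desc (σ : E →+* E) (hExt σ ι A e) (tauHat n σ) (ι ε) where
  smul a v := by
    funext i
    simp [tauHat_apply]
  form u v := by
    rw [hExt_def, hExt_def, tau_tau hσ, map_mul]
    show e * _ = ι ε * (σ e * σ _)
    rw [dot_sigma hσ hι, he]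
    have h1 : ι ε * ι ε = 1 := by
      rw [← map_mul]
      rcases hε with rfl | rfl <;> simp
    linear_combination (-(e * (tauHat n σ u ⬝ᵥ ((A.map ι) *ᵥ v)))) * h1
  invol v := tau_tau hσ v
  eps := by
    rcases hε with rfl | rfl
    · left
      exact map_one ι
    · right
      rw [map_neg, map_one]

end form

section act

variable {F : Type*} [Field F] {n : ℕ}

theorem semi_smul' (g : GL (Fin n) F) (τ : F ≃+* F) (a : F) (v : Fin n → F) :
    semiOf n g τ (a • v) = τ a • semiOf n g τ v := by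
  rw [semiOf_apply, semiOf_apply, ← Matrix.mulVec_smul]
  congr 1
  funext i
  simp [tauHat_apply]

/-- The action of a semilinear automorphism on subspaces. -/
noncomputable def actS (ν : MulAut (ProjectiveSpecialLinearGroup (Fin n) F)) (ℓ : Submodule F (Fin n → F)) :
    Submodule F (Fin n → F) :=
  @dite _ (∃ (g : GL (Fin n) F) (τ : F ≃+* F), ν = autOf (conjS g) * autOf (fieldS τ)) (Classical.propDecidable _)
    (fun h => smap (semiOf n h.choose h.choose_spec.choose) h.choose_spec.choose (semi_smul' _ _) ℓ)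
    (fun _ => ℓ)

theorem actS_semi (hn : 2 ≤ n) (g : GL (Fin n) F) (τ : F ≃+* F) (ℓ : Submodule F (Fin n → F)) :
    actS (autOf (conjS g) * autOf (fieldS τ)) ℓ = smap (semiOf n g τ) τ (semi_smul' g τ) ℓ := by
  have h : ∃ (g' : GL (Fin n) F) (τ' : F ≃+* F), autOf (conjS g) * autOf (fieldS τ) =
      autOf (conjS g') * autOf (fieldS τ') := ⟨g, τ, rfl⟩
  unfold actS
  rw [dif_pos h]
  obtain ⟨hτ, c, hc⟩ := semi_inj hn h.choose_spec.choose_spec
  have hτ' : h.choose_spec.choose = τ := hτ.symm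
  refine smap_congr (ζ := (c : F)) (Units.ne_zero _) ?_ ℓ
  intro v
  have hm : (h.choose : Matrix (Fin n) (Fin n) F) = (c : F) • (g : Matrix (Fin n) (Fin n) F) := by
    rw [← hc]
    refine Matrix.ext fun i j => ?_
    simp [Matrix.GeneralLinearGroup.scalar, mul_comm, Matrix.mul_diagonal]
  rw [semiOf_apply, semiOf_apply, hm, hτ', Matrix.smul_mulVec]

theorem actS_span (hn : 2 ≤ n) (g : GL (Fin n) F) (τ : F ≃+* F) (x : Fin n → F) :
    actS (autOf (conjS g) * autOf (fieldS τ)) (Submodule.span F {x}) = Submodule.span F {semiOf n g τ x} := by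
  rw [actS_semi hn, smap_span]

theorem one_eq_semi : (1 : MulAut (ProjectiveSpecialLinearGroup (Fin n) F)) =
    autOf (conjS (1 : GL (Fin n) F)) * autOf (fieldS (1 : F ≃+* F)) := by
  rw [conj_one, field_one, one_mul]

theorem semiOf_one (x : Fin n → F) : semiOf n (1 : GL (Fin n) F) (1 : F ≃+* F) x = x := by
  rw [semiOf_apply]
  simp only [Units.val_one, Matrix.one_mulVec]
  rfl

theorem actS_one (hn : 2 ≤ n) (ℓ : Submodule F (Fin n → F)) : actS (1 : MulAut (ProjectiveSpecialLinearGroup (Fin n) F)) ℓ = ℓ := by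
  rw [one_eq_semi, actS_semi hn]
  ext v
  rw [mem_smap]
  constructor
  · rintro ⟨x, hx, rfl⟩
    rwa [semiOf_one]
  · intro hv
    exact ⟨v, hv, semiOf_one v⟩

theorem semi_mul_semi (g g' : GL (Fin n) F) (τ τ' : F ≃+* F) :
    (autOf (conjS g) * autOf (fieldS τ)) * (autOf (conjS g') * autOf (fieldS τ')) =
      (autOf (conjS (g * mapGL τ g')) * autOf (fieldS (τ * τ')) : MulAut (ProjectiveSpecialLinearGroup (Fin n) F)) := by
  rw [Cfsg.Agent.Lib.KS71.PSLAutGroup.conj_mul, field_mul]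
  calc autOf (conjS g) * autOf (fieldS τ) * (autOf (conjS g') * autOf (fieldS τ'))
      = autOf (conjS g) * (autOf (fieldS τ) * autOf (conjS g')) * autOf (fieldS τ') := by group
    _ = autOf (conjS g) * (autOf (conjS (mapGL τ g')) * autOf (fieldS τ)) * autOf (fieldS τ') := by rw [field_conj]
    _ = _ := by group

theorem semiOf_mul' {g g' : GL (Fin n) F} (τ τ' : F ≃+* F) (x : Fin n → F) :
    semiOf n (g * mapGL τ g') (τ * τ') x = semiOf n g τ (semiOf n g' τ' x) := by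
  rw [semiOf_apply, semiOf_apply, semiOf_apply, tauHat_mulVec, Units.val_mul, coe_mapGL, Matrix.mulVec_mulVec]
  rfl

theorem actS_mul (hn : 2 ≤ n) (g g' : GL (Fin n) F) (τ τ' : F ≃+* F) (ℓ : Submodule F (Fin n → F)) :
    actS ((autOf (conjS g) * autOf (fieldS τ)) * (autOf (conjS g') * autOf (fieldS τ'))) ℓ =
      actS (autOf (conjS g) * autOf (fieldS τ)) (actS (autOf (conjS g') * autOf (fieldS τ')) ℓ) := by
  rw [semi_mul_semi, actS_semi hn, actS_semi hn, actS_semi hn]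
  ext v
  simp only [mem_smap]
  constructor
  · rintro ⟨x, hx, rfl⟩
    exact ⟨_, ⟨x, hx, rfl⟩, (semiOf_mul' τ τ' x).symm⟩
  · rintro ⟨_, ⟨x, hx, rfl⟩, rfl⟩
    exact ⟨x, hx, semiOf_mul' τ τ' x⟩

/-- An inner automorphism acts through the matrix. -/
theorem conj_eq_semi (t : Matrix.SpecialLinearGroup (Fin n) F) :
    MulAut.conj (mkP t) = autOf (conjS (slGL t)) * autOf (fieldS (1 : F ≃+* F)) := by
  rw [conj_mkP, field_one, mul_one]

theorem actS_conj_span (hn : 2 ≤ n) (t : Matrix.SpecialLinearGroup (Fin n) F) (x : Fin n → F) :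
    actS (MulAut.conj (mkP t)) (Submodule.span F {x}) = Submodule.span F {(t : Matrix (Fin n) (Fin n) F) *ᵥ x} := by
  rw [conj_eq_semi, actS_span hn, semiOf_apply, coe_slGL]
  rfl

theorem mulVec_dot (T : Matrix (Fin n) (Fin n) F) (x w : Fin n → F) : (T *ᵥ x) ⬝ᵥ w = x ⬝ᵥ (Tᵀ *ᵥ w) := by
  rw [Matrix.dotProduct_mulVec, Matrix.vecMul_transpose]

theorem form_conj (T A : Matrix (Fin n) (Fin n) F) (x y : Fin n → F) :
    (T *ᵥ x) ⬝ᵥ (A *ᵥ (T *ᵥ y)) = x ⬝ᵥ ((Tᵀ * A * T) *ᵥ y) := by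
  rw [mulVec_dot, Matrix.mulVec_mulVec, Matrix.mulVec_mulVec, Matrix.mul_assoc]

theorem entry_dot (M : Matrix (Fin n) (Fin n) F) (i j : Fin n) :
    (Pi.single i 1 : Fin n → F) ⬝ᵥ (M *ᵥ Pi.single j 1) = M i j := by
  classical
  simp

/-- The similitude equation. -/
theorem sim_of_comm (hn : 2 ≤ n) (g g' : GL (Fin n) F) (τ : F ≃+* F)
    (h : (autOf (conjS g') * autOf (fieldS τ)) * (autOf (conjS g) * autOf invTrS) =
      ((autOf (conjS g) * autOf invTrS) * (autOf (conjS g') * autOf (fieldS τ)) : MulAut (ProjectiveSpecialLinearGroup (Fin n) F))) :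
    ∃ c : Fˣ, (g' : Matrix (Fin n) (Fin n) F)ᵀ * ((g⁻¹ : GL (Fin n) F) : Matrix (Fin n) (Fin n) F) *
      (g' : Matrix (Fin n) (Fin n) F) = (c : F) • ((mapGL τ g⁻¹ : GL (Fin n) F) : Matrix (Fin n) (Fin n) F) := by
  have h1 : autOf (conjS (g' * mapGL τ g)) * autOf (fieldS τ) =
      (autOf (conjS (g * invTrGL g')) * autOf (fieldS τ) : MulAut (ProjectiveSpecialLinearGroup (Fin n) F)) := by
    apply mul_right_cancel (b := autOf invTrS)
    calc autOf (conjS (g' * mapGL τ g)) * autOf (fieldS τ) * autOf invTrS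
        = autOf (conjS g') * (autOf (conjS (mapGL τ g)) * autOf (fieldS τ)) * autOf invTrS := by
          rw [Cfsg.Agent.Lib.KS71.PSLAutGroup.conj_mul]
          group
      _ = autOf (conjS g') * (autOf (fieldS τ) * autOf (conjS g)) * autOf invTrS := by rw [field_conj]
      _ = (autOf (conjS g') * autOf (fieldS τ)) * (autOf (conjS g) * autOf invTrS) := by group
      _ = (autOf (conjS g) * autOf invTrS) * (autOf (conjS g') * autOf (fieldS τ)) := h
      _ = autOf (conjS g) * (autOf invTrS * autOf (conjS g')) * autOf (fieldS τ) := by group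
      _ = autOf (conjS g) * (autOf (conjS (invTrGL g')) * autOf invTrS) * autOf (fieldS τ) := by rw [invTr_conj]
      _ = autOf (conjS g) * autOf (conjS (invTrGL g')) * (autOf invTrS * autOf (fieldS τ)) := by group
      _ = autOf (conjS g) * autOf (conjS (invTrGL g')) * (autOf (fieldS τ) * autOf invTrS) := by rw [invTr_field]
      _ = _ := by
          rw [Cfsg.Agent.Lib.KS71.PSLAutGroup.conj_mul]
          group
  obtain ⟨-, c, hc⟩ := semi_inj hn h1
  refine ⟨c⁻¹, ?_⟩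
  have h2 := congrArg (fun x : GL (Fin n) F => (x : Matrix (Fin n) (Fin n) F)) hc
  simp only [Units.val_mul, coe_invTrGL] at h2
  set X := (g' : Matrix (Fin n) (Fin n) F)ᵀ * ((g⁻¹ : GL (Fin n) F) : Matrix (Fin n) (Fin n) F) *
      (g' : Matrix (Fin n) (Fin n) F) with hX
  have hs : ((Matrix.GeneralLinearGroup.scalar (Fin n) c : GL (Fin n) F) : Matrix (Fin n) (Fin n) F) = (c : F) • 1 := by
    refine Matrix.ext fun i j => ?_
    by_cases hij : i = j
    · subst hij
      simp [Matrix.GeneralLinearGroup.scalar]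
    · simp [Matrix.GeneralLinearGroup.scalar, hij]
  rw [hs] at h2
  have h3 : (c : F) • (X * ((mapGL τ g : GL (Fin n) F) : Matrix (Fin n) (Fin n) F)) = 1 := by
    calc (c : F) • (X * ((mapGL τ g : GL (Fin n) F) : Matrix (Fin n) (Fin n) F))
        = (g' : Matrix (Fin n) (Fin n) F)ᵀ * ((g⁻¹ : GL (Fin n) F) : Matrix (Fin n) (Fin n) F) *
          ((g' : Matrix (Fin n) (Fin n) F) * ((mapGL τ g : GL (Fin n) F) : Matrix (Fin n) (Fin n) F) * ((c : F) • 1)) := by
          rw [hX, Matrix.mul_smul, Matrix.mul_one, Matrix.mul_smul, Matrix.mul_assoc _ (g' : Matrix (Fin n) (Fin n) F),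
            Matrix.mul_assoc]
      _ = (g' : Matrix (Fin n) (Fin n) F)ᵀ * ((g⁻¹ : GL (Fin n) F) : Matrix (Fin n) (Fin n) F) *
          ((g : Matrix (Fin n) (Fin n) F) * ((g'⁻¹ : GL (Fin n) F) : Matrix (Fin n) (Fin n) F)ᵀ) := by rw [h2]
      _ = (g' : Matrix (Fin n) (Fin n) F)ᵀ * (((g⁻¹ : GL (Fin n) F) : Matrix (Fin n) (Fin n) F) * (g : Matrix (Fin n) (Fin n) F)) *
          ((g'⁻¹ : GL (Fin n) F) : Matrix (Fin n) (Fin n) F)ᵀ := by simp only [Matrix.mul_assoc]
      _ = 1 := by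
          rw [gl_inv_mul, Matrix.mul_one, ← Matrix.transpose_mul, gl_inv_mul, Matrix.transpose_one]
  have h4 : ((mapGL τ g : GL (Fin n) F) : Matrix (Fin n) (Fin n) F) * ((mapGL τ g⁻¹ : GL (Fin n) F) : Matrix (Fin n) (Fin n) F) = 1 := by
    rw [mapGL_inv, gl_mul_inv]
  have hc0 : ((c⁻¹ : Fˣ) : F) * (c : F) = 1 := by simp
  calc X = X * (((mapGL τ g : GL (Fin n) F) : Matrix (Fin n) (Fin n) F) * ((mapGL τ g⁻¹ : GL (Fin n) F) : Matrix (Fin n) (Fin n) F)) := by
        rw [h4, Matrix.mul_one]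
    _ = (((c⁻¹ : Fˣ) : F) * (c : F)) • (X * (((mapGL τ g : GL (Fin n) F) : Matrix (Fin n) (Fin n) F) * ((mapGL τ g⁻¹ : GL (Fin n) F) : Matrix (Fin n) (Fin n) F))) := by
        rw [hc0, one_smul]
    _ = _ := by
        rw [mul_smul, ← Matrix.mul_assoc, ← Matrix.smul_mul, h3, Matrix.one_mul]

end act

section rat

variable {F E : Type*} [Field F] [Field E] (ι : F →+* E) {n : ℕ}

/-- The vector with the same coordinates in the extension. -/
def rat (x : Fin n → F) : Fin n → E := fun i => ι (x i)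

variable {ι}

theorem rat_apply (x : Fin n → F) (i : Fin n) : rat ι x i = ι (x i) := rfl

theorem rat_inj : Function.Injective (rat (n := n) ι) := by
  intro x y h
  funext i
  exact ι.injective (congrFun h i)

theorem rat_zero : rat ι (0 : Fin n → F) = 0 := by
  funext i
  simp [rat_apply]

theorem rat_ne {x : Fin n → F} (hx : x ≠ 0) : rat ι x ≠ 0 := by
  intro h
  have h' : rat ι x = rat ι (0 : Fin n → F) := by rw [h, rat_zero]
  exact hx (rat_inj h')

theorem rat_smul (a : F) (x : Fin n → F) : rat ι (a • x) = ι a • rat ι x := by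
  funext i
  simp [rat_apply]

theorem rat_dot (x y : Fin n → F) : ι (x ⬝ᵥ y) = rat ι x ⬝ᵥ rat ι y := by
  simp [dotProduct, map_sum, rat_apply]

theorem rat_mulVec (M : Matrix (Fin n) (Fin n) F) (x : Fin n → F) : rat ι (M *ᵥ x) = (M.map ι) *ᵥ rat ι x := by
  funext i
  simp [rat_apply, Matrix.mulVec, dotProduct, map_sum]

theorem span_rat_inj {x y : Fin n → F} (hx : x ≠ 0) (hy : y ≠ 0)
    (h : Submodule.span E {rat ι x} = Submodule.span E {rat ι y}) :
    Submodule.span F {x} = Submodule.span F {y} := by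
  have h1 : rat ι y ∈ Submodule.span E {rat ι x} := by
    rw [h]
    exact Submodule.mem_span_singleton_self _
  obtain ⟨c, hc⟩ := Submodule.mem_span_singleton.1 h1
  obtain ⟨i, hi⟩ : ∃ i, x i ≠ 0 := by
    by_contra hcon
    push Not at hcon
    exact hx (funext hcon)
  have h2 : c = ι (y i / x i) := by
    have h3 := congrFun hc i
    simp only [Pi.smul_apply, smul_eq_mul, rat_apply] at h3
    rw [map_div₀, ← h3]
    have h4 : ι (x i) ≠ 0 := (map_ne_zero ι).2 hi
    field_simp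
  have h5 : y = (y i / x i) • x := by
    have h7 : rat ι y = rat ι ((y i / x i) • x) := by
      rw [rat_smul, ← h2, hc]
    exact rat_inj h7
  have h6 : y i / x i ≠ 0 := by
    intro h7
    rw [h7, zero_smul] at h5
    exact hy h5
  rw [h5]
  exact (Submodule.span_singleton_smul_eq (IsUnit.mk0 _ h6) x).symm

/-- The extension of scalars of a subspace. -/
def Pt (ι : F →+* E) (ℓ : Submodule F (Fin n → F)) : Submodule E (Fin n → E) :=
  Submodule.span E (rat ι '' ℓ)

theorem Pt_span (x : Fin n → F) : Pt ι (Submodule.span F {x}) = Submodule.span E {rat ι x} := by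
  apply le_antisymm
  · refine Submodule.span_le.2 ?_
    rintro _ ⟨y, hy, rfl⟩
    obtain ⟨a, rfl⟩ := Submodule.mem_span_singleton.1 hy
    rw [rat_smul]
    exact Submodule.smul_mem _ _ (Submodule.mem_span_singleton_self _)
  · refine Submodule.span_le.2 ?_
    rintro _ rfl
    exact Submodule.subset_span ⟨x, Submodule.mem_span_singleton_self x, rfl⟩

variable {σ : E ≃+* E} (hι : ∀ x, σ x = x ↔ x ∈ Set.range ι)

include hι in
theorem tau_rat (x : Fin n → F) : tauHat n σ (rat ι x) = rat ι x := by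
  funext i
  exact (hι _).2 ⟨_, rfl⟩

include hι in
theorem exists_rat {v : Fin n → E} (h : tauHat n σ v = v) : ∃ x, v = rat ι x := by
  have h1 : ∀ i, ∃ a, ι a = v i := fun i => (hι _).1 (congrFun h i)
  choose x hx using h1
  exact ⟨x, funext fun i => (hx i).symm⟩

variable {A : Matrix (Fin n) (Fin n) F} {e : E}

include hι in
theorem hExt_rat (x y : Fin n → F) : hExt σ ι A e (rat ι x) (rat ι y) = e * ι (x ⬝ᵥ (A *ᵥ y)) := by
  rw [hExt_def, tau_rat hι, rat_dot, rat_mulVec]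

/-- The point image of the base change of a linear map. -/
theorem map_Pt_span (ρ : (Fin n → E) ≃ₗ[E] (Fin n → E)) (x : Fin n → F) :
    (Pt ι (Submodule.span F {x})).map (ρ : (Fin n → E) →ₗ[E] (Fin n → E)) = Submodule.span E {ρ (rat ι x)} := by
  rw [Pt_span, Submodule.map_span, Set.image_singleton]
  rfl

include hι in
/-- A linear map commuting with the conjugation has rational matrix. -/
theorem exists_rat_matrix (ρ : (Fin n → E) ≃ₗ[E] (Fin n → E)) (hρ : ∀ v, tauHat n σ (ρ v) = ρ (tauHat n σ v)) :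
    ∃ T : Matrix (Fin n) (Fin n) F, ∀ v, ρ v = (T.map ι) *ᵥ v := by
  classical
  have h1 : ∀ j : Fin n, ∃ x : Fin n → F, ρ (Pi.single j 1) = rat ι x := by
    intro j
    apply exists_rat hι
    rw [hρ]
    congr 1
    funext i
    by_cases hij : i = j
    · subst hij
      simp [tauHat_apply]
    · simp [tauHat_apply, hij]
  choose x hx using h1
  refine ⟨Matrix.of fun i j => x j i, ?_⟩
  intro v
  have h2 : (ρ : (Fin n → E) →ₗ[E] (Fin n → E)) = Matrix.toLin' ((Matrix.of fun i j => x j i : Matrix (Fin n) (Fin n) F).map ι) := by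
    apply LinearMap.pi_ext'
    intro j
    apply LinearMap.ext_ring
    funext i
    show (ρ (Pi.single j 1)) i = _
    rw [hx]
    rw [LinearMap.comp_apply, Matrix.toLin'_apply]
    simp [rat_apply]
  have h3 := congrArg (fun f : (Fin n → E) →ₗ[E] (Fin n → E) => f v) h2
  simpa [Matrix.toLin'_apply] using h3

include hι in
/-- An isometry for the extended form which commutes with the conjugation comes from `SL_n(F)`. -/
theorem exists_sl (hdet : A.det ≠ 0) (he0 : e ≠ 0) (ρ : (Fin n → E) ≃ₗ[E] (Fin n → E))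
    (hρ : ρ ∈ suGroup (hExt σ ι A e)) (hρc : ∀ v, tauHat n σ (ρ v) = ρ (tauHat n σ v)) :
    ∃ t : Matrix.SpecialLinearGroup (Fin n) F, (∀ v, ρ (rat ι v) = rat ι ((t : Matrix (Fin n) (Fin n) F) *ᵥ v)) ∧
      (t : Matrix (Fin n) (Fin n) F)ᵀ * A * (t : Matrix (Fin n) (Fin n) F) = A := by
  classical
  obtain ⟨T, hT⟩ := exists_rat_matrix hι ρ hρc
  obtain ⟨hu, hd⟩ := mem_suGroup.1 hρ
  have hdT : T.det = 1 := by
    apply ι.injective
    rw [map_one, RingHom.map_det]
    have h1 : (ρ : (Fin n → E) →ₗ[E] (Fin n → E)) = Matrix.toLin' (T.map ι) := by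
      ext j i
      show (ρ _) i = _
      rw [hT]
      simp [Matrix.toLin'_apply]
    rw [h1, LinearMap.det_toLin'] at hd
    exact hd
  refine ⟨⟨T, hdT⟩, ?_, ?_⟩
  · intro v
    rw [hT, rat_mulVec]
  · have h1 : ∀ x y : Fin n → F, (T *ᵥ x) ⬝ᵥ (A *ᵥ (T *ᵥ y)) = x ⬝ᵥ (A *ᵥ y) := by
      intro x y
      have h2 := hu (rat ι x) (rat ι y)
      rw [hT, hT, ← rat_mulVec, ← rat_mulVec, hExt_rat hι, hExt_rat hι] at h2
      exact ι.injective (mul_left_cancel₀ he0 h2)
    refine Matrix.ext fun i j => ?_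
    have h2 := h1 (Pi.single i 1) (Pi.single j 1)
    rw [form_conj, entry_dot, entry_dot] at h2
    exact h2


end rat

section core

variable {F E : Type*} [Field F] [Field E] {n : ℕ}

/-- The isotropic vectors are preserved. -/
theorem iso_semi {g g' : GL (Fin n) F} {τ : F ≃+* F} {c : F}
    (hc : (g' : Matrix (Fin n) (Fin n) F)ᵀ * ((g⁻¹ : GL (Fin n) F) : Matrix (Fin n) (Fin n) F) *
      (g' : Matrix (Fin n) (Fin n) F) = c • ((mapGL τ g⁻¹ : GL (Fin n) F) : Matrix (Fin n) (Fin n) F))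
    {x : Fin n → F} (hx : x ⬝ᵥ (((g⁻¹ : GL (Fin n) F) : Matrix (Fin n) (Fin n) F) *ᵥ x) = 0) :
    (semiOf n g' τ x) ⬝ᵥ (((g⁻¹ : GL (Fin n) F) : Matrix (Fin n) (Fin n) F) *ᵥ (semiOf n g' τ x)) = 0 := by
  rw [semiOf_apply, form_conj, hc, Matrix.smul_mulVec, dotProduct_smul, coe_mapGL]
  have h1 := tauHat_mulVec n τ ((g⁻¹ : GL (Fin n) F) : Matrix (Fin n) (Fin n) F) x
  have h2 : tauHat n τ x ⬝ᵥ (((((g⁻¹ : GL (Fin n) F) : Matrix (Fin n) (Fin n) F)).map τ) *ᵥ tauHat n τ x) = τ (x ⬝ᵥ (((g⁻¹ : GL (Fin n) F) : Matrix (Fin n) (Fin n) F) *ᵥ x)) := by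
    rw [tau_dot, h1]
  rw [h2, hx, map_zero, smul_zero]

/-- Isometries are fixed by the graph automorphism. -/
theorem fix_of_iso (g : GL (Fin n) F) (t : Matrix.SpecialLinearGroup (Fin n) F)
    (ht : (t : Matrix (Fin n) (Fin n) F)ᵀ * ((g⁻¹ : GL (Fin n) F) : Matrix (Fin n) (Fin n) F) * (t : Matrix (Fin n) (Fin n) F) =
      ((g⁻¹ : GL (Fin n) F) : Matrix (Fin n) (Fin n) F)) :
    (autOf (conjS g) * autOf invTrS : MulAut (ProjectiveSpecialLinearGroup (Fin n) F)) (mkP t) = mkP t := by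
  show mkP (conjS g (invTrS t)) = mkP t
  apply mkP_congr
  rw [coe_conjS, coe_invTrS]
  have h1 : ((t⁻¹ : Matrix.SpecialLinearGroup (Fin n) F) : Matrix (Fin n) (Fin n) F)ᵀ * (t : Matrix (Fin n) (Fin n) F)ᵀ = 1 := by
    rw [← Matrix.transpose_mul, sl_mul_inv, Matrix.transpose_one]
  have h2 : ((t⁻¹ : Matrix.SpecialLinearGroup (Fin n) F) : Matrix (Fin n) (Fin n) F)ᵀ * ((g⁻¹ : GL (Fin n) F) : Matrix (Fin n) (Fin n) F) =
      ((g⁻¹ : GL (Fin n) F) : Matrix (Fin n) (Fin n) F) * (t : Matrix (Fin n) (Fin n) F) := by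
    calc _ = ((t⁻¹ : Matrix.SpecialLinearGroup (Fin n) F) : Matrix (Fin n) (Fin n) F)ᵀ * ((t : Matrix (Fin n) (Fin n) F)ᵀ * ((g⁻¹ : GL (Fin n) F) : Matrix (Fin n) (Fin n) F) * (t : Matrix (Fin n) (Fin n) F)) := by rw [ht]
      _ = (((t⁻¹ : Matrix.SpecialLinearGroup (Fin n) F) : Matrix (Fin n) (Fin n) F)ᵀ * (t : Matrix (Fin n) (Fin n) F)ᵀ) * ((g⁻¹ : GL (Fin n) F) : Matrix (Fin n) (Fin n) F) * (t : Matrix (Fin n) (Fin n) F) := by simp only [Matrix.mul_assoc]
      _ = _ := by rw [h1, Matrix.one_mul]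
  rw [Matrix.mul_assoc, h2, ← Matrix.mul_assoc, gl_mul_inv, Matrix.one_mul]

/-- The hypotheses on the similitude give a semi-isometry of the extended form. -/
theorem semiIso_ext [Fintype E] {σ : E ≃+* E} {ι : F →+* E} (hσ : Invol (σ : E →+* E)) (hι : ∀ x, σ x = x ↔ x ∈ Set.range ι)
    {A : Matrix (Fin n) (Fin n) F} {e : E} (he0 : e ≠ 0) {g' : GL (Fin n) F} {τ : F ≃+* F} {c : F}
    (hc : (g' : Matrix (Fin n) (Fin n) F)ᵀ * A * (g' : Matrix (Fin n) (Fin n) F) = c • A.map τ)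
    {τ' : E ≃+* E} (h1 : ∀ a, τ' (ι a) = ι (τ a)) (h2 : ∀ a, τ' (σ a) = σ (τ' a)) {l : E} (hl0 : l ≠ 0)
    (hl : l * σ l * (e * ι c) = τ' e) :
    IsSemiIso τ' (hExt σ ι A e)
      (scaleEquiv l hl0 (semiOf n (Matrix.GeneralLinearGroup.map ι g') τ')) := by
  have hG : ((Matrix.GeneralLinearGroup.map ι g' : GL (Fin n) E) : Matrix (Fin n) (Fin n) E) = (g' : Matrix (Fin n) (Fin n) F).map ι := rfl
  refine ⟨?_, ?_⟩
  · intro a v
    rw [scaleEquiv_apply, scaleEquiv_apply, semi_smul', smul_comm]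
  · intro u v
    rw [scaleEquiv_apply, scaleEquiv_apply, semiOf_apply, semiOf_apply, hExt_def, hExt_def, map_mul, ← hl, hG]
    have h3 : tauHat n σ (l • ((g' : Matrix (Fin n) (Fin n) F).map ι *ᵥ tauHat n τ' v)) =
        σ l • ((g' : Matrix (Fin n) (Fin n) F).map ι *ᵥ tauHat n τ' (tauHat n σ v)) := by
      have h4 : tauHat n σ (tauHat n τ' v) = tauHat n τ' (tauHat n σ v) := by
        funext i
        exact (h2 _).symm
      have h5 : tauHat n σ (l • ((g' : Matrix (Fin n) (Fin n) F).map ι *ᵥ tauHat n τ' v)) =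
          σ l • tauHat n σ ((g' : Matrix (Fin n) (Fin n) F).map ι *ᵥ tauHat n τ' v) := by
        funext i
        simp [tauHat_apply]
      rw [h5, tauHat_mulVec, map_fix hι, h4]
    rw [h3, smul_dotProduct, Matrix.mulVec_smul, dotProduct_smul, smul_eq_mul, smul_eq_mul, form_conj]
    have h4 : ((g' : Matrix (Fin n) (Fin n) F).map ι)ᵀ * A.map ι * (g' : Matrix (Fin n) (Fin n) F).map ι =
        ι c • (A.map ι).map τ' := by
      have h5 : ((g' : Matrix (Fin n) (Fin n) F).map ι)ᵀ * A.map ι * (g' : Matrix (Fin n) (Fin n) F).map ι =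
          ((g' : Matrix (Fin n) (Fin n) F)ᵀ * A * (g' : Matrix (Fin n) (Fin n) F)).map ι := by
        simp only [Matrix.map_mul, Matrix.transpose_map]
      rw [h5, hc]
      refine Matrix.ext fun i j => ?_
      simp [h1]
    rw [h4, Matrix.smul_mulVec, dotProduct_smul, smul_eq_mul, tau_dot, tauHat_mulVec]
    ring

end core

section main

variable {F E : Type*} [Field F] [Fintype F] [Field E] [Fintype E] {n : ℕ}

/-- **The core** for a graph automorphism given by a symmetric or alternating form, in terms of the Hermitian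
extension of the form. -/
theorem bil_core_ext (hn : 3 ≤ n) {σ : E ≃+* E} {ι : F →+* E} (hσ : Invol (σ : E →+* E))
    (hι : ∀ x, σ x = x ↔ x ∈ Set.range ι) {ε : F} (hε : ε = 1 ∨ ε = -1) (g : GL (Fin n) F)
    (hA : ((g⁻¹ : GL (Fin n) F) : Matrix (Fin n) (Fin n) F)ᵀ = ε • ((g⁻¹ : GL (Fin n) F) : Matrix (Fin n) (Fin n) F))
    {e : E} (he : σ e = ι ε * e) (he0 : e ≠ 0) (h2 : (2 : E) ≠ 0)
    (hext : ∀ τ : F ≃+* F, ∃ τ' : E ≃+* E, (∀ a, τ' (ι a) = ι (τ a)) ∧ ∀ a, τ' (σ a) = σ (τ' a))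
    (N : Subgroup (MulAut (ProjectiveSpecialLinearGroup (Fin n) F)))
    (hrep : ∀ ν ∈ N, ∃ (g' : GL (Fin n) F) (τ : F ≃+* F), ν = autOf (conjS g') * autOf (fieldS τ))
    (hNc : ∀ ν ∈ N, ν * (autOf (conjS g) * autOf invTrS) = (autOf (conjS g) * autOf invTrS) * ν)
    (hNn : ∀ ν ∈ N, ∀ k : ProjectiveSpecialLinearGroup (Fin n) F,
      (autOf (conjS g) * autOf invTrS : MulAut (ProjectiveSpecialLinearGroup (Fin n) F)) k = k →
      MulAut.conj k * ν * (MulAut.conj k)⁻¹ ∈ N)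
    (hNodd : Odd (Nat.card N)) : N = ⊥ := by
  classical
  have hn2 : 2 ≤ n := by omega
  set A : Matrix (Fin n) (Fin n) F := ((g⁻¹ : GL (Fin n) F) : Matrix (Fin n) (Fin n) F) with hAd
  have hdet : A.det ≠ 0 := by
    have h1 : A * (g : Matrix (Fin n) (Fin n) F) = 1 := gl_inv_mul g
    have h3 := congrArg Matrix.det h1
    rw [Matrix.det_mul, Matrix.det_one] at h3
    exact left_ne_zero_of_mul_eq_one h3
  have S := hform_ext hσ hι hA he hdet he0
  have D := desc_ext hσ hι hε hA he he0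
  set h := hExt σ ι A e with hh
  set L := tauHat n σ with hL
  set β : MulAut (ProjectiveSpecialLinearGroup (Fin n) F) := autOf (conjS g) * autOf invTrS with hβ
  have hfr : finrank E (Fin n → E) = n := Module.finrank_fin_fun E
  let Semi : MulAut (ProjectiveSpecialLinearGroup (Fin n) F) → Prop :=
    fun ν => ∃ (g' : GL (Fin n) F) (τ : F ≃+* F), ν = autOf (conjS g') * autOf (fieldS τ)
  have hAm : ∀ ν ν', Semi ν → Semi ν' → ∀ ℓ, actS (ν * ν') ℓ = actS ν (actS ν' ℓ) := by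
    rintro _ _ ⟨g₁, τ₁, rfl⟩ ⟨g₂, τ₂, rfl⟩ ℓ
    exact actS_mul hn2 g₁ g₂ τ₁ τ₂ ℓ
  let Q : (Fin n → F) → Prop := fun x => x ≠ 0 ∧ x ⬝ᵥ (A *ᵥ x) = 0
  have hIso : ∀ ν ∈ N, ∀ x, Q x → ∃ y, Q y ∧ actS ν (Submodule.span F {x}) = Submodule.span F {y} := by
    intro ν hν x hx
    obtain ⟨g₁, τ₁, rfl⟩ := hrep ν hν
    obtain ⟨c, hc⟩ := sim_of_comm hn2 g g₁ τ₁ (hNc _ hν)
    exact ⟨semiOf n g₁ τ₁ x, ⟨(map_ne_zero_iff _ (semiOf n g₁ τ₁).injective).2 hx.1, iso_semi hc hx.2⟩,
      actS_span hn2 _ _ _⟩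
  -- all isotropic points are fixed
  have hstep : ∀ ν ∈ N, ∀ x, Q x → actS ν (Submodule.span F {x}) = Submodule.span F {x} := by
    intro ν hν x hx
    set ℓ := Submodule.span F {x} with hℓ
    letI : MulAction N (Submodule F (Fin n → F)) :=
      { smul := fun a b => actS a.1 b
        one_smul := fun b => actS_one hn2 b
        mul_smul := fun a a' b => hAm a.1 a'.1 (hrep _ a.2) (hrep _ a'.2) b }
    have hact : ∀ (a : N) b, a • b = actS a.1 b := fun a b => rfl
    let O : Set (Submodule F (Fin n → F)) := MulAction.orbit N ℓ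
    have hmemO : ∀ ℓ', ℓ' ∈ O ↔ ∃ a ∈ N, actS a ℓ = ℓ' := by
      intro ℓ'
      constructor
      · rintro ⟨a, rfl⟩
        exact ⟨a.1, a.2, rfl⟩
      · rintro ⟨a, ha, rfl⟩
        exact ⟨⟨a, ha⟩, rfl⟩
    have hO : ∀ ℓ' ∈ O, ∃ y, Q y ∧ ℓ' = Submodule.span F {y} := by
      intro ℓ' hℓ'
      obtain ⟨a, ha, rfl⟩ := (hmemO ℓ').1 hℓ'
      obtain ⟨y, hy, hy'⟩ := hIso a ha x hx
      exact ⟨y, hy, hy'⟩
    have hinj : Set.InjOn (Pt (n := n) ι) O := by
      intro ℓ₁ h₁ ℓ₂ h₂ h12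
      obtain ⟨y₁, hy₁, rfl⟩ := hO _ h₁
      obtain ⟨y₂, hy₂, rfl⟩ := hO _ h₂
      rw [Pt_span, Pt_span] at h12
      exact span_rat_inj hy₁.1 hy₂.1 h12
    let B : Set (Submodule E (Fin n → E)) := Pt ι '' O
    have hB : ∀ ℓ' ∈ B, IsoPt h L ℓ' := by
      rintro _ ⟨ℓ', hℓ', rfl⟩
      obtain ⟨y, hy, rfl⟩ := hO _ hℓ'
      refine ⟨rat ι y, tau_rat hι y, rat_ne hy.1, ?_, Pt_span y⟩
      show hExt σ ι A e _ _ = 0
      rw [hExt_rat hι, hy.2, map_zero, mul_zero]
    have hcl : ∀ ρ : (Fin n → E) ≃ₗ[E] (Fin n → E), ρ ∈ suGroup h → (∀ v, L (ρ v) = ρ (L v)) →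
        ∀ b ∈ B, b.map (ρ : (Fin n → E) →ₗ[E] (Fin n → E)) = b →
        ∀ y ∈ B, y.map (ρ : (Fin n → E) →ₗ[E] (Fin n → E)) ∈ B := by
      intro ρ hρ hρc b hb hbfix y hy
      obtain ⟨t, htρ, htA⟩ := exists_sl hι hdet he0 ρ hρ hρc
      have hfix : β (mkP t) = mkP t := fix_of_iso g t htA
      set c : MulAut (ProjectiveSpecialLinearGroup (Fin n) F) := MulAut.conj (mkP t) with hc
      have hcS : Semi c := ⟨slGL t, 1, conj_eq_semi t⟩
      have hcP : ∀ z : Fin n → F, Pt ι (actS c (Submodule.span F {z})) =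
          (Pt ι (Submodule.span F {z})).map (ρ : (Fin n → E) →ₗ[E] (Fin n → E)) := by
        intro z
        rw [hc, actS_conj_span hn2, map_Pt_span, Pt_span, htρ]
      obtain ⟨b₀, hb₀, rfl⟩ := hb
      obtain ⟨y₀, hy₀, rfl⟩ := hy
      obtain ⟨a₁, ha₁, hh₁⟩ := (hmemO _).1 hb₀
      obtain ⟨a₂, ha₂, hh₂⟩ := (hmemO _).1 hy₀
      obtain ⟨z₁, hz₁, rfl⟩ := hO _ hb₀
      obtain ⟨z₂, hz₂, rfl⟩ := hO _ hy₀
      have hfixb : actS c (Submodule.span F {z₁}) = Submodule.span F {z₁} := by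
        have h3 := hcP z₁
        rw [hbfix] at h3
        have h4 : actS c (Submodule.span F {z₁}) = Submodule.span F {(t : Matrix (Fin n) (Fin n) F) *ᵥ z₁} := by
          rw [hc, actS_conj_span hn2]
        rw [h4, Pt_span, Pt_span] at h3
        rw [h4]
        refine span_rat_inj ?_ hz₁.1 h3
        intro h5
        have h6 : ((t⁻¹ : Matrix.SpecialLinearGroup (Fin n) F) : Matrix (Fin n) (Fin n) F) *ᵥ ((t : Matrix (Fin n) (Fin n) F) *ᵥ z₁) = z₁ := by
          rw [Matrix.mulVec_mulVec, sl_inv_mul, Matrix.one_mulVec]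
        rw [h5, Matrix.mulVec_zero] at h6
        exact hz₁.1 h6.symm
      refine ⟨actS c (Submodule.span F {z₂}), ?_, hcP z₂⟩
      set m := c * (a₂ * a₁⁻¹) * c⁻¹ with hm
      have hmN : m ∈ N := hNn _ (mul_mem ha₂ (inv_mem ha₁)) _ hfix
      rw [hmemO]
      refine ⟨m * a₁, mul_mem hmN ha₁, ?_⟩
      calc actS (m * a₁) ℓ = actS m (actS a₁ ℓ) := hAm _ _ (hrep _ hmN) (hrep _ ha₁) _
        _ = actS m (Submodule.span F {z₁}) := by rw [hh₁]
        _ = actS m (actS c (Submodule.span F {z₁})) := by rw [hfixb]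
        _ = actS (m * c) (Submodule.span F {z₁}) := (hAm _ _ (hrep _ hmN) hcS _).symm
        _ = actS (c * (a₂ * a₁⁻¹)) (Submodule.span F {z₁}) := by
            congr 1
            rw [hm]
            group
        _ = actS c (actS (a₂ * a₁⁻¹) (Submodule.span F {z₁})) :=
            hAm _ _ hcS (hrep _ (mul_mem ha₂ (inv_mem ha₁))) _
        _ = actS c (actS (a₂ * a₁⁻¹) (actS a₁ ℓ)) := by rw [hh₁]
        _ = actS c (actS (a₂ * a₁⁻¹ * a₁) ℓ) := by
            rw [hAm _ _ (hrep _ (mul_mem ha₂ (inv_mem ha₁))) (hrep _ ha₁)]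
        _ = actS c (actS a₂ ℓ) := by
            rw [inv_mul_cancel_right]
        _ = actS c (Submodule.span F {z₂}) := by rw [hh₂]
    have hBodd : Odd (Nat.card B) := by
      have h3 := MulAction.index_stabilizer N ℓ
      have h4 : Nat.card O = (MulAction.stabilizer N ℓ).index := by
        rw [h3]
        exact Nat.card_coe_set_eq _
      have h5 : Nat.card B = Nat.card O := by
        rw [Nat.card_coe_set_eq, Nat.card_coe_set_eq]
        exact Set.ncard_image_of_injOn hinj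
      rw [h5, h4]
      exact Odd.of_dvd_nat hNodd (Subgroup.index_dvd_card _)
    have hblock := block D S hσ h2 (odd_card_fix _ h2) B hB hcl hBodd (even_pts S hσ D h2)
    have hO₁ : actS ν ℓ ∈ O := (hmemO _).2 ⟨ν, hν, rfl⟩
    have hO₂ : ℓ ∈ O := (hmemO _).2 ⟨1, one_mem _, actS_one hn2 ℓ⟩
    exact hinj hO₁ hO₂ (hblock ⟨_, hO₁, rfl⟩ ⟨_, hO₂, rfl⟩)
  -- rigidity
  rw [eq_bot_iff]
  intro ν hν
  rw [Subgroup.mem_bot]
  have hνN := hν
  obtain ⟨g₁, τ₁, rfl⟩ := hrep ν hν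
  obtain ⟨c, hc⟩ := sim_of_comm hn2 g g₁ τ₁ (hNc _ hν)
  obtain ⟨τ', h1, h3⟩ := hext τ₁
  have hic : ι (c : F) ≠ 0 := (map_ne_zero ι).2 (Units.ne_zero c)
  set t : E := τ' e / (e * ι (c : F)) with htd
  have ht0 : t ≠ 0 := div_ne_zero ((map_ne_zero τ').2 he0) (mul_ne_zero he0 hic)
  have hεfix : τ' (ι ε) = ι ε := by
    rw [h1]
    rcases hε with rfl | rfl <;> simp
  have hσt : (σ : E →+* E) t = t := by
    show σ t = t
    have h4 : σ (ι (c : F)) = ι (c : F) := (hι _).2 ⟨_, rfl⟩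
    have h5 : ι ε ≠ 0 := by
      rcases hε with rfl | rfl <;> simp
    have h6 : σ (τ' e) = ι ε * τ' e := by
      rw [← h3, he, map_mul, hεfix]
    rw [htd, map_div₀, map_mul, h6, he, h4]
    rw [mul_assoc, mul_div_mul_left _ _ h5]
  obtain ⟨l, hl⟩ := hσ.exists_norm t ht0 hσt
  have hl0 : l ≠ 0 := by
    rintro rfl
    rw [zero_mul] at hl
    exact ht0 hl.symm
  have hsim : l * σ l * (e * ι (c : F)) = τ' e := by
    have hl' : l * σ l = t := hl
    rw [hl', htd]
    field_simp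
  have hg1A : (g₁ : Matrix (Fin n) (Fin n) F)ᵀ * A * (g₁ : Matrix (Fin n) (Fin n) F) = (c : F) • A.map τ₁ := by
    rw [hc, coe_mapGL]
  have hM := semiIso_ext hσ hι he0 hg1A h1 h3 hl0 hsim
  set M := scaleEquiv l hl0 (semiOf n (Matrix.GeneralLinearGroup.map ι g₁) τ') with hMd
  have hMrat : ∀ w : Fin n → F, M (rat ι w) = l • rat ι (semiOf n g₁ τ₁ w) := by
    intro w
    rw [hMd, scaleEquiv_apply, semiOf_apply, semiOf_apply, rat_mulVec]
    congr 2
    funext i
    exact h1 _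
  have hz : ∀ x, L x = x → x ≠ 0 → h x x = 0 → ∃ a : E, M x = a • x := by
    intro x hx hx0 hxx
    obtain ⟨x₀, rfl⟩ := exists_rat hι hx
    have hx₀0 : x₀ ≠ 0 := by
      rintro rfl
      exact hx0 rat_zero
    have hQ : Q x₀ := by
      refine ⟨hx₀0, ?_⟩
      have h4 : hExt σ ι A e (rat ι x₀) (rat ι x₀) = 0 := hxx
      rw [hExt_rat hι] at h4
      have h5 := (mul_eq_zero.1 h4).resolve_left he0
      exact (map_eq_zero ι).1 h5
    have hs := hstep _ hν x₀ hQ
    rw [actS_span hn2] at hs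
    have h4 : semiOf n g₁ τ₁ x₀ ∈ Submodule.span F {x₀} := by
      rw [← hs]
      exact Submodule.mem_span_singleton_self _
    obtain ⟨a, ha⟩ := Submodule.mem_span_singleton.1 h4
    refine ⟨l * ι a, ?_⟩
    rw [hMrat, ← ha, rat_smul, smul_smul]
  obtain ⟨a₀, ha₀, hcases⟩ := rigid_final S hσ D h2 (by rw [hfr]; exact hn) hM hz
  have hrat : ∀ w : Fin n → F, l • rat ι (semiOf n g₁ τ₁ w) = a₀ • rat ι w := by
    intro w
    rw [← hMrat]
    rcases hcases with h4 | h4
    · exact h4 _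
    · rw [h4, hL, tau_rat hι]
  have hpar : ∀ w : Fin n → F, w ≠ 0 → ∃ a : F, semiOf n g₁ τ₁ w = a • w := by
    intro w hw
    obtain ⟨i, hi⟩ : ∃ i, w i ≠ 0 := by
      by_contra hcon
      push Not at hcon
      exact hw (funext hcon)
    set y := semiOf n g₁ τ₁ w with hy
    refine ⟨y i / w i, ?_⟩
    have h4 : rat ι y = rat ι ((y i / w i) • w) := by
      funext j
      have h5 := congrFun (hrat w) j
      have h6 := congrFun (hrat w) i
      simp only [Pi.smul_apply, smul_eq_mul, rat_apply] at h5 h6 ⊢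
      have h7 : ι (w i) ≠ 0 := (map_ne_zero ι).2 hi
      rw [map_mul, map_div₀]
      have h8 : ι (y j) * ι (w i) = ι (y i) * ι (w j) := by
        apply mul_left_cancel₀ hl0
        linear_combination (ι (w i)) * h5 - (ι (w j)) * h6
      field_simp
      linear_combination h8
    exact rat_inj h4
  have hinv : ∀ w : Fin n → F, w ≠ 0 → ((g₁⁻¹ : GL (Fin n) F) : Matrix (Fin n) (Fin n) F) *ᵥ w ≠ 0 := by
    intro w hw h4
    have h5 : (g₁ : Matrix (Fin n) (Fin n) F) *ᵥ (((g₁⁻¹ : GL (Fin n) F) : Matrix (Fin n) (Fin n) F) *ᵥ w) = w := by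
      rw [Matrix.mulVec_mulVec, gl_mul_inv, Matrix.one_mulVec]
    rw [h4, Matrix.mulVec_zero] at h5
    exact hw h5.symm
  obtain ⟨hτ₁, c', hc'0, hc'⟩ := semi_rigid hn2 ((g₁⁻¹ : GL (Fin n) F) : Matrix (Fin n) (Fin n) F) hinv τ₁ (by
    intro w hw
    obtain ⟨a, ha⟩ := hpar w hw
    refine ⟨a, ?_⟩
    rw [← Matrix.mulVec_smul, ← ha, semiOf_apply, Matrix.mulVec_mulVec, gl_inv_mul, Matrix.one_mulVec]
    rfl)
  have hg1 : autOf (conjS g₁) = 1 := (conj_eq_one_iff hn2 g₁).2 ⟨Units.mk0 c'⁻¹ (inv_ne_zero hc'0), by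
    apply Units.ext
    rw [coe_sc]
    have h4 := gl_mul_inv g₁
    rw [hc', Matrix.mul_smul, Matrix.mul_one] at h4
    rw [Units.val_mk0, ← h4, smul_smul, inv_mul_cancel₀ hc'0, one_smul]⟩
  subst hτ₁
  rw [hg1, one_mul]
  exact field_one


/-- **The core** for a graph automorphism given by a symmetric or alternating form. -/
theorem bil_core {r f : ℕ} [hr : Fact r.Prime] [CharP F r] (hF : Fintype.card F = r ^ f) (hf : 1 ≤ f) (hn : 3 ≤ n)
    (h2 : (2 : F) ≠ 0) {ε : F} (hε : ε = 1 ∨ ε = -1) (g : GL (Fin n) F)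
    (hA : ((g⁻¹ : GL (Fin n) F) : Matrix (Fin n) (Fin n) F)ᵀ = ε • ((g⁻¹ : GL (Fin n) F) : Matrix (Fin n) (Fin n) F))
    (N : Subgroup (MulAut (ProjectiveSpecialLinearGroup (Fin n) F)))
    (hNc : ∀ ν ∈ N, ν * (autOf (conjS g) * autOf invTrS) = (autOf (conjS g) * autOf invTrS) * ν)
    (hNn : ∀ ν ∈ N, ∀ k : ProjectiveSpecialLinearGroup (Fin n) F,
      (autOf (conjS g) * autOf invTrS : MulAut (ProjectiveSpecialLinearGroup (Fin n) F)) k = k →
      MulAut.conj k * ν * (MulAut.conj k)⁻¹ ∈ N)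
    (hNodd : Odd (Nat.card N)) : N = ⊥ := by
  classical
  have hn2 : 2 ≤ n := by omega
  have hr' : r.Prime := hr.out
  have hf0 : 2 * f ≠ 0 := by omega
  let E := GaloisField r (2 * f)
  haveI : Fintype E := Fintype.ofFinite E
  have hE : Fintype.card E = r ^ (2 * f) := by
    rw [← Nat.card_eq_fintype_card]
    exact GaloisField.card r (2 * f) hf0
  have hE' : Fintype.card E = (r ^ f) ^ 2 := by
    rw [hE, ← pow_mul, mul_comm]
  have hinv := Cfsg.Agent.Lib.Classical.HermBridge.invol_frob hE'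
  let σ : E ≃+* E := RingEquiv.ofBijective (frobHom hE')
    ⟨(frobHom hE').injective, Finite.injective_iff_surjective.1 (frobHom hE').injective⟩
  have hσa : ∀ x, σ x = x ^ (r ^ f) := fun x => rfl
  have hσ : Invol (σ : E →+* E) := ⟨fun a => hinv.invol a, hinv.ne_id⟩
  have hord : orderOf σ = 2 := by
    haveI : Fact (Nat.Prime 2) := ⟨Nat.prime_two⟩
    refine orderOf_eq_prime ?_ ?_
    · ext a
      exact hinv.invol a
    · intro h1
      obtain ⟨a, ha⟩ := hinv.ne_id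
      apply ha
      have := congrArg (fun τ : E ≃+* E => τ a) h1
      exact this
  obtain ⟨ι, hι⟩ := exists_embed hE (by omega) σ (F₀ := F) (by
    rw [hord, hF]
    congr 1
    omega)
  have h2E : (2 : E) ≠ 0 := by
    intro h0
    apply h2
    apply ι.injective
    rw [map_ofNat, h0, map_zero]
  have hext : ∀ τ : F ≃+* F, ∃ τ' : E ≃+* E, (∀ a, τ' (ι a) = ι (τ a)) ∧ ∀ a, τ' (σ a) = σ (τ' a) := by
    intro τ
    obtain ⟨-, i, -, -, hi⟩ := Cfsg.Agent.Lib.Schur.AltInv.exists_frobenius_pow r (τ : F →+* F)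
    haveI : CharP E r := inferInstance
    haveI : ExpChar E r := ExpChar.prime hr'
    let τ' : E ≃+* E := RingEquiv.ofBijective (iterateFrobenius E r i)
      ⟨(iterateFrobenius E r i).injective, Finite.injective_iff_surjective.1 (iterateFrobenius E r i).injective⟩
    have hτ' : ∀ x, τ' x = x ^ (r ^ i) := fun x => iterateFrobenius_def r i x
    refine ⟨τ', ?_, ?_⟩
    · intro a
      rw [hτ']
      have : τ a = a ^ (r ^ i) := hi a
      rw [this, map_pow]
    · intro a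
      rw [hτ', hτ', hσa, hσa, pow_right_comm]
  have hrep : ∀ ν ∈ N, ∃ (g' : GL (Fin n) F) (τ : F ≃+* F), ν = autOf (conjS g') * autOf (fieldS τ) := by
    intro ν hν
    obtain ⟨g', τ, h⟩ := exists_rep hn2 hr' hF hf ν
    have hodd : Odd (orderOf ν) := Odd.of_dvd_nat hNodd (Subgroup.orderOf_dvd_natCard N hν)
    rcases h with rfl | ⟨-, rfl⟩
    · exact ⟨g', τ, rfl⟩
    · exact (not_graph_of_odd hn g' τ hodd).elim
  have hee : ∃ e : E, σ e = ι ε * e ∧ e ≠ 0 := by
    rcases hε with rfl | rfl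
    · exact ⟨1, by simp, one_ne_zero⟩
    · obtain ⟨e, he0, he⟩ := hσ.exists_pure
      refine ⟨e, ?_, he0⟩
      have h3 : e + σ e = 0 := he
      rw [map_neg, map_one]
      linear_combination h3
  obtain ⟨e, he, he0⟩ := hee
  exact bil_core_ext hn hσ hι hε g hA he he0 h2E hext N hrep hNc hNn hNodd

end main

end Cfsg.Agent.Lib.AutCl.PSLCoreS
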