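/-
The local balance theorem for `PSU_n(q)`: assembly.
-/
import Mathlib
import Cfsg.Agent.Lib.AutCl.PSUCore2
import Cfsg.Agent.S0144

set_option autoImplicit false
set_option linter.unusedSimpArgs false
set_option linter.unusedSectionVars false
set_option linter.style.haveILetI false
set_option linter.unusedVariables false

namespace Cfsg.Agent.Lib.AutCl.PSUBal

open Module Matrix MulAction
open Cfsg.Agent.Lib.Classical.HermBasic Cfsg.Agent.Lib.Classical.HermElem
open Cfsg.Agent.Lib.AutCl.HermSemi Cfsg.Agent.Lib.AutCl.PSUAut Cfsg.Agent.Lib.AutCl.PSUCount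
open Cfsg.Agent.Lib.AutCl.PSUGroup Cfsg.Agent.Lib.AutCl.PSUField Cfsg.Agent.Lib.AutCl.PSUFieldCent
open Cfsg.Agent.Lib.AutCl.PSUPts Cfsg.Agent.Lib.AutCl.PSUCore Cfsg.Agent.Lib.AutCl.PSUCore2
open Cfsg.Agent.Lib.Classical.HermBridge Cfsg.Agent.Lib.Classical.MatrixBridge
open Cfsg.Agent.Lib.HermCount.Field
open Cfsg.Agent.Lib.KS71.PSLAutGroup (mapGL coe_mapGL mapGL_mul mapGL_inv map_mul_map)
open Cfsg.Agent.Lib.KS71.PSLTwist (sc coe_sc sc_mul sc_central mapGL_sc mapGL_mapGL mapGL_one)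
open scoped MatrixGroups

section transfer

variable {G : Type*} [Group G]

/-- The core transfers along conjugation. -/
theorem core_transfer (α β₀ : MulAut G) {p : ℕ}
    (hcore : ∀ N : Subgroup (MulAut G), (∀ ν ∈ N, ν * β₀ = β₀ * ν) →
      (∀ ν ∈ N, ∀ k : G, β₀ k = k → MulAut.conj k * ν * (MulAut.conj k)⁻¹ ∈ N) →
      Nat.Coprime (Nat.card N) p → N = ⊥)
    (N : Subgroup (MulAut G)) (hNc : ∀ ν ∈ N, ν * (α * β₀ * α⁻¹) = (α * β₀ * α⁻¹) * ν)
    (hNn : ∀ ν ∈ N, ∀ k : G, (α * β₀ * α⁻¹) k = k → MulAut.conj k * ν * (MulAut.conj k)⁻¹ ∈ N)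
    (hcop : Nat.Coprime (Nat.card N) p) : N = ⊥ := by
  classical
  let f : MulAut G →* MulAut G := (MulAut.conj α⁻¹).toMonoidHom
  have hf : ∀ ν, f ν = α⁻¹ * ν * α := by
    intro ν
    show (MulAut.conj α⁻¹) ν = _
    rw [MulAut.conj_apply, inv_inv]
  have hinj : Function.Injective f := (MulAut.conj α⁻¹).injective
  have hmap : N.map f = ⊥ := by
    apply hcore
    · rintro _ ⟨ν, hν, rfl⟩
      rw [hf]
      have h1 := hNc ν hν
      have e1 : α⁻¹ * ν * α * β₀ = α⁻¹ * (ν * (α * β₀ * α⁻¹)) * α := by group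
      have e2 : β₀ * (α⁻¹ * ν * α) = α⁻¹ * ((α * β₀ * α⁻¹) * ν) * α := by group
      rw [e1, e2, h1]
    · rintro _ ⟨ν, hν, rfl⟩ k hk
      rw [hf]
      have h1 : (α * β₀ * α⁻¹) (α k) = α k := by
        simp only [MulAut.mul_apply, MulAut.inv_apply_self, hk]
      have h2 := hNn ν hν (α k) h1
      refine ⟨_, h2, ?_⟩
      rw [hf, conj_map]
      group
    · have h1 : Nat.card (N.map f) = Nat.card N :=
        (Nat.card_congr (N.equivMapOfInjective f hinj).toEquiv).symm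
      rwa [h1]
  exact (Subgroup.map_eq_bot_iff_of_injective N hinj).1 hmap

theorem card_eqLocus_conj (α β₀ : MulAut G) :
    Nat.card (MonoidHom.eqLocus (α * β₀ * α⁻¹).toMonoidHom (MonoidHom.id G)) =
      Nat.card (MonoidHom.eqLocus β₀.toMonoidHom (MonoidHom.id G)) := by
  have hA : ∀ k : G, (α * β₀ * α⁻¹) k = k ↔ β₀ (α⁻¹ k) = α⁻¹ k := by
    intro k
    constructor
    · intro h
      have h1 : α (β₀ (α⁻¹ k)) = k := h
      apply α.injective
      rw [MulAut.apply_inv_self]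
      exact h1
    · intro h
      show α (β₀ (α⁻¹ k)) = k
      rw [h]
      simp only [MulAut.apply_inv_self]
  refine Nat.card_congr ⟨fun k => ⟨α⁻¹ k.1, ?_⟩, fun k => ⟨α k.1, ?_⟩, fun k => ?_, fun k => ?_⟩
  · exact (hA k.1).1 k.2
  · refine (hA _).2 ?_
    simp only [MulAut.inv_apply_self]
    exact k.2
  · apply Subtype.ext
    simp only [MulAut.apply_inv_self]
  · apply Subtype.ext
    simp only [MulAut.inv_apply_self]

end transfer

section main

variable {F : Type*} [Field F] [Fintype F] {q : ℕ} (hF : Fintype.card F = q ^ 2) {n : ℕ} (hn : 3 ≤ n)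

include hF hn

/-- The involution case of the core. -/
theorem core_two {r f : ℕ} [Fact r.Prime] [CharP F r] (hq : q = r ^ f) (hf : 1 ≤ f) (hr2 : r ≠ 2)
    (hrep : HasRep hF n) {g : GL (Fin n) F} (hg : g ∈ Cfsg.GU n F q) {τ : F ≃+* F}
    (hτ1 : τ ≠ 1) (hβ2 : orderOf (Th hF n g hg τ) = 2) (N : Subgroup (MulAut (Cfsg.PSU n F q)))
    (hNc : ∀ ν ∈ N, ν * Th hF n g hg τ = Th hF n g hg τ * ν)
    (hNn : ∀ ν ∈ N, ∀ k : Cfsg.PSU n F q, Th hF n g hg τ k = k →
      MulAut.conj k * ν * (MulAut.conj k)⁻¹ ∈ N)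
    (hcop : Nat.Coprime (Nat.card N) 2) : N = ⊥ := by
  classical
  have h2 : (2 : F) ≠ 0 := by
    intro h0
    have h1 : ((2 : ℕ) : F) = 0 := by exact_mod_cast h0
    have h3 := (CharP.cast_eq_zero_iff F r 2).1 h1
    exact hr2 ((Nat.prime_dvd_prime_iff_eq (Fact.out) Nat.prime_two).1 h3)
  have hpow : Th hF n g hg τ * Th hF n g hg τ = 1 := by
    rw [← pow_two, ← hβ2]
    exact pow_orderOf_eq_one _
  rw [Th_mul, ← Th_one hF n] at hpow
  obtain ⟨hττ, z, hz1, hzv⟩ := Th_eq_imp hF n hn _ _ hpow.symm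
  have hττ' : τ * τ = 1 := hττ
  have hord : orderOf τ = 2 := by
    haveI : Fact (Nat.Prime 2) := ⟨Nat.prime_two⟩
    refine orderOf_eq_prime ?_ hτ1
    rw [pow_two, hττ']
  have hF2 : Fintype.card F = r ^ (f * 2) := by rw [hF, hq, pow_mul]
  obtain ⟨-, -, hτf⟩ := Cfsg.Agent.Lib.KS71.GalFin.invol_eq_frob hF2 (by omega) hord
  have hτa : ∀ a, τ a = frobHom hF a := by
    intro a
    rw [hτf, frobHom_apply, Nat.mul_div_cancel _ (by norm_num : 0 < 2), ← hq]
  have hgz : ∀ v, semiOf n g τ (semiOf n g τ v) = z • v := by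
    intro v
    have h1 := hzv v
    rw [semiOf_apply, semiOf_apply, tauHat_mulVec, Matrix.mulVec_mulVec]
    have h3 : tauHat n τ (tauHat n τ v) = v := by
      funext i
      show τ (τ (v i)) = v i
      exact congrArg (fun ρ : F ≃+* F => ρ (v i)) hττ'
    rw [h3]
    have h4 : ((g * mapGL τ g : GL (Fin n) F) : Matrix (Fin n) (Fin n) F) =
        (g : Matrix (Fin n) (Fin n) F) * (g : Matrix (Fin n) (Fin n) F).map τ := by
      rw [Units.val_mul, coe_mapGL]
    rw [h4] at h1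
    rw [h1]
    simp
  have hz : z = 1 ∨ z = -1 := by
    have hM := semiOf_semi (q := q) n hg τ
    have hz0 : z ≠ 0 := by
      rintro rfl
      rw [zero_pow (by omega)] at hz1
      exact zero_ne_one hz1
    let i₀ : Fin n := ⟨0, by omega⟩
    let v : Fin n → F := Pi.single i₀ 1
    have hv0 : semiOf n g τ v ≠ 0 := by
      intro h0
      have h3 := hgz v
      rw [h0, map_zero] at h3
      have h4 := congrFun h3 i₀
      simp [v] at h4
      exact hz0 h4.symm
    have h5 : semiOf n g τ (semiOf n g τ (semiOf n g τ v)) = z • semiOf n g τ v := hgz _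
    rw [hgz v, hM.smul] at h5
    have h6 : (τ z - z) • semiOf n g τ v = 0 := by
      rw [sub_smul, h5, sub_self]
    have h7 : τ z = z := sub_eq_zero.1 ((smul_eq_zero.1 h6).resolve_right hv0)
    rw [hτa, frobHom_apply] at h7
    have h8 : z * z = 1 := by
      rw [pow_succ, h7] at hz1
      exact hz1
    exact mul_self_eq_one_iff.1 h8
  refine inv_core hF hn hrep hg hτa hz hgz h2 hβ2 N hNc (fun ν hν s hs => hNn ν hν _ hs) ?_
  exact Nat.coprime_two_right.1 hcop

end main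

section assemble

variable {F : Type*} [Field F] [Fintype F] {q : ℕ} (hF : Fintype.card F = q ^ 2) {n : ℕ} (hn : 3 ≤ n)

include hF hn

/-- The fixed points of a non-inner-diagonal automorphism of prime order are non-trivial. -/
theorem exists_fixed_ne {r f p : ℕ} [Fact r.Prime] [CharP F r] (hq : q = r ^ f) (hf : 1 ≤ f) (hp : p.Prime)
    (hK : IsSimpleGroup (Cfsg.PSU n F q)) {g : GL (Fin n) F} (hg : g ∈ Cfsg.GU n F q) {τ : F ≃+* F}
    (hτord : orderOf τ = p) (hβp : (Th hF n g hg τ) ^ p = 1) :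
    ∃ k : Cfsg.PSU n F q, k ≠ 1 ∧ Th hF n g hg τ k = k := by
  classical
  by_cases hp2 : p = 2
  · subst hp2
    by_contra hno
    push Not at hno
    have hffree : MonoidHom.FixedPointFree ((Th hF n g hg τ).toMonoidHom) := by
      intro k hk
      by_contra hk1
      exact hno k hk1 hk
    have hinv : Function.Involutive ((Th hF n g hg τ).toMonoidHom) := by
      intro k
      have h1 : Th hF n g hg τ * Th hF n g hg τ = 1 := by
        rw [← pow_two]
        exact hβp
      exact congrArg (fun φ : MulAut (Cfsg.PSU n F q) => φ k) h1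
    have hcomm := fun a b => hffree.commute_all_of_involutive hinv a b
    have htop : Subgroup.center (Cfsg.PSU n F q) = ⊤ := by
      rw [eq_top_iff]
      intro a _
      rw [Subgroup.mem_center_iff]
      intro b
      exact hcomm b a
    rw [center_PSU hF n hn] at htop
    exact bot_ne_top htop
  · have hodd : Odd p := hp.odd_of_ne_two hp2
    have H := mk_oddField hF hq hf τ hτord hodd
    obtain ⟨k, hk, hcore⟩ := core_field H n hn g hg hβp
    set q₀ := r ^ (f / p) with hq₀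
    have hcard := card_FixU1 H
    have hq₀2 : 1 < Nat.card (FixU1 τ q) := by
      rw [hcard]
      have : 0 < q₀ := by
        rw [hq₀]
        exact pow_pos (Fact.out : r.Prime).pos _
      omega
    haveI : Finite (FixU1 τ q) := Finite.of_injective (fun x => (x : U1 F q)) Subtype.val_injective
    haveI := (Finite.one_lt_card_iff_nontrivial (α := FixU1 τ q)).1 hq₀2
    obtain ⟨ω, hω⟩ := exists_ne (1 : FixU1 τ q)
    have hω1 : ((ω : U1 F q) : Fˣ) ≠ 1 := by
      intro h1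
      exact hω (Subtype.ext (Subtype.ext h1))
    obtain ⟨s, hs1, hs2, hs3⟩ := exists_diag hF hn ((ω : U1 F q) : Fˣ) (ω : U1 F q).2
    have hsf : Th hF n 1 (one_mem _) τ (QuotientGroup.mk s) = QuotientGroup.mk s := by
      refine Th_mk hF n (one_mem _) τ s s ?_
      rw [one_conj_eq hF, hs1 τ ω.2]
    refine ⟨Th hF n k hk (RingEquiv.refl F) (QuotientGroup.mk s), ?_, ?_⟩
    · intro h0
      apply hs2 hω1
      apply (Th hF n k hk (RingEquiv.refl F)).injective
      rw [h0, map_one]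
    · rw [hcore]
      simp only [MulAut.mul_apply, MulAut.inv_apply_self, hsf]

/-- The core in all cases. -/
theorem core_all {r f p : ℕ} [Fact r.Prime] [CharP F r] (hq : q = r ^ f) (hf : 1 ≤ f) (hp : p.Prime) (hpr : p ≠ r)
    (hrep : HasRep hF n) {g : GL (Fin n) F} (hg : g ∈ Cfsg.GU n F q) {τ : F ≃+* F}
    (hτ1 : τ ≠ 1) (hτord : orderOf τ = p) (hβp : orderOf (Th hF n g hg τ) = p)
    (hdvd : p ∣ Nat.card (MonoidHom.eqLocus (Th hF n g hg τ).toMonoidHom (MonoidHom.id (Cfsg.PSU n F q))))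
    (N : Subgroup (MulAut (Cfsg.PSU n F q)))
    (hNc : ∀ ν ∈ N, ν * Th hF n g hg τ = Th hF n g hg τ * ν)
    (hNn : ∀ ν ∈ N, ∀ k : Cfsg.PSU n F q, Th hF n g hg τ k = k →
      MulAut.conj k * ν * (MulAut.conj k)⁻¹ ∈ N)
    (hcop : Nat.Coprime (Nat.card N) p) : N = ⊥ := by
  classical
  by_cases hp2 : p = 2
  · subst hp2
    exact core_two hF hn hq hf (Ne.symm hpr) hrep hg hτ1 hβp N hNc hNn hcop
  · have hodd : Odd p := hp.odd_of_ne_two hp2
    have H := mk_oddField hF hq hf τ hτord hodd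
    have hpow : (Th hF n g hg τ) ^ p = 1 := by
      rw [← hβp]
      exact pow_orderOf_eq_one _
    obtain ⟨k, hk, hcore⟩ := core_field H n hn g hg hpow
    rw [hcore] at hNc hNn hdvd
    rw [card_eqLocus_conj] at hdvd
    refine core_transfer _ _ ?_ N hNc hNn hcop
    intro N₁ hN₁c hN₁n hN₁cop
    exact field_core H hn hp hodd hrep N₁ hN₁c hN₁n hN₁cop hdvd

end assemble

/-- **Local balance for the unitary groups.** -/
theorem balance {F : Type*} [Field F] [Fintype F] (r : ℕ) [Fact r.Prime] [CharP F r] (q : ℕ)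
    (hF : Fintype.card F = q ^ 2)
    (n : ℕ) (hn : 3 ≤ n) (hK : IsSimpleGroup (Cfsg.PSU n F q))
    (𝒢 : Subgroup (MulAut (Cfsg.PSU n F q))) (hinn : ∀ k : Cfsg.PSU n F q, MulAut.conj k ∈ 𝒢)
    (p : ℕ) [Fact p.Prime] (hpr : p ≠ r) (β : MulAut (Cfsg.PSU n F q)) (hβ : β ∈ 𝒢) (hord : orderOf β = p)
    (hnot : ¬ Cfsg.IsInnerDiagonalAutPSU β) :
    Cfsg.pPrimeCore p ↥(𝒢 ⊓ Subgroup.centralizer {β}) ≠ ⊥ ↔
      ((∃ γ φ : MulAut (Cfsg.PSU n F q), Cfsg.IsInnerDiagonalAutPSU γ ∧
          (∃ σ : F ≃+* F, Cfsg.IsFieldAutPSUOf σ φ) ∧ β = φ.trans γ) ∧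
        Nat.Coprime p (Nat.card ↥(MonoidHom.eqLocus β.toMonoidHom (MonoidHom.id (Cfsg.PSU n F q))))) := by
  classical
  have hp : p.Prime := Fact.out
  have hr : r.Prime := Fact.out
  have hq2 := two_le hF
  obtain ⟨f', hr', hcard⟩ := FiniteField.card F r
  have hqd : q ∣ r ^ (f' : ℕ) := by
    rw [← hcard, hF]
    exact Dvd.intro_left (q) (by rw [pow_two])
  obtain ⟨f, -, hq⟩ := (Nat.dvd_prime_pow hr).1 hqd
  have hf : 1 ≤ f := by
    rcases Nat.eq_zero_or_pos f with rfl | h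
    · rw [pow_zero] at hq
      omega
    · exact h
  have hs : ¬ (n = 3 ∧ q = 2) := by
    rintro ⟨rfl, rfl⟩
    have hc := Cfsg.Agent.Lib.Classical.HermOrders.card_PSU hF 3 (by omega)
    have h72 : Nat.card (Cfsg.PSU 3 F 2) = 2 ^ 3 * 3 ^ 2 := by
      generalize Nat.card (Cfsg.PSU 3 F 2) = c at hc ⊢
      norm_num [Finset.prod_range_succ] at hc
      omega
    have hsol : IsSolvable (Cfsg.PSU 3 F 2) :=
      Cfsg.Agent.S0144.result 2 3 3 2 Nat.prime_two Nat.prime_three h72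
    have hcomm := (IsSimpleGroup.comm_iff_isSolvable).2 hsol
    have htop : Subgroup.center (Cfsg.PSU 3 F 2) = ⊤ := by
      rw [eq_top_iff]
      intro a _
      rw [Subgroup.mem_center_iff]
      intro b
      exact hcomm b a
    rw [center_PSU hF 3 (le_refl 3)] at htop
    exact bot_ne_top htop
  have hrep : HasRep hF n := fun ν => exists_Th hF n hq hn hs ν
  obtain ⟨g, hg, τ, rfl⟩ := hrep β
  have hτ1 : τ ≠ 1 := by
    rintro rfl
    exact hnot (isInnerDiagonal_Th hF n hg)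
  have hpow : (Th hF n g hg τ) ^ p = 1 := by
    rw [← hord]
    exact pow_orderOf_eq_one _
  have hτp : τ ^ p = 1 := by
    have h1 := hpow
    rw [Th_pow hF n τ hg p, ← Th_one hF n] at h1
    exact (Th_eq_imp hF n hn _ _ h1.symm).1
  have hτord : orderOf τ = p := orderOf_eq_prime hτp hτ1
  have hfirst : ∃ γ φ : MulAut (Cfsg.PSU n F q), Cfsg.IsInnerDiagonalAutPSU γ ∧
      (∃ σ : F ≃+* F, Cfsg.IsFieldAutPSUOf σ φ) ∧ Th hF n g hg τ = φ.trans γ :=
    ⟨Th hF n g hg (RingEquiv.refl F), Th hF n 1 (one_mem _) τ, isInnerDiagonal_Th hF n hg,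
      ⟨τ, isField_Th hF n τ⟩, Th_factor hF n hg τ⟩
  set β := Th hF n g hg τ with hβd
  set E := MonoidHom.eqLocus β.toMonoidHom (MonoidHom.id (Cfsg.PSU n F q)) with hE
  have hEmem : ∀ k, k ∈ E ↔ β k = k := fun k => Iff.rfl
  set C : Subgroup (MulAut (Cfsg.PSU n F q)) := 𝒢 ⊓ Subgroup.centralizer {β} with hC
  have hCmem : ∀ ν, ν ∈ C ↔ ν ∈ 𝒢 ∧ ν * β = β * ν := by
    intro ν
    rw [hC, Subgroup.mem_inf, Subgroup.mem_centralizer_singleton_iff]
  have hconjC : ∀ k, β k = k → MulAut.conj k ∈ C := by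
    intro k hk
    rw [hCmem]
    refine ⟨hinn k, ?_⟩
    have h1 := conj_map β k
    rw [hk] at h1
    calc _ = (β * MulAut.conj k * β⁻¹) * β := by rw [← h1]
      _ = _ := by group
  have hcinj := conj_inj hF hn
  constructor
  · intro hR
    refine ⟨hfirst, ?_⟩
    by_contra hnc
    have hdvd : p ∣ Nat.card E := by
      by_contra hnd
      exact hnc ((Nat.Prime.coprime_iff_not_dvd hp).2 hnd)
    apply hR
    refine sSup_eq_bot.2 ?_
    rintro N' ⟨hN'n, hN'c⟩
    have hNb : N'.map (Subgroup.subtype C) = ⊥ := by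
      refine core_all hF hn hq hf hp hpr hrep hg hτ1 hτord hord hdvd _ ?_ ?_ ?_
      · rintro _ ⟨ν, -, rfl⟩
        exact ((hCmem _).1 ν.2).2
      · rintro _ ⟨ν, hν, rfl⟩ k hk
        have h1 := hN'n.conj_mem ν hν ⟨MulAut.conj k, hconjC k hk⟩
        exact ⟨_, h1, rfl⟩
      · have h1 : Nat.card (N'.map (Subgroup.subtype C)) = Nat.card N' :=
          (Nat.card_congr (N'.equivMapOfInjective _ C.subtype_injective).toEquiv).symm
        rwa [h1]
    exact (Subgroup.map_eq_bot_iff_of_injective N' C.subtype_injective).1 hNb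
  · rintro ⟨-, hcop⟩
    obtain ⟨k₀, hk₀, hk₀f⟩ := exists_fixed_ne hF hn hq hf hp hK hg hτord hpow
    let D : Subgroup C := (E.map (MulAut.conj : Cfsg.PSU n F q →* MulAut (Cfsg.PSU n F q))).comap C.subtype
    have hDmem : ∀ c : C, c ∈ D ↔ c.1 ∈ E.map (MulAut.conj : Cfsg.PSU n F q →* MulAut (Cfsg.PSU n F q)) :=
      fun c => Iff.rfl
    have hDn : D.Normal := by
      refine ⟨fun d hd c => ?_⟩
      rw [hDmem] at hd ⊢
      obtain ⟨e, he, hed⟩ := hd
      have hcβ := ((hCmem _).1 c.2).2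
      refine ⟨c.1 e, ?_, ?_⟩
      · show β (c.1 e) = c.1 e
        have h1 := congrArg (fun φ : MulAut (Cfsg.PSU n F q) => φ e) hcβ
        simp only [MulAut.mul_apply] at h1
        have he' : β e = e := he
        rw [he'] at h1
        exact h1.symm
      · have h2 : (((c * d * c⁻¹ : C) : MulAut (Cfsg.PSU n F q))) = c.1 * d.1 * c.1⁻¹ := rfl
        rw [h2, ← hed]
        exact conj_map c.1 e
    have hDcard : Nat.card D = Nat.card E := by
      symm
      refine Nat.card_congr (Equiv.ofBijective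
        (fun e : E => (⟨⟨MulAut.conj e.1, hconjC e.1 e.2⟩, ⟨e.1, e.2, rfl⟩⟩ : D)) ⟨?_, ?_⟩)
      · intro a b hab
        apply Subtype.ext
        apply hcinj
        exact congrArg (fun x : D => ((x : C) : MulAut (Cfsg.PSU n F q))) hab
      · rintro ⟨⟨c, hc⟩, e, he, hec⟩
        refine ⟨⟨e, he⟩, ?_⟩
        apply Subtype.ext
        apply Subtype.ext
        exact hec
    have hDle : D ≤ Cfsg.pPrimeCore p C :=
      le_sSup ⟨hDn, by rw [hDcard]; exact hcop.symm⟩
    intro hbot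
    rw [hbot, le_bot_iff] at hDle
    have hm : (⟨MulAut.conj k₀, hconjC k₀ hk₀f⟩ : C) ∈ D := ⟨k₀, hk₀f, rfl⟩
    rw [hDle, Subgroup.mem_bot] at hm
    apply hk₀
    apply hcinj
    rw [map_one]
    exact congrArg Subtype.val hm

end Cfsg.Agent.Lib.AutCl.PSUBal
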