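/-
The local balance theorem for `PSL_n(F)`: assembly.
-/
import Mathlib
import Cfsg.Agent.Lib.AutCl.PSLCoreS
import Cfsg.Agent.Lib.AutCl.PSUBal

set_option autoImplicit false
set_option linter.unusedSimpArgs false
set_option linter.unusedSectionVars false
set_option linter.style.haveILetI false
set_option linter.unusedVariables false

namespace Cfsg.Agent.Lib.AutCl.PSLBal

open Matrix Module
open scoped MatrixGroups
open Cfsg.Agent.Lib.KS71.PSLCore Cfsg.Agent.Lib.KS71.PSLAutGroup Cfsg.Agent.Lib.KS71.PSLTwist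
open Cfsg.Agent.Lib.KS71.PSLCent
open Cfsg.Agent.Lib.AutCl.PSUCore2 (conj_map)
open Cfsg.Agent.Lib.AutCl.PSLCoreF (conj_inj exists_rep field_core)
open Cfsg.Agent.Lib.AutCl.PSLCoreG (not_graph_of_odd graph_sq graph_field_core)
open Cfsg.Agent.Lib.AutCl.PSLCoreS (bil_core)
open Cfsg.Agent.Lib.AutCl.PSUBal (core_transfer card_eqLocus_conj)

section generic

variable {G : Type*} [Group G]

/-- The `p'`-core is trivial as soon as the centralizer has no suitable subgroup. -/
theorem core_bot (𝒢 : Subgroup (MulAut G)) (hinn : ∀ k : G, MulAut.conj k ∈ 𝒢) (β : MulAut G) {p : ℕ}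
    (hcore : ∀ N : Subgroup (MulAut G), (∀ ν ∈ N, ν * β = β * ν) →
      (∀ ν ∈ N, ∀ k : G, β k = k → MulAut.conj k * ν * (MulAut.conj k)⁻¹ ∈ N) →
      Nat.Coprime (Nat.card N) p → N = ⊥) :
    Cfsg.pPrimeCore p ↥(𝒢 ⊓ Subgroup.centralizer {β}) = ⊥ := by
  set C : Subgroup (MulAut G) := 𝒢 ⊓ Subgroup.centralizer {β} with hC
  have hCmem : ∀ ν, ν ∈ C ↔ ν ∈ 𝒢 ∧ ν * β = β * ν := by
    intro ν
    rw [hC, Subgroup.mem_inf, Subgroup.mem_centralizer_singleton_iff]
  have hconjC : ∀ k, β k = k → MulAut.conj k ∈ C := by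
    intro k hk
    rw [hCmem]
    refine ⟨hinn k, ?_⟩
    have h1 := conj_map β k
    rw [hk] at h1
    calc _ = (β * MulAut.conj k * β⁻¹) * β := by rw [← h1]
      _ = _ := by group
  refine sSup_eq_bot.2 ?_
  rintro N' ⟨hN'n, hN'c⟩
  have hNb : N'.map (Subgroup.subtype C) = ⊥ := by
    refine hcore _ ?_ ?_ ?_
    · rintro _ ⟨ν, -, rfl⟩
      exact ((hCmem _).1 ν.2).2
    · rintro _ ⟨ν, hν, rfl⟩ k hk
      have h1 := hN'n.conj_mem ν hν ⟨MulAut.conj k, hconjC k hk⟩
      exact ⟨_, h1, rfl⟩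
    · have h1 : Nat.card (N'.map (Subgroup.subtype C)) = Nat.card N' :=
        (Nat.card_congr (N'.equivMapOfInjective _ C.subtype_injective).toEquiv).symm
      rwa [h1]
  exact (Subgroup.map_eq_bot_iff_of_injective N' C.subtype_injective).1 hNb

/-- The fixed points give a normal subgroup of the centralizer. -/
theorem core_ne_bot (hcinj : Function.Injective (MulAut.conj : G →* MulAut G))
    (𝒢 : Subgroup (MulAut G)) (hinn : ∀ k : G, MulAut.conj k ∈ 𝒢) (β : MulAut G) {p : ℕ}
    (hcop : Nat.Coprime p (Nat.card (MonoidHom.eqLocus β.toMonoidHom (MonoidHom.id G))))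
    {k₀ : G} (hk₀ : k₀ ≠ 1) (hk₀f : β k₀ = k₀) :
    Cfsg.pPrimeCore p ↥(𝒢 ⊓ Subgroup.centralizer {β}) ≠ ⊥ := by
  set E := MonoidHom.eqLocus β.toMonoidHom (MonoidHom.id G) with hE
  set C : Subgroup (MulAut G) := 𝒢 ⊓ Subgroup.centralizer {β} with hC
  have hCmem : ∀ ν, ν ∈ C ↔ ν ∈ 𝒢 ∧ ν * β = β * ν := by
    intro ν
    rw [hC, Subgroup.mem_inf, Subgroup.mem_centralizer_singleton_iff]
  have hconjC : ∀ k, β k = k → MulAut.conj k ∈ C := by
    intro k hk
    rw [hCmem]
    refine ⟨hinn k, ?_⟩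
    have h1 := conj_map β k
    rw [hk] at h1
    calc _ = (β * MulAut.conj k * β⁻¹) * β := by rw [← h1]
      _ = _ := by group
  let D : Subgroup C := (E.map (MulAut.conj : G →* MulAut G)).comap C.subtype
  have hDmem : ∀ c : C, c ∈ D ↔ c.1 ∈ E.map (MulAut.conj : G →* MulAut G) :=
    fun c => Iff.rfl
  have hDn : D.Normal := by
    refine ⟨fun d hd c => ?_⟩
    rw [hDmem] at hd ⊢
    obtain ⟨e, he, hed⟩ := hd
    have hcβ := ((hCmem _).1 c.2).2
    refine ⟨c.1 e, ?_, ?_⟩
    · show β (c.1 e) = c.1 e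
      have h1 := congrArg (fun φ : MulAut G => φ e) hcβ
      simp only [MulAut.mul_apply] at h1
      have he' : β e = e := he
      rw [he'] at h1
      exact h1.symm
    · have h2 : (((c * d * c⁻¹ : C) : MulAut G)) = c.1 * d.1 * c.1⁻¹ := rfl
      rw [h2, ← hed]
      exact conj_map c.1 e
  have hDcard : Nat.card D = Nat.card E := by
    symm
    refine Nat.card_congr (Equiv.ofBijective
      (fun e : E => (⟨⟨MulAut.conj e.1, hconjC e.1 e.2⟩, ⟨e.1, e.2, rfl⟩⟩ : D)) ⟨?_, ?_⟩)
    · intro a b hab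
      apply Subtype.ext
      apply hcinj
      exact congrArg (fun x : D => ((x : C) : MulAut G)) hab
    · rintro ⟨⟨c, hc⟩, e, he, hec⟩
      refine ⟨⟨e, he⟩, ?_⟩
      apply Subtype.ext
      apply Subtype.ext
      exact hec
  have hDle : D ≤ Cfsg.pPrimeCore p C :=
    le_sSup ⟨hDn, by rw [hDcard]; exact hcop.symm⟩
  intro hbot
  rw [hbot, le_bot_iff] at hDle
  have hm : (⟨MulAut.conj k₀, hconjC k₀ hk₀f⟩ : C) ∈ D := ⟨k₀, hk₀f, rfl⟩
  rw [hDle, Subgroup.mem_bot] at hm
  apply hk₀
  apply hcinj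
  rw [map_one]
  exact congrArg Subtype.val hm

end generic

section fix

variable {F : Type*} [Field F] {n : ℕ}

/-- A nontrivial element fixed by all field automorphisms. -/
theorem exists_field_fixed (hn : 2 ≤ n) : ∃ k : ProjectiveSpecialLinearGroup (Fin n) F, k ≠ 1 ∧
    ∀ σ : F ≃+* F, autOf (fieldS σ) k = k := by
  classical
  let i : Fin n := ⟨0, by omega⟩
  let j : Fin n := ⟨1, by omega⟩
  have hij : i ≠ j := by
    intro h
    have := congrArg Fin.val h
    simp [i, j] at this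
  have hdot : (Pi.single j 1 : Fin n → F) ⬝ᵥ (Pi.single i 1 : Fin n → F) = 0 := by
    simp [hij, hij.symm]
  refine ⟨mkP (tv (Pi.single i 1) (Pi.single j 1) hdot), ?_, ?_⟩
  · intro h1
    have h2 : tv (Pi.single i 1) (Pi.single j 1) hdot ∈ Subgroup.center (Matrix.SpecialLinearGroup (Fin n) F) :=
      (QuotientGroup.eq_one_iff _).1 h1
    rw [Matrix.SpecialLinearGroup.mem_center_iff] at h2
    obtain ⟨a, -, ha⟩ := h2
    have h3 := congrFun (congrFun ha i) j
    rw [coe_tv] at h3
    simp [Matrix.scalar_apply, Matrix.diagonal_apply, hij, vecMulVec_apply, Matrix.one_apply] at h3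
  · intro σ
    show mkP (fieldS σ _) = _
    apply mkP_congr
    rw [coe_fieldS, coe_tv]
    refine Matrix.ext fun a b => ?_
    simp only [Matrix.map_apply, Matrix.add_apply, vecMulVec_apply, Matrix.one_apply, Pi.single_apply]
    split_ifs <;> simp

end fix

/-- **Local balance for the linear groups.** -/
theorem balance (F : Type*) [Field F] [Fintype F] (r : ℕ) [Fact r.Prime] [CharP F r] (n : ℕ) (hn : 2 ≤ n)
    (hK : IsSimpleGroup (Matrix.ProjectiveSpecialLinearGroup (Fin n) F))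
    (𝒢 : Subgroup (MulAut (Matrix.ProjectiveSpecialLinearGroup (Fin n) F)))
    (hinn : ∀ k : Matrix.ProjectiveSpecialLinearGroup (Fin n) F, MulAut.conj k ∈ 𝒢)
    (p : ℕ) [Fact p.Prime] (hpr : p ≠ r) (β : MulAut (Matrix.ProjectiveSpecialLinearGroup (Fin n) F)) (hβ : β ∈ 𝒢)
    (hord : orderOf β = p) (hnot : ¬ Cfsg.IsInnerDiagonalAutPSL β) :
    Cfsg.pPrimeCore p ↥(𝒢 ⊓ Subgroup.centralizer {β}) ≠ ⊥ ↔
      ((∃ γ φ : MulAut (Matrix.ProjectiveSpecialLinearGroup (Fin n) F), Cfsg.IsInnerDiagonalAutPSL γ ∧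
          Cfsg.IsFieldAutPSL φ ∧ β = φ.trans γ) ∧
        Nat.Coprime p (Nat.card ↥(MonoidHom.eqLocus β.toMonoidHom
          (MonoidHom.id (Matrix.ProjectiveSpecialLinearGroup (Fin n) F))))) := by
  classical
  have hp : p.Prime := Fact.out
  have hr : r.Prime := Fact.out
  obtain ⟨f', hr', hcard⟩ := FiniteField.card F r
  have hF : Fintype.card F = r ^ (f' : ℕ) := hcard
  have hf : 1 ≤ (f' : ℕ) := f'.2
  have hβp : β ^ p = 1 := by
    rw [← hord]
    exact pow_orderOf_eq_one _
  obtain ⟨g, σ, hrep⟩ := exists_rep hn hr hF hf β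
  have hcinj := conj_inj (F := F) hn
  rcases hrep with hβd | ⟨hn3, hβd⟩
  · -- semilinear
    have hσ1 : σ ≠ 1 := by
      rintro rfl
      apply hnot
      rw [hβd, field_one, mul_one]
      exact isInnerDiag g
    have hσp : σ ^ p = 1 := by
      have h1 := hβp
      rw [hβd, pow_semi, Cfsg.Agent.Lib.AutCl.PSLCoreS.one_eq_semi] at h1
      exact (semi_inj hn h1).1
    have hσord : orderOf σ = p := orderOf_eq_prime hσp hσ1
    have hfirst : ∃ γ φ : MulAut (Matrix.ProjectiveSpecialLinearGroup (Fin n) F), Cfsg.IsInnerDiagonalAutPSL γ ∧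
        Cfsg.IsFieldAutPSL φ ∧ β = φ.trans γ :=
      ⟨autOf (conjS g), autOf (fieldS σ), isInnerDiag g, ⟨σ, isStdField σ⟩, by rw [hβd]; rfl⟩
    obtain ⟨k, hk⟩ := core_field hn σ hσord g (by rw [← hβd]; exact hβp)
    rw [← hβd] at hk
    constructor
    · intro hR
      refine ⟨hfirst, ?_⟩
      by_contra hnc
      have hdvd : p ∣ Nat.card (MonoidHom.eqLocus β.toMonoidHom
          (MonoidHom.id (Matrix.ProjectiveSpecialLinearGroup (Fin n) F))) := by
        by_contra hnd
        exact hnc ((Nat.Prime.coprime_iff_not_dvd hp).2 hnd)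
      apply hR
      apply core_bot 𝒢 hinn
      intro N hNc hNn hNcop
      rw [hk] at hNc hNn hdvd
      rw [card_eqLocus_conj] at hdvd
      refine core_transfer _ _ ?_ N hNc hNn hNcop
      intro N₁ hN₁c hN₁n hN₁cop
      exact field_core hn hF hf hp hpr hσord N₁ hN₁c hN₁n hN₁cop hdvd
    · rintro ⟨-, hcop⟩
      obtain ⟨k₁, hk₁, hk₁f⟩ := exists_field_fixed (F := F) hn
      refine core_ne_bot hcinj 𝒢 hinn β hcop (k₀ := autOf (conjS k) k₁) ?_ ?_
      · intro h0
        apply hk₁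
        apply (autOf (conjS k)).injective
        rw [h0, map_one]
      · rw [hk]
        simp only [MulAut.mul_apply, MulAut.inv_apply_self, hk₁f]
  · -- graph
    have hsec : ¬ ∃ γ φ : MulAut (Matrix.ProjectiveSpecialLinearGroup (Fin n) F), Cfsg.IsInnerDiagonalAutPSL γ ∧
        Cfsg.IsFieldAutPSL φ ∧ β = φ.trans γ := by
      rintro ⟨γ, φ, hγ, ⟨σ', hφ⟩, h⟩
      obtain ⟨g', rfl⟩ := eq_conj_of_isInnerDiag hγ
      have hφ' := eq_field_of_isStd hφ
      subst hφ'
      have h2 : autOf (conjS g') * autOf (fieldS σ') = (autOf (conjS g) * autOf (fieldS σ) * autOf invTrS : MulAut (Matrix.ProjectiveSpecialLinearGroup (Fin n) F)) := by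
        rw [← hβd, h]
        rfl
      exact semi_ne_dual hn3 _ _ _ _ h2
    have hp2 : p = 2 := by
      by_contra hp2
      have hodd : Odd p := hp.odd_of_ne_two hp2
      rw [hβd] at hord
      exact not_graph_of_odd hn3 g σ (by rw [hord]; exact hodd)
    subst hp2
    have hr2 : r ≠ 2 := Ne.symm hpr
    have h2 : (2 : F) ≠ 0 := by
      intro h0
      have h1 : ((2 : ℕ) : F) = 0 := by exact_mod_cast h0
      have h3 := (CharP.cast_eq_zero_iff F r 2).1 h1
      exact hr2 ((Nat.prime_dvd_prime_iff_eq hr Nat.prime_two).1 h3)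
    have hrodd : Odd r := hr.odd_of_ne_two hr2
    have hcoreB : Cfsg.pPrimeCore 2 ↥(𝒢 ⊓ Subgroup.centralizer {β}) = ⊥ := by
      apply core_bot 𝒢 hinn
      intro N hNc hNn hNcop
      have hNodd : Odd (Nat.card N) := Nat.coprime_two_right.1 hNcop
      have hsq := hβp
      rw [hβd, graph_sq, Cfsg.Agent.Lib.AutCl.PSLCoreS.one_eq_semi] at hsq
      obtain ⟨hσσ, c, hc⟩ := semi_inj hn hsq.symm
      have hσσ' : σ * σ = 1 := hσσ.symm
      by_cases hσ1 : σ = 1
      · subst hσ1
        rw [field_one, mul_one] at hβd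
        rw [hβd] at hNc hNn
        set G := (g : Matrix (Fin n) (Fin n) F) with hG
        set Gi := ((g⁻¹ : GL (Fin n) F) : Matrix (Fin n) (Fin n) F) with hGi
        have hGG : G * Gi = 1 := gl_mul_inv g
        have hGG' : Gi * G = 1 := gl_inv_mul g
        have h3 : ((c : F)) • (1 : Matrix (Fin n) (Fin n) F) = G * Giᵀ := by
          have h4 := congrArg (fun x : GL (Fin n) F => (x : Matrix (Fin n) (Fin n) F)) hc
          simp only [one_mul, Units.val_mul, coe_mapGL, coe_invTrGL] at h4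
          have h5 : (Giᵀ).map ((1 : F ≃+* F)) = Giᵀ := by
            refine Matrix.ext fun i j => ?_
            rfl
          rw [h5] at h4
          rw [← h4]
          refine Matrix.ext fun i j => ?_
          by_cases hij : i = j
          · subst hij
            simp [Matrix.GeneralLinearGroup.scalar]
          · simp [Matrix.GeneralLinearGroup.scalar, hij]
        have hA : Giᵀ = (c : F) • Gi := by
          calc Giᵀ = (Gi * G) * Giᵀ := by rw [hGG', Matrix.one_mul]
            _ = Gi * (G * Giᵀ) := Matrix.mul_assoc _ _ _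
            _ = (c : F) • Gi := by rw [← h3, Matrix.mul_smul, Matrix.mul_one]
        have hc2 : (c : F) * (c : F) = 1 := by
          have h4 : Gi = ((c : F) * (c : F)) • Gi := by
            calc Gi = (Giᵀ)ᵀ := (Matrix.transpose_transpose _).symm
              _ = _ := by rw [hA, Matrix.transpose_smul, hA, smul_smul]
          have h5 : (1 : Matrix (Fin n) (Fin n) F) = ((c : F) * (c : F)) • (1 : Matrix (Fin n) (Fin n) F) := by
            calc (1 : Matrix (Fin n) (Fin n) F) = Gi * G := hGG'.symm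
              _ = ((c : F) * (c : F)) • (Gi * G) := by
                  rw [← Matrix.smul_mul, ← h4]
              _ = _ := by rw [hGG']
          have h6 := congrFun (congrFun h5 ⟨0, by omega⟩) ⟨0, by omega⟩
          simpa using h6.symm
        have hε : (c : F) = 1 ∨ (c : F) = -1 := mul_self_eq_one_iff.1 hc2
        exact bil_core hF hf hn3 h2 hε g hA N hNc hNn hNodd
      · have hσord : orderOf σ = 2 := by
          haveI : Fact (Nat.Prime 2) := ⟨Nat.prime_two⟩
          refine orderOf_eq_prime ?_ hσ1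
          rw [pow_two, hσσ']
        obtain ⟨-, hF2, hσq⟩ := Cfsg.Agent.Lib.KS71.GalFin.invol_eq_frob hF hf hσord
        have hβd' : β = autOf (conjS g) * gf σ := by
          rw [hβd, mul_assoc]
          rfl
        obtain ⟨k, hk⟩ := core_graph hF2 hn σ hσord hσq g (by rw [← hβd']; exact hβp)
        rw [← hβd'] at hk
        rw [hk] at hNc hNn
        refine core_transfer _ _ ?_ N hNc hNn hNcop
        intro N₁ hN₁c hN₁n hN₁cop
        exact graph_field_core hF2 hn3 hr hF hf (hrodd.pow) σ hσord hσq N₁ hN₁c hN₁n (Nat.coprime_two_right.1 hN₁cop)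
    constructor
    · intro hR
      exact absurd hcoreB hR
    · rintro ⟨hh, -⟩
      exact absurd hh hsec

end Cfsg.Agent.Lib.AutCl.PSLBal
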